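/-
Blocks relative to the Baumann subgroup: sections on which an element acts trivially, the coprime
fixed-point lemma, and the easy case of `C_G(W_E) ≤ N_G(E)`.
-/
import Cfsg.Agent.Lib.LocalEven.BaumannBlock

set_option autoImplicit false
set_option linter.unusedSectionVars false

namespace Cfsg.Agent.Lib.FG85.BB

open Subgroup Cfsg
open Cfsg.Agent.Lib.LocalEven.Util
open Cfsg.Agent.Lib.LocalEven.Baumann
open Cfsg.Agent.Lib.LocalEven.BaumannBlock
open Cfsg.Agent.Lib.LocalEven.SecIrr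
open Cfsg.Agent.Lib.LocalStruct.PCoreOf
open scoped commutatorElement

universe u

variable {G : Type u} [Group G] {p : ℕ}

/-- Elements normalizing `A` and `B` and acting trivially on the section `A / B`. -/
def secTriv [Finite G] (A B : Subgroup G) : Subgroup G where
  carrier := {g | g ∈ normalizer (A : Set G) ∧ g ∈ normalizer (B : Set G) ∧
    ∀ a ∈ A, g * a * g⁻¹ * a⁻¹ ∈ B}
  mul_mem' := by
    rintro g h ⟨hg1, hg2, hg3⟩ ⟨hh1, hh2, hh3⟩
    refine ⟨mul_mem hg1 hh1, mul_mem hg2 hh2, ?_⟩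
    intro a ha
    have e : g * h * a * (g * h)⁻¹ * a⁻¹ =
        (g * (h * a * h⁻¹ * a⁻¹) * g⁻¹) * (g * a * g⁻¹ * a⁻¹) := by group
    rw [e]
    exact mul_mem (conj_mem_of_mem_normalizer hg2 (hh3 a ha)) (hg3 a ha)
  one_mem' := by
    refine ⟨one_mem _, one_mem _, fun a _ => ?_⟩
    simp
  inv_mem' := by
    rintro g ⟨hg1, hg2, hg3⟩
    refine ⟨inv_mem hg1, inv_mem hg2, ?_⟩
    intro a ha
    have ha' : g⁻¹ * a * g⁻¹⁻¹ ∈ A := conj_mem_of_mem_normalizer (inv_mem hg1) ha
    have h1 := hg3 _ ha'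
    have e : g⁻¹ * a * g⁻¹⁻¹ * a⁻¹ = (g * (g⁻¹ * a * g⁻¹⁻¹) * g⁻¹ * (g⁻¹ * a * g⁻¹⁻¹)⁻¹)⁻¹ := by
      group
    rw [e]
    exact inv_mem h1

theorem mem_secTriv [Finite G] {A B : Subgroup G} {g : G} :
    g ∈ secTriv A B ↔ g ∈ normalizer (A : Set G) ∧ g ∈ normalizer (B : Set G) ∧
      ∀ a ∈ A, g * a * g⁻¹ * a⁻¹ ∈ B := Iff.rfl

theorem conj_mem_secTriv [Finite G] {A B : Subgroup G} {c g : G}
    (hcA : c ∈ normalizer (A : Set G)) (hcB : c ∈ normalizer (B : Set G)) (hg : g ∈ secTriv A B) :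
    c * g * c⁻¹ ∈ secTriv A B := by
  obtain ⟨h1, h2, h3⟩ := hg
  refine ⟨mul_mem (mul_mem hcA h1) (inv_mem hcA), mul_mem (mul_mem hcB h2) (inv_mem hcB), ?_⟩
  intro a ha
  have ha' : c⁻¹ * a * c⁻¹⁻¹ ∈ A := conj_mem_of_mem_normalizer (inv_mem hcA) ha
  have h4 := conj_mem_of_mem_normalizer hcB (h3 _ ha')
  have e : c * g * c⁻¹ * a * (c * g * c⁻¹)⁻¹ * a⁻¹ =
      c * (g * (c⁻¹ * a * c⁻¹⁻¹) * g⁻¹ * (c⁻¹ * a * c⁻¹⁻¹)⁻¹) * c⁻¹ := by group
  rw [e]
  exact h4

/-- The commutator of `C` (normalizing the section) with a subgroup acting trivially on it. -/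
theorem commutator_le_secTriv [Finite G] {A B C E : Subgroup G}
    (hCA : C ≤ normalizer (A : Set G)) (hCB : C ≤ normalizer (B : Set G))
    (hE : E ≤ secTriv A B) : ⁅C, E⁆ ≤ secTriv A B := by
  rw [commutator_le]
  intro c hc e he
  have h1 := conj_mem_secTriv (hCA hc) (hCB hc) (hE he)
  have e1 : ⁅c, e⁆ = c * e * c⁻¹ * e⁻¹ := rfl
  rw [e1]
  exact mul_mem h1 (inv_mem (hE he))

/-- An order coprime to `p`: modulo `B`, a fixed `p`-element commutator vanishes. -/
theorem mem_of_coprime_comm [Fact p.Prime] {B : Subgroup G} {g a : G}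
    (hg : (orderOf g).Coprime p)
    (hgB : g ∈ normalizer (B : Set G))
    (hxB : g * a * g⁻¹ * a⁻¹ ∈ normalizer (B : Set G))
    (hxp : ∃ k : ℕ, (g * a * g⁻¹ * a⁻¹) ^ (p ^ k) = 1)
    (hx2 : g * (g * a * g⁻¹ * a⁻¹) * g⁻¹ * (g * a * g⁻¹ * a⁻¹)⁻¹ ∈ B) :
    g * a * g⁻¹ * a⁻¹ ∈ B := by
  set x := g * a * g⁻¹ * a⁻¹ with hx
  have hgx : ∃ b ∈ B, g * x * g⁻¹ = b * x := ⟨_, hx2, by group⟩
  obtain ⟨b₁, hb₁, hb₁x⟩ := hgx
  have hpow : ∀ n : ℕ, ∃ b ∈ B, (b₁ * x) ^ n = b * x ^ n := by
    intro n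
    induction n with
    | zero => exact ⟨1, one_mem _, by simp⟩
    | succ n ih =>
      obtain ⟨b, hb, he⟩ := ih
      have hxn : x ^ n ∈ normalizer (B : Set G) := pow_mem hxB n
      refine ⟨b * (x ^ n * b₁ * (x ^ n)⁻¹), mul_mem hb (conj_mem_of_mem_normalizer hxn hb₁), ?_⟩
      rw [pow_succ, he, pow_succ]
      group
  have hmain : ∀ n : ℕ, ∃ b ∈ B, g ^ n * a * (g ^ n)⁻¹ = b * x ^ n * a := by
    intro n
    induction n with
    | zero => exact ⟨1, one_mem _, by simp⟩
    | succ n ih =>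
      obtain ⟨b, hb, he⟩ := ih
      obtain ⟨b₂, hb₂, he₂⟩ := hpow n
      have hgb : g * b * g⁻¹ ∈ B := conj_mem_of_mem_normalizer hgB hb
      refine ⟨(g * b * g⁻¹) * b₂, mul_mem hgb hb₂, ?_⟩
      have e1 : g ^ (n + 1) * a * (g ^ (n + 1))⁻¹ = g * (g ^ n * a * (g ^ n)⁻¹) * g⁻¹ := by
        rw [pow_succ']
        group
      have e2 : g * (b * x ^ n * a) * g⁻¹ =
          (g * b * g⁻¹) * (g * x * g⁻¹) ^ n * (g * a * g⁻¹) := by
        have : (g * x * g⁻¹) ^ n = g * x ^ n * g⁻¹ := by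
          exact (conj_pow (a := g) (b := x) (i := n))
        rw [this]
        group
      have e3 : g * a * g⁻¹ = x * a := by
        rw [hx]; group
      rw [e1, he, e2, hb₁x, he₂, e3, pow_succ]
      group
  obtain ⟨b, hb, he⟩ := hmain (orderOf g)
  rw [pow_orderOf_eq_one] at he
  simp only [one_mul, inv_one, mul_one] at he
  have h1 : b * x ^ orderOf g = 1 := by
    have : b * x ^ orderOf g * a = 1 * a := by rw [← he, one_mul]
    exact mul_right_cancel this
  have h2 : x ^ orderOf g ∈ B := by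
    have : x ^ orderOf g = b⁻¹ := eq_inv_of_mul_eq_one_right h1
    rw [this]
    exact inv_mem hb
  obtain ⟨k, hk⟩ := hxp
  have hcop : Nat.Coprime (orderOf g) (orderOf x) := by
    have h3 : orderOf x ∣ p ^ k := orderOf_dvd_of_pow_eq_one hk
    exact Nat.Coprime.coprime_dvd_right h3 (Nat.Coprime.pow_right _ hg)
  obtain ⟨r, hr⟩ := exists_pow_eq_self_of_coprime hcop
  rw [← hr]
  exact pow_mem h2 r

/-- A `p'`-element fixing `B` pointwise and trivial on `A / B` fixes `A` pointwise. -/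
theorem fixes_of_secTriv [Finite G] [Fact p.Prime] {A B : Subgroup G} {g : G}
    (hBp : IsPGroup p B) (hg : (orderOf g).Coprime p)
    (hgA : g ∈ secTriv A B) (hgB : ∀ b ∈ B, g * b * g⁻¹ = b) :
    ∀ a ∈ A, g * a * g⁻¹ = a := by
  intro a ha
  have hx := hgA.2.2 a ha
  have hbot : ∀ x : G, x ∈ normalizer ((⊥ : Subgroup G) : Set G) := fun x => by
    rw [normalizer_eq_top_iff.2 (inferInstance : (⊥ : Subgroup G).Normal)]; trivial
  have h0 : g * a * g⁻¹ * a⁻¹ ∈ (⊥ : Subgroup G) := by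
    apply mem_of_coprime_comm hg (hbot _) (hbot _)
    · obtain ⟨k, hk⟩ := hBp ⟨_, hx⟩
      refine ⟨k, ?_⟩
      have := congrArg Subtype.val hk
      simpa using this
    · rw [hgB _ hx]
      simp
  rw [Subgroup.mem_bot] at h0
  exact mul_inv_eq_one.1 h0

/-- If every `p'`-element of `Y` lies in a `p`-group, then `Y` consists of `p`-elements. -/
theorem pelt_of_coprime_mem [Finite G] [Fact p.Prime] {Y D : Subgroup G} (hD : IsPGroup p D)
    (h : ∀ y ∈ Y, (orderOf y).Coprime p → y ∈ D) :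
    ∀ y ∈ Y, ∃ k : ℕ, y ^ (p ^ k) = 1 := by
  intro y hy
  have hn : orderOf y ≠ 0 := (orderOf_pos y).ne'
  obtain ⟨a, m, hm, he⟩ := Nat.exists_eq_pow_mul_and_not_dvd hn p (Fact.out : p.Prime).ne_one
  have hcop : m.Coprime p := ((Nat.Prime.coprime_iff_not_dvd Fact.out).2 hm).symm
  have hord : orderOf (y ^ (p ^ a)) = m := by
    rw [orderOf_pow' y (pow_ne_zero _ (Fact.out : p.Prime).ne_zero), he]
    rw [Nat.gcd_eq_right (Dvd.intro _ rfl)]
    exact Nat.mul_div_cancel_left _ (pow_pos (Fact.out : p.Prime).pos _)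
  have h1 : y ^ (p ^ a) ∈ D := h _ (pow_mem hy _) (by rw [hord]; exact hcop)
  obtain ⟨k, hk⟩ := hD ⟨_, h1⟩
  have hk' : (y ^ (p ^ a)) ^ (p ^ k) = 1 := by
    have := congrArg Subtype.val hk
    simpa using this
  have h2 : m ∣ p ^ k := by
    rw [← hord]
    exact orderOf_dvd_of_pow_eq_one hk'
  have h3 : m = 1 := Nat.Coprime.eq_one_of_dvd (Nat.Coprime.pow_right _ hcop) h2
  rw [h3] at hord
  exact ⟨a, orderOf_eq_one_iff.1 hord⟩

section Block

variable [Finite G] [Fact p.Prime]

theorem baumann_le_normalizer_block {T E : Subgroup G} (hE : IsBaumannBlock p T E) :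
    baumannSubgroupOf p T ≤ normalizer (E : Set G) := by
  have := Cfsg.Agent.Lib.LocalEven.CharP.le_normalizer_commutator (baumannSubgroupOf p T) E
  rwa [Subgroup.commutator_comm, hE.2.1] at this

/-- End-game: if `[C, E]` consists of `p`-elements then `C` normalizes `E`. -/
theorem le_normalizer_of_pelt (T : Sylow p G) {E C : Subgroup G}
    (hE : IsBaumannBlock p (T : Subgroup G) E)
    (hEC : E ≤ normalizer (C : Set G))
    (hBC : baumannSubgroupOf p (T : Subgroup G) ≤ normalizer (C : Set G))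
    (hY : ∀ y ∈ ⁅C, E⁆, ∃ k : ℕ, y ^ (p ^ k) = 1) : C ≤ normalizer (E : Set G) := by
  have hYp : IsPGroup p (⁅C, E⁆ : Subgroup G) := by
    rintro ⟨y, hy⟩
    obtain ⟨k, hk⟩ := hY y hy
    exact ⟨k, Subtype.ext (by simpa using hk)⟩
  have hBE := baumann_le_normalizer_block hE
  have hYE : (⁅C, E⁆ : Subgroup G) ≤ normalizer (E : Set G) :=
    le_normalizer_block T hE hYp
      (fun b hb => mem_normalizer_commutator (hBC hb) (hBE hb))
      (fun e he => mem_normalizer_commutator (hEC he) (le_normalizer he))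
  intro c hc
  apply mem_normalizer_of_conj_le
  intro e he
  have he' : e ∈ closure {g : G | g ∈ E ∧ (orderOf g).Coprime p} := by
    rw [block_gen hE]; exact he
  clear he
  induction he' using closure_induction with
  | mem e he =>
    apply mem_of_coprime_of_mem_sup (p := p) (K := E) (B := ⁅C, E⁆) hYp hYE
    · have e1 : c * e * c⁻¹ = ⁅c, e⁆ * e := by
        simp only [commutatorElement_def]; group
      rw [e1]
      exact mul_mem (mem_sup_right (commutator_mem_commutator hc he.1)) (mem_sup_left he.1)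
    · have : orderOf (c * e * c⁻¹) = orderOf e := by
        have := orderOf_injective (MulAut.conj c).toMonoidHom (MulAut.conj c).injective e
        simpa using this
      rw [this]
      exact he.2
  | one => simp
  | mul x y _ _ hx hy =>
    have : c * (x * y) * c⁻¹ = (c * x * c⁻¹) * (c * y * c⁻¹) := by group
    rw [this]
    exact mul_mem hx hy
  | inv x _ hx =>
    have : c * x⁻¹ * c⁻¹ = (c * x * c⁻¹)⁻¹ := by group
    rw [this]
    exact inv_mem hx

end Block

/-! ### The subgroups attached to a block -/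

/-- `Ω₁(Z(O_p(E)))`. -/
abbrev OmE (p : ℕ) (E : Subgroup G) : Subgroup G := omegaOneCenter p (pCoreOf p E)
/-- `W_E = [Ω₁(Z(O_p(E))), E]`. -/
abbrev WE (p : ℕ) (E : Subgroup G) : Subgroup G := ⁅OmE p E, E⁆
/-- `C_G(W_E)`. -/
abbrev CW (p : ℕ) (E : Subgroup G) : Subgroup G := centralizer (WE p E : Set G)
/-- `O_p(C_G(W_E))`. -/
abbrev RC (p : ℕ) (E : Subgroup G) : Subgroup G := pCoreOf p (CW p E)

section Setup

variable [Finite G] [Fact p.Prime] {E : Subgroup G}

theorem centralizer_le_normalizer' (H : Subgroup G) :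
    centralizer (H : Set G) ≤ normalizer (H : Set G) := by
  intro c hc
  apply mem_normalizer_of_conj_le
  intro y hy
  have : c * y * c⁻¹ = y := by
    rw [mem_centralizer_iff.1 hc y hy |>.symm]
    group
  rw [this]
  exact hy

theorem normalizer_le_omE (E : Subgroup G) :
    normalizer (E : Set G) ≤ normalizer (OmE p E : Set G) :=
  (normalizer_le_normalizer_pCoreOf E).trans (normalizer_le_omegaOneCenter _)

theorem normalizer_le_wE (E : Subgroup G) :
    normalizer (E : Set G) ≤ normalizer (WE p E : Set G) := fun _ hg =>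
  mem_normalizer_commutator (normalizer_le_omE E hg) hg

theorem normalizer_le_cW (E : Subgroup G) :
    normalizer (E : Set G) ≤ normalizer (CW p E : Set G) := fun _ hg =>
  normalizer_le_centralizer _ (normalizer_le_wE E hg)

theorem normalizer_le_rC (E : Subgroup G) :
    normalizer (E : Set G) ≤ normalizer (RC p E : Set G) := fun _ hg =>
  normalizer_le_normalizer_pCoreOf _ (normalizer_le_cW E hg)

theorem isPGroup_omE (E : Subgroup G) : IsPGroup p (OmE p E) := isPGroup_omegaOneCenter _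

theorem wE_le_omE (E : Subgroup G) : WE p E ≤ OmE p E :=
  Cfsg.Agent.Lib.QuadAct.Basic.commutator_le_of_le_normalizer
    ((le_normalizer_pCoreOf E).trans (normalizer_le_omegaOneCenter _))

theorem isPGroup_wE (E : Subgroup G) : IsPGroup p (WE p E) :=
  (isPGroup_omE E).to_le (wE_le_omE E)

theorem cW_le_normalizer_wE (E : Subgroup G) : CW p E ≤ normalizer (WE p E : Set G) :=
  centralizer_le_normalizer' _

theorem isPGroup_rC (E : Subgroup G) : IsPGroup p (RC p E) := isPGroup_pCoreOf _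

theorem rC_le_cW (E : Subgroup G) : RC p E ≤ CW p E := pCoreOf_le _

theorem cW_le_normalizer_rC (E : Subgroup G) : CW p E ≤ normalizer (RC p E : Set G) :=
  le_normalizer_pCoreOf _

theorem cW_fix {E : Subgroup G} {c w : G} (hc : c ∈ CW p E) (hw : w ∈ WE p E) :
    c * w * c⁻¹ = w := by
  have : w * c = c * w := mem_centralizer_iff.1 hc w hw
  rw [← this]
  group

variable {T : Sylow p G}

theorem pCore_le_cW (hG : centralizer (pCore p G : Set G) ≤ pCore p G)
    (hE : IsBaumannBlock p (T : Subgroup G) E) : pCore p G ≤ CW p E := by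
  intro x hx
  rw [mem_centralizer_iff]
  intro w hw
  have h1 := block_comm_le hG hE hw
  exact (mem_centralizer_iff.1 (mem_omegaOneCenter.1 h1).2.1 x hx).symm

theorem pCore_le_rC (hG : centralizer (pCore p G : Set G) ≤ pCore p G)
    (hE : IsBaumannBlock p (T : Subgroup G) E) : pCore p G ≤ RC p E :=
  le_pCoreOf (pCore_le_cW hG hE) (fun c _ => mem_normalizer_pCore c)
    Cfsg.Agent.Lib.Core.Basic.pCore_isPGroup

theorem centralizer_rC_le (hG : centralizer (pCore p G : Set G) ≤ pCore p G)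
    (hE : IsBaumannBlock p (T : Subgroup G) E) :
    centralizer (RC p E : Set G) ≤ pCore p G :=
  (centralizer_le (pCore_le_rC hG hE)).trans hG

theorem le_normalizer_rC (hE : IsBaumannBlock p (T : Subgroup G) E) :
    E ≤ normalizer (CW p E : Set G) ∧ E ≤ normalizer (RC p E : Set G) :=
  ⟨(le_normalizer).trans (normalizer_le_cW E), (le_normalizer).trans (normalizer_le_rC E)⟩

theorem rC_le_normalizer (hE : IsBaumannBlock p (T : Subgroup G) E) :
    RC p E ≤ normalizer (E : Set G) :=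
  le_normalizer_block T hE (isPGroup_rC E)
    ((baumann_le_normalizer_block hE).trans (normalizer_le_rC E))
    ((le_normalizer).trans (normalizer_le_rC E))

/-- If `E` and every element of `Y ≤ C_G(W_E)` act suitably, then `Y` consists of `p`-elements:
the `p'`-elements must fix `R` pointwise. -/
theorem pelt_of_fix (hG : centralizer (pCore p G : Set G) ≤ pCore p G)
    (hE : IsBaumannBlock p (T : Subgroup G) E) {Y : Subgroup G}
    (h : ∀ y ∈ Y, (orderOf y).Coprime p → ∀ r ∈ RC p E, y * r * y⁻¹ = r) :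
    ∀ y ∈ Y, ∃ k : ℕ, y ^ (p ^ k) = 1 := by
  apply pelt_of_coprime_mem (D := pCore p G) Cfsg.Agent.Lib.Core.Basic.pCore_isPGroup
  intro y hy hc
  apply centralizer_rC_le hG hE
  rw [mem_centralizer_iff]
  intro r hr
  have := h y hy hc r hr
  calc r * y = (y * r * y⁻¹) * y := by rw [this]
    _ = y * r := by group

/-- The easy case: `[R, E] ≤ Ω` forces `E` to be normalized by `C_G(W_E)`. -/
theorem le_normalizer_of_comm_le_om (hG : centralizer (pCore p G : Set G) ≤ pCore p G)
    (hE : IsBaumannBlock p (T : Subgroup G) E)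
    (hI : ⁅RC p E, E⁆ ≤ OmE p E) : CW p E ≤ normalizer (E : Set G) := by
  have hEN := le_normalizer_rC hE
  have hENW : E ≤ normalizer (WE p E : Set G) := (le_normalizer).trans (normalizer_le_wE E)
  have hsec : E ≤ secTriv (RC p E) (WE p E) := by
    conv_lhs => rw [← block_gen hE]
    rw [closure_le]
    rintro e ⟨he, hco⟩
    refine ⟨hEN.2 he, hENW he, fun r hr => ?_⟩
    have hxR : e * r * e⁻¹ * r⁻¹ ∈ RC p E :=
      mul_mem (conj_mem_of_mem_normalizer (hEN.2 he) hr) (inv_mem hr)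
    have hxO : e * r * e⁻¹ * r⁻¹ ∈ OmE p E := by
      apply hI
      rw [commutator_comm]
      exact commutator_mem_commutator he hr
    apply mem_of_coprime_comm hco (hENW he)
    · exact cW_le_normalizer_wE E (rC_le_cW E hxR)
    · obtain ⟨k, hk⟩ := isPGroup_rC (p := p) E ⟨_, hxR⟩
      refine ⟨k, ?_⟩
      have := congrArg Subtype.val hk
      simpa using this
    · have : ⁅e, e * r * e⁻¹ * r⁻¹⁆ ∈ (WE p E : Subgroup G) := by
        show _ ∈ (⁅OmE p E, E⁆ : Subgroup G)
        rw [commutator_comm]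
        exact commutator_mem_commutator he hxO
      exact this
  have hY : (⁅CW p E, E⁆ : Subgroup G) ≤ secTriv (RC p E) (WE p E) :=
    commutator_le_secTriv (cW_le_normalizer_rC E) (cW_le_normalizer_wE E) hsec
  have hYC : (⁅CW p E, E⁆ : Subgroup G) ≤ CW p E :=
    Cfsg.Agent.Lib.QuadAct.Basic.commutator_le_of_le_normalizer hEN.1
  apply le_normalizer_of_pelt T hE hEN.1
    ((baumann_le_normalizer_block hE).trans (normalizer_le_cW E))
  apply pelt_of_fix hG hE
  intro y hy hco
  exact fixes_of_secTriv (isPGroup_wE E) hco (hY hy) (fun w hw => cW_fix (hYC hy) hw)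

end Setup

end Cfsg.Agent.Lib.FG85.BB
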