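/-
Small facts on `SL₂(F)` in characteristic three, used for exceptional blocks.
-/
import Cfsg.Agent.Lib.LocalEven.SecIrr

set_option autoImplicit false
set_option linter.unusedSectionVars false

namespace Cfsg.Agent.Lib.FG85.BB

open Subgroup Matrix
open Cfsg.Agent.Lib.LocalEven.SecIrr
open scoped commutatorElement

variable {F : Type*} [Field F]

/-- The derived group of `SL₂(F)`. -/
abbrev SS (F : Type*) [Field F] : Subgroup (SpecialLinearGroup (Fin 2) F) :=
  commutator (SpecialLinearGroup (Fin 2) F)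

/-- The symplectic form on `F²`. -/
def dt (x y : Fin 2 → F) : F := x 0 * y 1 - x 1 * y 0

theorem dt_add_left (x x' y : Fin 2 → F) : dt (x + x') y = dt x y + dt x' y := by
  simp only [dt, Pi.add_apply]; ring

theorem dt_add_right (x y y' : Fin 2 → F) : dt x (y + y') = dt x y + dt x y' := by
  simp only [dt, Pi.add_apply]; ring

theorem dt_smul_left (a : F) (x y : Fin 2 → F) : dt (a • x) y = a * dt x y := by
  simp only [dt, Pi.smul_apply, smul_eq_mul]; ring

theorem dt_smul_right (a : F) (x y : Fin 2 → F) : dt x (a • y) = a * dt x y := by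
  simp only [dt, Pi.smul_apply, smul_eq_mul]; ring

theorem dt_self (x : Fin 2 → F) : dt x x = 0 := by
  simp only [dt]; ring

theorem mulVec_fin_two (M : Matrix (Fin 2) (Fin 2) F) (x : Fin 2 → F) :
    M.mulVec x = ![M 0 0 * x 0 + M 0 1 * x 1, M 1 0 * x 0 + M 1 1 * x 1] := by
  ext i
  fin_cases i <;> simp [Matrix.mulVec, dotProduct, Fin.sum_univ_two]

theorem det_entries (g : SpecialLinearGroup (Fin 2) F) :
    (g : Matrix (Fin 2) (Fin 2) F) 0 0 * (g : Matrix (Fin 2) (Fin 2) F) 1 1 -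
      (g : Matrix (Fin 2) (Fin 2) F) 0 1 * (g : Matrix (Fin 2) (Fin 2) F) 1 0 = 1 := by
  have := g.2
  rwa [Matrix.det_fin_two] at this

theorem dt_mulVec (g : SpecialLinearGroup (Fin 2) F) (x y : Fin 2 → F) :
    dt ((g : Matrix (Fin 2) (Fin 2) F).mulVec x) ((g : Matrix (Fin 2) (Fin 2) F).mulVec y) =
      dt x y := by
  have h := det_entries g
  simp only [mulVec_fin_two, dt, Matrix.cons_val_zero, Matrix.cons_val_one]
  linear_combination (x 0 * y 1 - x 1 * y 0) * h

theorem coe_mul' (g h : SpecialLinearGroup (Fin 2) F) :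
    ((g * h : SpecialLinearGroup (Fin 2) F) : Matrix (Fin 2) (Fin 2) F) =
      (g : Matrix (Fin 2) (Fin 2) F) * (h : Matrix (Fin 2) (Fin 2) F) := rfl

theorem mulVec_mul' (g h : SpecialLinearGroup (Fin 2) F) (x : Fin 2 → F) :
    ((g * h : SpecialLinearGroup (Fin 2) F) : Matrix (Fin 2) (Fin 2) F).mulVec x =
      (g : Matrix (Fin 2) (Fin 2) F).mulVec ((h : Matrix (Fin 2) (Fin 2) F).mulVec x) := by
  rw [coe_mul', Matrix.mulVec_mulVec]

theorem mulVec_one' (x : Fin 2 → F) :
    ((1 : SpecialLinearGroup (Fin 2) F) : Matrix (Fin 2) (Fin 2) F).mulVec x = x := by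
  show (1 : Matrix (Fin 2) (Fin 2) F).mulVec x = x
  rw [Matrix.one_mulVec]

theorem mulVec_inv' (g : SpecialLinearGroup (Fin 2) F) (x : Fin 2 → F) :
    (g : Matrix (Fin 2) (Fin 2) F).mulVec
      (((g⁻¹ : SpecialLinearGroup (Fin 2) F) : Matrix (Fin 2) (Fin 2) F).mulVec x) = x := by
  rw [← mulVec_mul', mul_inv_cancel, mulVec_one']

theorem mulVec_inv'' (g : SpecialLinearGroup (Fin 2) F) (x : Fin 2 → F) :
    ((g⁻¹ : SpecialLinearGroup (Fin 2) F) : Matrix (Fin 2) (Fin 2) F).mulVec
      ((g : Matrix (Fin 2) (Fin 2) F).mulVec x) = x := by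
  rw [← mulVec_mul', inv_mul_cancel, mulVec_one']

/-- Inverse in `SL₂` in coordinates. -/
theorem inv_entries (g : SpecialLinearGroup (Fin 2) F) :
    ((g⁻¹ : SpecialLinearGroup (Fin 2) F) : Matrix (Fin 2) (Fin 2) F) =
      !![(g : Matrix (Fin 2) (Fin 2) F) 1 1, -(g : Matrix (Fin 2) (Fin 2) F) 0 1;
         -(g : Matrix (Fin 2) (Fin 2) F) 1 0, (g : Matrix (Fin 2) (Fin 2) F) 0 0] := by
  have h : ((g⁻¹ : SpecialLinearGroup (Fin 2) F) : Matrix (Fin 2) (Fin 2) F) =
      Matrix.adjugate (g : Matrix (Fin 2) (Fin 2) F) := rfl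
  rw [h, Matrix.adjugate_fin_two]

theorem coe_pow' (g : SpecialLinearGroup (Fin 2) F) (k : ℕ) :
    ((g ^ k : SpecialLinearGroup (Fin 2) F) : Matrix (Fin 2) (Fin 2) F) =
      (g : Matrix (Fin 2) (Fin 2) F) ^ k := by
  induction k with
  | zero => rfl
  | succ k ih => rw [pow_succ, pow_succ, coe_mul', ih]

/-- The scalar `-1` lies in the derived group as the square of the Weyl element. -/
theorem ww_mul_ww : ((ww * ww : SpecialLinearGroup (Fin 2) F) : Matrix (Fin 2) (Fin 2) F) = -1 := by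
  show !![0, 1; -1, 0] * !![0, 1; -1, 0] = (-1 : Matrix (Fin 2) (Fin 2) F)
  rw [Matrix.mul_fin_two, ← Matrix.ext_iff]
  intro i j
  fin_cases i <;> fin_cases j <;> simp

section Three

variable (h3 : (3 : F) = 0)
include h3

theorem two_eq_neg_one : (2 : F) = -1 := by linear_combination h3

theorem two_ne_zero' : (2 : F) ≠ 0 := by
  intro h
  have : (1 : F) = 0 := by linear_combination h3 - h
  exact one_ne_zero this

/-- Quaternion elements in the derived group of `SL₂(F)`, `char F = 3`. -/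
theorem exists_ij : ∃ i j : SpecialLinearGroup (Fin 2) F, i ∈ SS F ∧ j ∈ SS F ∧
    (i : Matrix (Fin 2) (Fin 2) F) = !![0, 1; -1, 0] ∧ (j : Matrix (Fin 2) (Fin 2) F) = !![1, 1; 1, -1] := by
  have hd : (!![1, 1; 1, -1] : Matrix (Fin 2) (Fin 2) F).det = 1 := by
    rw [Matrix.det_fin_two_of]
    linear_combination -h3
  let j : SpecialLinearGroup (Fin 2) F := ⟨!![1, 1; 1, -1], hd⟩
  let i : SpecialLinearGroup (Fin 2) F := ww
  let u : SpecialLinearGroup (Fin 2) F := uu 1
  have huinv : ((u⁻¹ : SpecialLinearGroup (Fin 2) F) : Matrix (Fin 2) (Fin 2) F) = !![1, -1; 0, 1] := by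
    rw [inv_entries]
    show !![((!![1, 1; 0, 1] : Matrix (Fin 2) (Fin 2) F)) 1 1, _; _, _] = _
    simp [u, uu]
  have hiinv : ((i⁻¹ : SpecialLinearGroup (Fin 2) F) : Matrix (Fin 2) (Fin 2) F) = !![0, -1; 1, 0] := by
    rw [inv_entries]
    simp [i, ww]
  have hjinv : ((j⁻¹ : SpecialLinearGroup (Fin 2) F) : Matrix (Fin 2) (Fin 2) F) = !![-1, -1; -1, 1] := by
    rw [inv_entries]
    simp [j]
  -- `[u, j] = i⁻¹`
  have h1 : ⁅u, j⁆ = i⁻¹ := by
    apply Subtype.ext
    show ((⁅u, j⁆ : SpecialLinearGroup (Fin 2) F) : Matrix (Fin 2) (Fin 2) F) = _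
    rw [hiinv, commutatorElement_def, coe_mul', coe_mul', coe_mul', huinv, hjinv]
    show !![1, 1; 0, 1] * !![1, 1; 1, -1] * !![1, -1; 0, 1] * !![-1, -1; -1, 1] = _
    simp only [Matrix.mul_fin_two]
    ext a b
    fin_cases a <;> fin_cases b <;> simp <;> linear_combination (-1 : F) * h3
  -- `[u, j i] = j`
  have h2 : ⁅u, j * i⁆ = j := by
    apply Subtype.ext
    show ((⁅u, j * i⁆ : SpecialLinearGroup (Fin 2) F) : Matrix (Fin 2) (Fin 2) F) = !![1, 1; 1, -1]
    rw [commutatorElement_def, _root_.mul_inv_rev, coe_mul', coe_mul', coe_mul', coe_mul', coe_mul', huinv,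
      hjinv, hiinv]
    show !![1, 1; 0, 1] * (!![1, 1; 1, -1] * !![0, 1; -1, 0]) * !![1, -1; 0, 1] *
      (!![0, -1; 1, 0] * !![-1, -1; -1, 1]) = _
    simp only [Matrix.mul_fin_two]
    ext a b
    fin_cases a <;> fin_cases b <;> simp <;> linear_combination (-1 : F) * h3
  refine ⟨i, j, ?_, ?_, rfl, rfl⟩
  · have : i = (⁅u, j⁆)⁻¹ := by rw [h1, inv_inv]
    rw [this]
    exact inv_mem (commutator_mem_commutator (mem_top _) (mem_top _))
  · rw [← h2]
    exact commutator_mem_commutator (mem_top _) (mem_top _)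

/-- The quaternion relations and the centre. -/
theorem exists_ij' : ∃ i j : SpecialLinearGroup (Fin 2) F, i ∈ SS F ∧ j ∈ SS F ∧
    (i : Matrix (Fin 2) (Fin 2) F) * i = -1 ∧ (j : Matrix (Fin 2) (Fin 2) F) * j = -1 ∧
    (i : Matrix (Fin 2) (Fin 2) F) * j = -((j : Matrix (Fin 2) (Fin 2) F) * i) ∧
    ∀ g : SpecialLinearGroup (Fin 2) F,
      (g : Matrix (Fin 2) (Fin 2) F) * i = (i : Matrix (Fin 2) (Fin 2) F) * g →
      (g : Matrix (Fin 2) (Fin 2) F) * j = (j : Matrix (Fin 2) (Fin 2) F) * g →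
      (g : Matrix (Fin 2) (Fin 2) F) = 1 ∨ (g : Matrix (Fin 2) (Fin 2) F) = -1 := by
  obtain ⟨i, j, hi, hj, hi', hj'⟩ := exists_ij (F := F) h3
  refine ⟨i, j, hi, hj, ?_, ?_, ?_, ?_⟩
  · rw [hi', Matrix.mul_fin_two]
    ext a b
    fin_cases a <;> fin_cases b <;> simp
  · rw [hj', Matrix.mul_fin_two]
    ext a b
    fin_cases a <;> fin_cases b <;> simp <;> linear_combination h3
  · rw [hi', hj', Matrix.mul_fin_two, Matrix.mul_fin_two]
    ext a b
    fin_cases a <;> fin_cases b <;> simp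
  · intro g h1 h2
    rw [hi'] at h1
    rw [hj'] at h2
    have hd := det_entries g
    rw [Matrix.eta_fin_two (g : Matrix (Fin 2) (Fin 2) F)] at h1 h2 ⊢
    rw [Matrix.mul_fin_two, Matrix.mul_fin_two] at h1 h2
    set a := (g : Matrix (Fin 2) (Fin 2) F) 0 0
    set b := (g : Matrix (Fin 2) (Fin 2) F) 0 1
    set c := (g : Matrix (Fin 2) (Fin 2) F) 1 0
    set d := (g : Matrix (Fin 2) (Fin 2) F) 1 1
    have e1 := congrFun (congrFun h1 0) 0
    have e2 := congrFun (congrFun h1 0) 1
    have e3 := congrFun (congrFun h2 0) 0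
    simp at e1 e2 e3
    have hc : c = -b := by linear_combination -e1
    have hda : d = a := by linear_combination -e2
    have hbc : b = c := by linear_combination e3
    have hb : b = 0 := by
      have h2b : (2 : F) * b = 0 := by
        rw [hc] at hbc
        linear_combination hbc
      exact (mul_eq_zero.1 h2b).resolve_left (two_ne_zero' h3)
    have hc0 : c = 0 := by rw [hc, hb, neg_zero]
    have ha2 : (a - 1) * (a + 1) = 0 := by
      rw [hda, hb, hc0] at hd
      linear_combination hd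
    rcases mul_eq_zero.1 ha2 with h | h
    · left
      have ha1 : a = 1 := sub_eq_zero.1 h
      rw [hda, hb, hc0, ha1, Matrix.one_fin_two]
    · right
      have ha1 : a = -1 := eq_neg_of_add_eq_zero_left h
      rw [hda, hb, hc0, ha1, ← Matrix.ext_iff]
      intro x y
      fin_cases x <;> fin_cases y <;> simp

omit h3 in
/-- The commutator of anticommuting elements is `-1`. -/
theorem comm_eq_neg (i j : SpecialLinearGroup (Fin 2) F)
    (h : (i : Matrix (Fin 2) (Fin 2) F) * j = -((j : Matrix (Fin 2) (Fin 2) F) * i)) :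
    ((⁅i, j⁆ : SpecialLinearGroup (Fin 2) F) : Matrix (Fin 2) (Fin 2) F) = -1 := by
  have h1 : ((⁅i, j⁆ * (j * i) : SpecialLinearGroup (Fin 2) F) : Matrix (Fin 2) (Fin 2) F) =
      (i : Matrix (Fin 2) (Fin 2) F) * j := by
    rw [← coe_mul']
    congr 1
    rw [commutatorElement_def]
    group
    rfl
  rw [coe_mul', coe_mul', h] at h1
  have h2 : ((j * i : SpecialLinearGroup (Fin 2) F) : Matrix (Fin 2) (Fin 2) F) *
      (((j * i)⁻¹ : SpecialLinearGroup (Fin 2) F) : Matrix (Fin 2) (Fin 2) F) = 1 := by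
    rw [← coe_mul', mul_inv_cancel]
    rfl
  rw [coe_mul'] at h2
  calc ((⁅i, j⁆ : SpecialLinearGroup (Fin 2) F) : Matrix (Fin 2) (Fin 2) F)
      = (⁅i, j⁆ : SpecialLinearGroup (Fin 2) F) * (((j : Matrix (Fin 2) (Fin 2) F) * i) *
          (((j * i)⁻¹ : SpecialLinearGroup (Fin 2) F) : Matrix (Fin 2) (Fin 2) F)) := by
        rw [h2, mul_one]
    _ = (((⁅i, j⁆ : SpecialLinearGroup (Fin 2) F) : Matrix (Fin 2) (Fin 2) F) *
          ((j : Matrix (Fin 2) (Fin 2) F) * i)) *
          (((j * i)⁻¹ : SpecialLinearGroup (Fin 2) F) : Matrix (Fin 2) (Fin 2) F) := by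
        simp only [Matrix.mul_assoc]
    _ = (-((j : Matrix (Fin 2) (Fin 2) F) * i)) *
          (((j * i)⁻¹ : SpecialLinearGroup (Fin 2) F) : Matrix (Fin 2) (Fin 2) F) := by rw [h1]
    _ = -1 := by rw [neg_mul, h2]

omit h3 in
/-- Trace zero elements of `SL₂` square to `-1`. -/
theorem sq_of_trace_zero (x : SpecialLinearGroup (Fin 2) F)
    (h : (x : Matrix (Fin 2) (Fin 2) F) 0 0 + (x : Matrix (Fin 2) (Fin 2) F) 1 1 = 0) :
    ((x * x : SpecialLinearGroup (Fin 2) F) : Matrix (Fin 2) (Fin 2) F) = -1 := by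
  have hd := det_entries x
  rw [coe_mul', Matrix.eta_fin_two (x : Matrix (Fin 2) (Fin 2) F), Matrix.mul_fin_two]
  set a := (x : Matrix (Fin 2) (Fin 2) F) 0 0
  set b := (x : Matrix (Fin 2) (Fin 2) F) 0 1
  set c := (x : Matrix (Fin 2) (Fin 2) F) 1 0
  set d := (x : Matrix (Fin 2) (Fin 2) F) 1 1
  ext u v
  fin_cases u <;> fin_cases v <;> simp
  · linear_combination a * h - hd
  · linear_combination b * h
  · linear_combination c * h
  · linear_combination d * h - hd

omit h3 in
/-- The trace of `[M, u_s]`. -/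
theorem trace_comm_uu (M : SpecialLinearGroup (Fin 2) F) (s : F) :
    ((⁅M, uu s⁆ : SpecialLinearGroup (Fin 2) F) : Matrix (Fin 2) (Fin 2) F) 0 0 +
      ((⁅M, uu s⁆ : SpecialLinearGroup (Fin 2) F) : Matrix (Fin 2) (Fin 2) F) 1 1 =
      2 + (M : Matrix (Fin 2) (Fin 2) F) 1 0 ^ 2 * s ^ 2 := by
  have hd := det_entries M
  rw [commutatorElement_def, coe_mul', coe_mul', coe_mul', inv_entries M, inv_entries (uu s)]
  have : ((uu s : SpecialLinearGroup (Fin 2) F) : Matrix (Fin 2) (Fin 2) F) = !![1, s; 0, 1] := rfl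
  rw [this, Matrix.eta_fin_two (M : Matrix (Fin 2) (Fin 2) F)]
  set a := (M : Matrix (Fin 2) (Fin 2) F) 0 0
  set b := (M : Matrix (Fin 2) (Fin 2) F) 0 1
  set c := (M : Matrix (Fin 2) (Fin 2) F) 1 0
  set d := (M : Matrix (Fin 2) (Fin 2) F) 1 1
  simp only [Matrix.mul_fin_two]
  simp
  linear_combination (2 : F) * hd

omit h3 in
/-- The trace of `[M, w]`. -/
theorem trace_comm_ww (M : SpecialLinearGroup (Fin 2) F) :
    ((⁅M, ww⁆ : SpecialLinearGroup (Fin 2) F) : Matrix (Fin 2) (Fin 2) F) 0 0 +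
      ((⁅M, ww⁆ : SpecialLinearGroup (Fin 2) F) : Matrix (Fin 2) (Fin 2) F) 1 1 =
      (M : Matrix (Fin 2) (Fin 2) F) 0 0 ^ 2 + (M : Matrix (Fin 2) (Fin 2) F) 0 1 ^ 2 +
      (M : Matrix (Fin 2) (Fin 2) F) 1 0 ^ 2 + (M : Matrix (Fin 2) (Fin 2) F) 1 1 ^ 2 := by
  rw [commutatorElement_def, coe_mul', coe_mul', coe_mul', inv_entries M, inv_entries ww]
  have : ((ww : SpecialLinearGroup (Fin 2) F) : Matrix (Fin 2) (Fin 2) F) = !![0, 1; -1, 0] := rfl
  rw [this, Matrix.eta_fin_two (M : Matrix (Fin 2) (Fin 2) F)]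
  set a := (M : Matrix (Fin 2) (Fin 2) F) 0 0
  set b := (M : Matrix (Fin 2) (Fin 2) F) 0 1
  set c := (M : Matrix (Fin 2) (Fin 2) F) 1 0
  set d := (M : Matrix (Fin 2) (Fin 2) F) 1 1
  simp only [Matrix.mul_fin_two]
  simp
  ring

theorem ww_mem : (ww : SpecialLinearGroup (Fin 2) F) ∈ SS F := by
  obtain ⟨i, j, hi, -, hi', -⟩ := exists_ij (F := F) h3
  have : i = ww := Subtype.ext hi'
  rwa [← this]

omit h3 in
theorem uu_mem_of (t : F) (ht0 : t ≠ 0) (ht1 : t ^ 2 ≠ 1) (a : F) : uu a ∈ SS F := by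
  have hd : (!![t, 0; 0, t⁻¹] : Matrix (Fin 2) (Fin 2) F).det = 1 := by
    rw [Matrix.det_fin_two_of]
    field_simp
    ring
  let D : SpecialLinearGroup (Fin 2) F := ⟨!![t, 0; 0, t⁻¹], hd⟩
  have hne : t ^ 2 - 1 ≠ 0 := sub_ne_zero.2 ht1
  have h : ⁅D, uu (a / (t ^ 2 - 1))⁆ = uu a := by
    apply Subtype.ext
    show ((⁅D, uu (a / (t ^ 2 - 1))⁆ : SpecialLinearGroup (Fin 2) F) : Matrix (Fin 2) (Fin 2) F) = !![1, a; 0, 1]
    rw [commutatorElement_def, coe_mul', coe_mul', coe_mul', inv_entries D, inv_entries (uu _)]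
    show !![t, 0; 0, t⁻¹] * !![1, a / (t ^ 2 - 1); 0, 1] * _ * _ = _
    simp [D, uu]
    refine ⟨⟨by field_simp, ?_⟩, by field_simp⟩
    field_simp
    ring
  rw [← h]
  exact commutator_mem_commutator (mem_top _) (mem_top _)

omit h3 in
/-- Cayley-Hamilton in coordinates. -/
theorem ch_entries (x : SpecialLinearGroup (Fin 2) F) :
    (x : Matrix (Fin 2) (Fin 2) F) * x =
      ((x : Matrix (Fin 2) (Fin 2) F) 0 0 + (x : Matrix (Fin 2) (Fin 2) F) 1 1) •
        (x : Matrix (Fin 2) (Fin 2) F) - 1 := by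
  have hd := det_entries x
  rw [Matrix.eta_fin_two (x : Matrix (Fin 2) (Fin 2) F), Matrix.mul_fin_two]
  set a := (x : Matrix (Fin 2) (Fin 2) F) 0 0
  set b := (x : Matrix (Fin 2) (Fin 2) F) 0 1
  set c := (x : Matrix (Fin 2) (Fin 2) F) 1 0
  set d := (x : Matrix (Fin 2) (Fin 2) F) 1 1
  ext u v
  fin_cases u <;> fin_cases v <;> simp
  · linear_combination -hd
  · ring
  · ring
  · linear_combination -hd

/-- A subgroup normalized by the derived group, nontrivial, contains `-1`. -/
theorem exists_neg_one_mem (N : Subgroup (SpecialLinearGroup (Fin 2) F))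
    (hN : ∀ M ∈ N, ∀ s ∈ SS F, s * M * s⁻¹ ∈ N) (hne : N ≠ ⊥) :
    ∃ M ∈ N, (M : Matrix (Fin 2) (Fin 2) F) = -1 := by
  have hco : ∀ M ∈ N, ∀ s ∈ SS F, ⁅M, s⁆ ∈ N := by
    intro M hM s hs
    have : ⁅M, s⁆ = M * (s * M⁻¹ * s⁻¹) := by
      rw [commutatorElement_def]; group
    rw [this]
    exact mul_mem hM (hN _ (inv_mem hM) s hs)
  have htr : ∀ x ∈ N, (x : Matrix (Fin 2) (Fin 2) F) 0 0 + (x : Matrix (Fin 2) (Fin 2) F) 1 1 = 0 →
      ∃ M ∈ N, (M : Matrix (Fin 2) (Fin 2) F) = -1 :=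
    fun x hx h => ⟨x * x, mul_mem hx hx, sq_of_trace_zero x h⟩
  obtain ⟨M, hMN, hM1⟩ : ∃ M ∈ N, M ≠ 1 := by
    by_contra hcon
    push Not at hcon
    exact hne ((eq_bot_iff).2 (fun x hx => (mem_bot).2 (hcon x hx)))
  have hMat : (M : Matrix (Fin 2) (Fin 2) F) ≠ 1 := by
    intro h
    exact hM1 (Subtype.ext h)
  have hd := det_entries M
  by_cases hsmall : ∀ a : F, a = 0 ∨ a = 1 ∨ a = -1
  · -- the field with three elements
    rcases hsmall ((M : Matrix (Fin 2) (Fin 2) F) 0 0 + (M : Matrix (Fin 2) (Fin 2) F) 1 1) with h0 | h1 | h2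
    · exact htr M hMN h0
    · -- trace one: the cube is `-1`
      refine ⟨M * (M * M), mul_mem hMN (mul_mem hMN hMN), ?_⟩
      rw [coe_mul', coe_mul', ch_entries M, h1, one_smul]
      have := ch_entries M
      rw [h1, one_smul] at this
      rw [Matrix.mul_sub, this, Matrix.mul_one]
      abel
    · -- trace minus one
      set a := (M : Matrix (Fin 2) (Fin 2) F) 0 0 with ha
      set b := (M : Matrix (Fin 2) (Fin 2) F) 0 1 with hb
      set c := (M : Matrix (Fin 2) (Fin 2) F) 1 0 with hc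
      set d := (M : Matrix (Fin 2) (Fin 2) F) 1 1 with hd'
      have hda : d = -1 - a := by linear_combination h2
      by_cases hbc : b = c
      · exfalso
        apply hMat
        have hz : (a - 1) ^ 2 + b ^ 2 = 0 := by
          rw [← hbc, hda] at hd
          linear_combination -hd - a * h3
        have h2ne := two_ne_zero' h3
        have hb0 : b = 0 ∧ a = 1 := by
          rcases hsmall b with h | h | h <;> rcases hsmall (a - 1) with h' | h' | h' <;>
            rw [h, h'] at hz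
          · exact ⟨h, sub_eq_zero.1 h'⟩
          · exfalso; apply one_ne_zero (α := F); linear_combination hz
          · exfalso; apply one_ne_zero (α := F); linear_combination hz
          · exfalso; apply one_ne_zero (α := F); linear_combination hz
          · exfalso; apply h2ne; linear_combination hz
          · exfalso; apply h2ne; linear_combination hz
          · exfalso; apply one_ne_zero (α := F); linear_combination hz
          · exfalso; apply h2ne; linear_combination hz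
          · exfalso; apply h2ne; linear_combination hz
        have hc0 : c = 0 := by rw [← hbc]; exact hb0.1
        have hd1 : d = 1 := by rw [hda, hb0.2]; linear_combination -h3
        rw [Matrix.eta_fin_two (M : Matrix (Fin 2) (Fin 2) F), ← ha, ← hb, ← hc, ← hd', hb0.1, hb0.2, hc0, hd1,
          Matrix.one_fin_two]
      · apply htr _ (hco M hMN _ (ww_mem h3))
        rw [trace_comm_ww, ← ha, ← hb, ← hc, ← hd']
        have h1 : (b - c) ^ 2 = 1 := by
          rcases hsmall (b - c) with h | h | h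
          · exact absurd (sub_eq_zero.1 h) hbc
          · rw [h]; ring
          · rw [h]; ring
        rw [hda] at hd ⊢
        linear_combination h1 - 2 * hd
  · -- larger fields
    push Not at hsmall
    obtain ⟨t, ht0, ht1, ht2⟩ := hsmall
    have ht : t ^ 2 ≠ 1 := by
      intro h
      have : (t - 1) * (t + 1) = 0 := by linear_combination h
      rcases mul_eq_zero.1 this with h' | h'
      · exact ht1 (sub_eq_zero.1 h')
      · exact ht2 (eq_neg_of_add_eq_zero_left h')
    have hu : ∀ a, uu a ∈ SS F := uu_mem_of t ht0 ht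
    have hkey : ∀ x ∈ N, (x : Matrix (Fin 2) (Fin 2) F) 1 0 ≠ 0 →
        ∃ M ∈ N, (M : Matrix (Fin 2) (Fin 2) F) = -1 := by
      intro x hx hc
      apply htr _ (hco x hx _ (hu ((x : Matrix (Fin 2) (Fin 2) F) 1 0)⁻¹))
      rw [trace_comm_uu]
      field_simp
      linear_combination h3
    by_cases hc : (M : Matrix (Fin 2) (Fin 2) F) 1 0 = 0
    · by_cases hb : (M : Matrix (Fin 2) (Fin 2) F) 0 1 = 0
      · by_cases had : (M : Matrix (Fin 2) (Fin 2) F) 0 0 = (M : Matrix (Fin 2) (Fin 2) F) 1 1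
        · -- scalar
          refine ⟨M, hMN, ?_⟩
          rw [hb, hc, ← had] at hd
          set a := (M : Matrix (Fin 2) (Fin 2) F) 0 0 with ha
          have : (a - 1) * (a + 1) = 0 := by linear_combination hd
          rcases mul_eq_zero.1 this with h | h
          · exfalso
            apply hMat
            have ha1 : a = 1 := sub_eq_zero.1 h
            rw [Matrix.eta_fin_two (M : Matrix (Fin 2) (Fin 2) F), hb, hc, ← had, ← ha, ha1,
              Matrix.one_fin_two]
          · have ha1 : a = -1 := eq_neg_of_add_eq_zero_left h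
            rw [Matrix.eta_fin_two (M : Matrix (Fin 2) (Fin 2) F), hb, hc, ← had, ← ha, ha1,
              ← Matrix.ext_iff]
            intro x y
            fin_cases x <;> fin_cases y <;> simp
        · -- conjugate by a lower unitriangular element
          have hl : ll 1 ∈ SS F := by
            rw [ll_eq]
            exact mul_mem (commutator_mem_commutator (mem_top _) (mem_top _)) (hu _)
          apply hkey _ (hN M hMN _ hl)
          rw [coe_mul', coe_mul', inv_entries (ll 1)]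
          have : ((ll 1 : SpecialLinearGroup (Fin 2) F) : Matrix (Fin 2) (Fin 2) F) = !![1, 0; 1, 1] := rfl
          rw [this, Matrix.eta_fin_two (M : Matrix (Fin 2) (Fin 2) F), hb, hc]
          simp
          intro h
          exact had (by linear_combination h)
      · -- conjugate by the Weyl element
        apply hkey _ (hN M hMN _ (ww_mem h3))
        rw [coe_mul', coe_mul', inv_entries ww]
        have : ((ww : SpecialLinearGroup (Fin 2) F) : Matrix (Fin 2) (Fin 2) F) = !![0, 1; -1, 0] := rfl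
        rw [this, Matrix.eta_fin_two (M : Matrix (Fin 2) (Fin 2) F)]
        simp
        exact hb
    · exact hkey M hMN hc

omit h3 in
/-- Nilpotent `2 × 2` matrices square to zero. -/
theorem sq_eq_zero_of_pow (n : Matrix (Fin 2) (Fin 2) F) (k : ℕ) (h : n ^ k = 0) : n * n = 0 := by
  have hd : n.det = 0 := by
    have h1 : n.det ^ k = 0 := by
      rw [← Matrix.det_pow, h]
      rcases Nat.eq_zero_or_pos k with rfl | hk
      · simp at h
      · simp
    exact by_contra fun hne => pow_ne_zero k hne h1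
  have hch : n * n = (n 0 0 + n 1 1) • n := by
    rw [Matrix.det_fin_two] at hd
    rw [Matrix.eta_fin_two n, Matrix.mul_fin_two]
    ext u v
    fin_cases u <;> fin_cases v <;> simp
    · linear_combination -hd
    · ring
    · ring
    · linear_combination -hd
  by_cases hn : n = 0
  · rw [hn]; simp
  have hp : ∀ m : ℕ, n ^ (m + 1) = (n 0 0 + n 1 1) ^ m • n := by
    intro m
    induction m with
    | zero => simp
    | succ m ih =>
      rw [pow_succ, ih, Matrix.smul_mul, hch, smul_smul, pow_succ]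
  rcases Nat.eq_zero_or_pos k with rfl | hk
  · simp at h
  obtain ⟨m, rfl⟩ : ∃ m, k = m + 1 := ⟨k - 1, by omega⟩
  rw [hp] at h
  rcases smul_eq_zero.1 h with h1 | h1
  · have h3 : n 0 0 + n 1 1 = 0 := by
      by_contra hne
      exact pow_ne_zero m hne h1
    rw [hch, h3, zero_smul]
  · exact absurd h1 hn

omit h3 in
/-- In a ring of characteristic three: `(x - 1)^(3^m) = x^(3^m) - 1`. -/
theorem sub_one_pow_three {A : Type*} [Ring A] (h3 : (3 : A) = 0) (x : A) (m : ℕ) :
    (x - 1) ^ (3 ^ m) = x ^ (3 ^ m) - 1 := by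
  have hc : ∀ y : A, (y - 1) ^ 3 = y ^ 3 - 1 := by
    intro y
    have : (y - 1) ^ 3 = y ^ 3 - 1 + (3 : A) * (y - y ^ 2) := by
      noncomm_ring
    rw [this, h3]
    simp
  induction m with
  | zero => simp
  | succ m ih =>
    rw [pow_succ 3 m, pow_mul, ih, hc, ← pow_mul]

/-- A `3`-element of `SL₂(F)` acts quadratically. -/
theorem sq_sub_one_of_pow (g : SpecialLinearGroup (Fin 2) F) (m : ℕ) (h : g ^ (3 ^ m) = 1) :
    ((g : Matrix (Fin 2) (Fin 2) F) - 1) * ((g : Matrix (Fin 2) (Fin 2) F) - 1) = 0 := by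
  have h3' : (3 : Matrix (Fin 2) (Fin 2) F) = 0 := by
    have h : (3 : Matrix (Fin 2) (Fin 2) F) = (3 : F) • (1 : Matrix (Fin 2) (Fin 2) F) := by
      ext u v
      fin_cases u <;> fin_cases v <;> simp [Matrix.ofNat_apply]
    rw [h, h3, zero_smul]
  apply sq_eq_zero_of_pow _ (3 ^ m)
  rw [sub_one_pow_three h3', ← coe_pow', h]
  simp

end Three

section Add

variable {F : Type*} [Field F]

/-- An additive map commuting with all root elements and of `3`-power order is quadratic. -/
theorem quad_of_commute_uu (h3 : (3 : F) = 0) (φ : AddMonoid.End (Fin 2 → F))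
    (hu : ∀ (a : F) (x : Fin 2 → F), φ ((uu a : SpecialLinearGroup (Fin 2) F) *ᵥ x) =
      (uu a : SpecialLinearGroup (Fin 2) F) *ᵥ φ x)
    (m : ℕ) (hp : φ ^ (3 ^ m) = 1) : (φ - 1) * (φ - 1) = 0 := by
  have hua : ∀ (a : F) (x : Fin 2 → F),
      ((uu a : SpecialLinearGroup (Fin 2) F) : Matrix (Fin 2) (Fin 2) F) *ᵥ x = ![x 0 + a * x 1, x 1] := by
    intro a x
    rw [mulVec_fin_two]
    show ![(!![1, a; 0, 1] : Matrix (Fin 2) (Fin 2) F) 0 0 * x 0 + (!![1, a; 0, 1] : Matrix (Fin 2) (Fin 2) F) 0 1 * x 1,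
      (!![1, a; 0, 1] : Matrix (Fin 2) (Fin 2) F) 1 0 * x 0 + (!![1, a; 0, 1] : Matrix (Fin 2) (Fin 2) F) 1 1 * x 1] = _
    simp
  -- Coordinates.
  have hvec : ∀ x : Fin 2 → F, x = ![x 0, x 1] := by
    intro x
    ext i
    fin_cases i <;> rfl
  have hsplit : ∀ a b : F, (![a, b] : Fin 2 → F) = ![a, 0] + ![0, b] := by
    intro a b
    ext i
    fin_cases i <;> simp
  -- (*) `φ (a y, 0) = (a g₂(x, y), 0)`
  have hstar : ∀ (a : F) (x : Fin 2 → F), φ ![a * x 1, 0] = ![a * (φ x) 1, 0] := by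
    intro a x
    have h1 := hu a x
    rw [hua, hua] at h1
    have h2 : (![x 0 + a * x 1, x 1] : Fin 2 → F) = ![a * x 1, 0] + x := by
      ext i
      fin_cases i
      · simp [add_comm]
      · simp
    rw [h2, map_add] at h1
    have h3' : φ ![a * x 1, 0] = ![(φ x) 0 + a * (φ x) 1, (φ x) 1] - φ x := by
      rw [← h1]
      abel
    rw [h3']
    ext i
    fin_cases i <;> simp
  set κ : F := (φ ![0, 1]) 1 with hκ
  have h10 : ∀ s : F, φ ![s, 0] = ![s * κ, 0] := by
    intro s
    have := hstar s ![0, 1]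
    simpa using this
  have h2nd : ∀ x : Fin 2 → F, (φ x) 1 = κ * x 1 := by
    intro x
    have h1 := hstar 1 x
    have h2 := h10 (1 * x 1)
    rw [h2] at h1
    have h3' := congrFun h1 0
    simp at h3'
    rw [← h3']
    ring
  have hpow : ∀ (k : ℕ) (s : F), (φ ^ k) ![s, 0] = ![κ ^ k * s, 0] := by
    intro k s
    induction k generalizing s with
    | zero => simp
    | succ k ih =>
      rw [pow_succ]
      show (φ ^ k) (φ ![s, 0]) = _
      rw [h10, ih]
      have e : κ ^ k * (s * κ) = κ ^ (k + 1) * s := by ring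
      rw [e]
  have hκ1 : κ = 1 := by
    have h1 := hpow (3 ^ m) 1
    rw [hp] at h1
    have h2 := congrFun h1 0
    simp at h2
    have h4 : (κ - 1) ^ (3 ^ m) = 0 := by
      rw [sub_one_pow_three h3, ← h2]
      simp
    exact sub_eq_zero.1 (by
      exact by_contra fun hne => pow_ne_zero _ hne h4)
  refine AddMonoidHom.ext fun x => ?_
  show (φ - 1) ((φ - 1) x) = 0
  have hsub : ∀ y, (φ - 1) y = φ y - y := fun y => rfl
  rw [hsub, hsub]
  set y := φ x - x with hy
  have hy1 : y 1 = 0 := by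
    rw [hy, Pi.sub_apply, h2nd, hκ1]
    ring
  have hye : y = ![y 0, 0] := by
    conv_lhs => rw [hvec y, hy1]
  rw [hye, h10, hκ1, mul_one, sub_self]

/-- Over the field with three elements every additive map is given by a matrix. -/
theorem exists_matrix_of_small (hsmall : ∀ a : F, a = 0 ∨ a = 1 ∨ a = -1)
    (φ : AddMonoid.End (Fin 2 → F)) :
    ∃ M : Matrix (Fin 2) (Fin 2) F, ∀ x, φ x = M *ᵥ x := by
  have hs : ∀ (a : F) (y : Fin 2 → F), φ (a • y) = a • φ y := by
    intro a y
    rcases hsmall a with h | h | h <;> rw [h]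
    · simp
    · simp
    · simp
  refine ⟨Matrix.of ![![(φ ![1, 0]) 0, (φ ![0, 1]) 0], ![(φ ![1, 0]) 1, (φ ![0, 1]) 1]], fun x => ?_⟩
  have h1 : x = x 0 • ![1, 0] + x 1 • ![0, 1] := by
    ext i
    fin_cases i <;> simp
  conv_lhs => rw [h1, map_add, hs, hs]
  rw [mulVec_fin_two]
  ext i
  fin_cases i <;> simp [mul_comm]

/-- An additive map of `3`-power order given by a matrix is quadratic. -/
theorem quad_of_matrix (h3 : (3 : F) = 0) (φ : AddMonoid.End (Fin 2 → F))
    (M : Matrix (Fin 2) (Fin 2) F) (hM : ∀ x, φ x = M *ᵥ x)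
    (m : ℕ) (hp : φ ^ (3 ^ m) = 1) : (φ - 1) * (φ - 1) = 0 := by
  have h3' : (3 : Matrix (Fin 2) (Fin 2) F) = 0 := by
    have h : (3 : Matrix (Fin 2) (Fin 2) F) = (3 : F) • (1 : Matrix (Fin 2) (Fin 2) F) := by
      ext u v
      fin_cases u <;> fin_cases v <;> simp [Matrix.ofNat_apply]
    rw [h, h3, zero_smul]
  have hpow : ∀ (k : ℕ) (x : Fin 2 → F), (φ ^ k) x = (M ^ k) *ᵥ x := by
    intro k x
    induction k generalizing x with
    | zero => simp
    | succ k ih =>
      rw [pow_succ, pow_succ]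
      show (φ ^ k) (φ x) = _
      rw [ih, hM, Matrix.mulVec_mulVec]
  have hM1 : M ^ (3 ^ m) = 1 := by
    have h1 : ∀ x, (M ^ (3 ^ m)) *ᵥ x = x := by
      intro x
      rw [← hpow, hp]
      rfl
    ext u v
    have h2 := congrFun (h1 (Pi.single v 1)) u
    rw [Matrix.mulVec_single_one] at h2
    simpa [Matrix.one_apply, Pi.single_apply, eq_comm] using h2
  have hq : (M - 1) * (M - 1) = 0 := by
    apply sq_eq_zero_of_pow _ (3 ^ m)
    rw [sub_one_pow_three h3', hM1, sub_self]
  refine AddMonoidHom.ext fun x => ?_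
  show (φ - 1) ((φ - 1) x) = 0
  have hsub : ∀ y, (φ - 1) y = (M - 1) *ᵥ y := by
    intro y
    show φ y - y = _
    rw [hM, Matrix.sub_mulVec, Matrix.one_mulVec]
  rw [hsub, hsub, Matrix.mulVec_mulVec, hq, Matrix.zero_mulVec]

/-- An additive map preserving the symplectic form is an element of `SL₂(F)`. -/
theorem exists_sl_of_dt (φ : AddMonoid.End (Fin 2 → F))
    (h : ∀ x y, dt (φ x) (φ y) = dt x y) :
    ∃ g : SpecialLinearGroup (Fin 2) F, ∀ x, φ x = (g : Matrix (Fin 2) (Fin 2) F) *ᵥ x := by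
  set u := φ ![1, 0] with hu
  set v := φ ![0, 1] with hv
  have huv : u 0 * v 1 - u 1 * v 0 = 1 := by
    have := h ![1, 0] ![0, 1]
    simpa [dt] using this
  have hs : ∀ (a : F) (x : Fin 2 → F), φ (a • x) = a • φ x := by
    intro a x
    set w := φ (a • x) - a • φ x with hw
    have h1 : dt w u = 0 := by
      have : dt w u = dt (φ (a • x)) u - a * dt (φ x) u := by
        rw [hw]
        simp only [dt, Pi.sub_apply, Pi.smul_apply, smul_eq_mul]
        ring
      rw [this, hu, h, h, dt_smul_left, sub_self]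
    have h2 : dt w v = 0 := by
      have : dt w v = dt (φ (a • x)) v - a * dt (φ x) v := by
        rw [hw]
        simp only [dt, Pi.sub_apply, Pi.smul_apply, smul_eq_mul]
        ring
      rw [this, hv, h, h, dt_smul_left, sub_self]
    simp only [dt] at h1 h2
    have h0 : w = 0 := by
      ext i
      fin_cases i
      · show w 0 = 0
        linear_combination u 0 * h2 - v 0 * h1 - w 0 * huv
      · show w 1 = 0
        linear_combination u 1 * h2 - v 1 * h1 - w 1 * huv
    exact sub_eq_zero.1 h0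
  refine ⟨⟨!![u 0, v 0; u 1, v 1], by rw [Matrix.det_fin_two_of]; linear_combination huv⟩, fun x => ?_⟩
  have h1 : x = x 0 • ![1, 0] + x 1 • ![0, 1] := by
    ext i
    fin_cases i <;> simp
  conv_lhs => rw [h1, map_add, hs, hs, ← hu, ← hv]
  rw [mulVec_fin_two]
  ext i
  fin_cases i <;> simp [mul_comm]

end Add

end Cfsg.Agent.Lib.FG85.BB
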