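/-
Sections of a group with total functions: coordinates on `A₀ / A₁` and the induced additive action.
-/
import Cfsg.Agent.Lib.FG85.BB1
import Cfsg.Agent.Lib.FG85.BB2

set_option autoImplicit false
set_option linter.unusedSectionVars false

namespace Cfsg.Agent.Lib.FG85.BB

open Subgroup Cfsg Matrix
open Cfsg.Agent.Lib.LocalEven.Util
open Cfsg.Agent.Lib.LocalEven.SecIrr
open scoped commutatorElement

universe u

variable {G : Type u} [Group G]

/-- Coordinates on the section `A₀ / A₁`, with the action of `K`. -/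
structure SecData (K A₀ A₁ : Subgroup G) (A : Type*) [AddCommGroup A] where
  pr : G → A
  pr_mul : ∀ x ∈ A₀, ∀ y ∈ A₀, pr (x * y) = pr x + pr y
  pr_surj : ∀ a : A, ∃ x ∈ A₀, pr x = a
  pr_ker : ∀ x ∈ A₀, pr x = 0 ↔ x ∈ A₁
  hat : G → AddMonoid.End A
  hat_one : hat 1 = 1
  hat_mul : ∀ x ∈ K, ∀ y ∈ K, hat (x * y) = hat x * hat y
  hat_spec : ∀ k ∈ K, ∀ u ∈ A₀, pr (k * u * k⁻¹) = hat k (pr u)

namespace SecData

variable {K A₀ A₁ : Subgroup G} {A : Type*} [AddCommGroup A] (d : SecData K A₀ A₁ A)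

theorem pr_one : d.pr 1 = 0 := by
  have := d.pr_mul 1 (one_mem _) 1 (one_mem _)
  rw [mul_one] at this
  exact left_eq_add.1 this

theorem pr_inv {x : G} (hx : x ∈ A₀) : d.pr x⁻¹ = - d.pr x := by
  have := d.pr_mul x hx x⁻¹ (inv_mem hx)
  rw [mul_inv_cancel, d.pr_one] at this
  exact eq_neg_of_add_eq_zero_right this.symm

theorem pr_pow {x : G} (hx : x ∈ A₀) (n : ℕ) : d.pr (x ^ n) = n • d.pr x := by
  induction n with
  | zero => simp [d.pr_one]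
  | succ n ih =>
    rw [pow_succ, d.pr_mul _ (pow_mem hx n) _ hx, ih, succ_nsmul]

theorem pr_div {x y : G} (hx : x ∈ A₀) (hy : y ∈ A₀) : d.pr (x * y⁻¹) = d.pr x - d.pr y := by
  rw [d.pr_mul _ hx _ (inv_mem hy), d.pr_inv hy, sub_eq_add_neg]

theorem pr_eq_iff {x y : G} (hx : x ∈ A₀) (hy : y ∈ A₀) : d.pr x = d.pr y ↔ x * y⁻¹ ∈ A₁ := by
  rw [← d.pr_ker _ (mul_mem hx (inv_mem hy)), d.pr_div hx hy, sub_eq_zero]

theorem mem_of_pr_eq {x y : G} (hx : x ∈ A₀) (hy : y ∈ A₀) (h : d.pr x = d.pr y) :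
    ∃ v ∈ A₁, x = v * y :=
  ⟨x * y⁻¹, (d.pr_eq_iff hx hy).1 h, by group⟩

theorem pr_eq_zero_of_mem {x : G} (hx : x ∈ A₁) (hA : A₁ ≤ A₀) : d.pr x = 0 :=
  (d.pr_ker x (hA hx)).2 hx

theorem hat_inv_mul {k : G} (hk : k ∈ K) : d.hat k⁻¹ * d.hat k = 1 := by
  rw [← d.hat_mul _ (inv_mem hk) _ hk, inv_mul_cancel, d.hat_one]

theorem hat_mul_inv {k : G} (hk : k ∈ K) : d.hat k * d.hat k⁻¹ = 1 := by
  rw [← d.hat_mul _ hk _ (inv_mem hk), mul_inv_cancel, d.hat_one]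

theorem hat_inv_apply {k : G} (hk : k ∈ K) (a : A) : d.hat k⁻¹ (d.hat k a) = a := by
  have := congrArg (fun f : AddMonoid.End A => f a) (d.hat_inv_mul hk)
  simpa using this

theorem hat_apply_inv {k : G} (hk : k ∈ K) (a : A) : d.hat k (d.hat k⁻¹ a) = a := by
  have := congrArg (fun f : AddMonoid.End A => f a) (d.hat_mul_inv hk)
  simpa using this

theorem hat_pow {k : G} (hk : k ∈ K) (n : ℕ) : d.hat (k ^ n) = d.hat k ^ n := by
  induction n with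
  | zero => simp [d.hat_one]
  | succ n ih =>
    rw [pow_succ, d.hat_mul _ (pow_mem hk n) _ hk, ih, pow_succ]

theorem hat_conj {k g : G} (hk : k ∈ K) (hg : g ∈ K) :
    d.hat (k * g * k⁻¹) = d.hat k * d.hat g * d.hat k⁻¹ := by
  rw [d.hat_mul _ (mul_mem hk hg) _ (inv_mem hk), d.hat_mul _ hk _ hg]

/-- The pointwise description of `hat = 1`. -/
theorem hat_eq_one_iff {k : G} (hk : k ∈ K) (hn : k ∈ normalizer (A₀ : Set G)) :
    d.hat k = 1 ↔ ∀ u ∈ A₀, k * u * k⁻¹ * u⁻¹ ∈ A₁ := by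
  constructor
  · intro h u hu
    have h1 : k * u * k⁻¹ ∈ A₀ := conj_mem_of_mem_normalizer hn hu
    rw [← d.pr_ker _ (mul_mem h1 (inv_mem hu)), d.pr_div h1 hu, d.hat_spec k hk u hu, h]
    simp
  · intro h
    refine AddMonoidHom.ext fun a => ?_
    obtain ⟨u, hu, rfl⟩ := d.pr_surj a
    have h1 : k * u * k⁻¹ ∈ A₀ := conj_mem_of_mem_normalizer hn hu
    have h2 := h u hu
    rw [← d.pr_ker _ (mul_mem h1 (inv_mem hu)), d.pr_div h1 hu, d.hat_spec k hk u hu] at h2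
    exact sub_eq_zero.1 h2

end SecData

/-- Building the action of `K` from coordinates. -/
noncomputable def SecData.ofPr {K A₀ A₁ : Subgroup G} {A : Type*} [AddCommGroup A] (pr : G → A)
    (pr_mul : ∀ x ∈ A₀, ∀ y ∈ A₀, pr (x * y) = pr x + pr y)
    (pr_surj : ∀ a : A, ∃ x ∈ A₀, pr x = a)
    (pr_ker : ∀ x ∈ A₀, pr x = 0 ↔ x ∈ A₁)
    (hK0 : K ≤ normalizer (A₀ : Set G)) (hK1 : K ≤ normalizer (A₁ : Set G)) :
    SecData K A₀ A₁ A := by
  classical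
  have pr_one : pr 1 = 0 := by
    have := pr_mul 1 (one_mem _) 1 (one_mem _)
    rw [mul_one] at this
    exact left_eq_add.1 this
  have pr_inv : ∀ x ∈ A₀, pr x⁻¹ = - pr x := by
    intro x hx
    have := pr_mul x hx x⁻¹ (inv_mem hx)
    rw [mul_inv_cancel, pr_one] at this
    exact eq_neg_of_add_eq_zero_right this.symm
  have hwell : ∀ k ∈ K, ∀ u ∈ A₀, ∀ u' ∈ A₀, pr u = pr u' → pr (k * u * k⁻¹) = pr (k * u' * k⁻¹) := by
    intro k hk u hu u' hu' he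
    have h1 : pr (u * u'⁻¹) = 0 := by
      rw [pr_mul _ hu _ (inv_mem hu'), pr_inv _ hu', he, add_neg_cancel]
    have h2 : u * u'⁻¹ ∈ A₁ := (pr_ker _ (mul_mem hu (inv_mem hu'))).1 h1
    have h3 : k * (u * u'⁻¹) * k⁻¹ ∈ A₁ := conj_mem_of_mem_normalizer (hK1 hk) h2
    have h4 : k * u * k⁻¹ ∈ A₀ := conj_mem_of_mem_normalizer (hK0 hk) hu
    have h5 : k * u' * k⁻¹ ∈ A₀ := conj_mem_of_mem_normalizer (hK0 hk) hu'
    have h6 : k * (u * u'⁻¹) * k⁻¹ = (k * u * k⁻¹) * (k * u' * k⁻¹)⁻¹ := by group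
    rw [h6] at h3
    have h7 := (pr_ker _ (mul_mem h4 (inv_mem h5))).2 h3
    rw [pr_mul _ h4 _ (inv_mem h5), pr_inv _ h5] at h7
    exact eq_of_add_neg_eq_zero h7
  choose lift hlift1 hlift2 using pr_surj
  let hatK : ∀ k : G, k ∈ K → AddMonoid.End A := fun k hk =>
    { toFun := fun a => pr (k * lift a * k⁻¹)
      map_zero' := by
        have h0 : lift 0 ∈ A₁ := (pr_ker _ (hlift1 0)).1 (hlift2 0)
        have h1 : k * lift 0 * k⁻¹ ∈ A₁ := conj_mem_of_mem_normalizer (hK1 hk) h0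
        have h2 : k * lift 0 * k⁻¹ ∈ A₀ := conj_mem_of_mem_normalizer (hK0 hk) (hlift1 0)
        exact (pr_ker _ h2).2 h1
      map_add' := by
        intro a b
        have e1 : pr (lift (a + b)) = pr (lift a * lift b) := by
          rw [pr_mul _ (hlift1 a) _ (hlift1 b), hlift2, hlift2, hlift2]
        rw [hwell k hk _ (hlift1 _) _ (mul_mem (hlift1 a) (hlift1 b)) e1]
        have e2 : k * (lift a * lift b) * k⁻¹ = (k * lift a * k⁻¹) * (k * lift b * k⁻¹) := by group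
        rw [e2, pr_mul _ (conj_mem_of_mem_normalizer (hK0 hk) (hlift1 a)) _
          (conj_mem_of_mem_normalizer (hK0 hk) (hlift1 b))] }
  have hspec : ∀ (k : G) (hk : k ∈ K) (u : G), u ∈ A₀ → pr (k * u * k⁻¹) = hatK k hk (pr u) := by
    intro k hk u hu
    exact hwell k hk u hu _ (hlift1 _) (hlift2 _).symm
  have h1K : (1 : G) ∈ K := one_mem _
  refine
    { pr := pr
      pr_mul := pr_mul
      pr_surj := fun a => ⟨lift a, hlift1 a, hlift2 a⟩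
      pr_ker := pr_ker
      hat := fun k => if hk : k ∈ K then hatK k hk else (1 : AddMonoid.End A)
      hat_one := ?_
      hat_mul := ?_
      hat_spec := ?_ }
  · rw [dif_pos h1K]
    refine AddMonoidHom.ext fun a => ?_
    show pr (1 * lift a * 1⁻¹) = a
    simp [hlift2]
  · intro x hx y hy
    rw [dif_pos (mul_mem hx hy), dif_pos hx, dif_pos hy]
    refine AddMonoidHom.ext fun a => ?_
    show pr (x * y * lift a * (x * y)⁻¹) = hatK x hx (hatK y hy a)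
    have e1 : hatK y hy a = pr (y * lift a * y⁻¹) := rfl
    rw [e1, ← hspec x hx _ (conj_mem_of_mem_normalizer (hK0 hy) (hlift1 a))]
    congr 1
    group
  · intro k hk u hu
    rw [dif_pos hk]
    exact hspec k hk u hu

/-- An abelian section admits coordinates. -/
theorem exists_section [Finite G] {K A₀ A₁ : Subgroup G} (h10 : A₁ ≤ A₀)
    (hn : A₀ ≤ normalizer (A₁ : Set G)) (hc : ∀ x ∈ A₀, ∀ y ∈ A₀, x * y * x⁻¹ * y⁻¹ ∈ A₁)
    (hK0 : K ≤ normalizer (A₀ : Set G)) (hK1 : K ≤ normalizer (A₁ : Set G)) :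
    ∃ (A : Type u) (_ : AddCommGroup A) (_ : Finite A), Nonempty (SecData K A₀ A₁ A) := by
  classical
  have hN : (A₁.subgroupOf A₀).Normal := (normal_subgroupOf_iff_le_normalizer h10).2 hn
  let Q₀ := ↥A₀ ⧸ A₁.subgroupOf A₀
  let grp : CommGroup Q₀ :=
    { (inferInstance : Group Q₀) with
      mul_comm := by
        intro a b
        induction a using QuotientGroup.induction_on with | H x => ?_
        induction b using QuotientGroup.induction_on with | H y => ?_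
        show ((x * y : ↥A₀) : Q₀) = ((y * x : ↥A₀) : Q₀)
        rw [QuotientGroup.eq]
        rw [mem_subgroupOf]
        have := hc _ y.2 _ x.2
        have e : (((x * y)⁻¹ * (y * x) : ↥A₀) : G) = (y : G)⁻¹ * (x : G)⁻¹ * y * x := by
          simp [mul_assoc]
        rw [e]
        have h2 := hc _ (inv_mem y.2) _ (inv_mem x.2)
        simpa [mul_assoc] using h2 }
  let A := Additive Q₀
  let inst : AddCommGroup A := Additive.addCommGroup
  have hfin : Finite A := by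
    show Finite (Additive Q₀)
    infer_instance
  let pr : G → A := fun x => if hx : x ∈ A₀ then Additive.ofMul ((⟨x, hx⟩ : ↥A₀) : Q₀) else 0
  have hpr : ∀ x (hx : x ∈ A₀), pr x = Additive.ofMul ((⟨x, hx⟩ : ↥A₀) : Q₀) := by
    intro x hx
    simp only [pr, dif_pos hx]
  refine ⟨A, inst, hfin, ⟨SecData.ofPr pr ?_ ?_ ?_ hK0 hK1⟩⟩
  · intro x hx y hy
    rw [hpr _ (mul_mem hx hy), hpr _ hx, hpr _ hy]
    rfl
  · intro a
    obtain ⟨x, hx⟩ := QuotientGroup.mk_surjective (Additive.toMul a)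
    refine ⟨x, x.2, ?_⟩
    rw [hpr _ x.2]
    show Additive.ofMul ((x : ↥A₀) : Q₀) = a
    rw [hx]
    rfl
  · intro x hx
    rw [hpr _ hx]
    constructor
    · intro h
      have h1 : ((⟨x, hx⟩ : ↥A₀) : Q₀) = 1 := h
      have h2 := (QuotientGroup.eq_one_iff _).1 h1
      exact mem_subgroupOf.1 h2
    · intro h
      have h1 : ((⟨x, hx⟩ : ↥A₀) : Q₀) = 1 := (QuotientGroup.eq_one_iff _).2 (mem_subgroupOf.2 h)
      exact h1

/-! ### The natural module -/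

/-- `E` acts on `U / U₀` as the derived group of `SL₂(F)` on its natural module (total functions). -/
structure NatSec (F : Type*) [Field F] (E U U₀ : Subgroup G) where
  ρ : G → SpecialLinearGroup (Fin 2) F
  ψ : G → (Fin 2 → F)
  ρ_mul : ∀ x ∈ E, ∀ y ∈ E, ρ (x * y) = ρ x * ρ y
  ρ_mem : ∀ x ∈ E, ρ x ∈ SS F
  ρ_surj : ∀ s ∈ SS F, ∃ x ∈ E, ρ x = s
  ψ_mul : ∀ x ∈ U, ∀ y ∈ U, ψ (x * y) = ψ x + ψ y
  ψ_surj : ∀ a, ∃ x ∈ U, ψ x = a
  ψ_ker : ∀ x ∈ U, ψ x = 0 ↔ x ∈ U₀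
  ψ_eq : ∀ e ∈ E, ∀ u ∈ U, ψ (e * u * e⁻¹) = (ρ e : Matrix (Fin 2) (Fin 2) F) *ᵥ ψ u

theorem exists_natSec {F : Type*} [Field F] {E U U₀ : Subgroup G}
    (h : ActsAsSL2OnSection F (SS F) E U U₀) : Nonempty (NatSec F E U U₀) := by
  classical
  obtain ⟨hEU, hU₀, ρ, ψ, hρ, hψs, hker, hact⟩ := h
  let ρ' : G → SpecialLinearGroup (Fin 2) F := fun x => if hx : x ∈ E then ρ ⟨x, hx⟩ else 1
  let ψ' : G → (Fin 2 → F) := fun x => if hx : x ∈ U then Multiplicative.toAdd (ψ ⟨x, hx⟩) else 0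
  have hρ' : ∀ x (hx : x ∈ E), ρ' x = ρ ⟨x, hx⟩ := fun x hx => by simp only [ρ', dif_pos hx]
  have hψ' : ∀ x (hx : x ∈ U), ψ' x = Multiplicative.toAdd (ψ ⟨x, hx⟩) :=
    fun x hx => by simp only [ψ', dif_pos hx]
  refine ⟨⟨ρ', ψ', ?_, ?_, ?_, ?_, ?_, ?_, ?_⟩⟩
  · intro x hx y hy
    rw [hρ' _ (mul_mem hx hy), hρ' _ hx, hρ' _ hy, ← map_mul]
    rfl
  · intro x hx
    rw [hρ' _ hx, ← hρ]
    exact ⟨_, rfl⟩
  · intro s hs
    rw [← hρ] at hs
    obtain ⟨e, he⟩ := hs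
    exact ⟨e, e.2, by rw [hρ' _ e.2]; exact he⟩
  · intro x hx y hy
    rw [hψ' _ (mul_mem hx hy), hψ' _ hx, hψ' _ hy]
    have : (⟨x * y, mul_mem hx hy⟩ : ↥U) = ⟨x, hx⟩ * ⟨y, hy⟩ := rfl
    rw [this, map_mul]
    rfl
  · intro a
    obtain ⟨u, hu⟩ := hψs (Multiplicative.ofAdd a)
    exact ⟨u, u.2, by rw [hψ' _ u.2]; show Multiplicative.toAdd (ψ u) = a; rw [hu]; rfl⟩
  · intro x hx
    rw [hψ' _ hx, ← hker ⟨x, hx⟩]
    constructor
    · intro h
      exact Multiplicative.toAdd.injective h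
    · intro h
      rw [h]
      rfl
  · intro e he u hu
    obtain ⟨w, hw, hw'⟩ := hact ⟨e, he⟩ ⟨u, hu⟩
    have hm : e * u * e⁻¹ ∈ U := conj_mem_of_mem_normalizer (hEU he) hu
    rw [hψ' _ hm, hρ' _ he, hψ' _ hu]
    have : (⟨e * u * e⁻¹, hm⟩ : ↥U) = w := Subtype.ext hw.symm
    rw [this, hw']

namespace NatSec

variable {F : Type*} [Field F] {E U U₀ : Subgroup G} (n : NatSec F E U U₀)

/-- The induced additive action. -/
noncomputable def sec {K : Subgroup G} (hK0 : K ≤ normalizer (U : Set G))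
    (hK1 : K ≤ normalizer (U₀ : Set G)) : SecData K U U₀ (Fin 2 → F) :=
  SecData.ofPr n.ψ n.ψ_mul n.ψ_surj n.ψ_ker hK0 hK1

@[simp] theorem sec_pr {K : Subgroup G} (hK0 : K ≤ normalizer (U : Set G))
    (hK1 : K ≤ normalizer (U₀ : Set G)) : (n.sec hK0 hK1).pr = n.ψ := rfl

theorem sec_hat_of_mem {K : Subgroup G} (hK0 : K ≤ normalizer (U : Set G))
    (hK1 : K ≤ normalizer (U₀ : Set G)) {e : G} (he : e ∈ E) (heK : e ∈ K) (x : Fin 2 → F) :
    (n.sec hK0 hK1).hat e x = (n.ρ e : Matrix (Fin 2) (Fin 2) F) *ᵥ x := by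
  obtain ⟨u, hu, rfl⟩ := n.ψ_surj x
  have := (n.sec hK0 hK1).hat_spec e heK u hu
  rw [sec_pr] at this
  rw [← this, n.ψ_eq e he u hu]

theorem ρ_one : n.ρ 1 = 1 := by
  have := n.ρ_mul 1 (one_mem _) 1 (one_mem _)
  rw [mul_one] at this
  exact left_eq_mul.1 this

theorem ρ_inv {x : G} (hx : x ∈ E) : n.ρ x⁻¹ = (n.ρ x)⁻¹ := by
  have := n.ρ_mul x hx x⁻¹ (inv_mem hx)
  rw [mul_inv_cancel, ρ_one] at this
  exact eq_inv_of_mul_eq_one_right this.symm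

theorem ρ_pow {x : G} (hx : x ∈ E) (k : ℕ) : n.ρ (x ^ k) = n.ρ x ^ k := by
  induction k with
  | zero => simp [ρ_one]
  | succ k ih => rw [pow_succ, n.ρ_mul _ (pow_mem hx k) _ hx, ih, pow_succ]

/-- The commutator under `ρ`. -/
theorem ρ_comm {x y : G} (hx : x ∈ E) (hy : y ∈ E) :
    n.ρ (x * y * x⁻¹ * y⁻¹) = ⁅n.ρ x, n.ρ y⁆ := by
  rw [n.ρ_mul _ (mul_mem (mul_mem hx hy) (inv_mem hx)) _ (inv_mem hy),
    n.ρ_mul _ (mul_mem hx hy) _ (inv_mem hx), n.ρ_mul _ hx _ hy, n.ρ_inv hx, n.ρ_inv hy,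
    commutatorElement_def]

/-- Transitivity on nonzero vectors. -/
theorem exists_transitive {a b : Fin 2 → F} (ha : a ≠ 0) (hb : b ≠ 0) :
    ∃ e ∈ E, (n.ρ e : Matrix (Fin 2) (Fin 2) F) *ᵥ a = b := by
  obtain ⟨r₀, hr₀, hr₀v⟩ := exists_comm_mulVec a ha
  obtain ⟨r₁, hr₁, hr₁v⟩ := exists_comm_mulVec b hb
  obtain ⟨e, he, hee⟩ := n.ρ_surj (r₁ * r₀⁻¹) (mul_mem hr₁ (inv_mem hr₀))
  refine ⟨e, he, ?_⟩
  rw [hee, mulVec_mul', ← hr₀v, mulVec_inv'', hr₁v]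

end NatSec

end Cfsg.Agent.Lib.FG85.BB
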