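/-
Idempotents in the endomorphism ring of an elementary abelian `3`-group.
-/
import Cfsg.Agent.Lib.FG85.BB3

set_option autoImplicit false
set_option linter.unusedSectionVars false

namespace Cfsg.Agent.Lib.FG85.BB

section NS

variable {Ξ : Type*} [AddCommGroup Ξ]

/-- Involutions in a conjugation-closed set, no two of which commute unless equal. -/
theorem ns_of_cp (h3 : (3 : AddMonoid.End Ξ) = 0) (I : Set (AddMonoid.End Ξ))
    (hinv : ∀ a ∈ I, a * a = 1) (hconj : ∀ a ∈ I, ∀ b ∈ I, a * b * a ∈ I)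
    (hcp : ∀ a ∈ I, ∀ b ∈ I, a * b = b * a → a = b)
    (hfin : ∀ a ∈ I, ∀ b ∈ I, IsOfFinOrder (a * b))
    {a b : AddMonoid.End Ξ} (ha : a ∈ I) (hb : b ∈ I) {x : Ξ} (hax : a x = -x) (hbx : b x = x) :
    x = 0 := by
  by_contra hx
  have h3x : x + x + x = 0 := by
    have := congrArg (fun f : AddMonoid.End Ξ => f x) h3
    have e : (3 : AddMonoid.End Ξ) x = x + x + x := by
      have : (3 : AddMonoid.End Ξ) = 1 + 1 + 1 := by norm_num
      rw [this]
      rfl
    rw [← e]
    exact this
  have hnx : x ≠ -x := by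
    intro h
    apply hx
    have h2 : x + x = 0 := by
      nth_rw 1 [h]
      exact neg_add_cancel x
    rw [h2, zero_add] at h3x
    exact h3x
  set w := a * b with hw
  have hwx : w x = -x := by
    show a (b x) = -x
    rw [hbx, hax]
  have hpow : ∀ k : ℕ, (w ^ k) x = x ∨ (w ^ k) x = -x := by
    intro k
    induction k with
    | zero => left; simp
    | succ k ih =>
      rw [pow_succ]
      show (w ^ k) (w x) = _ ∨ (w ^ k) (w x) = _
      rw [hwx, map_neg]
      rcases ih with h | h <;> rw [h]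
      · right; rfl
      · left; simp
  have hodd : ∀ k : ℕ, (w ^ (2 * k + 1)) x = -x := by
    intro k
    induction k with
    | zero => simpa using hwx
    | succ k ih =>
      have e : 2 * (k + 1) + 1 = (2 * k + 1) + 2 := by ring
      rw [e, pow_add]
      show (w ^ (2 * k + 1)) ((w ^ 2) x) = _
      have : (w ^ 2) x = x := by
        rw [pow_two]
        show w (w x) = x
        rw [hwx, map_neg, hwx, neg_neg]
      rw [this, ih]
  set n := orderOf w with hn
  have hnpos : 0 < n := (hfin a ha b hb).orderOf_pos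
  have hwn : w ^ n = 1 := pow_orderOf_eq_one w
  obtain ⟨m, hm⟩ : ∃ m, n = 2 * m := by
    rcases Nat.even_or_odd' n with ⟨m, h | h⟩
    · exact ⟨m, h⟩
    · exfalso
      apply hnx
      have := hodd m
      rw [← h, hwn] at this
      exact this
  have hmpos : 0 < m := by omega
  have hwm1 : w ^ m ≠ 1 := pow_ne_one_of_lt_orderOf hmpos.ne' (by omega)
  have haa := hinv a ha
  have hbb := hinv b hb
  set w' := b * a with hw'
  have hw'w : w' * w = 1 := by
    calc w' * w = b * (a * a) * b := by simp only [hw, hw', mul_assoc]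
      _ = 1 := by rw [haa, mul_one, hbb]
  have hc : a * w = w' * a := by
    calc a * w = (a * a) * b := by simp only [hw, mul_assoc]
      _ = b := by rw [haa, one_mul]
      _ = b * (a * a) := by rw [haa, mul_one]
      _ = w' * a := by simp only [hw', mul_assoc]
  have hck : ∀ k : ℕ, a * w ^ k = w' ^ k * a := by
    intro k
    induction k with
    | zero => simp
    | succ k ih =>
      calc a * w ^ (k + 1) = (a * w ^ k) * w := by rw [pow_succ, mul_assoc]
        _ = w' ^ k * (a * w) := by rw [ih, mul_assoc]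
        _ = w' ^ (k + 1) * a := by rw [hc, pow_succ, mul_assoc (w' ^ k) w' a]
  have hcancel : ∀ k : ℕ, w' ^ k * w ^ k = 1 := by
    intro k
    induction k with
    | zero => simp
    | succ k ih =>
      calc w' ^ (k + 1) * w ^ (k + 1) = w' ^ k * (w' * w) * w ^ k := by
            rw [pow_succ, pow_succ']
            simp only [mul_assoc]
        _ = 1 := by rw [hw'w, mul_one, ih]
  have hS : ∀ k : ℕ, a * w ^ k ∈ I ∧ a * w ^ (k + 1) ∈ I := by
    intro k
    induction k with
    | zero =>
      refine ⟨by simpa using ha, ?_⟩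
      have : a * w ^ (0 + 1) = b := by
        calc a * w ^ (0 + 1) = (a * a) * b := by simp [hw, mul_assoc]
          _ = b := by rw [haa, one_mul]
      rw [this]
      exact hb
    | succ k ih =>
      refine ⟨ih.2, ?_⟩
      have e : a * w ^ (k + 1 + 1) = (a * w ^ (k + 1)) * (a * w ^ k) * (a * w ^ (k + 1)) := by
        have h1 : (a * w ^ (k + 1)) * (a * w ^ k) = w' := by
          rw [hck (k + 1)]
          calc w' ^ (k + 1) * a * (a * w ^ k) = w' ^ (k + 1) * (a * a) * w ^ k := by
                simp only [mul_assoc]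
            _ = w' * (w' ^ k * w ^ k) := by
                rw [haa, mul_one, pow_succ']
                simp only [mul_assoc]
            _ = w' := by rw [hcancel, mul_one]
        rw [h1, ← mul_assoc, ← hc, mul_assoc, pow_succ' w (k + 1)]
      rw [e]
      exact hconj _ (hconj _ ih.2 _ ih.1) _ ih.2 |> fun h => by
        have e2 : (a * w ^ (k + 1)) * (a * w ^ k) * (a * w ^ (k + 1)) =
          (a * w ^ (k + 1)) * (a * w ^ k) * (a * w ^ (k + 1)) := rfl
        exact hconj _ ih.2 _ ih.1
  have hmm : w ^ m * w ^ m = 1 := by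
    rw [← pow_add, ← two_mul, ← hm, hwn]
  have hw'm : w' ^ m = w ^ m := by
    calc w' ^ m = w' ^ m * (w ^ m * w ^ m) := by rw [hmm, mul_one]
      _ = (w' ^ m * w ^ m) * w ^ m := by rw [mul_assoc]
      _ = w ^ m := by rw [hcancel, one_mul]
  have hcomm : a * (a * w ^ m) = (a * w ^ m) * a := by
    calc a * (a * w ^ m) = (a * a) * w ^ m := by rw [mul_assoc]
      _ = w ^ m := by rw [haa, one_mul]
      _ = w' ^ m * (a * a) := by rw [haa, mul_one, hw'm]
      _ = (w' ^ m * a) * a := by rw [mul_assoc]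
      _ = (a * w ^ m) * a := by rw [hck]
  have h5 := hcp a ha _ (hS m).1 hcomm
  apply hwm1
  calc w ^ m = (a * a) * w ^ m := by rw [haa, one_mul]
    _ = a * (a * w ^ m) := by rw [mul_assoc]
    _ = a * a := by rw [← h5]
    _ = 1 := haa

end NS

section Base

variable {Ξ : Type*} [AddCommGroup Ξ] [Finite Ξ]

/-- The first step: `P p P = P`. -/
theorem base_alg (P : AddMonoid.End Ξ) (T : Set (AddMonoid.End Ξ)) (hP : P ∈ T)
    (hid : ∀ p ∈ T, p * p = p)
    (hns : ∀ p ∈ T, ∀ q ∈ T, ∀ x : Ξ, p x = x → q x = 0 → x = 0)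
    (hcard : ∀ p ∈ T, Nat.card (AddMonoidHom.range p) = Nat.card (AddMonoidHom.range P))
    (Es : Set (AddMonoid.End Ξ))
    (hE : ∀ e ∈ Es, ∃ e' : AddMonoid.End Ξ, e * e' = 1 ∧ e' * e = 1 ∧ (∀ p ∈ T, e * p * e' ∈ T) ∧
      ∀ t : Ξ, P t = 0 → e t = t)
    (htrans : ∀ n m : Ξ, P n = n → P m = m → n ≠ 0 → m ≠ 0 → ∃ e ∈ Es, e n = m)
    {p : AddMonoid.End Ξ} (hp : p ∈ T) : P * p * P = P := by
  have hPP := hid P hP
  have hpp := hid p hp
  have hPx : ∀ x, P (P x) = P x := fun x => by
    have := congrArg (fun f : AddMonoid.End Ξ => f x) hPP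
    exact this
  have hpx : ∀ x, p (p x) = p x := fun x => by
    have := congrArg (fun f : AddMonoid.End Ξ => f x) hpp
    exact this
  -- `Π` is bijective on the image of `P`
  let Pi0 : AddMonoidHom.range P →+ AddMonoidHom.range P :=
    { toFun := fun n => ⟨P (p n), ⟨_, rfl⟩⟩
      map_zero' := by
        apply Subtype.ext
        simp
      map_add' := by
        intro a b
        apply Subtype.ext
        simp }
  have hmemP : ∀ n : AddMonoidHom.range P, P n = n := by
    rintro ⟨_, x, rfl⟩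
    exact hPx x
  have hPiinj : Function.Injective Pi0 := by
    rw [injective_iff_map_eq_zero]
    rintro n hn
    have h1 : P (p n) = 0 := congrArg Subtype.val hn
    have h2 : p n = 0 := hns p hp P hP _ (hpx _) h1
    have h3 : (n : Ξ) = 0 := hns P hP p hp _ (hmemP n) h2
    exact Subtype.ext h3
  have hPisurj : Function.Surjective Pi0 := Finite.injective_iff_surjective.1 hPiinj
  -- `P` maps the image of `p` onto the image of `P`
  let g0 : AddMonoidHom.range p →+ AddMonoidHom.range P :=
    { toFun := fun x => ⟨P x, ⟨_, rfl⟩⟩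
      map_zero' := by
        apply Subtype.ext
        simp
      map_add' := by
        intro a b
        apply Subtype.ext
        simp }
  have hmemp : ∀ x : AddMonoidHom.range p, p x = x := by
    rintro ⟨_, x, rfl⟩
    exact hpx x
  have hg0inj : Function.Injective g0 := by
    rw [injective_iff_map_eq_zero]
    intro x hx
    have h1 : P x = 0 := congrArg Subtype.val hx
    exact Subtype.ext (hns p hp P hP _ (hmemp x) h1)
  have hg0surj : Function.Surjective g0 :=
    (hg0inj.bijective_of_nat_card_le (le_of_eq (hcard p hp).symm)).2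
  refine AddMonoidHom.ext fun u => ?_
  show P (p (P u)) = P u
  by_contra hne
  set n₁ : Ξ := P u with hn₁
  have hn₁P : P n₁ = n₁ := hPx u
  set a := n₁ - P (p n₁) with ha
  have ha0 : a ≠ 0 := sub_ne_zero.2 (Ne.symm hne)
  -- `θ₁`
  obtain ⟨⟨θ₁, hθ₁⟩, hθ⟩ := hg0surj ⟨n₁, ⟨u, rfl⟩⟩
  have hPθ : P θ₁ = n₁ := congrArg Subtype.val hθ
  have hpθ : p θ₁ = θ₁ := hmemp ⟨θ₁, hθ₁⟩
  have hPt : P (θ₁ - n₁) = 0 := by rw [map_sub, hPθ, hn₁P, sub_self]
  have hPpt : P (p (θ₁ - n₁)) = a := by
    rw [map_sub, map_sub, hpθ, hPθ]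
  -- `m`
  have hPa : P (-a) = -a := by
    rw [map_neg, ha, map_sub, hn₁P, hPx]
  obtain ⟨⟨m, hm⟩, hmm⟩ := hPisurj ⟨-a, ⟨-a, hPa⟩⟩
  have hPim : P (p m) = -a := congrArg Subtype.val hmm
  have hPm : P m = m := hmemP ⟨m, hm⟩
  have hm0 : m ≠ 0 := by
    rintro rfl
    rw [map_zero, map_zero] at hPim
    exact ha0 (neg_eq_zero.1 hPim.symm)
  have hn0 : n₁ ≠ 0 := by
    intro h
    apply ha0
    rw [ha, h, map_zero, map_zero, sub_zero]
  obtain ⟨e, heE, hen⟩ := htrans n₁ m hn₁P hPm hn0 hm0
  obtain ⟨e', hee', he'e, hconj, hfix⟩ := hE e heE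
  set x := e θ₁ with hx
  have hxm : x = m + (θ₁ - n₁) := by
    have h1 : θ₁ = n₁ + (θ₁ - n₁) := by abel
    rw [hx]
    conv_lhs => rw [h1, map_add, hen, hfix _ hPt]
  have hPpx : P (p x) = 0 := by
    rw [hxm, map_add, map_add, hPim, hPpt]
    simp
  have hpx0 : p x = 0 := hns p hp P hP _ (hpx _) hPpx
  have hqx : (e * p * e') x = x := by
    show e (p (e' (e θ₁))) = e θ₁
    have : e' (e θ₁) = θ₁ := by
      have := congrArg (fun f : AddMonoid.End Ξ => f θ₁) he'e
      exact this
    rw [this, hpθ]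
  have hx0 : x = 0 := hns _ (hconj p hp) p hp x hqx hpx0
  apply hm0
  have h6 : P x = m := by
    rw [hxm, map_add, hPt, hPm, add_zero]
  rw [← h6, hx0, map_zero]

end Base

section Alg

variable {R : Type*} [Ring R]

/-- The expansion of `(P + X) q (P + Y)`. -/
theorem rel_core (P X Y X' Y' : R) (hPP : P * P = P) (hXP : X * P = 0) (hPX : P * X = X)
    (hPY : P * Y = 0) (hYP : Y * P = Y) (hXP' : X' * P = 0) (hPX' : P * X' = X')
    (hPY' : P * Y' = 0) (hYP' : Y' * P = Y') :
    (P + X) * (P + X' + Y' + Y' * X') * (P + Y) = P + X' * Y + X * Y' + (X * Y') * (X' * Y) := by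
  have h1 : (P + X) * (P + X' + Y' + Y' * X') = P + X' + X * Y' + X * Y' * X' := by
    have e1 : P * (Y' * X') = 0 := by rw [← mul_assoc, hPY', zero_mul]
    have e2 : X * X' = 0 := by
      calc X * X' = X * (P * X') := by rw [hPX']
        _ = (X * P) * X' := by rw [mul_assoc]
        _ = 0 := by rw [hXP, zero_mul]
    simp only [add_mul, mul_add, hPP, hPX', hPY', e1, hXP, e2]
    simp only [mul_assoc, add_zero, zero_add]
  rw [h1]
  have e3 : Y' * Y = 0 := by
    calc Y' * Y = (Y' * P) * Y := by rw [hYP']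
      _ = Y' * (P * Y) := by rw [mul_assoc]
      _ = 0 := by rw [hPY, mul_zero]
  simp only [add_mul, mul_add, hPP, hPY, hXP', mul_assoc, hYP', e3, mul_zero, add_zero, zero_add]
  abel

section Sub

variable (P : R) (hPP : P * P = P)

/-- `X p = P p (1 - P)`. -/
def XX (P p : R) : R := P * p * (1 - P)
/-- `Y p = (1 - P) p P`. -/
def YY (P p : R) : R := (1 - P) * p * P

include hPP

theorem XX_P (p : R) : XX P p * P = 0 := by
  have : (1 - P) * P = 0 := by rw [sub_mul, one_mul, hPP, sub_self]
  rw [XX, mul_assoc, this, mul_zero]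

theorem P_XX (p : R) : P * XX P p = XX P p := by
  rw [XX, ← mul_assoc, ← mul_assoc, hPP]

theorem P_YY (p : R) : P * YY P p = 0 := by
  have : P * (1 - P) = 0 := by rw [mul_sub, mul_one, hPP, sub_self]
  rw [YY, ← mul_assoc, ← mul_assoc, this, zero_mul, zero_mul]

theorem YY_P (p : R) : YY P p * P = YY P p := by
  rw [YY, mul_assoc, hPP]

/-- The decomposition of `p`. -/
theorem dec (p : R) (h1 : P * p * P = P) (h2 : p * P * p = p) :
    p = P + XX P p + YY P p + YY P p * XX P p := by
  have e1 : YY P p * XX P p = (1 - P) * p * (1 - P) := by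
    calc YY P p * XX P p = (1 - P) * p * (P * P) * p * (1 - P) := by
          simp only [YY, XX, mul_assoc]
      _ = (1 - P) * (p * P * p) * (1 - P) := by rw [hPP]; simp only [mul_assoc]
      _ = (1 - P) * p * (1 - P) := by rw [h2]
  rw [e1, XX, YY]
  have e2 : P + P * p * (1 - P) + (1 - P) * p * P + (1 - P) * p * (1 - P) =
      p + (P - P * p * P) := by noncomm_ring
  rw [e2, h1, sub_self, add_zero]

theorem P_mul_eq (p : R) (h1 : P * p * P = P) : P * p = P + XX P p := by
  rw [XX, mul_sub, mul_one]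
  rw [h1]
  abel

theorem mul_P_eq (p : R) (h1 : P * p * P = P) : p * P = P + YY P p := by
  rw [YY, sub_mul, one_mul, sub_mul]
  rw [h1]
  abel

/-- The basic relation. -/
theorem main_rel (p q : R) (hp1 : P * p * P = P) (hp2 : p * P * p = p) (hq1 : P * q * P = P)
    (hq2 : q * P * q = q) (hpq : p * q * p = p) :
    XX P p * YY P q + XX P q * YY P p + (XX P p * YY P q) * (XX P q * YY P p) = 0 := by
  have h := rel_core P (XX P p) (YY P p) (XX P q) (YY P q) hPP (XX_P P hPP p) (P_XX P hPP p)
    (P_YY P hPP p) (YY_P P hPP p) (XX_P P hPP q) (P_XX P hPP q) (P_YY P hPP q) (YY_P P hPP q)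
  rw [← dec P hPP q hq1 hq2, ← P_mul_eq P hPP p hp1, ← mul_P_eq P hPP p hp1] at h
  have h2 : P * p * q * (p * P) = P := by
    calc P * p * q * (p * P) = P * (p * q * p) * P := by simp only [mul_assoc]
      _ = P := by rw [hpq, hp1]
  rw [h2] at h
  have h3 : P + XX P q * YY P p + XX P p * YY P q + (XX P p * YY P q) * (XX P q * YY P p) - P =
      XX P p * YY P q + XX P q * YY P p + (XX P p * YY P q) * (XX P q * YY P p) := by abel
  rw [← h3, ← h, sub_self]

end Sub

/-- Elements acting trivially off the image of `P`, commuting with `P`. -/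
structure GoodE (P : R) (e e' : R) : Prop where
  mul1 : e * e' = 1
  mul2 : e' * e = 1
  comm : e * P = P * e
  fix : e * (1 - P) = 1 - P

namespace GoodE

variable {P : R} {e e' f f' : R}

theorem comm' (h : GoodE P e e') : e' * P = P * e' := by
  calc e' * P = e' * (P * (e * e')) := by rw [h.mul1, mul_one]
    _ = e' * ((P * e) * e') := by simp only [mul_assoc]
    _ = e' * ((e * P) * e') := by rw [h.comm]
    _ = (e' * e) * P * e' := by simp only [mul_assoc]
    _ = P * e' := by rw [h.mul2, one_mul]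

theorem fix' (h : GoodE P e e') : e' * (1 - P) = 1 - P := by
  calc e' * (1 - P) = e' * (e * (1 - P)) := by rw [h.fix]
    _ = (e' * e) * (1 - P) := by rw [mul_assoc]
    _ = 1 - P := by rw [h.mul2, one_mul]

theorem fix_left (h : GoodE P e e') : (1 - P) * e = 1 - P := by
  rw [sub_mul, one_mul, ← h.comm, ← h.fix, mul_sub, mul_one]

theorem mul (h : GoodE P e e') (h' : GoodE P f f') : GoodE P (e * f) (f' * e') where
  mul1 := by
    calc e * f * (f' * e') = e * (f * f') * e' := by simp only [mul_assoc]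
      _ = 1 := by rw [h'.mul1, mul_one, h.mul1]
  mul2 := by
    calc f' * e' * (e * f) = f' * (e' * e) * f := by simp only [mul_assoc]
      _ = 1 := by rw [h.mul2, mul_one, h'.mul2]
  comm := by
    calc e * f * P = e * (f * P) := by rw [mul_assoc]
      _ = e * (P * f) := by rw [h'.comm]
      _ = (e * P) * f := by rw [mul_assoc]
      _ = (P * e) * f := by rw [h.comm]
      _ = P * (e * f) := by rw [mul_assoc]
  fix := by rw [mul_assoc, h'.fix, h.fix]

end GoodE

/-- Conjugating by a good element. -/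
theorem conj_rel {P : R} (hPP : P * P = P) {p q e e' : R} (he : GoodE P e e') (hp1 : P * p * P = P) (hp2 : p * P * p = p)
    (hpq : p * (e * q * e') * p = p)
    (hq1' : P * (e * q * e') * P = P) (hq2' : (e * q * e') * P * (e * q * e') = e * q * e') :
    (XX P p * YY P q) * e' + e * (XX P q * YY P p) + (XX P p * YY P q) * (XX P q * YY P p) = 0 := by
  have h := main_rel P hPP p (e * q * e') hp1 hp2 hq1' hq2' hpq
  have hX : XX P (e * q * e') = e * XX P q := by
    calc XX P (e * q * e') = (P * e) * q * (e' * (1 - P)) := by simp only [XX, mul_assoc]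
      _ = (e * P) * q * (1 - P) := by rw [he.fix', he.comm]
      _ = e * XX P q := by simp only [XX, mul_assoc]
  have hY : YY P (e * q * e') = YY P q * e' := by
    calc YY P (e * q * e') = ((1 - P) * e) * q * (e' * P) := by simp only [YY, mul_assoc]
      _ = (1 - P) * q * (P * e') := by rw [he.fix_left, he.comm']
      _ = YY P q * e' := by simp only [YY, mul_assoc]
  rw [hX, hY] at h
  have e1 : XX P p * (YY P q * e') = XX P p * YY P q * e' := by rw [mul_assoc]
  have e2 : e * XX P q * YY P p = e * (XX P q * YY P p) := by rw [mul_assoc]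
  have e3 : XX P p * YY P q * e' * (e * (XX P q * YY P p)) =
      XX P p * YY P q * (XX P q * YY P p) := by
    calc XX P p * YY P q * e' * (e * (XX P q * YY P p))
        = XX P p * YY P q * (e' * e) * (XX P q * YY P p) := by simp only [mul_assoc]
      _ = _ := by rw [he.mul2, mul_one]
  rw [e1, e2, e3] at h
  exact h

/-- The vanishing of `X_p Y_q`, from the action of quaternion elements. -/
theorem xy_zero {P : R} (hPP : P * P = P) (h3 : (3 : R) = 0) {p q : R}
    (hp1 : P * p * P = P) (hp2 : p * P * p = p)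
    (hq1 : P * q * P = P) (hq2 : q * P * q = q) (hpq : p * q * p = p)
    {ζ ζ' ι ι' κ κ' : R} (hζ : GoodE P ζ ζ') (hι : GoodE P ι ι') (hκ : GoodE P κ κ')
    (hrel : ∀ e e' : R, (e = ζ ∧ e' = ζ') ∨ (e = ι ∧ e' = ι') ∨ (e = κ ∧ e' = κ') ∨
        (e = ι * κ ∧ e' = κ' * ι') →
      p * (e * q * e') * p = p ∧ P * (e * q * e') * P = P ∧
        (e * q * e') * P * (e * q * e') = e * q * e')
    (hζP : ζ * P = -P) (hιP : ι * ι * P = -P) (hκP : κ * κ * P = -P)
    (hικ : ι * κ * P = -(κ * ι * P)) :
    XX P p * YY P q = 0 := by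
  set A := XX P p * YY P q with hA
  set A' := XX P q * YY P p with hA'
  have hAP : A * P = A := by
    rw [hA, mul_assoc, YY_P P hPP]
  have hPA : P * A = A := by
    rw [hA, ← mul_assoc, P_XX P hPP]
  have hPA' : P * A' = A' := by
    rw [hA', ← mul_assoc, P_XX P hPP]
  have h0 : A + A' + A * A' = 0 := main_rel P hPP p q hp1 hp2 hq1 hq2 hpq
  have hgen : ∀ e e' : R, GoodE P e e' → ((e = ζ ∧ e' = ζ') ∨ (e = ι ∧ e' = ι') ∨ (e = κ ∧ e' = κ') ∨
      (e = ι * κ ∧ e' = κ' * ι')) → A * e' + e * A' + A * A' = 0 := by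
    intro e e' he hsp
    obtain ⟨h1, h2, h4⟩ := hrel e e' hsp
    exact conj_rel hPP he hp1 hp2 h1 h2 h4
  -- the centre
  have hζ'P : ζ' * P = -P := by
    have : (ζ' * ζ) * P = ζ' * (ζ * P) := mul_assoc _ _ _
    rw [hζ.mul2, one_mul, hζP, mul_neg] at this
    exact (neg_eq_iff_eq_neg.2 this).symm
  have hAζ : A * ζ' = -A := by
    calc A * ζ' = A * P * ζ' := by rw [hAP]
      _ = A * (ζ' * P) := by rw [mul_assoc, hζ.comm']
      _ = -A := by rw [hζ'P, mul_neg, hAP]
  have hζA' : ζ * A' = -A' := by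
    calc ζ * A' = ζ * (P * A') := by rw [hPA']
      _ = (ζ * P) * A' := by rw [mul_assoc]
      _ = -A' := by rw [hζP, neg_mul, hPA']
  have h1 := hgen ζ ζ' hζ (Or.inl ⟨rfl, rfl⟩)
  rw [hAζ, hζA'] at h1
  have hAA' : A * A' = 0 := by
    have e : A * A' = (3 : R) * (A * A') - ((A + A' + A * A') + (-A + -A' + A * A')) := by
      noncomm_ring
    rw [e, h3, h0, h1]
    simp
  have hA'A : A' = -A := by
    rw [hAA', add_zero] at h0
    exact eq_neg_of_add_eq_zero_right h0
  -- a general element with square `-1`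
  have hsq : ∀ e e' : R, GoodE P e e' → ((e = ζ ∧ e' = ζ') ∨ (e = ι ∧ e' = ι') ∨ (e = κ ∧ e' = κ') ∨
      (e = ι * κ ∧ e' = κ' * ι')) → e * e * P = -P → A * e = -(e * A) := by
    intro e e' he hsp hs
    have he'P : e' * P = -(e * P) := by
      have : e' * (e * e * P) = e' * (-P) := by rw [hs]
      have e1 : e' * (e * e * P) = (e' * e) * (e * P) := by simp only [mul_assoc]
      rw [e1, he.mul2, one_mul, mul_neg] at this
      rw [this, neg_neg]
    have h2 := hgen e e' he hsp
    rw [hAA', add_zero, hA'A, mul_neg] at h2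
    have e2 : A * e' = -(A * e) := by
      calc A * e' = A * P * e' := by rw [hAP]
        _ = A * (e' * P) := by rw [mul_assoc, he.comm']
        _ = A * (-(e * P)) := by rw [he'P]
        _ = -((A * P) * e) := by rw [mul_neg, he.comm, ← mul_assoc]
        _ = -(A * e) := by rw [hAP]
    rw [e2] at h2
    have h4 : -(A * e) + -(e * A) = 0 := h2
    have h5 : A * e = -(e * A) := by
      have : A * e + e * A = 0 := by
        have := neg_eq_zero.2 h4
        rwa [neg_add, neg_neg, neg_neg] at this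
      exact eq_neg_of_add_eq_zero_left this
    exact h5
  have h1' := hsq ι ι' hι (Or.inr (Or.inl ⟨rfl, rfl⟩)) hιP
  have h2' := hsq κ κ' hκ (Or.inr (Or.inr (Or.inl ⟨rfl, rfl⟩))) hκP
  have hla : (ι * κ) * (ι * κ) * P = -P := by
    calc (ι * κ) * (ι * κ) * P = ι * κ * (ι * κ * P) := by simp only [mul_assoc]
      _ = ι * κ * (-(κ * ι * P)) := by rw [hικ]
      _ = -(ι * (κ * κ * (ι * P))) := by simp only [mul_assoc, mul_neg]
      _ = -(ι * (κ * κ * (P * ι))) := by rw [hι.comm]
      _ = -(ι * ((κ * κ * P) * ι)) := by simp only [mul_assoc]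
      _ = -(ι * ((-P) * ι)) := by rw [hκP]
      _ = ι * (P * ι) := by simp only [neg_mul, mul_neg, neg_neg]
      _ = ι * ι * P := by rw [← hι.comm, mul_assoc]
      _ = -P := hιP
  have h3' := hsq (ι * κ) (κ' * ι') (hι.mul hκ) (Or.inr (Or.inr (Or.inr ⟨rfl, rfl⟩))) hla
  have hx : (ι * κ) * A = 0 := by
    have e1 : A * (ι * κ) = (ι * κ) * A := by
      calc A * (ι * κ) = (A * ι) * κ := by rw [mul_assoc A ι κ]
        _ = -(ι * (A * κ)) := by rw [h1', neg_mul, mul_assoc ι A κ]
        _ = (ι * κ) * A := by rw [h2', mul_neg, neg_neg, mul_assoc ι κ A]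
    rw [e1] at h3'
    have e2 : (ι * κ) * A = (3 : R) * ((ι * κ) * A) - ((ι * κ) * A + (ι * κ) * A) := by
      noncomm_ring
    have e3 : (ι * κ) * A + (ι * κ) * A = 0 := by
      nth_rw 1 [h3']
      simp
    rw [e2, h3, e3]
    simp
  calc A = (κ' * ι') * ((ι * κ) * A) := by
        rw [← mul_assoc, (hι.mul hκ).mul2, one_mul]
    _ = 0 := by rw [hx, mul_zero]

end Alg

section Flag

variable {Ξ : Type*} [AddCommGroup Ξ]

/-- The smaller flag member. -/
def LL1 (P : AddMonoid.End Ξ) (T : Set (AddMonoid.End Ξ)) (x : Ξ) : Prop :=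
  P x = 0 ∧ ∀ p ∈ T, XX P p x = 0

/-- The larger flag member. -/
def LL2 (P : AddMonoid.End Ξ) (T : Set (AddMonoid.End Ξ)) (x : Ξ) : Prop := LL1 P T (x - P x)

variable {P : AddMonoid.End Ξ} {T : Set (AddMonoid.End Ξ)}

theorem LL1.add {x y : Ξ} (hx : LL1 P T x) (hy : LL1 P T y) : LL1 P T (x + y) :=
  ⟨by rw [map_add, hx.1, hy.1, add_zero], fun p hp => by rw [map_add, hx.2 p hp, hy.2 p hp, add_zero]⟩

theorem LL1.zero : LL1 P T (0 : Ξ) :=
  ⟨map_zero _, fun p _ => map_zero _⟩

theorem LL2.add {x y : Ξ} (hx : LL2 P T x) (hy : LL2 P T y) : LL2 P T (x + y) := by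
  have e : x + y - P (x + y) = (x - P x) + (y - P y) := by
    rw [map_add]
    abel
  unfold LL2
  rw [e]
  exact LL1.add hx hy

theorem LL1.toLL2 {x : Ξ} (hx : LL1 P T x) : LL2 P T x := by
  unfold LL2
  rw [hx.1, sub_zero]
  exact hx

/-- The flag. -/
theorem flag_theorem (h3 : (3 : AddMonoid.End Ξ) = 0) (hPP : P * P = P)
    (hdec : ∀ p ∈ T, p = P + XX P p + YY P p + YY P p * XX P p)
    (hXY : ∀ p ∈ T, ∀ q ∈ T, XX P p * YY P q = 0) :
    ∃ Fl : AddMonoid.End Ξ → Prop, (∀ p ∈ T, ∀ q ∈ T, Fl ((1 + p) * (1 + q))) ∧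
      (∀ g h, Fl g → Fl h → Fl (g * h)) ∧ Fl 1 ∧ ∀ g, Fl g → g * g * g = 1 := by
  have h3x : ∀ y : Ξ, y + y + y = 0 := by
    intro y
    have e : (3 : AddMonoid.End Ξ) y = y + y + y := by
      have : (3 : AddMonoid.End Ξ) = 1 + 1 + 1 := by norm_num
      rw [this]
      rfl
    rw [← e, h3]
    rfl
  have hPx : ∀ x, P (P x) = P x := fun x => congrArg (fun f : AddMonoid.End Ξ => f x) hPP
  have hXP : ∀ (p : AddMonoid.End Ξ) x, XX P p (P x) = 0 := fun p x =>
    congrArg (fun f : AddMonoid.End Ξ => f x) (XX_P P hPP p)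
  have hPX : ∀ (p : AddMonoid.End Ξ) x, P (XX P p x) = XX P p x := fun p x =>
    congrArg (fun f : AddMonoid.End Ξ => f x) (P_XX P hPP p)
  have hPY : ∀ (p : AddMonoid.End Ξ) x, P (YY P p x) = 0 := fun p x =>
    congrArg (fun f : AddMonoid.End Ξ => f x) (P_YY P hPP p)
  have hYP : ∀ (p : AddMonoid.End Ξ) x, YY P p (P x) = YY P p x := fun p x =>
    congrArg (fun f : AddMonoid.End Ξ => f x) (YY_P P hPP p)
  have hY1 : ∀ p ∈ T, ∀ u, LL1 P T (YY P p u) := by
    intro p hp u
    refine ⟨hPY p u, fun q hq => ?_⟩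
    exact congrArg (fun f : AddMonoid.End Ξ => f u) (hXY q hq p hp)
  -- `d_p = p - P`
  have hd : ∀ p ∈ T, ∀ x, p x = P x + XX P p x + YY P p x + YY P p (XX P p x) := by
    intro p hp x
    exact congrArg (fun f : AddMonoid.End Ξ => f x) (hdec p hp)
  have hd3 : ∀ p ∈ T, ∀ x, LL1 P T x → p x = P x := by
    intro p hp x hx
    rw [hd p hp, hx.2 p hp, ← hYP p x, hx.1]
    simp
  have hd1 : ∀ p ∈ T, ∀ x, LL2 P T (p x - P x) := by
    intro p hp x
    have e1 : p x - P x = XX P p x + YY P p x + YY P p (XX P p x) := by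
      rw [hd p hp]
      abel
    unfold LL2
    have e2 : (p x - P x) - P (p x - P x) = YY P p (x + XX P p x) := by
      rw [e1, map_add, map_add, hPX, hPY, hPY, map_add]
      abel
    rw [e2]
    exact hY1 p hp _
  have hd2 : ∀ p ∈ T, ∀ x, LL2 P T x → LL1 P T (p x - P x) := by
    intro p hp x hx
    have hx' : LL1 P T (x - P x) := hx
    have e1 : x = P x + (x - P x) := by abel
    have e2 : p x - P x = YY P p x := by
      have h1 : p (x - P x) = P (x - P x) := hd3 p hp _ hx'
      have h2 : P (x - P x) = 0 := hx'.1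
      have h3' : p x = p (P x) := by
        have : p x - p (P x) = 0 := by
          rw [← map_sub, h1, h2]
        exact sub_eq_zero.1 this
      rw [h3', hd p hp (P x), hXP, hYP, hPx]
      simp
    rw [e2]
    exact hY1 p hp _
  -- the map `ε = 1 + P`
  have hεε : ∀ x, (x + P x) + P (x + P x) = x := by
    intro x
    rw [map_add, hPx]
    have := h3x (P x)
    have e : x + P x + (P x + P x) = x + (P x + P x + P x) := by abel
    rw [e, this, add_zero]
  have hε2 : ∀ x, LL2 P T x → LL2 P T (x + P x) := by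
    intro x hx
    unfold LL2 at hx ⊢
    have e : x + P x - P (x + P x) = x - P x := by
      rw [map_add, hPx]
      abel
    rw [e]
    exact hx
  have hε1 : ∀ x, LL1 P T x → x + P x = x := by
    intro x hx
    rw [hx.1, add_zero]
  have hmul : ∀ (p q : AddMonoid.End Ξ) (x : Ξ), ((1 + p) * (1 + q)) x =
      (x + q x) + p (x + q x) := fun _ _ _ => rfl
  refine ⟨fun g => (∀ x, LL2 P T (g x - x)) ∧ (∀ x, LL2 P T x → LL1 P T (g x - x)) ∧
    (∀ x, LL1 P T x → g x = x), ?_, ?_, ?_, ?_⟩
  · -- generators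
    intro p hp q hq
    -- the basic formula
    have key : ∀ (u₁ u₂ a b c d x : Ξ), u₁ + c = x →
        (u₁ + u₂ + (a + b)) - x = (u₂ + d) + (a - c) + (b - d) := by
      intro u₁ u₂ a b c d x h
      subst h
      abel
    have hform : ∀ x, ((1 + p) * (1 + q)) x - x =
        ((q x - P x) + P (q x - P x)) + (p (x + P x) - P (x + P x)) +
          (p (q x - P x) - P (q x - P x)) := by
      intro x
      rw [hmul]
      have e1 : x + q x = (x + P x) + (q x - P x) := by abel
      rw [e1, map_add p]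
      exact key _ _ _ _ _ _ x (hεε x)
    refine ⟨fun x => ?_, fun x hx => ?_, fun x hx => ?_⟩
    · rw [hform]
      exact ((hε2 _ (hd1 q hq x)).add (hd1 p hp _)).add (hd2 p hp _ (hd1 q hq x)).toLL2
    · rw [hform]
      have h1 := hd2 q hq x hx
      have h2 := hd2 p hp _ (hε2 x hx)
      have h3' : p (q x - P x) - P (q x - P x) = 0 := by
        rw [hd3 p hp _ h1, sub_self]
      rw [hε1 _ h1, h3', add_zero]
      exact h1.add h2
    · have h0 : q x - P x = 0 := by rw [hd3 q hq x hx, sub_self]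
      have h1 := hform x
      simp only [h0, map_zero, sub_self, add_zero, hε1 x hx, hd3 p hp x hx, zero_add] at h1
      exact sub_eq_zero.1 h1
  · -- products
    rintro g h ⟨hg1, hg2, hg3⟩ ⟨hh1, hh2, hh3⟩
    have hform : ∀ x, (g * h) x - x = (g (h x) - h x) + (h x - x) := by
      intro x
      show g (h x) - x = _
      abel
    refine ⟨fun x => ?_, fun x hx => ?_, fun x hx => ?_⟩
    · rw [hform]
      exact (hg1 _).add (hh1 _)
    · rw [hform]
      have h1 := hh2 x hx
      have h2 : LL2 P T (h x) := by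
        have : h x = (h x - x) + x := by abel
        rw [this]
        exact h1.toLL2.add hx
      exact (hg2 _ h2).add h1
    · show g (h x) = x
      rw [hh3 x hx, hg3 x hx]
  · -- the identity
    refine ⟨fun x => ?_, fun x _ => ?_, fun x _ => rfl⟩
    · have : (1 : AddMonoid.End Ξ) x - x = 0 := sub_self x
      rw [this]
      exact LL1.zero.toLL2
    · have : (1 : AddMonoid.End Ξ) x - x = 0 := sub_self x
      rw [this]
      exact LL1.zero
  · -- the cube
    rintro g ⟨hg1, hg2, hg3⟩
    refine AddMonoidHom.ext fun x => ?_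
    show g (g (g x)) = x
    have h1 := hg3 _ (hg2 _ (hg1 x))
    -- `y₂ = g (g x - x) - (g x - x)`
    rw [map_sub, map_sub, map_sub] at h1
    have h2 : g (g (g x)) - x = (g (g x) - g x) + (g (g x) - g x) + (g (g x) - g x) := by
      have e : g (g (g x)) - g (g x) - (g (g x) - g x) = g (g x) - g x - (g x - x) := h1
      have e2 : g (g (g x)) = g (g x) + (g (g x) - g x) + (g (g x) - g x - (g x - x)) := by
        rw [← e]
        abel
      rw [e2]
      abel
    rw [h3x] at h2
    exact sub_eq_zero.1 h2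

end Flag

end Cfsg.Agent.Lib.FG85.BB
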