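/-
Exceptional blocks: the abstract situation, and its first consequences.
-/
import Cfsg.Agent.Lib.FG85.BB4

set_option autoImplicit false
set_option linter.unusedSectionVars false
set_option linter.unusedVariables false

namespace Cfsg.Agent.Lib.FG85.BB

open Subgroup Cfsg Matrix
open Cfsg.Agent.Lib.LocalEven.Util
open Cfsg.Agent.Lib.LocalEven.SecIrr
open Cfsg.Agent.Lib.LocalEven.BaumannBlock
open scoped commutatorElement

universe u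

variable {G : Type u} [Group G] [Finite G]

/-- The facts about an exceptional block which are used below. -/
structure Exc (F : Type) [Field F] (E Q W Z WE C R P B : Subgroup G) where
  n₁ : NatSec F E W Z
  n₂ : NatSec F E Q W
  h3 : (3 : F) = 0
  hWQ : W ≤ Q
  hZW : Z ≤ W
  hQE : Q ≤ E
  hWcent : ∀ w ∈ W, ∀ a ∈ Q, w * a = a * w
  hWexp : ∀ w ∈ W, w ^ 3 = 1
  hWchar : ∀ x ∈ Q, (∀ a ∈ Q, x * a = a * x) → x ^ 3 = 1 → x ∈ W
  hZE : ∀ x, x ∈ Z ↔ x ∈ W ∧ ∀ e ∈ E, e * x = x * e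
  hQQ : ⁅Q, Q⁆ = Z
  hQ3 : ∀ a ∈ Q, a ^ 3 ∈ Z
  hQcore : ∀ D : Subgroup G, D ≤ E → E ≤ normalizer (D : Set G) → IsPGroup 3 D → D ≤ Q
  hker₁ : ∀ e ∈ E, n₁.ρ e = 1 ↔ e ∈ Q
  hker₂ : ∀ e ∈ E, n₂.ρ e = 1 ↔ e ∈ Q
  hWE : WE = ⁅W, E⁆
  hZcard : Nat.card Z = Nat.card F
  hgen : closure {g : G | g ∈ E ∧ (orderOf g).Coprime 3} = E
  hQEc : ⁅Q, E⁆ = Q
  hNQ : normalizer (E : Set G) ≤ normalizer (Q : Set G)
  hNW : normalizer (E : Set G) ≤ normalizer (W : Set G)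
  hNZ : normalizer (E : Set G) ≤ normalizer (Z : Set G)
  hirr₂ : SecIrr E Q W
  hC : C = centralizer (WE : Set G)
  hRC : R ≤ C
  hRp : IsPGroup 3 R
  hCR : C ≤ normalizer (R : Set G)
  hEC : E ≤ normalizer (C : Set G)
  hER : E ≤ normalizer (R : Set G)
  hRE : R ≤ normalizer (E : Set G)
  hQR : Q ≤ R
  hRcore : ∀ D : Subgroup G, D ≤ C → C ≤ normalizer (D : Set G) → IsPGroup 3 D → D ≤ R
  hPp : IsPGroup 3 P
  hCP : centralizer (R : Set G) ≤ P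
  hBE : B ≤ normalizer (E : Set G)
  hBC : B ≤ normalizer (C : Set G)
  hBR : B ≤ normalizer (R : Set G)
  hBp : IsPGroup 3 B
  hBnot : ∃ b ∈ B, b ∉ centralizer (W : Set G)
  hnq : ∀ b ∈ B, b ∉ centralizer (W : Set G) → ¬ ⁅⁅Q, zpowers b⁆, zpowers b⁆ ≤ Z
  hSyl : ∀ U : Subgroup G, U ≤ E → IsPGroup 3 U → ∃ e ∈ E, ∀ x ∈ U, e⁻¹ * x * e ∈ normalizer (B : Set G)

namespace Exc

variable {F : Type} [Field F] {E Q W Z WE C R P B : Subgroup G}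
  (X : Exc F E Q W Z WE C R P B)

include X

theorem comm_mem {a b : G} (ha : a ∈ Q) (hb : b ∈ Q) : a * b * a⁻¹ * b⁻¹ ∈ Z := by
  have := commutator_mem_commutator ha hb
  rw [X.hQQ] at this
  exact this

theorem W_comm {a b : G} (ha : a ∈ W) (hb : b ∈ W) : a * b = b * a :=
  X.hWcent a ha b (X.hWQ hb)

theorem Z_E {x e : G} (hx : x ∈ Z) (he : e ∈ E) : e * x * e⁻¹ = x := by
  rw [((X.hZE x).1 hx).2 e he]
  group

theorem E_Q {e a : G} (he : e ∈ E) (ha : a ∈ Q) : e * a * e⁻¹ ∈ Q :=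
  conj_mem_of_mem_normalizer (X.hNQ (le_normalizer he)) ha

theorem E_W {e a : G} (he : e ∈ E) (ha : a ∈ W) : e * a * e⁻¹ ∈ W :=
  conj_mem_of_mem_normalizer (X.hNW (le_normalizer he)) ha

/-- Cubing in `W`: `x² ∈ D` implies `x ∈ D`. -/
theorem mem_of_sq_mem {D : Subgroup G} {x : G} (hx : x ∈ W) (h : x * x ∈ D) : x ∈ D := by
  have h1 : x ^ 3 = 1 := X.hWexp x hx
  have e : x = (x * x) * (x * x) := by
    have h2 : x ^ 4 = x := by rw [pow_succ, h1, one_mul]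
    calc x = x ^ 4 := h2.symm
      _ = (x * x) * (x * x) := by simp only [pow_succ, pow_zero, one_mul, mul_assoc]
  rw [e]
  exact mul_mem h h

end Exc

namespace NatSec

variable {F : Type} [Field F] {E U U₀ : Subgroup G} (n : NatSec F E U U₀)

/-- A central matrix gives a commutator in the kernel. -/
theorem rho_comm_of_neg {z e : G} (hz : z ∈ E) (he : e ∈ E)
    (hρ : (n.ρ z : Matrix (Fin 2) (Fin 2) F) = -1) : n.ρ (e * z * e⁻¹ * z⁻¹) = 1 := by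
  rw [n.ρ_comm he hz, commutatorElement_eq_one_iff_commute]
  apply Subtype.ext
  show ((n.ρ e * n.ρ z : SpecialLinearGroup (Fin 2) F) : Matrix (Fin 2) (Fin 2) F) =
    ((n.ρ z * n.ρ e : SpecialLinearGroup (Fin 2) F) : Matrix (Fin 2) (Fin 2) F)
  rw [coe_mul', coe_mul', hρ]
  simp

end NatSec

namespace Exc

variable {F : Type} [Field F] {E Q W Z WE C R P B : Subgroup G}
  (X : Exc F E Q W Z WE C R P B)

include X

/-- The matrix `-1` is not the identity. -/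
theorem neg_one_ne : (-1 : Matrix (Fin 2) (Fin 2) F) ≠ 1 := by
  intro h
  have h1 := congrFun (congrFun h 0) 0
  simp at h1
  have h2 : (2 : F) = 0 := by
    have : (-1 : F) - 1 = 0 := sub_eq_zero.2 h1
    linear_combination -this
  exact two_ne_zero' X.h3 h2

/-- If the matrix of `z ∈ E` under `ρ₁` is `-1` then `z` is central mod `Q`. -/
theorem central_mod_Q {z e : G} (hz : z ∈ E) (he : e ∈ E)
    (hρ : (X.n₁.ρ z : Matrix (Fin 2) (Fin 2) F) = -1) : e * z * e⁻¹ * z⁻¹ ∈ Q := by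
  refine (X.hker₁ _ (mul_mem (mul_mem (mul_mem he hz) (inv_mem he)) (inv_mem hz))).1 ?_
  exact X.n₁.rho_comm_of_neg hz he hρ

theorem not_mem_Q {z : G} (hz : z ∈ E) (hρ : (X.n₁.ρ z : Matrix (Fin 2) (Fin 2) F) = -1) : z ∉ Q := by
  intro h
  have h1 := (X.hker₁ z hz).2 h
  rw [h1] at hρ
  exact X.neg_one_ne hρ.symm

/-- `ρ₂` of an element central mod `Q` and outside `Q` is `-1`. -/
theorem rho₂_neg {z : G} (hz : z ∈ E) (hc : ∀ e ∈ E, e * z * e⁻¹ * z⁻¹ ∈ Q) (hQ : z ∉ Q) :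
    (X.n₂.ρ z : Matrix (Fin 2) (Fin 2) F) = -1 := by
  obtain ⟨i, j, hi, hj, -, -, -, hcen⟩ := exists_ij' (F := F) X.h3
  have hcomm : ∀ e ∈ E, ((X.n₂.ρ z : SpecialLinearGroup (Fin 2) F) : Matrix (Fin 2) (Fin 2) F) *
      (X.n₂.ρ e : SpecialLinearGroup (Fin 2) F) =
      ((X.n₂.ρ e : SpecialLinearGroup (Fin 2) F) : Matrix (Fin 2) (Fin 2) F) *
      (X.n₂.ρ z : SpecialLinearGroup (Fin 2) F) := by
    intro e he
    have h1 := hc e he
    have h2 := (X.hker₂ _ (X.hQE h1)).2 h1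
    rw [X.n₂.ρ_comm he hz, commutatorElement_eq_one_iff_commute] at h2
    have h3 := congrArg (fun g : SpecialLinearGroup (Fin 2) F => (g : Matrix (Fin 2) (Fin 2) F)) h2.eq
    simp only [coe_mul'] at h3
    exact h3.symm
  obtain ⟨e₁, he₁, hi'⟩ := X.n₂.ρ_surj i hi
  obtain ⟨e₂, he₂, hj'⟩ := X.n₂.ρ_surj j hj
  have h1 := hcomm e₁ he₁
  have h2 := hcomm e₂ he₂
  rw [hi'] at h1
  rw [hj'] at h2
  rcases hcen _ h1 h2 with h | h
  · exfalso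
    apply hQ
    refine (X.hker₂ z hz).1 ?_
    exact Subtype.ext h
  · exact h

/-- Quaternion elements of `E`. -/
theorem exists_quat : ∃ i₁ j₁ : G, i₁ ∈ E ∧ j₁ ∈ E ∧
    (X.n₁.ρ (i₁ * j₁ * i₁⁻¹ * j₁⁻¹) : Matrix (Fin 2) (Fin 2) F) = -1 ∧
    (X.n₂.ρ (i₁ * j₁ * i₁⁻¹ * j₁⁻¹) : Matrix (Fin 2) (Fin 2) F) = -1 := by
  obtain ⟨i, j, hi, hj, -, -, hij, -⟩ := exists_ij' (F := F) X.h3
  obtain ⟨i₁, hi₁, hi'⟩ := X.n₁.ρ_surj i hi
  obtain ⟨j₁, hj₁, hj'⟩ := X.n₁.ρ_surj j hj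
  have hzE : i₁ * j₁ * i₁⁻¹ * j₁⁻¹ ∈ E :=
    mul_mem (mul_mem (mul_mem hi₁ hj₁) (inv_mem hi₁)) (inv_mem hj₁)
  have h1 : (X.n₁.ρ (i₁ * j₁ * i₁⁻¹ * j₁⁻¹) : Matrix (Fin 2) (Fin 2) F) = -1 := by
    rw [X.n₁.ρ_comm hi₁ hj₁, hi', hj']
    exact comm_eq_neg i j hij
  refine ⟨i₁, j₁, hi₁, hj₁, h1, ?_⟩
  exact X.rho₂_neg hzE (fun e he => X.central_mod_Q hzE he h1) (X.not_mem_Q hzE h1)

/-- Outer elements preserve the central element mod `Q`. -/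
theorem outer_fix {z b : G} (hz : z ∈ E) (hb : b ∈ normalizer (E : Set G))
    (hρ : (X.n₁.ρ z : Matrix (Fin 2) (Fin 2) F) = -1)
    (hρ₂ : (X.n₂.ρ z : Matrix (Fin 2) (Fin 2) F) = -1) : b * z * b⁻¹ * z⁻¹ ∈ Q := by
  have hz' : b * z * b⁻¹ ∈ E := conj_mem_of_mem_normalizer hb hz
  have hQb : ∀ x, x ∈ Q → b * x * b⁻¹ ∈ Q := fun x hx =>
    conj_mem_of_mem_normalizer (X.hNQ hb) hx
  have hQb' : ∀ x, x ∈ Q → b⁻¹ * x * b⁻¹⁻¹ ∈ Q := fun x hx =>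
    conj_mem_of_mem_normalizer (inv_mem (X.hNQ hb)) hx
  have hc : ∀ e ∈ E, e * (b * z * b⁻¹) * e⁻¹ * (b * z * b⁻¹)⁻¹ ∈ Q := by
    intro e he
    have he' : b⁻¹ * e * b⁻¹⁻¹ ∈ E := conj_mem_of_mem_normalizer (inv_mem hb) he
    have h1 := X.central_mod_Q hz he' hρ
    have h2 := hQb _ h1
    have e1 : e * (b * z * b⁻¹) * e⁻¹ * (b * z * b⁻¹)⁻¹ =
        b * (b⁻¹ * e * b⁻¹⁻¹ * z * (b⁻¹ * e * b⁻¹⁻¹)⁻¹ * z⁻¹) * b⁻¹ := by group
    rw [e1]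
    exact h2
  have hQ' : b * z * b⁻¹ ∉ Q := by
    intro h
    apply X.not_mem_Q hz hρ
    have := hQb' _ h
    have e1 : b⁻¹ * (b * z * b⁻¹) * b⁻¹⁻¹ = z := by group
    rwa [e1] at this
  have h1 := X.rho₂_neg hz' hc hQ'
  have hm : b * z * b⁻¹ * z⁻¹ ∈ E := mul_mem hz' (inv_mem hz)
  refine (X.hker₂ _ hm).1 ?_
  rw [X.n₂.ρ_mul _ hz' _ (inv_mem hz), X.n₂.ρ_inv hz]
  have h2 : X.n₂.ρ (b * z * b⁻¹) = X.n₂.ρ z := Subtype.ext (by rw [h1, hρ₂])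
  rw [h2, mul_inv_cancel]

/-- The action of `z` on `W`. -/
theorem z_W {z w : G} (hz : z ∈ E) (hw : w ∈ W)
    (hρ : (X.n₁.ρ z : Matrix (Fin 2) (Fin 2) F) = -1) : z * w * z⁻¹ * w ∈ Z := by
  have h1 : z * w * z⁻¹ ∈ W := X.E_W hz hw
  refine (X.n₁.ψ_ker _ (mul_mem h1 hw)).1 ?_
  rw [X.n₁.ψ_mul _ h1 _ hw, X.n₁.ψ_eq z hz w hw, hρ, Matrix.neg_mulVec, Matrix.one_mulVec,
    neg_add_cancel]

/-- `z` inverts `W_E`. -/
theorem z_WE {z y : G} (hz : z ∈ E) (hy : y ∈ WE)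
    (hρ : (X.n₁.ρ z : Matrix (Fin 2) (Fin 2) F) = -1) : y ∈ W ∧ z * y * z⁻¹ = y⁻¹ := by
  -- the inverted part of `W`
  let D : Subgroup G :=
    { carrier := {y | y ∈ W ∧ z * y * z⁻¹ * y = 1}
      mul_mem' := by
        rintro a b ⟨ha, ha'⟩ ⟨hb, hb'⟩
        refine ⟨mul_mem ha hb, ?_⟩
        have hza : z * a * z⁻¹ ∈ W := X.E_W hz ha
        have hzb : z * b * z⁻¹ ∈ W := X.E_W hz hb
        calc z * (a * b) * z⁻¹ * (a * b) = (z * a * z⁻¹) * ((z * b * z⁻¹) * a) * b := by group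
          _ = (z * a * z⁻¹) * (a * (z * b * z⁻¹)) * b := by rw [X.W_comm hzb ha]
          _ = (z * a * z⁻¹ * a) * (z * b * z⁻¹ * b) := by group
          _ = 1 := by rw [ha', hb', one_mul]
      one_mem' := ⟨one_mem _, by group⟩
      inv_mem' := by
        rintro a ⟨ha, ha'⟩
        refine ⟨inv_mem ha, ?_⟩
        have hza : z * a * z⁻¹ ∈ W := X.E_W hz ha
        have h1 : z * a⁻¹ * z⁻¹ * a⁻¹ = ((z * a * z⁻¹) * a)⁻¹ := by
          have := X.W_comm hza ha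
          calc z * a⁻¹ * z⁻¹ * a⁻¹ = (z * a * z⁻¹)⁻¹ * a⁻¹ := by group
            _ = (a * (z * a * z⁻¹))⁻¹ := by group
            _ = ((z * a * z⁻¹) * a)⁻¹ := by rw [← this]
        rw [h1, ha', inv_one] }
  have hle : WE ≤ D := by
    rw [X.hWE, commutator_le]
    intro w hw e he
    have hew : e * w * e⁻¹ ∈ W := X.E_W he hw
    refine ⟨?_, ?_⟩
    · show w * e * w⁻¹ * e⁻¹ ∈ W
      have e1 : w * e * w⁻¹ * e⁻¹ = w * (e * w * e⁻¹)⁻¹ := by group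
      rw [e1]
      exact mul_mem hw (inv_mem hew)
    · show z * (w * e * w⁻¹ * e⁻¹) * z⁻¹ * (w * e * w⁻¹ * e⁻¹) = 1
      have hζ : z * w * z⁻¹ * w ∈ Z := X.z_W hz hw hρ
      have hq : e * z * e⁻¹ * z⁻¹ ∈ Q := X.central_mod_Q hz he hρ
      set v := e * w * e⁻¹ with hv
      have hvW : v ∈ W := hew
      set ζ := z * w * z⁻¹ * w with hζd
      have hζW : ζ ∈ W := X.hZW hζ
      have h1 : z * v * z⁻¹ = e * (z * w * z⁻¹) * e⁻¹ := by
        have hu : z * v * z⁻¹ ∈ W := X.E_W hz hvW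
        have hc := X.hWcent _ hu _ hq
        have e1 : e * (z * w * z⁻¹) * e⁻¹ =
            (e * z * e⁻¹ * z⁻¹) * (z * v * z⁻¹) * (e * z * e⁻¹ * z⁻¹)⁻¹ := by
          rw [hv]; group
        rw [e1, ← hc]
        group
      have h2 : z * w * z⁻¹ = ζ * w⁻¹ := by rw [hζd]; group
      have h3 : z * v * z⁻¹ = ζ * v⁻¹ := by
        rw [h1, h2]
        have e1 : e * (ζ * w⁻¹) * e⁻¹ = (e * ζ * e⁻¹) * v⁻¹ := by rw [hv]; group
        rw [e1, X.Z_E hζ he]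
      have e2 : w * e * w⁻¹ * e⁻¹ = w * v⁻¹ := by rw [hv]; group
      rw [e2]
      have e3 : z * (w * v⁻¹) * z⁻¹ = (z * w * z⁻¹) * (z * v * z⁻¹)⁻¹ := by group
      rw [e3, h2, h3]
      have hy' : w⁻¹ * v ∈ W := mul_mem (inv_mem hw) hvW
      have hc1 := X.W_comm hζW hy'
      have hc2 := X.W_comm hvW hw
      calc ζ * w⁻¹ * (ζ * v⁻¹)⁻¹ * (w * v⁻¹) = (ζ * (w⁻¹ * v)) * ζ⁻¹ * (w * v⁻¹) := by group
        _ = (w⁻¹ * v) * ζ * ζ⁻¹ * (w * v⁻¹) := by rw [hc1]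
        _ = w⁻¹ * (v * w) * v⁻¹ := by group
        _ = 1 := by rw [hc2]; group
  exact ⟨(hle hy).1, eq_inv_of_mul_eq_one_left (hle hy).2⟩

/-- `W_E ∩ Z = 1`. -/
theorem WE_inf_Z {z y : G} (hz : z ∈ E) (hρ : (X.n₁.ρ z : Matrix (Fin 2) (Fin 2) F) = -1)
    (hy : y ∈ WE) (hyZ : y ∈ Z) : y = 1 := by
  obtain ⟨hyW, h⟩ := X.z_WE hz hy hρ
  rw [X.Z_E hyZ hz] at h
  have h1 : y * y = 1 := by
    nth_rw 1 [h]
    group
  have h2 := X.hWexp y hyW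
  calc y = y ^ 3 * (y * y)⁻¹ := by group
    _ = 1 := by rw [h1, h2]; group

/-- `W = W_E Z`. -/
theorem W_decomp {z w : G} (hz : z ∈ E) (hρ : (X.n₁.ρ z : Matrix (Fin 2) (Fin 2) F) = -1)
    (hw : w ∈ W) : ∃ u ∈ WE, ∃ ζ ∈ Z, w = u * ζ := by
  have h1 := X.z_W hz hw hρ
  have h2 : w * z * w⁻¹ * z⁻¹ ∈ WE := by
    rw [X.hWE]
    exact commutator_mem_commutator hw hz
  set ζ := z * w * z⁻¹ * w with hζ
  set u := w * z * w⁻¹ * z⁻¹ with hu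
  -- `w² = u ζ`
  have hzw : z * w * z⁻¹ ∈ W := X.E_W hz hw
  have h3 : u * ζ = w * w := by
    have hc := X.W_comm hzw hw
    rw [hu, hζ]
    group
  have hcuz : u * ζ = ζ * u := by
    have huW : u ∈ W := (X.z_WE hz h2 hρ).1
    exact X.W_comm huW (X.hZW h1)
  -- `w = w⁴ = (uζ)² = u² ζ²`
  refine ⟨u * u, mul_mem h2 h2, ζ * ζ, mul_mem h1 h1, ?_⟩
  have h4 : w ^ 4 = w := by rw [pow_succ, X.hWexp w hw, one_mul]
  calc w = w ^ 4 := h4.symm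
    _ = (w * w) * (w * w) := by simp only [pow_succ, pow_zero, one_mul, mul_assoc]
    _ = (u * ζ) * (u * ζ) := by rw [h3]
    _ = u * (ζ * u) * ζ := by group
    _ = u * (u * ζ) * ζ := by rw [hcuz]
    _ = u * u * (ζ * ζ) := by group

/-- `Z` is central in `Q`. -/
theorem Z_Q {x a : G} (hx : x ∈ Z) (ha : a ∈ Q) : x * a = a * x :=
  X.hWcent x (X.hZW hx) a ha

/-- The commutator map is biadditive. -/
theorem comm_mul_left {a₁ a₂ b : G} (h₁ : a₁ ∈ Q) (h₂ : a₂ ∈ Q) (hb : b ∈ Q) :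
    (a₁ * a₂) * b * (a₁ * a₂)⁻¹ * b⁻¹ = (a₁ * b * a₁⁻¹ * b⁻¹) * (a₂ * b * a₂⁻¹ * b⁻¹) := by
  have hc := X.comm_mem h₂ hb
  have hcc := X.Z_Q hc h₁
  have hc1 := X.comm_mem h₁ hb
  have hcc1 := X.W_comm (X.hZW hc) (X.hZW hc1)
  calc (a₁ * a₂) * b * (a₁ * a₂)⁻¹ * b⁻¹
      = a₁ * (a₂ * b * a₂⁻¹ * b⁻¹) * a₁⁻¹ * (a₁ * b * a₁⁻¹ * b⁻¹) := by group
    _ = (a₂ * b * a₂⁻¹ * b⁻¹) * (a₁ * b * a₁⁻¹ * b⁻¹) := by
        rw [← hcc]
        group
    _ = _ := hcc1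

theorem comm_mul_right {a b₁ b₂ : G} (ha : a ∈ Q) (h₁ : b₁ ∈ Q) (h₂ : b₂ ∈ Q) :
    a * (b₁ * b₂) * a⁻¹ * (b₁ * b₂)⁻¹ = (a * b₁ * a⁻¹ * b₁⁻¹) * (a * b₂ * a⁻¹ * b₂⁻¹) := by
  have hc := X.comm_mem ha h₂
  have hcc := X.Z_Q hc h₁
  calc a * (b₁ * b₂) * a⁻¹ * (b₁ * b₂)⁻¹
      = (a * b₁ * a⁻¹ * b₁⁻¹) * (b₁ * (a * b₂ * a⁻¹ * b₂⁻¹) * b₁⁻¹) := by group
    _ = _ := by
        rw [← hcc]
        group

/-- The commutator depends only on the images in `Q / W`. -/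
theorem comm_well {a a' b b' : G} (ha : a ∈ Q) (ha' : a' ∈ Q) (hb : b ∈ Q) (hb' : b' ∈ Q)
    (h1 : X.n₂.ψ a = X.n₂.ψ a') (h2 : X.n₂.ψ b = X.n₂.ψ b') :
    a * b * a⁻¹ * b⁻¹ = a' * b' * a'⁻¹ * b'⁻¹ := by
  have hw : a * a'⁻¹ ∈ W := by
    refine (X.n₂.ψ_ker _ (mul_mem ha (inv_mem ha'))).1 ?_
    have h0 := X.n₂.ψ_mul a' ha' a'⁻¹ (inv_mem ha')
    have h00 : X.n₂.ψ 1 = 0 := by
      have := X.n₂.ψ_mul 1 (one_mem _) 1 (one_mem _)
      rw [mul_one] at this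
      exact left_eq_add.1 this
    rw [mul_inv_cancel, h00] at h0
    rw [X.n₂.ψ_mul _ ha _ (inv_mem ha'), h1, ← h0]
  have hv : b * b'⁻¹ ∈ W := by
    refine (X.n₂.ψ_ker _ (mul_mem hb (inv_mem hb'))).1 ?_
    have h0 := X.n₂.ψ_mul b' hb' b'⁻¹ (inv_mem hb')
    have h00 : X.n₂.ψ 1 = 0 := by
      have := X.n₂.ψ_mul 1 (one_mem _) 1 (one_mem _)
      rw [mul_one] at this
      exact left_eq_add.1 this
    rw [mul_inv_cancel, h00] at h0
    rw [X.n₂.ψ_mul _ hb _ (inv_mem hb'), h2, ← h0]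
  have e1 : a = (a * a'⁻¹) * a' := by group
  have e2 : b = (b * b'⁻¹) * b' := by group
  set w := a * a'⁻¹ with hwd
  set v := b * b'⁻¹ with hvd
  have c1 : (w * a') * (v * b') * (w * a')⁻¹ * (v * b')⁻¹ =
      (w * a') * v * (w * a')⁻¹ * v⁻¹ * (v * ((w * a') * b' * (w * a')⁻¹ * b'⁻¹) * v⁻¹) := by group
  have hwa : w * a' ∈ Q := mul_mem (X.hWQ hw) ha'
  have c2 : (w * a') * v * (w * a')⁻¹ * v⁻¹ = 1 := by
    have := X.hWcent v hv _ hwa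
    rw [← this]
    group
  have c3 : (w * a') * b' * (w * a')⁻¹ * b'⁻¹ = a' * b' * a'⁻¹ * b'⁻¹ := by
    rw [X.comm_mul_left (X.hWQ hw) ha' hb']
    have := X.hWcent w hw b' hb'
    have c4 : w * b' * w⁻¹ * b'⁻¹ = 1 := by
      rw [this]
      group
    rw [c4, one_mul]
  have c5 : v * (a' * b' * a'⁻¹ * b'⁻¹) * v⁻¹ = a' * b' * a'⁻¹ * b'⁻¹ := by
    have := X.hWcent v hv _ (mul_mem (mul_mem (mul_mem ha' hb') (inv_mem ha')) (inv_mem hb'))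
    rw [this]
    group
  rw [e1, e2, c1, c2, c3, one_mul, c5]

/-- The commutator on `Q` is `h ∘ det`. -/
theorem exists_beta [Finite F] : ∃ h : F → G, (∀ s t, h (s + t) = h s * h t) ∧ (∀ s, h s ∈ Z) ∧
    Function.Injective h ∧
    ∀ a ∈ Q, ∀ a' ∈ Q, a * a' * a⁻¹ * a'⁻¹ = h (dt (X.n₂.ψ a) (X.n₂.ψ a')) := by
  classical
  choose lift hl1 hl2 using X.n₂.ψ_surj
  let bb : (Fin 2 → F) → (Fin 2 → F) → G := fun x y =>
    lift x * lift y * (lift x)⁻¹ * (lift y)⁻¹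
  have hbb : ∀ a ∈ Q, ∀ b ∈ Q, bb (X.n₂.ψ a) (X.n₂.ψ b) = a * b * a⁻¹ * b⁻¹ := by
    intro a ha b hb
    exact X.comm_well (hl1 _) ha (hl1 _) hb (hl2 _) (hl2 _)
  have hbZ : ∀ x y, bb x y ∈ Z := fun x y => X.comm_mem (hl1 x) (hl1 y)
  have hadd_r : ∀ x y y', bb x (y + y') = bb x y * bb x y' := by
    intro x y y'
    have h1 : y + y' = X.n₂.ψ (lift y * lift y') := by
      rw [X.n₂.ψ_mul _ (hl1 y) _ (hl1 y'), hl2, hl2]
    rw [h1, ← hl2 x, hbb _ (hl1 x) _ (mul_mem (hl1 y) (hl1 y')), hl2 x,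
      X.comm_mul_right (hl1 x) (hl1 y) (hl1 y')]
  have hadd_l : ∀ x x' y, bb (x + x') y = bb x y * bb x' y := by
    intro x x' y
    have h1 : x + x' = X.n₂.ψ (lift x * lift x') := by
      rw [X.n₂.ψ_mul _ (hl1 x) _ (hl1 x'), hl2, hl2]
    rw [h1, ← hl2 y, hbb _ (mul_mem (hl1 x) (hl1 x')) _ (hl1 y), hl2 y,
      X.comm_mul_left (hl1 x) (hl1 x') (hl1 y)]
  have hzero_r : ∀ x, bb x 0 = 1 := by
    intro x
    have := hadd_r x 0 0
    rw [add_zero] at this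
    exact left_eq_mul.1 this
  have hzero_l : ∀ y, bb 0 y = 1 := by
    intro y
    have := hadd_l 0 0 y
    rw [add_zero] at this
    exact left_eq_mul.1 this
  have hself : ∀ x, bb x x = 1 := by
    intro x
    show lift x * lift x * (lift x)⁻¹ * (lift x)⁻¹ = 1
    group
  have hinv : ∀ g ∈ SS F, ∀ x y, bb ((g : Matrix (Fin 2) (Fin 2) F) *ᵥ x)
      ((g : Matrix (Fin 2) (Fin 2) F) *ᵥ y) = bb x y := by
    intro g hg x y
    obtain ⟨e, he, rfl⟩ := X.n₂.ρ_surj g hg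
    have h1 := X.n₂.ψ_eq e he _ (hl1 x)
    have h2 := X.n₂.ψ_eq e he _ (hl1 y)
    rw [hl2] at h1 h2
    rw [← h1, ← h2, hbb _ (X.E_Q he (hl1 x)) _ (X.E_Q he (hl1 y))]
    have e1 : e * lift x * e⁻¹ * (e * lift y * e⁻¹) * (e * lift x * e⁻¹)⁻¹ * (e * lift y * e⁻¹)⁻¹ =
        e * (lift x * lift y * (lift x)⁻¹ * (lift y)⁻¹) * e⁻¹ := by group
    rw [e1, X.Z_E (X.comm_mem (hl1 x) (hl1 y)) he]
  let e₁ : Fin 2 → F := ![1, 0]
  let h : F → G := fun s => bb e₁ ![0, s]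
  have hadd : ∀ s t, h (s + t) = h s * h t := by
    intro s t
    show bb e₁ ![0, s + t] = bb e₁ ![0, s] * bb e₁ ![0, t]
    rw [← hadd_r]
    congr 1
    ext i
    fin_cases i <;> simp
  have hh0 : h 0 = 1 := by
    have := hadd 0 0
    rw [add_zero] at this
    exact left_eq_mul.1 this
  have hfst : ∀ c : F, bb e₁ ![c, 0] = 1 := by
    intro c
    by_cases hsmall : ∀ a : F, a = 0 ∨ a = 1 ∨ a = -1
    · rcases hsmall c with h0 | h1 | h2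
      · rw [h0]
        have : (![0, 0] : Fin 2 → F) = 0 := by
          ext i
          fin_cases i <;> rfl
        rw [this, hzero_r]
      · rw [h1]
        exact hself e₁
      · rw [h2]
        have h3 := hadd_r e₁ ![1, 0] ![-1, 0]
        have h4 : (![1, 0] + ![-1, 0] : Fin 2 → F) = 0 := by
          ext i
          fin_cases i <;> simp
        rw [h4, hzero_r] at h3
        have h5 : bb e₁ ![1, 0] = 1 := hself e₁
        rw [h5, one_mul] at h3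
        exact h3.symm
    · push Not at hsmall
      obtain ⟨t, ht0, ht1, ht2⟩ := hsmall
      have ht : t ^ 2 ≠ 1 := by
        intro h'
        have : (t - 1) * (t + 1) = 0 := by linear_combination h'
        rcases mul_eq_zero.1 this with h'' | h''
        · exact ht1 (sub_eq_zero.1 h'')
        · exact ht2 (eq_neg_of_add_eq_zero_left h'')
      have hu := uu_mem_of t ht0 ht c
      have h1 := hinv _ hu ![1, 0] ![0, 1]
      have hu1 : ((uu c : SpecialLinearGroup (Fin 2) F) : Matrix (Fin 2) (Fin 2) F) *ᵥ ![1, 0] = ![1, 0] := uu_mulVec c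
      have hu2 : ((uu c : SpecialLinearGroup (Fin 2) F) : Matrix (Fin 2) (Fin 2) F) *ᵥ ![0, 1] = ![c, 0] + ![0, 1] := by
        rw [mulVec_fin_two]
        show ![(!![1, c; 0, 1] : Matrix (Fin 2) (Fin 2) F) 0 0 * _ + (!![1, c; 0, 1] : Matrix (Fin 2) (Fin 2) F) 0 1 * _,
          (!![1, c; 0, 1] : Matrix (Fin 2) (Fin 2) F) 1 0 * _ + (!![1, c; 0, 1] : Matrix (Fin 2) (Fin 2) F) 1 1 * _] = _
        ext i
        fin_cases i <;> simp
      rw [hu1, hu2, hadd_r] at h1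
      exact mul_eq_right.1 h1
  have hmain : ∀ x y, bb x y = h (dt x y) := by
    intro x y
    by_cases hx : x = 0
    · subst hx
      have : dt (0 : Fin 2 → F) y = 0 := by simp [dt]
      rw [this, hh0, hzero_l]
    · obtain ⟨r, hr, hrv⟩ := exists_comm_mulVec x hx
      set y' := ((r⁻¹ : SpecialLinearGroup (Fin 2) F) : Matrix (Fin 2) (Fin 2) F) *ᵥ y with hy'
      have h1 : (r : Matrix (Fin 2) (Fin 2) F) *ᵥ y' = y := mulVec_inv' r y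
      have h2 : bb x y = bb e₁ y' := by
        rw [← hinv r hr e₁ y', h1]
        show bb x y = bb ((r : Matrix (Fin 2) (Fin 2) F) *ᵥ ![1, 0]) y
        rw [hrv]
      have h3 : dt x y = y' 1 := by
        have := dt_mulVec r e₁ y'
        rw [h1] at this
        have h4 : (r : Matrix (Fin 2) (Fin 2) F) *ᵥ e₁ = x := hrv
        rw [h4] at this
        rw [this]
        simp [dt, e₁]
      have h5 : y' = ![y' 0, 0] + ![0, y' 1] := by
        ext i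
        fin_cases i <;> simp
      rw [h2, h3, h5, hadd_r, hfst]
      simp [h]
  refine ⟨h, hadd, fun s => hbZ _ _, ?_, ?_⟩
  · -- injectivity by counting
    let H : Subgroup G :=
      { carrier := Set.range h
        mul_mem' := by
          rintro _ _ ⟨s, rfl⟩ ⟨t, rfl⟩
          exact ⟨s + t, hadd s t⟩
        one_mem' := ⟨0, hh0⟩
        inv_mem' := by
          rintro _ ⟨s, rfl⟩
          refine ⟨-s, ?_⟩
          have := hadd s (-s)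
          rw [add_neg_cancel, hh0] at this
          exact eq_inv_of_mul_eq_one_right this.symm }
    have hZH : Z ≤ H := by
      rw [← X.hQQ, commutator_le]
      intro a ha b hb
      show ⁅a, b⁆ ∈ H
      rw [commutatorElement_def, ← hbb a ha b hb, hmain]
      exact ⟨_, rfl⟩
    let f : F → Z := fun s => ⟨h s, hbZ _ _⟩
    have hfs : Function.Surjective f := by
      rintro ⟨ζ, hζ⟩
      obtain ⟨s, hs⟩ := hZH hζ
      exact ⟨s, Subtype.ext hs⟩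
    have hfb := hfs.bijective_of_nat_card_le (le_of_eq X.hZcard.symm)
    intro s t hst
    exact hfb.1 (Subtype.ext hst)
  · intro a ha b hb
    rw [← hbb a ha b hb, hmain]

end Exc

end Cfsg.Agent.Lib.FG85.BB
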