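/-
Exceptional blocks: the normal subgroup `R`, the section `Ξ`.
-/
import Cfsg.Agent.Lib.FG85.BB5

set_option autoImplicit false
set_option linter.unusedSectionVars false
set_option linter.unusedVariables false

namespace Cfsg.Agent.Lib.FG85.BB

open Subgroup Cfsg Matrix
open Cfsg.Agent.Lib.LocalEven.Util
open Cfsg.Agent.Lib.LocalEven.SecIrr
open Cfsg.Agent.Lib.LocalEven.BaumannBlock
open Cfsg.Agent.Lib.QuadAct.Replacement (iterCommutator_le exists_iterCommutator_eq_bot)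
open scoped commutatorElement

universe u

variable {G : Type u} [Group G] [Finite G]

/-- `Ω₁ Z(R)`. -/
abbrev VV (R : Subgroup G) : Subgroup G := omegaOneCenter 3 R

theorem VV_le (R : Subgroup G) : VV R ≤ R := omegaOneCenter_le R

theorem VV_comm {R : Subgroup G} {v r : G} (hv : v ∈ VV R) (hr : r ∈ R) : r * v = v * r :=
  mem_centralizer_iff.1 (mem_omegaOneCenter.1 hv).2.1 r hr

theorem VV_pow {R : Subgroup G} {v : G} (hv : v ∈ VV R) : v ^ 3 = 1 :=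
  (mem_omegaOneCenter.1 hv).2.2

theorem VV_conj_fix {R : Subgroup G} {v r : G} (hv : v ∈ VV R) (hr : r ∈ R) : r * v * r⁻¹ = v := by
  rw [VV_comm hv hr]
  group

theorem normalizer_le_VV (R : Subgroup G) :
    normalizer (R : Set G) ≤ normalizer (VV R : Set G) :=
  normalizer_le_omegaOneCenter R

theorem pow_three_of_central {x y d : G} (h : y * x = d * (x * y)) (hdx : d * x = x * d)
    (hdy : d * y = y * d) : (x * y) ^ 3 = d ^ 3 * (x ^ 3 * y ^ 3) := by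
  have hx : ∀ u, x * (d * u) = d * (x * u) := fun u => by
    rw [← mul_assoc, ← hdx, mul_assoc]
  have hy : ∀ u, y * (d * u) = d * (y * u) := fun u => by
    rw [← mul_assoc, ← hdy, mul_assoc]
  have hyx : ∀ u, y * (x * u) = d * (x * (y * u)) := fun u => by
    rw [← mul_assoc, h, mul_assoc, mul_assoc]
  calc (x * y) ^ 3 = x * (y * (x * (y * (x * y)))) := by
        simp only [pow_succ, pow_zero, one_mul, mul_assoc]
    _ = d ^ 3 * (x ^ 3 * y ^ 3) := by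
        simp only [hyx, hx, hy, pow_succ, pow_zero, one_mul, mul_assoc]

/-- The elements of `R` central of order three modulo `Ω₁ Z(R)`. -/
def QQ2 (R : Subgroup G) : Subgroup G where
  carrier := {x | x ∈ R ∧ x ^ 3 ∈ VV R ∧ ∀ r ∈ R, x * r * x⁻¹ * r⁻¹ ∈ VV R}
  mul_mem' := by
    rintro x y ⟨hx, hx3, hxc⟩ ⟨hy, hy3, hyc⟩
    refine ⟨mul_mem hx hy, ?_, ?_⟩
    · have hc := hyc x hx
      set d := y * x * y⁻¹ * x⁻¹ with hd
      have h1 : y * x = d * (x * y) := by rw [hd]; group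
      have h2 := pow_three_of_central h1 (VV_comm hc hx).symm (VV_comm hc hy).symm
      rw [h2]
      exact mul_mem (by rw [VV_pow hc]; exact one_mem _) (mul_mem hx3 hy3)
    · intro r hr
      have h1 := hyc r hr
      have h2 := hxc r hr
      have e : x * y * r * (x * y)⁻¹ * r⁻¹ =
          (x * (y * r * y⁻¹ * r⁻¹) * x⁻¹) * (x * r * x⁻¹ * r⁻¹) := by group
      rw [e]
      refine mul_mem ?_ h2
      rw [VV_conj_fix h1 hx]
      exact h1
  one_mem' := ⟨one_mem _, by simp, fun r _ => by simp⟩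
  inv_mem' := by
    rintro x ⟨hx, hx3, hxc⟩
    refine ⟨inv_mem hx, ?_, ?_⟩
    · rw [inv_pow]
      exact inv_mem hx3
    · intro r hr
      have h1 := inv_mem (hxc r hr)
      have e : x⁻¹ * r * x⁻¹⁻¹ * r⁻¹ = x⁻¹ * (x * r * x⁻¹ * r⁻¹)⁻¹ * x := by group
      rw [e]
      have h2 := VV_conj_fix h1 (inv_mem hx)
      simp only [inv_inv] at h2
      rw [h2]
      exact h1

theorem mem_QQ2 {R : Subgroup G} {x : G} :
    x ∈ QQ2 R ↔ x ∈ R ∧ x ^ 3 ∈ VV R ∧ ∀ r ∈ R, x * r * x⁻¹ * r⁻¹ ∈ VV R := Iff.rfl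

theorem QQ2_le (R : Subgroup G) : QQ2 R ≤ R := fun _ hx => hx.1

theorem VV_le_QQ2 (R : Subgroup G) : VV R ≤ QQ2 R := by
  intro v hv
  refine ⟨VV_le R hv, by rw [VV_pow hv]; exact one_mem _, fun r hr => ?_⟩
  rw [VV_comm hv hr |>.symm]
  have : r * v * v⁻¹ * r⁻¹ = 1 := by group
  rw [this]
  exact one_mem _

theorem normalizer_le_QQ2 (R : Subgroup G) :
    normalizer (R : Set G) ≤ normalizer (QQ2 R : Set G) := by
  intro g hg
  apply mem_normalizer_of_conj_le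
  rintro x ⟨hx, hx3, hxc⟩
  refine ⟨conj_mem_of_mem_normalizer hg hx, ?_, ?_⟩
  · rw [conj_pow]
    exact conj_mem_of_mem_normalizer (normalizer_le_VV R hg) hx3
  · intro r hr
    have hr' : g⁻¹ * r * g⁻¹⁻¹ ∈ R := conj_mem_of_mem_normalizer (inv_mem hg) hr
    have h1 := conj_mem_of_mem_normalizer (normalizer_le_VV R hg) (hxc _ hr')
    have e : g * x * g⁻¹ * r * (g * x * g⁻¹)⁻¹ * r⁻¹ =
        g * (x * (g⁻¹ * r * g⁻¹⁻¹) * x⁻¹ * (g⁻¹ * r * g⁻¹⁻¹)⁻¹) * g⁻¹ := by group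
    rw [e]
    exact h1

namespace Exc

variable {F : Type} [Field F] {E Q W Z WE C R P B : Subgroup G}
  (X : Exc F E Q W Z WE C R P B)

include X

theorem psi_eq_of_mem {a a' : G} (ha : a ∈ Q) (ha' : a' ∈ Q) (h : a * a'⁻¹ ∈ W) :
    X.n₂.ψ a = X.n₂.ψ a' := by
  have h00 : X.n₂.ψ 1 = 0 := by
    have := X.n₂.ψ_mul 1 (one_mem _) 1 (one_mem _)
    rw [mul_one] at this
    exact left_eq_add.1 this
  have h0 := X.n₂.ψ_mul a' ha' a'⁻¹ (inv_mem ha')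
  rw [mul_inv_cancel, h00] at h0
  have h1 := (X.n₂.ψ_ker _ (mul_mem ha (inv_mem ha'))).2 h
  rw [X.n₂.ψ_mul _ ha _ (inv_mem ha')] at h1
  have h2 : X.n₂.ψ a = - X.n₂.ψ a'⁻¹ := eq_neg_of_add_eq_zero_left h1
  have h3 : X.n₂.ψ a' = - X.n₂.ψ a'⁻¹ := eq_neg_of_add_eq_zero_left h0.symm
  rw [h2, h3]

theorem R_Q {r a : G} (hr : r ∈ R) (ha : a ∈ Q) : r * a * r⁻¹ ∈ Q :=
  conj_mem_of_mem_normalizer (X.hNQ (X.hRE hr)) ha

theorem R_W' {r a : G} (hr : r ∈ R) (ha : a ∈ W) : r * a * r⁻¹ ∈ W :=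
  conj_mem_of_mem_normalizer (X.hNW (X.hRE hr)) ha

theorem WE_le_W : WE ≤ W := by
  rw [X.hWE]
  exact Cfsg.Agent.Lib.QuadAct.Basic.commutator_le_of_le_normalizer
    ((le_normalizer).trans X.hNW)

theorem E_norm_WE : E ≤ normalizer (WE : Set G) := by
  intro e he
  rw [X.hWE]
  exact mem_normalizer_commutator (X.hNW (le_normalizer he)) (le_normalizer he)

theorem C_norm_WE : C ≤ normalizer (WE : Set G) := by
  rw [X.hC]
  exact centralizer_le_normalizer' WE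

theorem C_fix_WE {c w : G} (hc : c ∈ C) (hw : w ∈ WE) : c * w * c⁻¹ = w := by
  rw [X.hC] at hc
  have : w * c = c * w := mem_centralizer_iff.1 hc w hw
  rw [← this]
  group

/-- `[R, E] ≤ Q`. -/
theorem comm_RE {r e : G} (hr : r ∈ R) (he : e ∈ E) : e * r * e⁻¹ * r⁻¹ ∈ Q := by
  have hD : (R ⊓ E) ≤ Q := by
    apply X.hQcore _ inf_le_right
    · intro g hg
      apply mem_normalizer_of_conj_le
      intro y hy
      exact mem_inf.2 ⟨conj_mem_of_mem_normalizer (X.hER hg) (mem_inf.1 hy).1,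
        mul_mem (mul_mem hg (mem_inf.1 hy).2) (inv_mem hg)⟩
    · exact X.hRp.to_le inf_le_left
  apply hD
  refine mem_inf.2 ⟨mul_mem (conj_mem_of_mem_normalizer (X.hER he) hr) (inv_mem hr), ?_⟩
  have h1 : r * e⁻¹ * r⁻¹ ∈ E := conj_mem_of_mem_normalizer (X.hRE hr) (inv_mem he)
  have e1 : e * r * e⁻¹ * r⁻¹ = e * (r * e⁻¹ * r⁻¹) := by group
  rw [e1]
  exact mul_mem he h1

/-- `[Q, R] ≤ W`. -/
theorem comm_QR {r a : G} (hr : r ∈ R) (ha : a ∈ Q) : r * a * r⁻¹ * a⁻¹ ∈ W := by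
  have hRQ : R ≤ normalizer (Q : Set G) := X.hRE.trans X.hNQ
  -- the fixed points of `R` on `Q / W`
  let D : Subgroup G :=
    { carrier := {a | a ∈ Q ∧ ∀ r ∈ R, r * a * r⁻¹ * a⁻¹ ∈ W}
      mul_mem' := by
        rintro x y ⟨hx, hx'⟩ ⟨hy, hy'⟩
        refine ⟨mul_mem hx hy, fun r hr => ?_⟩
        have e1 : r * (x * y) * r⁻¹ * (x * y)⁻¹ =
            (r * x * r⁻¹ * x⁻¹) * (x * (r * y * r⁻¹ * y⁻¹) * x⁻¹) := by group
        rw [e1, ← X.hWcent _ (hy' r hr) _ hx]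
        have e2 : (r * y * r⁻¹ * y⁻¹) * x * x⁻¹ = (r * y * r⁻¹ * y⁻¹) := by group
        rw [e2]
        exact mul_mem (hx' r hr) (hy' r hr)
      one_mem' := ⟨one_mem _, fun r _ => by simp⟩
      inv_mem' := by
        rintro x ⟨hx, hx'⟩
        refine ⟨inv_mem hx, fun r hr => ?_⟩
        have h1 := inv_mem (hx' r hr)
        have e1 : r * x⁻¹ * r⁻¹ * x⁻¹⁻¹ = x⁻¹ * (r * x * r⁻¹ * x⁻¹)⁻¹ * x := by group
        rw [e1, ← X.hWcent _ h1 _ (inv_mem hx)]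
        have e2 : (r * x * r⁻¹ * x⁻¹)⁻¹ * x⁻¹ * x = (r * x * r⁻¹ * x⁻¹)⁻¹ := by group
        rw [e2]
        exact h1 }
  have hQD : Q ≤ D := by
    apply X.hirr₂ D
    · intro w hw
      refine ⟨X.hWQ hw, fun r hr => mul_mem (X.R_W' hr hw) (inv_mem hw)⟩
    · exact fun x hx => hx.1
    · intro e he
      apply mem_normalizer_of_conj_le
      rintro x ⟨hx, hx'⟩
      refine ⟨X.E_Q he hx, fun r hr => ?_⟩
      have hr' : e⁻¹ * r * e⁻¹⁻¹ ∈ R := conj_mem_of_mem_normalizer (inv_mem (X.hER he)) hr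
      have h1 := X.E_W he (hx' _ hr')
      have e1 : r * (e * x * e⁻¹) * r⁻¹ * (e * x * e⁻¹)⁻¹ =
          e * ((e⁻¹ * r * e⁻¹⁻¹) * x * (e⁻¹ * r * e⁻¹⁻¹)⁻¹ * x⁻¹) * e⁻¹ := by group
      rw [e1]
      exact h1
    · -- a fixed point
      have hQp : IsPGroup 3 Q := X.hRp.to_le X.hQR
      have hpow : ∀ a ∈ R, ∃ k : ℕ, a ^ (3 ^ k) ∈ centralizer (Q : Set G) := by
        intro a ha
        obtain ⟨k, hk⟩ := X.hRp ⟨a, ha⟩
        refine ⟨k, ?_⟩
        have : a ^ (3 ^ k) = 1 := by simpa using congrArg Subtype.val hk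
        rw [this]
        exact one_mem _
      obtain ⟨n, hn⟩ := exists_iterCommutator_eq_bot hQp hRQ hpow
      have hQW : ¬ Q ≤ W := by
        intro h
        obtain ⟨x, hx, hx'⟩ := X.n₂.ψ_surj ![1, 0]
        have h0 := (X.n₂.ψ_ker x hx).2 (h hx)
        rw [hx'] at h0
        have := congrFun h0 0
        simp at this
      have hex : ∃ i, ¬ iterCommutator Q R i ≤ W ∧ iterCommutator Q R (i + 1) ≤ W := by
        by_contra hcon
        push Not at hcon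
        have hall : ∀ i, ¬ iterCommutator Q R i ≤ W := by
          intro i
          induction i with
          | zero => exact hQW
          | succ i ih => exact hcon i ih
        apply hall n
        rw [hn]
        exact bot_le
      obtain ⟨i, hi1, hi2⟩ := hex
      obtain ⟨x, hx, hxW⟩ := SetLike.not_le_iff_exists.1 hi1
      have hxQ : x ∈ Q := iterCommutator_le hRQ i hx
      refine ⟨x, ⟨hxQ, fun r hr => ?_⟩, hxW⟩
      have h1 : ⁅x, r⁆ ∈ iterCommutator Q R (i + 1) := commutator_mem_commutator hx hr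
      have h2 := inv_mem (hi2 h1)
      have e1 : r * x * r⁻¹ * x⁻¹ = ⁅x, r⁆⁻¹ := by
        rw [commutatorElement_def]
        group
      rw [e1]
      exact h2
  exact (hQD ha).2 r hr

/-- `R` centralizes `Z`. -/
theorem R_Z {r x : G} (hr : r ∈ R) (hx : x ∈ Z) : r * x * r⁻¹ = x := by
  have hZ : Z ≤ centralizer ({r} : Set G) := by
    rw [← X.hQQ, commutator_le]
    intro a ha b hb
    rw [mem_centralizer_singleton_iff]
    have hra := X.R_Q hr ha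
    have hrb := X.R_Q hr hb
    have h1 := X.comm_well hra ha hrb hb (X.psi_eq_of_mem hra ha (X.comm_QR hr ha))
      (X.psi_eq_of_mem hrb hb (X.comm_QR hr hb))
    have e1 : (r * a * r⁻¹) * (r * b * r⁻¹) * (r * a * r⁻¹)⁻¹ * (r * b * r⁻¹)⁻¹ =
        r * ⁅a, b⁆ * r⁻¹ := by
      rw [commutatorElement_def]
      group
    rw [e1] at h1
    symm
    calc r * ⁅a, b⁆ = (r * ⁅a, b⁆ * r⁻¹) * r := by group
      _ = ⁅a, b⁆ * r := by rw [h1]; rfl
  have := mem_centralizer_singleton_iff.1 (hZ hx)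
  rw [← this]
  group

/-- `R` centralizes `W`. -/
theorem R_W {r x : G} (hr : r ∈ R) (hx : x ∈ W) : r * x * r⁻¹ = x := by
  obtain ⟨i₁, j₁, hi₁, hj₁, h1, -⟩ := X.exists_quat
  obtain ⟨u, hu, ζ, hζ, rfl⟩ :=
    X.W_decomp (mul_mem (mul_mem (mul_mem hi₁ hj₁) (inv_mem hi₁)) (inv_mem hj₁)) h1 hx
  have e1 : r * (u * ζ) * r⁻¹ = (r * u * r⁻¹) * (r * ζ * r⁻¹) := by group
  rw [e1, X.R_Z hr hζ, X.C_fix_WE (X.hRC hr) hu]

theorem W_le_V : W ≤ VV R := by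
  intro w hw
  rw [VV, mem_omegaOneCenter]
  refine ⟨X.hQR (X.hWQ hw), ?_, X.hWexp w hw⟩
  rw [mem_centralizer_iff]
  intro r hr
  have := X.R_W hr hw
  calc r * w = (r * w * r⁻¹) * r := by group
    _ = w * r := by rw [this]

theorem V_inf_Q {x : G} (hx : x ∈ VV R) (hxQ : x ∈ Q) : x ∈ W :=
  X.hWchar x hxQ (fun a ha => (VV_comm hx (X.hQR ha)).symm) (VV_pow hx)

theorem E_sec_V : E ≤ secTriv (VV R) WE := by
  have hEV : E ≤ normalizer (VV R : Set G) := X.hER.trans (normalizer_le_VV R)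
  conv_lhs => rw [← X.hgen]
  rw [closure_le]
  rintro e ⟨he, hco⟩
  refine ⟨hEV he, X.E_norm_WE he, fun v hv => ?_⟩
  have hvR := VV_le R hv
  have hx : e * v * e⁻¹ * v⁻¹ ∈ W := by
    apply X.V_inf_Q
    · exact mul_mem (conj_mem_of_mem_normalizer (hEV he) hv) (inv_mem hv)
    · exact X.comm_RE hvR he
  apply mem_of_coprime_comm hco (X.E_norm_WE he)
  · have hxR : e * v * e⁻¹ * v⁻¹ ∈ R := X.hQR (X.hWQ hx)
    exact X.C_norm_WE (X.hRC hxR)
  · obtain ⟨k, hk⟩ := X.hRp ⟨_, X.hQR (X.hWQ hx)⟩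
    exact ⟨k, by simpa using congrArg Subtype.val hk⟩
  · have h1 : ⁅e * v * e⁻¹ * v⁻¹, e⁆ ∈ WE := by
      rw [X.hWE]
      exact commutator_mem_commutator hx he
    have h2 := inv_mem h1
    rw [commutatorElement_inv] at h2
    exact h2

theorem Q_le_QQ2 : Q ≤ QQ2 R := by
  intro a ha
  refine ⟨X.hQR ha, X.W_le_V (X.hZW (X.hQ3 a ha)), fun r hr => ?_⟩
  have h1 := inv_mem (X.comm_QR hr ha)
  have e1 : a * r * a⁻¹ * r⁻¹ = (r * a * r⁻¹ * a⁻¹)⁻¹ := by group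
  rw [e1]
  exact X.W_le_V h1

theorem E_sec_R : E ≤ secTriv R (QQ2 R) := by
  intro e he
  exact ⟨X.hER he, normalizer_le_QQ2 R (X.hER he), fun r hr => X.Q_le_QQ2 (X.comm_RE hr he)⟩

end Exc

/-- The section `Ξ = Q₂ / V` and the data attached to the element `z`. -/
structure Ctx {F : Type} [Field F] {E Q W Z WE C R P B : Subgroup G}
    (X : Exc F E Q W Z WE C R P B) (Ξ : Type u) [AddCommGroup Ξ] where
  d : SecData (normalizer (R : Set G)) (QQ2 R) (VV R) Ξ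
  ν : (Fin 2 → F) →+ Ξ
  ν_spec : ∀ a ∈ Q, ν (X.n₂.ψ a) = d.pr a
  ν_inj : Function.Injective ν
  i₁ : G
  j₁ : G
  hi₁ : i₁ ∈ E
  hj₁ : j₁ ∈ E
  hρ₁ : (X.n₁.ρ (i₁ * j₁ * i₁⁻¹ * j₁⁻¹) : Matrix (Fin 2) (Fin 2) F) = -1
  hρ₂ : (X.n₂.ρ (i₁ * j₁ * i₁⁻¹ * j₁⁻¹) : Matrix (Fin 2) (Fin 2) F) = -1
  h : F → G
  h_add : ∀ s t, h (s + t) = h s * h t
  h_Z : ∀ s, h s ∈ Z
  h_inj : Function.Injective h
  h_comm : ∀ a ∈ Q, ∀ a' ∈ Q, a * a' * a⁻¹ * a'⁻¹ = h (dt (X.n₂.ψ a) (X.n₂.ψ a'))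

namespace Exc

variable {F : Type} [Field F] {E Q W Z WE C R P B : Subgroup G}
  (X : Exc F E Q W Z WE C R P B)

theorem exists_ctx [Finite F] : ∃ (Ξ : Type u) (_ : AddCommGroup Ξ) (_ : Finite Ξ),
    Nonempty (Ctx X Ξ) := by
  classical
  have hc : ∀ x ∈ QQ2 R, ∀ y ∈ QQ2 R, x * y * x⁻¹ * y⁻¹ ∈ VV R :=
    fun x hx y hy => hx.2.2 y hy.1
  obtain ⟨Ξ, inst, hfin, ⟨d⟩⟩ := exists_section (K := normalizer (R : Set G)) (VV_le_QQ2 R)
    (fun x hx => normalizer_le_VV R (le_normalizer hx.1)) hc (normalizer_le_QQ2 R)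
    (normalizer_le_VV R)
  refine ⟨Ξ, inst, hfin, ?_⟩
  obtain ⟨i₁, j₁, hi₁, hj₁, h1, h2⟩ := X.exists_quat
  obtain ⟨h, h_add, h_Z, h_inj, h_comm⟩ := X.exists_beta
  choose lift hl1 hl2 using X.n₂.ψ_surj
  have hQ2 := X.Q_le_QQ2
  have hspec : ∀ a ∈ Q, ∀ a' ∈ Q, X.n₂.ψ a = X.n₂.ψ a' → d.pr a = d.pr a' := by
    intro a ha a' ha' he
    have h3 : a * a'⁻¹ ∈ W := by
      refine (X.n₂.ψ_ker _ (mul_mem ha (inv_mem ha'))).1 ?_
      have h00 : X.n₂.ψ 1 = 0 := by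
        have := X.n₂.ψ_mul 1 (one_mem _) 1 (one_mem _)
        rw [mul_one] at this
        exact left_eq_add.1 this
      have h0 := X.n₂.ψ_mul a' ha' a'⁻¹ (inv_mem ha')
      rw [mul_inv_cancel, h00] at h0
      rw [X.n₂.ψ_mul _ ha _ (inv_mem ha'), he, ← h0]
    exact (d.pr_eq_iff (hQ2 ha) (hQ2 ha')).2 (X.W_le_V h3)
  let ν : (Fin 2 → F) →+ Ξ :=
    { toFun := fun x => d.pr (lift x)
      map_zero' := by
        have h0 : lift 0 ∈ W := (X.n₂.ψ_ker _ (hl1 0)).1 (hl2 0)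
        exact (d.pr_ker _ (hQ2 (hl1 0))).2 (X.W_le_V h0)
      map_add' := by
        intro x y
        have h3 : X.n₂.ψ (lift (x + y)) = X.n₂.ψ (lift x * lift y) := by
          rw [X.n₂.ψ_mul _ (hl1 x) _ (hl1 y), hl2, hl2, hl2]
        rw [hspec _ (hl1 _) _ (mul_mem (hl1 x) (hl1 y)) h3,
          d.pr_mul _ (hQ2 (hl1 x)) _ (hQ2 (hl1 y))] }
  have hν : ∀ a ∈ Q, ν (X.n₂.ψ a) = d.pr a := fun a ha => hspec _ (hl1 _) _ ha (hl2 _)
  have hνi : Function.Injective ν := by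
    rw [injective_iff_map_eq_zero]
    intro x hx
    have h3 : d.pr (lift x) = 0 := hx
    have h4 := (d.pr_ker _ (hQ2 (hl1 x))).1 h3
    have h5 := X.V_inf_Q h4 (hl1 x)
    rw [← hl2 x]
    exact (X.n₂.ψ_ker _ (hl1 x)).2 h5
  exact ⟨⟨d, ν, hν, hνi, i₁, j₁, hi₁, hj₁, h1, h2, h, h_add, h_Z, h_inj, h_comm⟩⟩

end Exc

end Cfsg.Agent.Lib.FG85.BB
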