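/-
Exceptional blocks: elements of `B(T)` acting quadratically on both natural sections.
-/
import Cfsg.Agent.Lib.FG85.BB6

set_option autoImplicit false
set_option linter.unusedSectionVars false
set_option linter.unusedVariables false

namespace Cfsg.Agent.Lib.FG85.BB

open Subgroup Cfsg Matrix
open Cfsg.Agent.Lib.LocalEven.Util
open Cfsg.Agent.Lib.LocalEven.SecIrr
open Cfsg.Agent.Lib.LocalEven.BaumannBlock
open scoped commutatorElement

universe u

variable {G : Type u} [Group G] [Finite G]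

section General

variable {F : Type} [Field F] {E Q U U₀ B : Subgroup G}

theorem end_ext {A : Type*} [AddCommGroup A] {f g : AddMonoid.End A} (h : ∀ x, f x = g x) : f = g :=
  AddMonoidHom.ext h

theorem matrix_eq_one_of_mulVec {M : Matrix (Fin 2) (Fin 2) F} (h : ∀ x, M *ᵥ x = x) : M = 1 := by
  ext u v
  have h2 := congrFun (h (Pi.single v 1)) u
  rw [Matrix.mulVec_single_one] at h2
  simpa [Matrix.one_apply, Pi.single_apply, eq_comm] using h2

/-- From an action on coordinates to commutators. -/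
theorem quad_of_sec (n : NatSec F E U U₀) (hN₁ : normalizer (E : Set G) ≤ normalizer (U : Set G))
    (hN₂ : normalizer (E : Set G) ≤ normalizer (U₀ : Set G)) {b : G}
    (hb : b ∈ normalizer (E : Set G))
    (hq : ((n.sec hN₁ hN₂).hat b - 1) * ((n.sec hN₁ hN₂).hat b - 1) = 0) :
    ∀ u ∈ U, b * (b * u * b⁻¹ * u⁻¹) * b⁻¹ * (b * u * b⁻¹ * u⁻¹)⁻¹ ∈ U₀ := by
  intro u hu
  set d := n.sec hN₁ hN₂ with hd
  have hbu : b * u * b⁻¹ ∈ U := conj_mem_of_mem_normalizer (hN₁ hb) hu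
  have h1 : b * u * b⁻¹ * u⁻¹ ∈ U := mul_mem hbu (inv_mem hu)
  have hbu1 : b * (b * u * b⁻¹ * u⁻¹) * b⁻¹ ∈ U := conj_mem_of_mem_normalizer (hN₁ hb) h1
  refine (d.pr_ker _ (mul_mem hbu1 (inv_mem h1))).1 ?_
  rw [d.pr_div hbu1 h1, d.hat_spec b hb _ h1, d.pr_div hbu hu, d.hat_spec b hb u hu]
  have := congrArg (fun f : AddMonoid.End (Fin 2 → F) => f (d.pr u)) hq
  exact this

/-- The action of `E` on coordinates. -/
theorem hat_eq_mulVec (n : NatSec F E U U₀) (hN₁ : normalizer (E : Set G) ≤ normalizer (U : Set G))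
    (hN₂ : normalizer (E : Set G) ≤ normalizer (U₀ : Set G)) {e : G} (he : e ∈ E) (x : Fin 2 → F) :
    (n.sec hN₁ hN₂).hat e x = (n.ρ e : Matrix (Fin 2) (Fin 2) F) *ᵥ x :=
  n.sec_hat_of_mem hN₁ hN₂ he (le_normalizer he) x

/-- Elements of `B` of `3`-power order act quadratically when the root elements lift into
the normalizer of `B` modulo the kernel. -/
theorem quad_large (h3 : (3 : F) = 0) (n : NatSec F E U U₀)
    (hN₁ : normalizer (E : Set G) ≤ normalizer (U : Set G))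
    (hN₂ : normalizer (E : Set G) ≤ normalizer (U₀ : Set G))
    (hQE : Q ≤ E) (hQp : IsPGroup 3 Q) (hBE : B ≤ normalizer (E : Set G))
    (hker : ∀ e ∈ E, n.ρ e = 1 ↔ e ∈ Q)
    (hSyl : ∀ U : Subgroup G, U ≤ E → IsPGroup 3 U → ∃ e ∈ E, ∀ x ∈ U, e⁻¹ * x * e ∈ normalizer (B : Set G))
    (hBQ : ∀ u ∈ B, u ∈ E → u ∈ Q) (huu : ∀ a : F, uu a ∈ SS F) {b : G} (hb : b ∈ B) (m : ℕ)
    (hm : b ^ (3 ^ m) = 1) :
    ((n.sec hN₁ hN₂).hat b - 1) * ((n.sec hN₁ hN₂).hat b - 1) = 0 := by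
  set d := n.sec hN₁ hN₂ with hd
  have hElen : E ≤ normalizer (E : Set G) := le_normalizer
  -- the preimage of the root group
  let U₁ : Subgroup G :=
    { carrier := {x | x ∈ E ∧ ∃ a : F, n.ρ x = uu a}
      mul_mem' := by
        rintro x y ⟨hx, a, ha⟩ ⟨hy, c, hc⟩
        exact ⟨mul_mem hx hy, a + c, by rw [n.ρ_mul _ hx _ hy, ha, hc, uu_mul]⟩
      one_mem' := ⟨one_mem _, 0, by
        rw [n.ρ_one]
        apply Subtype.ext
        show (1 : Matrix (Fin 2) (Fin 2) F) = !![1, 0; 0, 1]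
        rw [Matrix.one_fin_two]⟩
      inv_mem' := by
        rintro x ⟨hx, a, ha⟩
        refine ⟨inv_mem hx, -a, ?_⟩
        rw [n.ρ_inv hx, ha]
        symm
        apply eq_inv_of_mul_eq_one_left
        rw [uu_mul, neg_add_cancel]
        apply Subtype.ext
        show !![1, 0; 0, 1] = (1 : Matrix (Fin 2) (Fin 2) F)
        rw [Matrix.one_fin_two] }
  have hU₁E : U₁ ≤ E := fun x hx => hx.1
  have hU₁p : IsPGroup 3 U₁ := by
    rintro ⟨x, hx, a, ha⟩
    have h1 : n.ρ (x ^ 3) = 1 := by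
      rw [n.ρ_pow hx, ha]
      simp only [pow_succ, pow_zero, one_mul, uu_mul]
      have : a + a + a = 0 := by linear_combination a * h3
      rw [this]
      apply Subtype.ext
      show !![1, 0; 0, 1] = (1 : Matrix (Fin 2) (Fin 2) F)
      rw [Matrix.one_fin_two]
    have h2 : x ^ 3 ∈ Q := (hker _ (pow_mem hx 3)).1 h1
    obtain ⟨k, hk⟩ := hQp ⟨_, h2⟩
    refine ⟨k + 1, Subtype.ext ?_⟩
    have h4 : (x ^ 3) ^ (3 ^ k) = 1 := by simpa using congrArg Subtype.val hk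
    show x ^ (3 ^ (k + 1)) = 1
    rw [pow_succ', pow_mul]
    exact h4
  obtain ⟨e, he, hex⟩ := hSyl U₁ hU₁E hU₁p
  have hbK : b ∈ normalizer (E : Set G) := hBE hb
  have heK : e ∈ normalizer (E : Set G) := le_normalizer he
  set φ : AddMonoid.End (Fin 2 → F) := d.hat e * d.hat b * d.hat e⁻¹ with hφ
  have hφp : φ ^ (3 ^ m) = 1 := by
    have e1 : φ = d.hat (e * b * e⁻¹) := (d.hat_conj heK hbK).symm
    rw [e1, ← d.hat_pow (mul_mem (mul_mem heK hbK) (inv_mem heK)), conj_pow, hm]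
    simp [d.hat_one]
  have hcomm : ∀ (a : F) (x : Fin 2 → F), φ ((uu a : SpecialLinearGroup (Fin 2) F) *ᵥ x) =
      (uu a : SpecialLinearGroup (Fin 2) F) *ᵥ φ x := by
    intro a x
    obtain ⟨y, hy, hya⟩ := n.ρ_surj (uu a) (huu a)
    have hyU : y ∈ U₁ := ⟨hy, a, hya⟩
    have hyn := hex y hyU
    set y' := e⁻¹ * y * e with hy'
    have hy'E : y' ∈ E := by
      rw [hy']
      have := mul_mem (mul_mem (inv_mem he) hy) he
      exact this
    -- `[y', b] ∈ B ∩ E ≤ Q`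
    have h1 : y' * b * y'⁻¹ * b⁻¹ ∈ Q := by
      apply hBQ
      · exact mul_mem (conj_mem_of_mem_normalizer hyn hb) (inv_mem hb)
      · have h2 : b * y'⁻¹ * b⁻¹ ∈ E := conj_mem_of_mem_normalizer hbK (inv_mem hy'E)
        have e1 : y' * b * y'⁻¹ * b⁻¹ = y' * (b * y'⁻¹ * b⁻¹) := by group
        rw [e1]
        exact mul_mem hy'E h2
    have hq1 : d.hat (y' * b * y'⁻¹ * b⁻¹) = 1 := by
      apply end_ext
      intro v
      rw [hat_eq_mulVec n hN₁ hN₂ (hQE h1), (hker _ (hQE h1)).2 h1]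
      exact mulVec_one' v
    -- so `ŷ'` commutes with `b̂`
    have hy'K : y' ∈ normalizer (E : Set G) := le_normalizer hy'E
    have hc1 : d.hat y' * d.hat b = d.hat b * d.hat y' := by
      have e1 : y' * b = (y' * b * y'⁻¹ * b⁻¹) * (b * y') := by group
      rw [← d.hat_mul _ hy'K _ hbK, e1,
        d.hat_mul _ (le_normalizer (hQE h1)) _ (mul_mem hbK hy'K), hq1, one_mul,
        d.hat_mul _ hbK _ hy'K]
    have hyK : y ∈ normalizer (E : Set G) := le_normalizer hy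
    have hy'e : d.hat y' = d.hat e⁻¹ * d.hat y * d.hat e := by
      rw [hy', d.hat_mul _ (mul_mem (inv_mem heK) hyK) _ heK, d.hat_mul _ (inv_mem heK) _ hyK]
    -- conjugating back
    have hyφ : d.hat y * φ = φ * d.hat y := by
      have hee := d.hat_mul_inv heK
      have hee' := d.hat_inv_mul heK
      rw [hy'e] at hc1
      calc d.hat y * φ = (d.hat e * d.hat e⁻¹) * d.hat y * (d.hat e * d.hat b) * d.hat e⁻¹ := by
            rw [hee, one_mul, hφ]; simp only [mul_assoc]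
        _ = d.hat e * (d.hat e⁻¹ * d.hat y * d.hat e * d.hat b) * d.hat e⁻¹ := by
            simp only [mul_assoc]
        _ = d.hat e * (d.hat b * (d.hat e⁻¹ * d.hat y * d.hat e)) * d.hat e⁻¹ := by rw [hc1]
        _ = φ * d.hat y * (d.hat e * d.hat e⁻¹) := by
            rw [hφ]; simp only [mul_assoc]
        _ = φ * d.hat y := by rw [hee, mul_one]
    have hyv : ∀ v, d.hat y v = (uu a : SpecialLinearGroup (Fin 2) F) *ᵥ v := by
      intro v
      rw [hat_eq_mulVec n hN₁ hN₂ hy, hya]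
    have := congrArg (fun f : AddMonoid.End (Fin 2 → F) => f x) hyφ
    show φ _ = _
    have h7 : d.hat y (φ x) = φ (d.hat y x) := this
    rw [hyv, hyv] at h7
    exact h7.symm
  have hφq := quad_of_commute_uu h3 φ hcomm m hφp
  -- conjugating back
  have hbe : d.hat b = d.hat e⁻¹ * φ * d.hat e := by
    have hee' := d.hat_inv_mul heK
    calc d.hat b = (d.hat e⁻¹ * d.hat e) * d.hat b * (d.hat e⁻¹ * d.hat e) := by
          rw [hee', one_mul, mul_one]
      _ = d.hat e⁻¹ * φ * d.hat e := by rw [hφ]; simp only [mul_assoc]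
  have h1 : d.hat b - 1 = d.hat e⁻¹ * (φ - 1) * d.hat e := by
    rw [hbe, mul_sub, sub_mul, mul_one, d.hat_inv_mul heK]
  rw [h1]
  calc d.hat e⁻¹ * (φ - 1) * d.hat e * (d.hat e⁻¹ * (φ - 1) * d.hat e)
      = d.hat e⁻¹ * (φ - 1) * (d.hat e * d.hat e⁻¹) * (φ - 1) * d.hat e := by
        simp only [mul_assoc]
    _ = d.hat e⁻¹ * ((φ - 1) * (φ - 1)) * d.hat e := by
        rw [d.hat_mul_inv heK, mul_one]; simp only [mul_assoc]
    _ = 0 := by rw [hφq]; simp

end General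

namespace Exc

variable {F : Type} [Field F] {E Q W Z WE C R P B : Subgroup G}
  (X : Exc F E Q W Z WE C R P B)

include X

theorem hQp : IsPGroup 3 Q := X.hRp.to_le X.hQR

/-- An element of `B` outside `C(W)` acting quadratically on both sections. -/
theorem exists_b : ∃ b ∈ B, b ∉ centralizer (W : Set G) ∧
    (∀ w ∈ W, b * (b * w * b⁻¹ * w⁻¹) * b⁻¹ * (b * w * b⁻¹ * w⁻¹)⁻¹ ∈ Z) ∧
    (∀ a ∈ Q, b * (b * a * b⁻¹ * a⁻¹) * b⁻¹ * (b * a * b⁻¹ * a⁻¹)⁻¹ ∈ W) := by
  classical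
  set d₁ := X.n₁.sec X.hNW X.hNZ with hd₁
  set d₂ := X.n₂.sec X.hNQ X.hNW with hd₂
  have hpow : ∀ b ∈ B, ∃ m : ℕ, b ^ (3 ^ m) = 1 := by
    intro b hb
    obtain ⟨k, hk⟩ := X.hBp ⟨b, hb⟩
    exact ⟨k, by simpa using congrArg Subtype.val hk⟩
  by_cases hsmall : ∀ a : F, a = 0 ∨ a = 1 ∨ a = -1
  · -- the field with three elements
    obtain ⟨b, hb, hbW⟩ := X.hBnot
    refine ⟨b, hb, hbW, ?_, ?_⟩
    · apply quad_of_sec X.n₁ X.hNW X.hNZ (X.hBE hb)
      obtain ⟨m, hm⟩ := hpow b hb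
      obtain ⟨M, hM⟩ := exists_matrix_of_small hsmall (d₁.hat b)
      refine quad_of_matrix X.h3 _ M hM m ?_
      rw [← d₁.hat_pow (X.hBE hb), hm, d₁.hat_one]
    · apply quad_of_sec X.n₂ X.hNQ X.hNW (X.hBE hb)
      obtain ⟨m, hm⟩ := hpow b hb
      obtain ⟨M, hM⟩ := exists_matrix_of_small hsmall (d₂.hat b)
      refine quad_of_matrix X.h3 _ M hM m ?_
      rw [← d₂.hat_pow (X.hBE hb), hm, d₂.hat_one]
  · push Not at hsmall
    obtain ⟨t, ht0, ht1, ht2⟩ := hsmall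
    have ht : t ^ 2 ≠ 1 := by
      intro h'
      have : (t - 1) * (t + 1) = 0 := by linear_combination h'
      rcases mul_eq_zero.1 this with h'' | h''
      · exact ht1 (sub_eq_zero.1 h'')
      · exact ht2 (eq_neg_of_add_eq_zero_left h'')
    have huu : ∀ a : F, uu a ∈ SS F := uu_mem_of t ht0 ht
    by_cases hBQ : ∀ u ∈ B, u ∈ E → u ∈ Q
    · obtain ⟨b, hb, hbW⟩ := X.hBnot
      obtain ⟨m, hm⟩ := hpow b hb
      refine ⟨b, hb, hbW, ?_, ?_⟩
      · apply quad_of_sec X.n₁ X.hNW X.hNZ (X.hBE hb)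
        exact quad_large X.h3 X.n₁ X.hNW X.hNZ X.hQE X.hQp X.hBE X.hker₁ X.hSyl hBQ huu hb m hm
      · apply quad_of_sec X.n₂ X.hNQ X.hNW (X.hBE hb)
        exact quad_large X.h3 X.n₂ X.hNQ X.hNW X.hQE X.hQp X.hBE X.hker₂ X.hSyl hBQ huu hb m hm
    · push Not at hBQ
      obtain ⟨u, huB, huE, huQ⟩ := hBQ
      obtain ⟨m, hm⟩ := hpow u huB
      refine ⟨u, huB, ?_, ?_, ?_⟩
      · intro hcen
        apply huQ
        refine (X.hker₁ u huE).1 ?_
        apply Subtype.ext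
        show (X.n₁.ρ u : Matrix (Fin 2) (Fin 2) F) = 1
        apply matrix_eq_one_of_mulVec
        intro x
        obtain ⟨w, hw, rfl⟩ := X.n₁.ψ_surj x
        rw [← X.n₁.ψ_eq u huE w hw]
        have : w * u = u * w := mem_centralizer_iff.1 hcen w hw
        rw [← this]
        congr 1
        group
      · apply quad_of_sec X.n₁ X.hNW X.hNZ (X.hBE huB)
        have h1 : X.n₁.ρ u ^ (3 ^ m) = 1 := by
          rw [← X.n₁.ρ_pow huE, hm, X.n₁.ρ_one]
        have h2 := sq_sub_one_of_pow X.h3 (X.n₁.ρ u) m h1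
        apply end_ext
        intro x
        show (d₁.hat u - 1) ((d₁.hat u - 1) x) = 0
        have hs : ∀ y, (d₁.hat u - 1) y =
            ((X.n₁.ρ u : Matrix (Fin 2) (Fin 2) F) - 1) *ᵥ y := by
          intro y
          show d₁.hat u y - y = _
          rw [hat_eq_mulVec X.n₁ X.hNW X.hNZ huE, Matrix.sub_mulVec, Matrix.one_mulVec]
        rw [hs, hs, Matrix.mulVec_mulVec, h2, Matrix.zero_mulVec]
      · apply quad_of_sec X.n₂ X.hNQ X.hNW (X.hBE huB)
        have h1 : X.n₂.ρ u ^ (3 ^ m) = 1 := by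
          rw [← X.n₂.ρ_pow huE, hm, X.n₂.ρ_one]
        have h2 := sq_sub_one_of_pow X.h3 (X.n₂.ρ u) m h1
        apply end_ext
        intro x
        show (d₂.hat u - 1) ((d₂.hat u - 1) x) = 0
        have hs : ∀ y, (d₂.hat u - 1) y =
            ((X.n₂.ρ u : Matrix (Fin 2) (Fin 2) F) - 1) *ᵥ y := by
          intro y
          show d₂.hat u y - y = _
          rw [hat_eq_mulVec X.n₂ X.hNQ X.hNW huE, Matrix.sub_mulVec, Matrix.one_mulVec]
        rw [hs, hs, Matrix.mulVec_mulVec, h2, Matrix.zero_mulVec]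

end Exc

end Cfsg.Agent.Lib.FG85.BB
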