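/-
Exceptional blocks: the involution `ι` on `Ξ`, and the absence of elements of `C` acting like it.
-/
import Cfsg.Agent.Lib.FG85.BB7

set_option autoImplicit false
set_option linter.unusedSectionVars false
set_option linter.unusedVariables false

namespace Cfsg.Agent.Lib.FG85.BB

open Subgroup Cfsg Matrix
open Cfsg.Agent.Lib.LocalEven.Util
open Cfsg.Agent.Lib.LocalEven.SecIrr
open Cfsg.Agent.Lib.LocalEven.BaumannBlock
open scoped commutatorElement

universe u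

variable {G : Type u} [Group G] [Finite G]

/-- Additive core of the quadratic action. -/
theorem quad_core {A : Type*} [AddCommGroup A] (h3x : ∀ y : A, y + y + y = 0)
    (τ β : AddMonoid.End A) (hττ : τ * τ = 1) (hτβ : τ * β = β * τ) (W' : Set A)
    (hW1 : ∀ y ∈ W', τ y = y) (hW2 : ∀ x, τ x + x ∈ W')
    (hq1 : ∀ y ∈ W', (β - 1) ((β - 1) y) = 0) (hq2 : ∀ x, (β - 1) ((β - 1) x) ∈ W') :
    (β - 1) * (β - 1) = 0 := by
  apply end_ext
  intro x
  show (β - 1) ((β - 1) x) = 0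
  have hτ1 : ∀ y, τ ((β - 1) y) = (β - 1) (τ y) := by
    intro y
    show τ (β y - y) = β (τ y) - τ y
    rw [map_sub]
    have : τ (β y) = β (τ y) := congrArg (fun f : AddMonoid.End A => f y) hτβ
    rw [this]
  have hττx : ∀ y, τ (τ y) = y := fun y => congrArg (fun f : AddMonoid.End A => f y) hττ
  set w := τ x + x with hw
  have hwW : w ∈ W' := hW2 x
  set x₂ := τ x - x with hx₂
  have e1 : x = x₂ - w := by
    have h := h3x x
    rw [hx₂, hw]
    have e2 : τ x - x - (τ x + x) = x - (x + x + x) := by abel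
    rw [e2, h, sub_zero]
  have hN : (β - 1) ((β - 1) x) = (β - 1) ((β - 1) x₂) := by
    conv_lhs => rw [e1, map_sub, map_sub, hq1 w hwW, sub_zero]
  rw [hN]
  set y := (β - 1) ((β - 1) x₂) with hy
  have hyW : y ∈ W' := by
    have := hq2 x
    rw [hN] at this
    exact this
  have hτx₂ : τ x₂ = - x₂ := by
    rw [hx₂, map_sub, hττx]
    abel
  have hτy : τ y = - y := by
    rw [hy, hτ1, hτ1, hτx₂, map_neg, map_neg]
  have h1 := hW1 y hyW
  rw [hτy] at h1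
  have h2 : y + y = 0 := by
    nth_rw 1 [← h1]
    exact neg_add_cancel y
  have h3 := h3x y
  rw [h2, zero_add] at h3
  exact h3

/-- From quadratic action on `Q / Z` to the commutator condition. -/
theorem quad_to_comm {K Q Z : Subgroup G} {A : Type*} [AddCommGroup A] (d : SecData K Q Z A)
    {b : G} (hb : b ∈ K) (hbQ : b ∈ normalizer (Q : Set G))
    (hq : (d.hat b - 1) * (d.hat b - 1) = 0) :
    ⁅⁅Q, zpowers b⁆, zpowers b⁆ ≤ Z := by
  have hfin : IsOfFinOrder b := isOfFinOrder_of_finite b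
  have hpow : ∀ g ∈ zpowers b, ∃ n : ℕ, b ^ n = g := by
    intro g hg
    have := hfin.mem_powers_iff_mem_zpowers.2 hg
    exact this
  set β := d.hat b with hβ
  have hβ1 : ∀ x, (β - 1) (β x) = (β - 1) x := by
    intro x
    have h1 : (β - 1) ((β - 1) x) = 0 := congrArg (fun f : AddMonoid.End A => f x) hq
    have e : β x = (β - 1) x + x := by
      show β x = β x - x + x
      abel
    rw [e, map_add, h1, zero_add]
  have hβn : ∀ (n : ℕ) x, (β - 1) ((β ^ n) x) = (β - 1) x := by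
    intro n x
    induction n with
    | zero => rfl
    | succ n ih =>
      rw [pow_succ']
      show (β - 1) (β ((β ^ n) x)) = _
      rw [hβ1, ih]
  let D : Subgroup G :=
    { carrier := {a | a ∈ Q ∧ β (d.pr a) = d.pr a}
      mul_mem' := by
        rintro x y ⟨hx, hx'⟩ ⟨hy, hy'⟩
        refine ⟨mul_mem hx hy, ?_⟩
        rw [d.pr_mul _ hx _ hy, map_add, hx', hy']
      one_mem' := ⟨one_mem _, by rw [d.pr_one, map_zero]⟩
      inv_mem' := by
        rintro x ⟨hx, hx'⟩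
        refine ⟨inv_mem hx, ?_⟩
        rw [d.pr_inv hx, map_neg, hx'] }
  have h1 : ⁅Q, zpowers b⁆ ≤ D := by
    rw [commutator_le]
    intro a ha g hg
    obtain ⟨n, rfl⟩ := hpow g hg
    have hbn : b ^ n ∈ K := pow_mem hb n
    have hbnQ : b ^ n ∈ normalizer (Q : Set G) := pow_mem hbQ n
    have hc : b ^ n * a⁻¹ * (b ^ n)⁻¹ ∈ Q := conj_mem_of_mem_normalizer hbnQ (inv_mem ha)
    have e1 : ⁅a, b ^ n⁆ = a * (b ^ n * a⁻¹ * (b ^ n)⁻¹) := by
      rw [commutatorElement_def]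
      group
    have hpr : d.pr ⁅a, b ^ n⁆ = d.pr a - (β ^ n) (d.pr a) := by
      rw [e1, d.pr_mul _ ha _ hc, d.hat_spec _ hbn _ (inv_mem ha), d.hat_pow hb, d.pr_inv ha,
        map_neg, sub_eq_add_neg]
    have hmem : ⁅a, b ^ n⁆ ∈ Q := by
      rw [e1]
      exact mul_mem ha hc
    refine ⟨hmem, ?_⟩
    rw [hpr]
    have h2 := hβn n (d.pr a)
    have e2 : (β - 1) (d.pr a - (β ^ n) (d.pr a)) = 0 := by
      rw [map_sub, h2, sub_self]
    have e3 : β (d.pr a - (β ^ n) (d.pr a)) - (d.pr a - (β ^ n) (d.pr a)) = 0 := e2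
    exact sub_eq_zero.1 e3
  have h2 : ⁅D, zpowers b⁆ ≤ Z := by
    rw [commutator_le]
    rintro a ⟨ha, ha'⟩ g hg
    obtain ⟨n, rfl⟩ := hpow g hg
    have hbn : b ^ n ∈ K := pow_mem hb n
    have hbnQ : b ^ n ∈ normalizer (Q : Set G) := pow_mem hbQ n
    have hc : b ^ n * a⁻¹ * (b ^ n)⁻¹ ∈ Q := conj_mem_of_mem_normalizer hbnQ (inv_mem ha)
    have e1 : ⁅a, b ^ n⁆ = a * (b ^ n * a⁻¹ * (b ^ n)⁻¹) := by
      rw [commutatorElement_def]
      group
    have hβa : ∀ n : ℕ, (β ^ n) (d.pr a) = d.pr a := by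
      intro n
      induction n with
      | zero => rfl
      | succ n ih =>
        rw [pow_succ]
        show (β ^ n) (β (d.pr a)) = _
        rw [ha', ih]
    have hmem : ⁅a, b ^ n⁆ ∈ Q := by
      rw [e1]
      exact mul_mem ha hc
    refine (d.pr_ker _ hmem).1 ?_
    rw [e1, d.pr_mul _ ha _ hc, d.hat_spec _ hbn _ (inv_mem ha), d.hat_pow hb, d.pr_inv ha,
      map_neg, hβa, add_neg_cancel]
  exact (commutator_mono h1 le_rfl).trans h2

namespace Ctx

variable {F : Type} [Field F] {E Q W Z WE C R P B : Subgroup G}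
  {X : Exc F E Q W Z WE C R P B} {Ξ : Type u} [AddCommGroup Ξ] (c : Ctx X Ξ)

include c

/-- The element `z`. -/
def z : G := c.i₁ * c.j₁ * c.i₁⁻¹ * c.j₁⁻¹

theorem z_mem : c.z ∈ E := mul_mem (mul_mem (mul_mem c.hi₁ c.hj₁) (inv_mem c.hi₁)) (inv_mem c.hj₁)

theorem hz₁ : (X.n₁.ρ c.z : Matrix (Fin 2) (Fin 2) F) = -1 := c.hρ₁

theorem hz₂ : (X.n₂.ρ c.z : Matrix (Fin 2) (Fin 2) F) = -1 := c.hρ₂

/-- The involution on `Ξ`. -/
def ι : AddMonoid.End Ξ := c.d.hat c.z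

/-- The idempotent on `Ξ`. -/
def PP : AddMonoid.End Ξ := c.ι - 1

theorem z_K : c.z ∈ normalizer (R : Set G) := X.hER c.z_mem

theorem hat_R {r : G} (hr : r ∈ R) : c.d.hat r = 1 := by
  rw [c.d.hat_eq_one_iff (le_normalizer hr) (normalizer_le_QQ2 R (le_normalizer hr))]
  intro u hu
  have h1 := inv_mem (hu.2.2 r hr)
  have e : r * u * r⁻¹ * u⁻¹ = (u * r * u⁻¹ * r⁻¹)⁻¹ := by group
  rw [e]
  exact h1

theorem h3x (y : Ξ) : y + y + y = 0 := by
  obtain ⟨x, hx, rfl⟩ := c.d.pr_surj y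
  have h1 := c.d.pr_pow hx 3
  have h2 : c.d.pr (x ^ 3) = 0 := (c.d.pr_ker _ (pow_mem hx 3)).2 hx.2.1
  rw [h2] at h1
  have e : (3 : ℕ) • c.d.pr x = c.d.pr x + c.d.pr x + c.d.pr x := by abel
  rw [← e, ← h1]

theorem three_end : (3 : AddMonoid.End Ξ) = 0 := by
  apply end_ext
  intro y
  have : (3 : AddMonoid.End Ξ) = 1 + 1 + 1 := by norm_num
  rw [this]
  exact c.h3x y

theorem hat_E_nu {e : G} (he : e ∈ E) (x : Fin 2 → F) :
    c.d.hat e (c.ν x) = c.ν ((X.n₂.ρ e : Matrix (Fin 2) (Fin 2) F) *ᵥ x) := by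
  obtain ⟨a, ha, rfl⟩ := X.n₂.ψ_surj x
  rw [c.ν_spec a ha, ← X.n₂.ψ_eq e he a ha, c.ν_spec _ (X.E_Q he ha)]
  exact (c.d.hat_spec e (X.hER he) a (X.Q_le_QQ2 ha)).symm

theorem hat_E_sub {e : G} (he : e ∈ E) (y : Ξ) : ∃ n, c.d.hat e y - y = c.ν n := by
  obtain ⟨x, hx, rfl⟩ := c.d.pr_surj y
  have h1 : e * x * e⁻¹ * x⁻¹ ∈ Q := X.comm_RE (QQ2_le R hx) he
  refine ⟨X.n₂.ψ (e * x * e⁻¹ * x⁻¹), ?_⟩
  rw [c.ν_spec _ h1, ← c.d.hat_spec e (X.hER he) x hx,
    c.d.pr_div (conj_mem_of_mem_normalizer (normalizer_le_QQ2 R (X.hER he)) hx) hx]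

theorem iota_nu (x : Fin 2 → F) : c.ι (c.ν x) = - c.ν x := by
  show c.d.hat c.z (c.ν x) = _
  rw [c.hat_E_nu c.z_mem, c.hz₂, Matrix.neg_mulVec, Matrix.one_mulVec, map_neg]

theorem sub_self_neg (a : Ξ) : - a - a = a := by
  have h := c.h3x a
  have e : - a - a = a - (a + a + a) := by abel
  rw [e, h, sub_zero]

theorem PP_apply (y : Ξ) : c.PP y = c.ι y - y := rfl

theorem PP_nu (x : Fin 2 → F) : c.PP (c.ν x) = c.ν x := by
  rw [PP_apply, c.iota_nu, c.sub_self_neg]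

theorem PP_range (y : Ξ) : ∃ n, c.PP y = c.ν n := c.hat_E_sub c.z_mem y

theorem PP_idem : c.PP * c.PP = c.PP := by
  apply end_ext
  intro y
  show c.PP (c.PP y) = c.PP y
  obtain ⟨n, hn⟩ := c.PP_range y
  rw [hn, c.PP_nu]

theorem PP_PP (y : Ξ) : c.PP (c.PP y) = c.PP y :=
  congrArg (fun f : AddMonoid.End Ξ => f y) c.PP_idem

theorem iota_eq : c.ι = 1 + c.PP := by
  show c.ι = 1 + (c.ι - 1)
  abel

theorem iota_sq : c.ι * c.ι = 1 := by
  rw [c.iota_eq]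
  have h3 := c.three_end
  have e : (1 + c.PP) * (1 + c.PP) = 1 + (c.PP * c.PP - c.PP) + (3 : AddMonoid.End Ξ) * c.PP := by
    noncomm_ring
  rw [e, c.PP_idem, h3]
  simp

/-- Elements normalizing `E` and `R` commute with `ι` on `Ξ`. -/
theorem hat_comm_iota {g : G} (hg : g ∈ normalizer (E : Set G)) (hgK : g ∈ normalizer (R : Set G)) :
    c.d.hat g * c.ι = c.ι * c.d.hat g := by
  have hq := X.outer_fix c.z_mem hg c.hz₁ c.hz₂
  have h1 := c.hat_R (X.hQR hq)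
  show c.d.hat g * c.d.hat c.z = c.d.hat c.z * c.d.hat g
  have e1 : g * c.z = (g * c.z * g⁻¹ * c.z⁻¹) * (c.z * g) := by group
  rw [← c.d.hat_mul _ hgK _ c.z_K, e1,
    c.d.hat_mul _ (le_normalizer (X.hQR hq)) _ (mul_mem c.z_K hgK), h1, one_mul,
    c.d.hat_mul _ c.z_K _ hgK]

theorem hat_comm_PP {g : G} (hg : g ∈ normalizer (E : Set G)) (hgK : g ∈ normalizer (R : Set G)) :
    c.d.hat g * c.PP = c.PP * c.d.hat g := by
  show c.d.hat g * (c.ι - 1) = (c.ι - 1) * c.d.hat g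
  rw [mul_sub, sub_mul, c.hat_comm_iota hg hgK, mul_one, one_mul]

theorem PP_sub (y : Ξ) : c.PP (y - c.PP y) = 0 := by
  rw [map_sub, c.PP_PP, sub_self]

/-- `E` acts trivially on the kernel of `P`. -/
theorem E_fix {e : G} (he : e ∈ E) {y : Ξ} (hy : c.PP y = 0) : c.d.hat e y = y := by
  obtain ⟨n, hn⟩ := c.hat_E_sub he y
  have hK := X.hER he
  have hc := c.hat_comm_iota (le_normalizer he) hK
  have h1 : c.ι y = y := sub_eq_zero.1 hy
  have h2 : c.ι (c.d.hat e y) = c.d.hat e y := by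
    have := congrArg (fun f : AddMonoid.End Ξ => f y) hc
    have h3 : c.d.hat e (c.ι y) = c.ι (c.d.hat e y) := this
    rw [← h3, h1]
  have h3 : c.d.hat e y = c.ν n + y := by
    rw [← hn]
    abel
  rw [h3, map_add, c.iota_nu, h1] at h2
  have h4 : - c.ν n = c.ν n := add_right_cancel h2
  have h5 : c.ν n + c.ν n = 0 := by
    nth_rw 1 [← h4]
    exact neg_add_cancel _
  have h6 := c.h3x (c.ν n)
  rw [h5, zero_add] at h6
  rw [h3, h6, zero_add]

/-- `E` gives good elements. -/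
theorem goodE {e : G} (he : e ∈ E) : GoodE c.PP (c.d.hat e) (c.d.hat e⁻¹) where
  mul1 := c.d.hat_mul_inv (X.hER he)
  mul2 := c.d.hat_inv_mul (X.hER he)
  comm := c.hat_comm_PP (le_normalizer he) (X.hER he)
  fix := by
    apply end_ext
    intro y
    show c.d.hat e (y - c.PP y) = y - c.PP y
    exact c.E_fix he (c.PP_sub y)

/-- Elements of `C` fixing pointwise `V`, trivial on `Ξ` and on `R / Q₂`, lie in `R`. -/
theorem mem_R_of {x : G} (hxC : x ∈ C) (h1 : x ∈ secTriv R (QQ2 R)) (h2 : c.d.hat x = 1)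
    (h3 : ∀ v ∈ VV R, x * v * x⁻¹ = v) : x ∈ R := by
  have hbot : ∀ g : G, g ∈ normalizer ((⊥ : Subgroup G) : Set G) := fun g => by
    rw [normalizer_eq_top_iff.2 (inferInstance : (⊥ : Subgroup G).Normal)]
    trivial
  have hsec1 : ∀ {y : G}, y ∈ normalizer (R : Set G) → c.d.hat y = 1 → y ∈ secTriv (QQ2 R) (VV R) :=
    fun {y} hy hh => ⟨normalizer_le_QQ2 R hy, normalizer_le_VV R hy,
      (c.d.hat_eq_one_iff hy (normalizer_le_QQ2 R hy)).1 hh⟩
  let K₄ : Subgroup G := C ⊓ (secTriv R (QQ2 R) ⊓ (secTriv (QQ2 R) (VV R) ⊓ secTriv (VV R) ⊥))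
  have hV3 : IsPGroup 3 (VV R) := isPGroup_omegaOneCenter R
  have hQ3 : IsPGroup 3 (QQ2 R) := X.hRp.to_le (QQ2_le R)
  have hK₄ : x ∈ K₄ := by
    refine mem_inf.2 ⟨hxC, mem_inf.2 ⟨h1, mem_inf.2 ⟨hsec1 (X.hCR hxC) h2,
      normalizer_le_VV R (X.hCR hxC), hbot x, ?_⟩⟩⟩
    intro v hv
    rw [h3 v hv, mul_inv_cancel]
    exact one_mem _
  have hKfix : ∀ y ∈ K₄, (orderOf y).Coprime 3 → y ∈ P := by
    rintro y ⟨hyC, hyR, hyQ, hyV⟩ hco
    have h4 : ∀ v ∈ VV R, y * v * y⁻¹ = v := by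
      intro v hv
      have := hyV.2.2 v hv
      rw [mem_bot] at this
      exact mul_inv_eq_one.1 this
    have h5 := fixes_of_secTriv hV3 hco hyQ h4
    have h6 := fixes_of_secTriv hQ3 hco hyR h5
    apply X.hCP
    rw [mem_centralizer_iff]
    intro r hr
    calc r * y = (y * r * y⁻¹) * y := by rw [h6 r hr]
      _ = y * r := by group
  have hKp : IsPGroup 3 K₄ := by
    rintro ⟨y, hy⟩
    obtain ⟨k, hk⟩ := pelt_of_coprime_mem X.hPp hKfix y hy
    exact ⟨k, Subtype.ext (by simpa using hk)⟩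
  have hKn : C ≤ normalizer (K₄ : Set G) := by
    intro g hg
    have hgR := X.hCR hg
    apply mem_normalizer_of_conj_le
    rintro y ⟨hyC, hyR, hyQ, hyV⟩
    have h4 : g * y * g⁻¹ ∈ C := mul_mem (mul_mem hg hyC) (inv_mem hg)
    exact mem_inf.2 ⟨h4, mem_inf.2 ⟨conj_mem_secTriv hgR (normalizer_le_QQ2 R hgR) hyR,
      mem_inf.2 ⟨conj_mem_secTriv (normalizer_le_QQ2 R hgR) (normalizer_le_VV R hgR) hyQ,
      conj_mem_secTriv (normalizer_le_VV R hgR) (hbot g) hyV⟩⟩⟩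
  exact X.hRcore K₄ inf_le_left hKn hKp hK₄

end Ctx

end Cfsg.Agent.Lib.FG85.BB
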