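/-
Exceptional blocks: no element of `C` of order prime to three acts on `Ξ` as `ι`.
-/
import Cfsg.Agent.Lib.FG85.BB8

set_option autoImplicit false
set_option linter.unusedSectionVars false
set_option linter.unusedVariables false

namespace Cfsg.Agent.Lib.FG85.BB

open Subgroup Cfsg Matrix
open Cfsg.Agent.Lib.LocalEven.Util
open Cfsg.Agent.Lib.LocalEven.SecIrr
open Cfsg.Agent.Lib.LocalEven.BaumannBlock
open scoped commutatorElement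

universe u

variable {G : Type u} [Group G] [Finite G]

namespace Ctx

variable {F : Type} [Field F] {E Q W Z WE C R P B : Subgroup G}
  {X : Exc F E Q W Z WE C R P B} {Ξ : Type u} [AddCommGroup Ξ] (c : Ctx X Ξ)

include c

theorem PP_comm_iota : c.PP * c.ι = c.ι * c.PP := by
  show (c.ι - 1) * c.ι = c.ι * (c.ι - 1)
  noncomm_ring

theorem lemmaT {t : G} (htC : t ∈ C) (hco : (orderOf t).Coprime 3) (hhat : c.d.hat t = c.ι)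
    (hV : ∀ v ∈ VV R, t * v * t⁻¹ = v) (hR : ∀ r ∈ R, t * r * t⁻¹ * r⁻¹ ∈ QQ2 R) : False := by
  classical
  have htK := X.hCR htC
  have htQ2 := normalizer_le_QQ2 R htK
  have htV := normalizer_le_VV R htK
  have hprt : ∀ x ∈ QQ2 R, c.d.pr (t * x * t⁻¹) = c.ι (c.d.pr x) := fun x hx => by
    rw [c.d.hat_spec t htK x hx, hhat]
  -- the action on `Q`
  have s2 : ∀ a ∈ Q, ∃ α ∈ VV R, t * a * t⁻¹ = α * a⁻¹ := by
    intro a ha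
    have ha2 := X.Q_le_QQ2 ha
    have h1 : t * a * t⁻¹ ∈ QQ2 R := conj_mem_of_mem_normalizer htQ2 ha2
    have h2 : c.d.pr (t * a * t⁻¹) = c.d.pr a⁻¹ := by
      rw [hprt a ha2, c.d.pr_inv ha2, ← c.ν_spec a ha, c.iota_nu]
    exact c.d.mem_of_pr_eq h1 (inv_mem ha2) h2
  -- `[R, t] ≤ Q V`
  have s1 : ∀ r ∈ R, ∃ a₁ ∈ Q, ∃ v₁ ∈ VV R, t * r * t⁻¹ * r⁻¹ = v₁ * a₁ := by
    intro r hr
    have hn := hR r hr
    let D₂ : Subgroup G :=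
      { carrier := {x | x ∈ QQ2 R ∧ c.PP (c.d.pr x) = c.d.pr x}
        mul_mem' := by
          rintro x y ⟨hx, hx'⟩ ⟨hy, hy'⟩
          refine ⟨mul_mem hx hy, ?_⟩
          rw [c.d.pr_mul _ hx _ hy, map_add, hx', hy']
        one_mem' := ⟨one_mem _, by rw [c.d.pr_one, map_zero]⟩
        inv_mem' := by
          rintro x ⟨hx, hx'⟩
          refine ⟨inv_mem hx, ?_⟩
          rw [c.d.pr_inv hx, map_neg, hx'] }
    have hnR : t * r * t⁻¹ * r⁻¹ ∈ R := QQ2_le R hn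
    have htD : t ∈ normalizer (D₂ : Set G) := by
      apply mem_normalizer_of_conj_le
      rintro x ⟨hx, hx'⟩
      refine ⟨conj_mem_of_mem_normalizer htQ2 hx, ?_⟩
      rw [hprt x hx]
      have := congrArg (fun f : AddMonoid.End Ξ => f (c.d.pr x)) c.PP_comm_iota
      have h2 : c.PP (c.ι (c.d.pr x)) = c.ι (c.PP (c.d.pr x)) := this
      rw [h2, hx']
    have hnD : t * r * t⁻¹ * r⁻¹ ∈ normalizer (D₂ : Set G) := by
      apply mem_normalizer_of_conj_le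
      rintro x ⟨hx, hx'⟩
      have hnK := le_normalizer hnR
      have h1 : (t * r * t⁻¹ * r⁻¹) * x * (t * r * t⁻¹ * r⁻¹)⁻¹ ∈ QQ2 R :=
        conj_mem_of_mem_normalizer (normalizer_le_QQ2 R hnK) hx
      refine ⟨h1, ?_⟩
      rw [c.d.hat_spec _ hnK x hx, c.hat_R hnR]
      exact hx'
    have hnm : t * (t * r * t⁻¹ * r⁻¹) * t⁻¹ * (t * r * t⁻¹ * r⁻¹)⁻¹ ∈ D₂ := by
      have h1 := conj_mem_of_mem_normalizer htQ2 hn
      refine ⟨mul_mem h1 (inv_mem hn), ?_⟩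
      rw [c.d.pr_div h1 hn, hprt _ hn]
      have h2 : c.ι (c.d.pr (t * r * t⁻¹ * r⁻¹)) - c.d.pr (t * r * t⁻¹ * r⁻¹) =
          c.PP (c.d.pr (t * r * t⁻¹ * r⁻¹)) := rfl
      rw [h2, c.PP_PP]
    have hmem : t * r * t⁻¹ * r⁻¹ ∈ D₂ := by
      apply mem_of_coprime_comm hco htD hnD _ hnm
      obtain ⟨k, hk⟩ := X.hRp ⟨_, hnR⟩
      exact ⟨k, by simpa using congrArg Subtype.val hk⟩
    obtain ⟨m, hm⟩ := c.PP_range (c.d.pr (t * r * t⁻¹ * r⁻¹))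
    rw [hmem.2] at hm
    obtain ⟨a₁, ha₁, rfl⟩ := X.n₂.ψ_surj m
    rw [c.ν_spec a₁ ha₁] at hm
    obtain ⟨v₁, hv₁, he⟩ := c.d.mem_of_pr_eq hn (X.Q_le_QQ2 ha₁) hm
    exact ⟨a₁, ha₁, v₁, hv₁, he⟩
  -- `R` acts trivially on `Q / Z`
  have s3 : ∀ r ∈ R, ∀ a ∈ Q, r * a * r⁻¹ * a⁻¹ ∈ Z := by
    intro r hr a ha
    have hx := X.comm_QR hr ha
    have hxfix := hV _ (X.W_le_V hx)
    obtain ⟨a₁, ha₁, v₁, hv₁, hn⟩ := s1 r hr
    obtain ⟨α, hα, hta⟩ := s2 a ha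
    have hr' : t * r * t⁻¹ = v₁ * a₁ * r := mul_inv_eq_iff_eq_mul.1 hn
    set x := r * a * r⁻¹ * a⁻¹ with hxd
    have haR := X.hQR ha
    have ha₁R := X.hQR ha₁
    have hgR : a₁ * r ∈ R := mul_mem ha₁R hr
    have e1 : t * x * t⁻¹ = (t * r * t⁻¹) * (t * a * t⁻¹) * (t * r * t⁻¹)⁻¹ * (t * a * t⁻¹)⁻¹ := by
      rw [hxd]; group
    rw [hr', hta] at e1
    -- removing the central factors
    have hv₁g : v₁ * a₁ * r ∈ R := mul_mem (mul_mem (VV_le R hv₁) ha₁R) hr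
    have e2 : (v₁ * a₁ * r) * (α * a⁻¹) * (v₁ * a₁ * r)⁻¹ * (α * a⁻¹)⁻¹ =
        α * ((v₁ * a₁ * r) * a⁻¹ * (v₁ * a₁ * r)⁻¹ * a) * α⁻¹ := by
      have hc := VV_comm hα hv₁g
      calc (v₁ * a₁ * r) * (α * a⁻¹) * (v₁ * a₁ * r)⁻¹ * (α * a⁻¹)⁻¹
          = ((v₁ * a₁ * r) * α) * a⁻¹ * (v₁ * a₁ * r)⁻¹ * a * α⁻¹ := by group
        _ = (α * (v₁ * a₁ * r)) * a⁻¹ * (v₁ * a₁ * r)⁻¹ * a * α⁻¹ := by rw [hc]
        _ = _ := by group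
    have hy : (v₁ * a₁ * r) * a⁻¹ * (v₁ * a₁ * r)⁻¹ * a ∈ R :=
      mul_mem (mul_mem (mul_mem hv₁g (inv_mem haR)) (inv_mem hv₁g)) haR
    have e3 : α * ((v₁ * a₁ * r) * a⁻¹ * (v₁ * a₁ * r)⁻¹ * a) * α⁻¹ =
        (v₁ * a₁ * r) * a⁻¹ * (v₁ * a₁ * r)⁻¹ * a := by
      rw [← VV_comm hα hy]
      group
    have e4 : (v₁ * a₁ * r) * a⁻¹ * (v₁ * a₁ * r)⁻¹ * a =
        v₁ * ((a₁ * r) * a⁻¹ * (a₁ * r)⁻¹) * v₁⁻¹ * a := by group
    have hy2 : (a₁ * r) * a⁻¹ * (a₁ * r)⁻¹ ∈ R :=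
      mul_mem (mul_mem hgR (inv_mem haR)) (inv_mem hgR)
    have e5 : v₁ * ((a₁ * r) * a⁻¹ * (a₁ * r)⁻¹) * v₁⁻¹ = (a₁ * r) * a⁻¹ * (a₁ * r)⁻¹ := by
      rw [← VV_comm hv₁ hy2]
      group
    rw [e2, e3, e4, e5] at e1
    have e6 : (a₁ * r) * a⁻¹ * (a₁ * r)⁻¹ * a = a₁ * (a⁻¹ * (x⁻¹ * (a₁⁻¹ * a))) := by
      rw [hxd]; group
    have hc2 := X.hWcent _ (inv_mem hx) _ (mul_mem (inv_mem ha₁) ha)
    have e7 : a₁ * (a⁻¹ * (x⁻¹ * (a₁⁻¹ * a))) = (a₁ * a⁻¹ * a₁⁻¹ * a⁻¹⁻¹) * x⁻¹ := by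
      rw [hc2]; group
    rw [e6, e7, hxfix] at e1
    have hζ : a₁ * a⁻¹ * a₁⁻¹ * a⁻¹⁻¹ ∈ Z := X.comm_mem ha₁ (inv_mem ha)
    apply X.mem_of_sq_mem hx
    have e8 : x * x = a₁ * a⁻¹ * a₁⁻¹ * a⁻¹⁻¹ := by
      nth_rw 1 [e1]
      group
    rw [e8]
    exact hζ
  -- conjugates of `t`
  have htsec : t ∈ secTriv R (QQ2 R) := ⟨htK, htQ2, hR⟩
  have s4 : ∀ g, g ∈ normalizer (E : Set G) → g ∈ normalizer (R : Set G) →
      g ∈ normalizer (C : Set G) → t⁻¹ * (g * t * g⁻¹) ∈ R := by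
    intro g hgE hgR hgC
    have hgt : g * t * g⁻¹ ∈ C := conj_mem_of_mem_normalizer hgC htC
    have hgtK := X.hCR hgt
    apply c.mem_R_of (mul_mem (inv_mem htC) hgt)
    · exact mul_mem (inv_mem htsec) (conj_mem_secTriv hgR (normalizer_le_QQ2 R hgR) htsec)
    · rw [c.d.hat_mul _ (inv_mem htK) _ hgtK, c.d.hat_conj hgR htK, hhat, c.hat_comm_iota hgE hgR,
        mul_assoc c.ι, c.d.hat_mul_inv hgR, mul_one, ← hhat, c.d.hat_inv_mul htK]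
    · intro v hv
      have hv' : g⁻¹ * v * g⁻¹⁻¹ ∈ VV R :=
        conj_mem_of_mem_normalizer (inv_mem (normalizer_le_VV R hgR)) hv
      have h1 := hV _ hv'
      have e : (t⁻¹ * (g * t * g⁻¹)) * v * (t⁻¹ * (g * t * g⁻¹))⁻¹ =
          t⁻¹ * (g * (t * (g⁻¹ * v * g⁻¹⁻¹) * t⁻¹) * g⁻¹) * t := by group
      rw [e, h1]
      have e2 : g * (g⁻¹ * v * g⁻¹⁻¹) * g⁻¹ = v := by group
      rw [e2]
      have h2 := hV v hv
      calc t⁻¹ * v * t = t⁻¹ * (t * v * t⁻¹) * t := by rw [h2]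
        _ = v := by group
  have s4t : t * t ∈ R := by
    apply c.mem_R_of (mul_mem htC htC) (mul_mem htsec htsec)
    · rw [c.d.hat_mul _ htK _ htK, hhat, c.iota_sq]
    · intro v hv
      have h2 := hV v hv
      calc t * t * v * (t * t)⁻¹ = t * (t * v * t⁻¹) * t⁻¹ := by group
        _ = v := by rw [h2, h2]
  -- the map `α`
  have hαV : ∀ a ∈ Q, a * (t * a * t⁻¹) ∈ VV R := by
    intro a ha
    obtain ⟨α, hα, e⟩ := s2 a ha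
    have e1 : a * (t * a * t⁻¹) = a * α * a⁻¹ := by rw [e]; group
    rw [e1, VV_conj_fix hα (X.hQR ha)]
    exact hα
  have hmulα : ∀ a ∈ Q, ∀ b ∈ Q, (a * b) * (t * (a * b) * t⁻¹) =
      (a * b * a⁻¹ * b⁻¹) * ((a * (t * a * t⁻¹)) * (b * (t * b * t⁻¹))) := by
    intro a ha b hb
    have hc := VV_comm (hαV a ha) (X.hQR hb)
    calc (a * b) * (t * (a * b) * t⁻¹)
        = (a * b * a⁻¹ * b⁻¹) * (b * (a * (t * a * t⁻¹))) * (t * b * t⁻¹) := by group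
      _ = (a * b * a⁻¹ * b⁻¹) * ((a * (t * a * t⁻¹)) * b) * (t * b * t⁻¹) := by rw [hc]
      _ = _ := by group
  have hinvα : ∀ a ∈ Q, a⁻¹ * (t * a⁻¹ * t⁻¹) = (a * (t * a * t⁻¹))⁻¹ := by
    intro a ha
    have hu := hαV a ha
    have h1 := VV_conj_fix (inv_mem hu) (inv_mem (X.hQR ha))
    calc a⁻¹ * (t * a⁻¹ * t⁻¹) = a⁻¹ * (a * (t * a * t⁻¹))⁻¹ * a⁻¹⁻¹ := by group
      _ = (a * (t * a * t⁻¹))⁻¹ := h1
  let D : Subgroup G :=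
    { carrier := {a | a ∈ Q ∧ a * (t * a * t⁻¹) ∈ W}
      mul_mem' := by
        rintro a b ⟨ha, ha'⟩ ⟨hb, hb'⟩
        refine ⟨mul_mem ha hb, ?_⟩
        rw [hmulα a ha b hb]
        exact mul_mem (X.hZW (X.comm_mem ha hb)) (mul_mem ha' hb')
      one_mem' := ⟨one_mem _, by simp⟩
      inv_mem' := by
        rintro a ⟨ha, ha'⟩
        refine ⟨inv_mem ha, ?_⟩
        rw [hinvα a ha]
        exact inv_mem ha' }
  have hequiv : ∀ a ∈ Q, ∀ e ∈ E, ∃ ζ ∈ Z, e * (a * (t * a * t⁻¹)) * e⁻¹ =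
      ζ * ((e * a * e⁻¹) * (t * (e * a * e⁻¹) * t⁻¹)) := by
    intro a ha e he
    have hre := s4 e (le_normalizer he) (X.hER he) (X.hEC he)
    have ha' : e * a * e⁻¹ ∈ Q := X.E_Q he ha
    have hζ := s3 _ hre _ ha'
    refine ⟨_, hζ, ?_⟩
    set r := t⁻¹ * (e * t * e⁻¹) with hr
    set a' := e * a * e⁻¹ with ha'd
    set ζ := r * a' * r⁻¹ * a'⁻¹ with hζd
    have het : e * t * e⁻¹ = t * r := by rw [hr]; group
    have e1 : e * (a * (t * a * t⁻¹)) * e⁻¹ = a' * ((e * t * e⁻¹) * a' * (e * t * e⁻¹)⁻¹) := by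
      rw [ha'd]; group
    have hζfix := hV ζ (X.W_le_V (X.hZW hζ))
    have e2 : (t * r) * a' * (t * r)⁻¹ = (t * ζ * t⁻¹) * (t * a' * t⁻¹) := by
      rw [hζd]; group
    rw [e1, het, e2, hζfix, ← mul_assoc, ← X.Z_Q hζ ha', mul_assoc]
  have hQD : Q ≤ D := by
    conv_lhs => rw [← X.hQEc]
    rw [commutator_le]
    intro a ha e he
    have ha' : e * a * e⁻¹ ∈ Q := X.E_Q he ha
    have e1 : ⁅a, e⁆ = a * (e * a * e⁻¹)⁻¹ := by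
      rw [commutatorElement_def]; group
    rw [e1]
    refine ⟨mul_mem ha (inv_mem ha'), ?_⟩
    rw [hmulα a ha _ (inv_mem ha'), hinvα _ ha']
    refine mul_mem (X.hZW (X.comm_mem ha (inv_mem ha'))) ?_
    obtain ⟨ζ, hζ, heq⟩ := hequiv a ha e he
    set u := a * (t * a * t⁻¹) with hu
    set u' := (e * a * e⁻¹) * (t * (e * a * e⁻¹) * t⁻¹) with hu'
    have huV : u ∈ VV R := hαV a ha
    have h1 : e * u * e⁻¹ * u⁻¹ ∈ WE := (X.E_sec_V he).2.2 u huV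
    have h2 : u' = ζ⁻¹ * (e * u * e⁻¹) := by rw [heq]; group
    have e2 : u * u'⁻¹ = (e * u * e⁻¹ * u⁻¹)⁻¹ * ζ := by rw [h2]; group
    rw [e2]
    exact mul_mem (X.WE_le_W (inv_mem h1)) (X.hZW hζ)
  have htQ : ∀ a ∈ Q, t * a * t⁻¹ ∈ Q := by
    intro a ha
    have h1 := (hQD ha).2
    have e : t * a * t⁻¹ = a⁻¹ * (a * (t * a * t⁻¹)) := by group
    rw [e]
    exact mul_mem (inv_mem ha) (X.hWQ h1)
  -- the section `Q / Z`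
  have htNQ : t ∈ normalizer (Q : Set G) := mem_normalizer_of_conj_le htQ
  have htNZ : t ∈ normalizer (Z : Set G) := by
    apply mem_normalizer_of_conj_le
    intro ζ hζ
    rw [hV ζ (X.W_le_V (X.hZW hζ))]
    exact hζ
  have hZQ : Z ≤ Q := X.hZW.trans X.hWQ
  have hQnZ : Q ≤ normalizer (Z : Set G) := fun a ha => X.hNZ (le_normalizer (X.hQE ha))
  obtain ⟨A, iA, hfA, ⟨dQ⟩⟩ := exists_section (K := normalizer (Q : Set G) ⊓ normalizer (Z : Set G))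
    hZQ hQnZ (fun x hx y hy => X.comm_mem hx hy) inf_le_left inf_le_right
  obtain ⟨b, hb, hbW, hb1, hb2⟩ := X.exists_b
  have hbE := X.hBE hb
  have hbK : b ∈ normalizer (Q : Set G) ⊓ normalizer (Z : Set G) := mem_inf.2 ⟨X.hNQ hbE, X.hNZ hbE⟩
  have htK' : t ∈ normalizer (Q : Set G) ⊓ normalizer (Z : Set G) := mem_inf.2 ⟨htNQ, htNZ⟩
  have hRK : ∀ r ∈ R, r ∈ normalizer (Q : Set G) ⊓ normalizer (Z : Set G) := fun r hr =>
    mem_inf.2 ⟨X.hNQ (X.hRE hr), X.hNZ (X.hRE hr)⟩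
  have hRhat : ∀ r ∈ R, dQ.hat r = 1 := fun r hr =>
    (dQ.hat_eq_one_iff (hRK r hr) (X.hNQ (X.hRE hr))).2 (s3 r hr)
  apply X.hnq b hb hbW
  apply quad_to_comm dQ hbK (X.hNQ hbE)
  have h3A : ∀ y : A, y + y + y = 0 := by
    intro y
    obtain ⟨x, hx, rfl⟩ := dQ.pr_surj y
    have h1 := dQ.pr_pow hx 3
    rw [(dQ.pr_ker _ (pow_mem hx 3)).2 (X.hQ3 x hx)] at h1
    have e : (3 : ℕ) • dQ.pr x = dQ.pr x + dQ.pr x + dQ.pr x := by abel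
    rw [← e, ← h1]
  have hβ1 : ∀ u ∈ Q, (dQ.hat b - 1) (dQ.pr u) = dQ.pr (b * u * b⁻¹ * u⁻¹) := by
    intro u hu
    rw [dQ.pr_div (conj_mem_of_mem_normalizer (X.hNQ hbE) hu) hu, dQ.hat_spec b hbK u hu]
    rfl
  have hQb : ∀ u ∈ Q, b * u * b⁻¹ * u⁻¹ ∈ Q := fun u hu =>
    mul_mem (conj_mem_of_mem_normalizer (X.hNQ hbE) hu) (inv_mem hu)
  apply quad_core h3A (dQ.hat t) (dQ.hat b) _ _ {y | ∃ w ∈ W, y = dQ.pr w}
  · rintro _ ⟨w, hw, rfl⟩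
    rw [← dQ.hat_spec t htK' w (X.hWQ hw), hV w (X.W_le_V hw)]
  · intro x
    obtain ⟨a, ha, rfl⟩ := dQ.pr_surj x
    refine ⟨_, (hQD ha).2, ?_⟩
    rw [dQ.pr_mul _ ha _ (htQ a ha), dQ.hat_spec t htK' a ha, add_comm]
  · rintro _ ⟨w, hw, rfl⟩
    rw [hβ1 w (X.hWQ hw), hβ1 _ (hQb w (X.hWQ hw))]
    exact (dQ.pr_ker _ (mul_mem (conj_mem_of_mem_normalizer (X.hNQ hbE) (hQb w (X.hWQ hw)))
      (inv_mem (hQb w (X.hWQ hw))))).2 (hb1 w hw)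
  · intro x
    obtain ⟨a, ha, rfl⟩ := dQ.pr_surj x
    rw [hβ1 a ha, hβ1 _ (hQb a ha)]
    exact ⟨_, hb2 a ha, rfl⟩
  · rw [← dQ.hat_mul _ htK' _ htK', hRhat _ s4t]
  · have hr := s4 b hbE (X.hBR hb) (X.hBC hb)
    have e : b * t = t * (t⁻¹ * (b * t * b⁻¹)) * b := by group
    rw [← dQ.hat_mul _ hbK _ htK', e, dQ.hat_mul _ (mul_mem htK' (hRK _ hr)) _ hbK,
      dQ.hat_mul _ htK' _ (hRK _ hr), hRhat _ hr, mul_one]

end Ctx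

end Cfsg.Agent.Lib.FG85.BB
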