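/-
Exceptional blocks: two conjugates of `ι` by `C` which commute are equal.
-/
import Cfsg.Agent.Lib.FG85.BB9

set_option autoImplicit false
set_option linter.unusedSectionVars false
set_option linter.unusedVariables false

namespace Cfsg.Agent.Lib.FG85.BB

open Subgroup Cfsg Matrix
open Cfsg.Agent.Lib.LocalEven.Util
open Cfsg.Agent.Lib.LocalEven.SecIrr
open Cfsg.Agent.Lib.LocalEven.BaumannBlock
open scoped commutatorElement

universe u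

variable {G : Type u} [Group G] [Finite G]

/-- Every element has a power of `3`-power exponent of order prime to three. -/
theorem exists_pow_coprime (y : G) : ∃ a : ℕ, (orderOf (y ^ (3 ^ a))).Coprime 3 := by
  have hn : orderOf y ≠ 0 := (orderOf_pos y).ne'
  obtain ⟨a, m, hm, he⟩ := Nat.exists_eq_pow_mul_and_not_dvd hn 3 (by norm_num)
  have hcop : m.Coprime 3 := ((Nat.Prime.coprime_iff_not_dvd Nat.prime_three).2 hm).symm
  have hord : orderOf (y ^ (3 ^ a)) = m := by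
    rw [orderOf_pow' y (pow_ne_zero _ (by norm_num)), he]
    rw [Nat.gcd_eq_right (Dvd.intro _ rfl)]
    exact Nat.mul_div_cancel_left _ (pow_pos (by norm_num) _)
  exact ⟨a, by rw [hord]; exact hcop⟩

theorem dt_zero_of {F : Type*} [Field F] {a b c : Fin 2 → F} (h1 : dt a c = 0) (h2 : dt b c = 0)
    (hc : c ≠ 0) : dt a b = 0 := by
  simp only [dt] at h1 h2 ⊢
  by_cases h0 : c 0 = 0
  · have h3 : c 1 ≠ 0 := by
      intro h3
      apply hc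
      ext i
      fin_cases i <;> simp [h0, h3]
    apply (mul_eq_zero.1 (?_ : c 1 * (a 0 * b 1 - a 1 * b 0) = 0)).resolve_left h3
    linear_combination b 1 * h1 - a 1 * h2
  · apply (mul_eq_zero.1 (?_ : c 0 * (a 0 * b 1 - a 1 * b 0) = 0)).resolve_left h0
    linear_combination b 0 * h1 - a 0 * h2

theorem exists_dt_ne {F : Type*} [Field F] {a : Fin 2 → F} (ha : a ≠ 0) :
    ∃ b : Fin 2 → F, dt a b ≠ 0 := by
  by_cases h0 : a 0 = 0
  · have h3 : a 1 ≠ 0 := by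
      intro h3
      apply ha
      ext i
      fin_cases i <;> simp [h0, h3]
    exact ⟨![1, 0], by simpa [dt] using h3⟩
  · exact ⟨![0, 1], by simpa [dt] using h0⟩

theorem card_range_conj {Ξ : Type*} [AddCommGroup Ξ] (P u u' : AddMonoid.End Ξ) (h1 : u * u' = 1)
    (h2 : u' * u = 1) :
    Nat.card (AddMonoidHom.range (u * P * u' : AddMonoid.End Ξ)) = Nat.card (AddMonoidHom.range P) := by
  have hu : ∀ x, u (u' x) = x := fun x => congrArg (fun f : AddMonoid.End Ξ => f x) h1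
  have hu' : ∀ x, u' (u x) = x := fun x => congrArg (fun f : AddMonoid.End Ξ => f x) h2
  refine Nat.card_congr ⟨fun y => ⟨u' y.1, ?_⟩, fun y => ⟨u y.1, ?_⟩, ?_, ?_⟩
  · obtain ⟨y, x, rfl⟩ := y
    refine ⟨u' x, ?_⟩
    show P (u' x) = u' (u (P (u' x)))
    rw [hu']
  · obtain ⟨y, x, rfl⟩ := y
    refine ⟨u x, ?_⟩
    show u (P (u' (u x))) = u (P x)
    rw [hu']
  · rintro ⟨y, hy⟩
    exact Subtype.ext (hu y)
  · rintro ⟨y, hy⟩
    exact Subtype.ext (hu' y)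

namespace Ctx

variable {F : Type} [Field F] {E Q W Z WE C R P B : Subgroup G}
  {X : Exc F E Q W Z WE C R P B} {Ξ : Type u} [AddCommGroup Ξ] (c : Ctx X Ξ)

include c

theorem iota_pow3 (m : ℕ) : c.ι ^ (3 ^ m) = c.ι := by
  induction m with
  | zero => simp
  | succ m ih =>
    rw [pow_succ, pow_mul, ih]
    calc c.ι ^ 3 = (c.ι * c.ι) * c.ι := by simp only [pow_succ, pow_zero, one_mul]
      _ = c.ι := by rw [c.iota_sq, one_mul]

/-- An element of `C` acting on `Ξ` as `ι`, and trivially on the rest of the chain, is impossible. -/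
theorem no_y {y : G} (hyC : y ∈ C) (hy1 : y ∈ secTriv R (QQ2 R)) (hy2 : y ∈ secTriv (VV R) WE)
    (hhat : c.d.hat y = c.ι) : False := by
  obtain ⟨a, ha⟩ := exists_pow_coprime y
  have htC : y ^ (3 ^ a) ∈ C := pow_mem hyC _
  have ht1 := pow_mem hy1 (3 ^ a)
  have ht2 := pow_mem hy2 (3 ^ a)
  have hWEp : IsPGroup 3 WE := X.hRp.to_le ((X.WE_le_W).trans (X.hWQ.trans X.hQR))
  apply c.lemmaT htC ha
  · rw [c.d.hat_pow (X.hCR hyC), hhat, c.iota_pow3]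
  · exact fixes_of_secTriv hWEp ha ht2 (fun w hw => X.C_fix_WE htC hw)
  · exact ht1.2.2

theorem hat_conj_eq {g : G} (hg : g ∈ normalizer (R : Set G)) :
    c.d.hat (g * c.z * g⁻¹) = 1 + c.d.hat g * c.PP * c.d.hat g⁻¹ := by
  rw [c.d.hat_conj hg c.z_K]
  show c.d.hat g * c.ι * c.d.hat g⁻¹ = _
  rw [c.iota_eq, mul_add, add_mul, mul_one, c.d.hat_mul_inv hg]

theorem z_sec_R : c.z ∈ secTriv R (QQ2 R) := X.E_sec_R c.z_mem

theorem z_sec_V : c.z ∈ secTriv (VV R) WE := X.E_sec_V c.z_mem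

theorem conj_sec_R {g x : G} (hg : g ∈ C) (hx : x ∈ E) : g * x * g⁻¹ ∈ secTriv R (QQ2 R) :=
  conj_mem_secTriv (X.hCR hg) (normalizer_le_QQ2 R (X.hCR hg)) (X.E_sec_R hx)

theorem conj_sec_V {g x : G} (hg : g ∈ C) (hx : x ∈ E) : g * x * g⁻¹ ∈ secTriv (VV R) WE :=
  conj_mem_secTriv (normalizer_le_VV R (X.hCR hg)) (X.C_norm_WE hg) (X.E_sec_V hx)

/-- Two conjugates of `ι` which commute agree, in the basic case. -/
theorem cp [Finite Ξ] {g : G} (hg : g ∈ C)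
    (hcomm : c.d.hat (g * c.z * g⁻¹) * c.ι = c.ι * c.d.hat (g * c.z * g⁻¹)) :
    c.d.hat (g * c.z * g⁻¹) = c.ι := by
  have hgK := X.hCR hg
  set u := c.d.hat g with hu
  set u' := c.d.hat g⁻¹ with hu'
  have huu' : u * u' = 1 := c.d.hat_mul_inv hgK
  have hu'u : u' * u = 1 := c.d.hat_inv_mul hgK
  set q := u * c.PP * u' with hq
  have hzg : c.d.hat (g * c.z * g⁻¹) = 1 + q := c.hat_conj_eq hgK
  have hzgK : g * c.z * g⁻¹ ∈ normalizer (R : Set G) :=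
    mul_mem (mul_mem hgK c.z_K) (inv_mem hgK)
  have hqq : q * q = q := by
    calc q * q = u * c.PP * (u' * u) * c.PP * u' := by simp only [hq, mul_assoc]
      _ = u * (c.PP * c.PP) * u' := by rw [hu'u, mul_one]; simp only [mul_assoc]
      _ = q := by rw [c.PP_idem]
  have hqx : ∀ y, q (q y) = q y := fun y => congrArg (fun f : AddMonoid.End Ξ => f y) hqq
  have hqP : q * c.PP = c.PP * q := by
    rw [hzg, c.iota_eq] at hcomm
    have e1 : (1 + q) * (1 + c.PP) = 1 + q + c.PP + q * c.PP := by noncomm_ring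
    have e2 : (1 + c.PP) * (1 + q) = 1 + q + c.PP + c.PP * q := by noncomm_ring
    rw [e1, e2] at hcomm
    exact add_left_cancel hcomm
  have hqPx : ∀ y, q (c.PP y) = c.PP (q y) := fun y => congrArg (fun f : AddMonoid.End Ξ => f y) hqP
  have hh0 : c.h 0 = 1 := by
    have := c.h_add 0 0
    rw [add_zero] at this
    exact left_eq_mul.1 this
  -- step A
  have stepA : ∀ n₁ n₂, q (c.ν n₁) = c.ν n₁ → q (c.ν n₂) = 0 → dt n₁ n₂ = 0 := by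
    intro n₁ n₂ h1 h2
    obtain ⟨a₁, ha₁, rfl⟩ := X.n₂.ψ_surj n₁
    obtain ⟨a₂, ha₂, rfl⟩ := X.n₂.ψ_surj n₂
    rw [c.ν_spec a₁ ha₁] at h1
    rw [c.ν_spec a₂ ha₂] at h2
    have ha₁' := X.Q_le_QQ2 ha₁
    have ha₂' := X.Q_le_QQ2 ha₂
    set zg := g * c.z * g⁻¹ with hzgd
    have hzgQ : zg ∈ normalizer (QQ2 R : Set G) := normalizer_le_QQ2 R hzgK
    have h3 : c.d.pr (zg * a₁ * zg⁻¹) = c.d.pr a₁⁻¹ := by
      rw [c.d.hat_spec zg hzgK a₁ ha₁', hzg, c.d.pr_inv ha₁']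
      show c.d.pr a₁ + q (c.d.pr a₁) = _
      rw [h1]
      have h5 := c.h3x (c.d.pr a₁)
      exact eq_neg_of_add_eq_zero_left h5
    have h4 : c.d.pr (zg * a₂ * zg⁻¹) = c.d.pr a₂ := by
      rw [c.d.hat_spec zg hzgK a₂ ha₂', hzg]
      show c.d.pr a₂ + q (c.d.pr a₂) = _
      rw [h2, add_zero]
    obtain ⟨v₁, hv₁, e1⟩ := c.d.mem_of_pr_eq (conj_mem_of_mem_normalizer hzgQ ha₁') (inv_mem ha₁') h3
    obtain ⟨v₂, hv₂, e2⟩ := c.d.mem_of_pr_eq (conj_mem_of_mem_normalizer hzgQ ha₂') ha₂' h4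
    set x := a₁ * a₂ * a₁⁻¹ * a₂⁻¹ with hx
    have hxZ : x ∈ Z := X.comm_mem ha₁ ha₂
    have hxW := X.hZW hxZ
    have hxV := X.W_le_V hxW
    -- `z_g` inverts `x`
    have h5 : zg * x * zg⁻¹ = x⁻¹ := by
      have e3 : zg * x * zg⁻¹ = (zg * a₁ * zg⁻¹) * (zg * a₂ * zg⁻¹) * (zg * a₁ * zg⁻¹)⁻¹ *
          (zg * a₂ * zg⁻¹)⁻¹ := by
        rw [hx]; group
      rw [e3, e1, e2]
      have hb₁ : a₁⁻¹ ∈ R := X.hQR (inv_mem ha₁)
      have hb₂ : a₂ ∈ R := X.hQR ha₂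
      have hv₁R := VV_le R hv₁
      have hv₂R := VV_le R hv₂
      have c1 : ∀ y ∈ R, y * v₁ = v₁ * y := fun y hy => VV_comm hv₁ hy
      have c2 : ∀ y ∈ R, y * v₂ = v₂ * y := fun y hy => VV_comm hv₂ hy
      have e4 : (v₁ * a₁⁻¹) * (v₂ * a₂) * (v₁ * a₁⁻¹)⁻¹ * (v₂ * a₂)⁻¹ =
          a₁⁻¹ * a₂ * a₁⁻¹⁻¹ * a₂⁻¹ := by
        calc (v₁ * a₁⁻¹) * (v₂ * a₂) * (v₁ * a₁⁻¹)⁻¹ * (v₂ * a₂)⁻¹
            = v₁ * (a₁⁻¹ * v₂) * a₂ * a₁ * v₁⁻¹ * (a₂⁻¹ * v₂⁻¹) := by group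
          _ = v₁ * (v₂ * a₁⁻¹) * a₂ * a₁ * v₁⁻¹ * (a₂⁻¹ * v₂⁻¹) := by rw [c2 _ hb₁]
          _ = v₁ * (v₂ * (a₁⁻¹ * a₂ * a₁)) * v₁⁻¹ * (a₂⁻¹ * v₂⁻¹) := by group
          _ = v₁ * ((a₁⁻¹ * a₂ * a₁) * v₂) * v₁⁻¹ * (a₂⁻¹ * v₂⁻¹) := by
              rw [c2 _ (mul_mem (mul_mem hb₁ hb₂) (X.hQR ha₁))]
          _ = (v₁ * (a₁⁻¹ * a₂ * a₁)) * v₂ * v₁⁻¹ * (a₂⁻¹ * v₂⁻¹) := by group
          _ = ((a₁⁻¹ * a₂ * a₁) * v₁) * v₂ * v₁⁻¹ * (a₂⁻¹ * v₂⁻¹) := by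
              rw [c1 _ (mul_mem (mul_mem hb₁ hb₂) (X.hQR ha₁))]
          _ = (a₁⁻¹ * a₂ * a₁) * (v₁ * v₂ * v₁⁻¹) * (a₂⁻¹ * v₂⁻¹) := by group
          _ = (a₁⁻¹ * a₂ * a₁) * v₂ * (a₂⁻¹ * v₂⁻¹) := by
              rw [VV_conj_fix hv₂ hv₁R]
          _ = (a₁⁻¹ * a₂ * a₁) * (v₂ * a₂⁻¹) * v₂⁻¹ := by group
          _ = (a₁⁻¹ * a₂ * a₁) * (a₂⁻¹ * v₂) * v₂⁻¹ := by rw [c2 _ (inv_mem hb₂)]
          _ = _ := by group
      rw [e4]
      have e5 := X.comm_mul_left (inv_mem ha₁) ha₁ ha₂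
      have e6 : a₁⁻¹ * a₁ * a₂ * (a₁⁻¹ * a₁)⁻¹ * a₂⁻¹ = 1 := by group
      rw [e6] at e5
      exact eq_inv_of_mul_eq_one_left e5.symm
    -- so `x ∈ W_E`
    have hzsec : zg ∈ secTriv (VV R) WE := c.conj_sec_V hg c.z_mem
    have h6 := hzsec.2.2 x hxV
    rw [h5] at h6
    have h7 : x⁻¹ * x⁻¹ ∈ WE := h6
    have h8 : x⁻¹ ∈ WE := X.mem_of_sq_mem (inv_mem hxW) h7
    have h9 : x⁻¹ = 1 := X.WE_inf_Z c.z_mem c.hz₁ h8 (inv_mem hxZ)
    have h10 : x = 1 := inv_eq_one.1 h9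
    have h11 := c.h_comm a₁ ha₁ a₂ ha₂
    rw [← hx, h10, ← hh0] at h11
    exact (c.h_inj h11).symm
  -- the action of `q` on the image of `ν`
  have hqν : ∀ n, ∃ n', q (c.ν n) = c.ν n' := by
    intro n
    obtain ⟨n', hn'⟩ := c.PP_range (q (c.ν n))
    refine ⟨n', ?_⟩
    rw [← hn', ← hqPx, c.PP_nu]
  -- step B
  have stepB : (∀ n, q (c.ν n) = c.ν n) ∨ (∀ n, q (c.ν n) = 0) := by
    by_contra hcon
    push Not at hcon
    obtain ⟨⟨n₁, h1⟩, ⟨n₂, h2⟩⟩ := hcon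
    obtain ⟨n₁', hn₁⟩ := hqν n₁
    obtain ⟨n₂', hn₂⟩ := hqν n₂
    set m₂ := n₁ - n₁' with hm₂
    have hm₂0 : m₂ ≠ 0 := by
      intro h
      apply h1
      rw [hn₁]
      rw [sub_eq_zero.1 h]
    have hm₂q : q (c.ν m₂) = 0 := by
      rw [hm₂, map_sub, map_sub, ← hn₁, hqx, sub_self]
    have hm₁0 : n₂' ≠ 0 := by
      intro h
      apply h2
      rw [hn₂, h, map_zero]
    have hm₁q : q (c.ν n₂') = c.ν n₂' := by rw [← hn₂, hqx]
    obtain ⟨n₃, hn₃⟩ := exists_dt_ne hm₁0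
    obtain ⟨n₃', hn₃'⟩ := hqν n₃
    have hn₃q : q (c.ν n₃') = c.ν n₃' := by rw [← hn₃', hqx]
    have hn₃r : q (c.ν (n₃ - n₃')) = 0 := by
      rw [map_sub, map_sub, ← hn₃', hqx, sub_self]
    have h5 := stepA _ _ hm₁q hn₃r
    have h6 := stepA _ _ hm₁q hm₂q
    have h7 := stepA _ _ hn₃q hm₂q
    have h8 := dt_zero_of h6 h7 hm₂0
    apply hn₃
    have e : n₃ = n₃' + (n₃ - n₃') := by abel
    rw [e, dt_add_right, h5, h8, add_zero]
  rcases stepB with hB | hB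
  · -- equal images
    have hqP1 : q * c.PP = c.PP := by
      apply end_ext
      intro y
      show q (c.PP y) = c.PP y
      obtain ⟨n, hn⟩ := c.PP_range y
      rw [hn, hB]
    have hPq1 : c.PP * q = c.PP := by rw [← hqP, hqP1]
    have hle : AddMonoidHom.range c.PP ≤ AddMonoidHom.range q := by
      rintro _ ⟨y, rfl⟩
      refine ⟨c.PP y, ?_⟩
      exact congrArg (fun f : AddMonoid.End Ξ => f y) hqP1
    have hcard : Nat.card (AddMonoidHom.range q) = Nat.card (AddMonoidHom.range c.PP) :=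
      card_range_conj c.PP u u' huu' hu'u
    have heq := AddSubgroup.eq_of_le_of_card_ge hle hcard.le
    rw [hzg, c.iota_eq]
    congr 1
    apply end_ext
    intro y
    have h1 : q y ∈ AddMonoidHom.range c.PP := by
      rw [heq]
      exact ⟨y, rfl⟩
    obtain ⟨w, hw⟩ := h1
    have h2 : c.PP (q y) = q y := by
      have h3 : c.PP w = q y := hw
      rw [← h3, c.PP_PP]
    have h3 : c.PP (q y) = c.PP y := congrArg (fun f : AddMonoid.End Ξ => f y) hPq1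
    rw [← h2, h3]
  · -- orthogonal images
    exfalso
    have hqP0 : q * c.PP = 0 := by
      apply end_ext
      intro y
      show q (c.PP y) = 0
      obtain ⟨n, hn⟩ := c.PP_range y
      rw [hn, hB]
    have hPq0 : c.PP * q = 0 := by rw [← hqP, hqP0]
    have hi₁ := c.hi₁
    have hj₁ := c.hj₁
    set j' := g * c.j₁ * g⁻¹ with hj'
    have hj'K : j' ∈ normalizer (R : Set G) := mul_mem (mul_mem hgK (X.hER hj₁)) (inv_mem hgK)
    have hi₁K := X.hER hi₁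
    have hj₁K := X.hER hj₁
    -- `î` and `ĵ'` commute
    have hig := c.goodE hi₁
    have hjg := c.goodE hj₁
    have hi1 : c.d.hat c.i₁ - 1 = (c.d.hat c.i₁ - 1) * c.PP := by
      have := hig.fix
      calc c.d.hat c.i₁ - 1 = (c.d.hat c.i₁ - 1) * c.PP + (c.d.hat c.i₁ * (1 - c.PP) - (1 - c.PP)) := by
            noncomm_ring
        _ = (c.d.hat c.i₁ - 1) * c.PP := by rw [this, sub_self, add_zero]
    have hi2 : c.d.hat c.i₁ - 1 = c.PP * (c.d.hat c.i₁ - 1) := by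
      have hc := hig.comm
      calc c.d.hat c.i₁ - 1 = (c.d.hat c.i₁ - 1) * c.PP := hi1
        _ = c.d.hat c.i₁ * c.PP - c.PP := by noncomm_ring
        _ = c.PP * c.d.hat c.i₁ - c.PP := by rw [hc]
        _ = c.PP * (c.d.hat c.i₁ - 1) := by noncomm_ring
    have hj1 : c.d.hat c.j₁ - 1 = (c.d.hat c.j₁ - 1) * c.PP := by
      have := hjg.fix
      calc c.d.hat c.j₁ - 1 = (c.d.hat c.j₁ - 1) * c.PP + (c.d.hat c.j₁ * (1 - c.PP) - (1 - c.PP)) := by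
            noncomm_ring
        _ = (c.d.hat c.j₁ - 1) * c.PP := by rw [this, sub_self, add_zero]
    have hj2 : c.d.hat c.j₁ - 1 = c.PP * (c.d.hat c.j₁ - 1) := by
      have hc := hjg.comm
      calc c.d.hat c.j₁ - 1 = (c.d.hat c.j₁ - 1) * c.PP := hj1
        _ = c.d.hat c.j₁ * c.PP - c.PP := by noncomm_ring
        _ = c.PP * c.d.hat c.j₁ - c.PP := by rw [hc]
        _ = c.PP * (c.d.hat c.j₁ - 1) := by noncomm_ring
    have hj'e : c.d.hat j' = u * c.d.hat c.j₁ * u' := c.d.hat_conj hgK hj₁K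
    have hj'1 : c.d.hat j' - 1 = u * (c.d.hat c.j₁ - 1) * u' := by
      rw [hj'e, mul_sub, sub_mul, mul_one, huu']
    have hj'2 : c.d.hat j' - 1 = (c.d.hat j' - 1) * q := by
      rw [hj'1, hq]
      calc u * (c.d.hat c.j₁ - 1) * u' = u * ((c.d.hat c.j₁ - 1) * c.PP) * u' := by rw [← hj1]
        _ = u * (c.d.hat c.j₁ - 1) * (u' * u) * c.PP * u' := by rw [hu'u, mul_one]; simp only [mul_assoc]
        _ = _ := by simp only [mul_assoc]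
    have hj'3 : c.d.hat j' - 1 = q * (c.d.hat j' - 1) := by
      rw [hj'1, hq]
      calc u * (c.d.hat c.j₁ - 1) * u' = u * (c.PP * (c.d.hat c.j₁ - 1)) * u' := by rw [← hj2]
        _ = u * c.PP * (u' * u) * (c.d.hat c.j₁ - 1) * u' := by rw [hu'u, mul_one]; simp only [mul_assoc]
        _ = _ := by simp only [mul_assoc]
    have hA : (c.d.hat c.i₁ - 1) * (c.d.hat j' - 1) = 0 := by
      rw [hi1, hj'3]
      calc (c.d.hat c.i₁ - 1) * c.PP * (q * (c.d.hat j' - 1))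
          = (c.d.hat c.i₁ - 1) * (c.PP * q) * (c.d.hat j' - 1) := by simp only [mul_assoc]
        _ = 0 := by rw [hPq0]; simp
    have hB' : (c.d.hat j' - 1) * (c.d.hat c.i₁ - 1) = 0 := by
      rw [hj'2, hi2]
      calc (c.d.hat j' - 1) * q * (c.PP * (c.d.hat c.i₁ - 1))
          = (c.d.hat j' - 1) * (q * c.PP) * (c.d.hat c.i₁ - 1) := by simp only [mul_assoc]
        _ = 0 := by rw [hqP0]; simp
    have hcomij : c.d.hat c.i₁ * c.d.hat j' = c.d.hat j' * c.d.hat c.i₁ := by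
      have e1 : c.d.hat c.i₁ * c.d.hat j' = (c.d.hat c.i₁ - 1) * (c.d.hat j' - 1) + c.d.hat c.i₁ + c.d.hat j' - 1 := by
        noncomm_ring
      have e2 : c.d.hat j' * c.d.hat c.i₁ = (c.d.hat j' - 1) * (c.d.hat c.i₁ - 1) + c.d.hat c.i₁ + c.d.hat j' - 1 := by
        noncomm_ring
      rw [e1, e2, hA, hB']
    -- the element
    set v := c.i₁ * j' * c.i₁⁻¹ * j'⁻¹ with hv
    have hvK : v ∈ normalizer (R : Set G) :=
      mul_mem (mul_mem (mul_mem hi₁K hj'K) (inv_mem hi₁K)) (inv_mem hj'K)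
    have hvhat : c.d.hat v = 1 := by
      rw [hv, c.d.hat_mul _ (mul_mem (mul_mem hi₁K hj'K) (inv_mem hi₁K)) _ (inv_mem hj'K),
        c.d.hat_mul _ (mul_mem hi₁K hj'K) _ (inv_mem hi₁K), c.d.hat_mul _ hi₁K _ hj'K, hcomij,
        mul_assoc (c.d.hat j'), c.d.hat_mul_inv hi₁K, mul_one, c.d.hat_mul_inv hj'K]
    have hj'sec1 := c.conj_sec_R hg hj₁
    have hj'sec2 := c.conj_sec_V hg hj₁
    have hv1 : v ∈ secTriv R (QQ2 R) :=
      mul_mem (mul_mem (mul_mem (X.E_sec_R hi₁) hj'sec1) (inv_mem (X.E_sec_R hi₁))) (inv_mem hj'sec1)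
    have hv2 : v ∈ secTriv (VV R) WE :=
      mul_mem (mul_mem (mul_mem (X.E_sec_V hi₁) hj'sec2) (inv_mem (X.E_sec_V hi₁))) (inv_mem hj'sec2)
    -- `v` acts on `W_E` as `z`
    have hWEE : ∀ {e w : G}, e ∈ E → w ∈ WE → e * w * e⁻¹ ∈ WE := fun he hw =>
      conj_mem_of_mem_normalizer (X.E_norm_WE he) hw
    have hg' := inv_mem hg
    have hj'w : ∀ w ∈ WE, j' * w * j'⁻¹ = c.j₁ * w * c.j₁⁻¹ := by
      intro w hw
      have h1 : g⁻¹ * w * g⁻¹⁻¹ = w := X.C_fix_WE hg' hw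
      have h2 := X.C_fix_WE hg (hWEE hj₁ hw)
      calc j' * w * j'⁻¹ = g * (c.j₁ * (g⁻¹ * w * g⁻¹⁻¹) * c.j₁⁻¹) * g⁻¹ := by rw [hj']; group
        _ = c.j₁ * w * c.j₁⁻¹ := by rw [h1, h2]
    have hj'w' : ∀ w ∈ WE, j'⁻¹ * w * j'⁻¹⁻¹ = c.j₁⁻¹ * w * c.j₁⁻¹⁻¹ := by
      intro w hw
      have h1 : g⁻¹ * w * g⁻¹⁻¹ = w := X.C_fix_WE hg' hw
      have h2 := X.C_fix_WE hg (hWEE (inv_mem hj₁) hw)
      calc j'⁻¹ * w * j'⁻¹⁻¹ = g * (c.j₁⁻¹ * (g⁻¹ * w * g⁻¹⁻¹) * c.j₁⁻¹⁻¹) * g⁻¹ := by rw [hj']; group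
        _ = c.j₁⁻¹ * w * c.j₁⁻¹⁻¹ := by rw [h1, h2]
    have hvw : ∀ w ∈ WE, v * w * v⁻¹ = c.z * w * c.z⁻¹ := by
      intro w hw
      have h1 := hj'w' w hw
      have hw1 : c.j₁⁻¹ * w * c.j₁⁻¹⁻¹ ∈ WE := hWEE (inv_mem hj₁) hw
      have hw2 : c.i₁⁻¹ * (c.j₁⁻¹ * w * c.j₁⁻¹⁻¹) * c.i₁⁻¹⁻¹ ∈ WE := hWEE (inv_mem hi₁) hw1
      have h2 := hj'w _ hw2
      calc v * w * v⁻¹ = c.i₁ * (j' * (c.i₁⁻¹ * (j'⁻¹ * w * j'⁻¹⁻¹) * c.i₁⁻¹⁻¹) * j'⁻¹) * c.i₁⁻¹ := by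
            rw [hv]; group
        _ = c.i₁ * (c.j₁ * (c.i₁⁻¹ * (c.j₁⁻¹ * w * c.j₁⁻¹⁻¹) * c.i₁⁻¹⁻¹) * c.j₁⁻¹) * c.i₁⁻¹ := by
            rw [h1, h2]
        _ = c.z * w * c.z⁻¹ := by
            show _ = (c.i₁ * c.j₁ * c.i₁⁻¹ * c.j₁⁻¹) * w * (c.i₁ * c.j₁ * c.i₁⁻¹ * c.j₁⁻¹)⁻¹
            group
    -- `v⁻¹ z`
    have ht : v⁻¹ * c.z ∈ C := by
      apply X.hC.ge
      rw [mem_centralizer_iff]
      intro w hw
      have h1 := hvw w hw
      have e1 : v⁻¹ * c.z * w * (v⁻¹ * c.z)⁻¹ = v⁻¹ * (c.z * w * c.z⁻¹) * v := by group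
      have e2 : v⁻¹ * c.z * w * (v⁻¹ * c.z)⁻¹ = w := by
        rw [e1, ← h1]
        group
      calc w * (v⁻¹ * c.z) = (v⁻¹ * c.z * w * (v⁻¹ * c.z)⁻¹) * (v⁻¹ * c.z) := by rw [e2]
        _ = v⁻¹ * c.z * w := by group
    apply c.no_y ht (mul_mem (inv_mem hv1) c.z_sec_R) (mul_mem (inv_mem hv2) c.z_sec_V)
    rw [c.d.hat_mul _ (inv_mem hvK) _ c.z_K]
    have h1 : c.d.hat v⁻¹ = 1 := by
      have := c.d.hat_inv_mul hvK
      rw [hvhat, mul_one] at this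
      exact this
    rw [h1, one_mul]
    rfl

end Ctx

end Cfsg.Agent.Lib.FG85.BB
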