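/-
Exceptional blocks: `C` commutes with `ι` on `Ξ`.
-/
import Cfsg.Agent.Lib.FG85.BB10

set_option autoImplicit false
set_option linter.unusedSectionVars false
set_option linter.unusedVariables false

namespace Cfsg.Agent.Lib.FG85.BB

open Subgroup Cfsg Matrix
open Cfsg.Agent.Lib.LocalEven.Util
open Cfsg.Agent.Lib.LocalEven.SecIrr
open Cfsg.Agent.Lib.LocalEven.BaumannBlock
open scoped commutatorElement

universe u

variable {G : Type u} [Group G] [Finite G]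

namespace Ctx

variable {F : Type} [Field F] {E Q W Z WE C R P B : Subgroup G}
  {X : Exc F E Q W Z WE C R P B} {Ξ : Type u} [AddCommGroup Ξ] (c : Ctx X Ξ)

/-- The conjugate of `P` by `g`. -/
def pc (g : G) : AddMonoid.End Ξ := c.d.hat g * c.PP * c.d.hat g⁻¹

/-- All conjugates of `P` by elements of `C`. -/
def TT : Set (AddMonoid.End Ξ) := {x | ∃ g ∈ C, x = c.pc g}

/-- All conjugates of `ι` by elements of `C`. -/
def II : Set (AddMonoid.End Ξ) := {x | ∃ g ∈ C, x = c.d.hat (g * c.z * g⁻¹)}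

include c

theorem hat_zg_eq {g : G} (hg : g ∈ C) : c.d.hat (g * c.z * g⁻¹) = 1 + c.pc g :=
  c.hat_conj_eq (X.hCR hg)

theorem zg_K {g : G} (hg : g ∈ C) : g * c.z * g⁻¹ ∈ normalizer (R : Set G) :=
  mul_mem (mul_mem (X.hCR hg) c.z_K) (inv_mem (X.hCR hg))

theorem hat_zg_sq {g : G} (hg : g ∈ C) :
    c.d.hat (g * c.z * g⁻¹) * c.d.hat (g * c.z * g⁻¹) = 1 := by
  have hgK := X.hCR hg
  rw [c.d.hat_conj hgK c.z_K]
  show c.d.hat g * c.ι * c.d.hat g⁻¹ * (c.d.hat g * c.ι * c.d.hat g⁻¹) = 1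
  calc c.d.hat g * c.ι * c.d.hat g⁻¹ * (c.d.hat g * c.ι * c.d.hat g⁻¹)
      = c.d.hat g * c.ι * (c.d.hat g⁻¹ * c.d.hat g) * c.ι * c.d.hat g⁻¹ := by
        simp only [mul_assoc]
    _ = c.d.hat g * (c.ι * c.ι) * c.d.hat g⁻¹ := by
        rw [c.d.hat_inv_mul hgK, mul_one]; simp only [mul_assoc]
    _ = 1 := by rw [c.iota_sq, mul_one, c.d.hat_mul_inv hgK]

theorem hat_zg_inv {g : G} (hg : g ∈ C) :
    c.d.hat (g * c.z * g⁻¹)⁻¹ = c.d.hat (g * c.z * g⁻¹) := by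
  have hK := c.zg_K hg
  have h1 := c.hat_zg_sq hg
  calc c.d.hat (g * c.z * g⁻¹)⁻¹
      = c.d.hat (g * c.z * g⁻¹)⁻¹ * (c.d.hat (g * c.z * g⁻¹) * c.d.hat (g * c.z * g⁻¹)) := by
        rw [h1, mul_one]
    _ = (c.d.hat (g * c.z * g⁻¹)⁻¹ * c.d.hat (g * c.z * g⁻¹)) * c.d.hat (g * c.z * g⁻¹) :=
        (mul_assoc _ _ _).symm
    _ = _ := by rw [c.d.hat_inv_mul hK, one_mul]

/-- Commuting conjugates agree. -/
theorem cp' [Finite Ξ] {g₁ g₂ : G} (h₁ : g₁ ∈ C) (h₂ : g₂ ∈ C)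
    (hc : c.d.hat (g₁ * c.z * g₁⁻¹) * c.d.hat (g₂ * c.z * g₂⁻¹) =
      c.d.hat (g₂ * c.z * g₂⁻¹) * c.d.hat (g₁ * c.z * g₁⁻¹)) :
    c.d.hat (g₁ * c.z * g₁⁻¹) = c.d.hat (g₂ * c.z * g₂⁻¹) := by
  have hK₁ := X.hCR h₁
  have hK₂ := c.zg_K h₂
  set u := c.d.hat g₁ with hu
  set u' := c.d.hat g₁⁻¹ with hu'
  have huu' : u * u' = 1 := c.d.hat_mul_inv hK₁
  have hu'u : u' * u = 1 := c.d.hat_inv_mul hK₁
  set b := c.d.hat (g₂ * c.z * g₂⁻¹) with hb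
  have h1 : c.d.hat (g₁ * c.z * g₁⁻¹) = u * c.ι * u' := c.d.hat_conj hK₁ c.z_K
  have hg : g₁⁻¹ * g₂ ∈ C := mul_mem (inv_mem h₁) h₂
  have h2 : c.d.hat ((g₁⁻¹ * g₂) * c.z * (g₁⁻¹ * g₂)⁻¹) = u' * b * u := by
    have e : (g₁⁻¹ * g₂) * c.z * (g₁⁻¹ * g₂)⁻¹ = g₁⁻¹ * (g₂ * c.z * g₂⁻¹) * g₁⁻¹⁻¹ := by group
    rw [e, c.d.hat_conj (inv_mem hK₁) hK₂, inv_inv]
  rw [h1] at hc ⊢
  have hcomm : c.d.hat ((g₁⁻¹ * g₂) * c.z * (g₁⁻¹ * g₂)⁻¹) * c.ι =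
      c.ι * c.d.hat ((g₁⁻¹ * g₂) * c.z * (g₁⁻¹ * g₂)⁻¹) := by
    rw [h2]
    calc u' * b * u * c.ι = u' * (b * (u * c.ι * u')) * u := by
          simp only [mul_assoc, hu'u, mul_one]
      _ = u' * ((u * c.ι * u') * b) * u := by rw [hc]
      _ = (u' * u) * c.ι * (u' * b * u) := by simp only [mul_assoc]
      _ = c.ι * (u' * b * u) := by rw [hu'u, one_mul]
  have h3 := c.cp hg hcomm
  rw [h2] at h3
  rw [← h3]
  calc u * (u' * b * u) * u' = (u * u') * b * (u * u') := by simp only [mul_assoc]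
    _ = b := by rw [huu', one_mul, mul_one]

theorem finite_order {g : G} (hg : g ∈ normalizer (R : Set G)) : IsOfFinOrder (c.d.hat g) := by
  rw [isOfFinOrder_iff_pow_eq_one]
  refine ⟨orderOf g, orderOf_pos g, ?_⟩
  rw [← c.d.hat_pow hg, pow_orderOf_eq_one, c.d.hat_one]

/-- No vector is moved to its negative by one conjugate and fixed by another. -/
theorem ns [Finite Ξ] {g₁ g₂ : G} (h₁ : g₁ ∈ C) (h₂ : g₂ ∈ C) {x : Ξ}
    (hx₁ : c.d.hat (g₁ * c.z * g₁⁻¹) x = - x) (hx₂ : c.d.hat (g₂ * c.z * g₂⁻¹) x = x) : x = 0 := by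
  refine ns_of_cp c.three_end c.II ?_ ?_ ?_ ?_ (a := c.d.hat (g₁ * c.z * g₁⁻¹))
    (b := c.d.hat (g₂ * c.z * g₂⁻¹)) ⟨g₁, h₁, rfl⟩ ⟨g₂, h₂, rfl⟩ hx₁ hx₂
  · rintro _ ⟨g, hg, rfl⟩
    exact c.hat_zg_sq hg
  · rintro _ ⟨a, ha, rfl⟩ _ ⟨b, hb, rfl⟩
    refine ⟨a * (c.z * (a⁻¹ * b) * c.z⁻¹), mul_mem ha ?_, ?_⟩
    · exact conj_mem_of_mem_normalizer (X.hEC c.z_mem) (mul_mem (inv_mem ha) hb)
    · have e : (a * (c.z * (a⁻¹ * b) * c.z⁻¹)) * c.z * (a * (c.z * (a⁻¹ * b) * c.z⁻¹))⁻¹ =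
          (a * c.z * a⁻¹) * (b * c.z * b⁻¹) * (a * c.z * a⁻¹)⁻¹ := by group
      rw [e, c.d.hat_mul _ (mul_mem (c.zg_K ha) (c.zg_K hb)) _ (inv_mem (c.zg_K ha)),
        c.d.hat_mul _ (c.zg_K ha) _ (c.zg_K hb), c.hat_zg_inv ha]
  · rintro _ ⟨a, ha, rfl⟩ _ ⟨b, hb, rfl⟩ h
    exact c.cp' ha hb h
  · rintro _ ⟨a, ha, rfl⟩ _ ⟨b, hb, rfl⟩
    rw [← c.d.hat_mul _ (c.zg_K ha) _ (c.zg_K hb)]
    exact c.finite_order (mul_mem (c.zg_K ha) (c.zg_K hb))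

theorem pc_one : c.pc 1 = c.PP := by
  show c.d.hat 1 * c.PP * c.d.hat 1⁻¹ = c.PP
  rw [inv_one, c.d.hat_one, one_mul, mul_one]

theorem PP_mem : c.PP ∈ c.TT := ⟨1, one_mem _, c.pc_one.symm⟩

theorem pc_idem {g : G} (hg : g ∈ C) : c.pc g * c.pc g = c.pc g := by
  have hK := X.hCR hg
  show c.d.hat g * c.PP * c.d.hat g⁻¹ * (c.d.hat g * c.PP * c.d.hat g⁻¹) =
    c.d.hat g * c.PP * c.d.hat g⁻¹
  calc c.d.hat g * c.PP * c.d.hat g⁻¹ * (c.d.hat g * c.PP * c.d.hat g⁻¹)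
      = c.d.hat g * c.PP * (c.d.hat g⁻¹ * c.d.hat g) * c.PP * c.d.hat g⁻¹ := by
        simp only [mul_assoc]
    _ = c.d.hat g * (c.PP * c.PP) * c.d.hat g⁻¹ := by
        rw [c.d.hat_inv_mul hK, mul_one]; simp only [mul_assoc]
    _ = _ := by rw [c.PP_idem]

theorem TT_idem : ∀ p ∈ c.TT, p * p = p := by
  rintro _ ⟨g, hg, rfl⟩
  exact c.pc_idem hg

theorem TT_ns [Finite Ξ] : ∀ p ∈ c.TT, ∀ q ∈ c.TT, ∀ x : Ξ, p x = x → q x = 0 → x = 0 := by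
  rintro _ ⟨a, ha, rfl⟩ _ ⟨b, hb, rfl⟩ x h1 h2
  apply c.ns ha hb
  · rw [c.hat_zg_eq ha]
    show x + c.pc a x = - x
    rw [h1]
    exact eq_neg_of_add_eq_zero_left (c.h3x x)
  · rw [c.hat_zg_eq hb]
    show x + c.pc b x = x
    rw [h2, add_zero]

/-- Conjugation by `C`. -/
theorem conj_C_TT {g : G} (hg : g ∈ C) {q : AddMonoid.End Ξ} (hq : q ∈ c.TT) :
    c.d.hat g * q * c.d.hat g⁻¹ ∈ c.TT := by
  obtain ⟨a, ha, rfl⟩ := hq
  have hgK := X.hCR hg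
  have haK := X.hCR ha
  refine ⟨g * a, mul_mem hg ha, ?_⟩
  show c.d.hat g * (c.d.hat a * c.PP * c.d.hat a⁻¹) * c.d.hat g⁻¹ =
    c.d.hat (g * a) * c.PP * c.d.hat (g * a)⁻¹
  rw [_root_.mul_inv_rev, c.d.hat_mul _ hgK _ haK, c.d.hat_mul _ (inv_mem haK) _ (inv_mem hgK)]
  simp only [mul_assoc]

/-- Conjugation by `E`. -/
theorem conj_E_TT {e : G} (he : e ∈ E) {q : AddMonoid.End Ξ} (hq : q ∈ c.TT) :
    c.d.hat e * q * c.d.hat e⁻¹ ∈ c.TT := by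
  obtain ⟨a, ha, rfl⟩ := hq
  have heK := X.hER he
  have haK := X.hCR ha
  have hga := c.goodE he
  have hm : e * a * e⁻¹ ∈ C := conj_mem_of_mem_normalizer (X.hEC he) ha
  have hmK := X.hCR hm
  refine ⟨e * a * e⁻¹, hm, ?_⟩
  show c.d.hat e * (c.d.hat a * c.PP * c.d.hat a⁻¹) * c.d.hat e⁻¹ =
    c.d.hat (e * a * e⁻¹) * c.PP * c.d.hat (e * a * e⁻¹)⁻¹
  have e1 : (e * a * e⁻¹)⁻¹ = e * a⁻¹ * e⁻¹ := by group
  rw [e1, c.d.hat_conj heK haK, c.d.hat_conj heK (inv_mem haK)]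
  have h1 : c.d.hat e⁻¹ * c.PP * c.d.hat e = c.PP := by
    rw [hga.comm', mul_assoc, hga.mul2, mul_one]
  calc c.d.hat e * (c.d.hat a * c.PP * c.d.hat a⁻¹) * c.d.hat e⁻¹
      = c.d.hat e * (c.d.hat a * (c.d.hat e⁻¹ * c.PP * c.d.hat e) * c.d.hat a⁻¹) * c.d.hat e⁻¹ := by
        rw [h1]
    _ = _ := by simp only [mul_assoc]

/-- `P p P = P`. -/
theorem base [Finite Ξ] {p : AddMonoid.End Ξ} (hp : p ∈ c.TT) : c.PP * p * c.PP = c.PP := by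
  refine base_alg c.PP c.TT c.PP_mem c.TT_idem c.TT_ns ?_ {x | ∃ e ∈ E, x = c.d.hat e} ?_ ?_ hp
  · rintro _ ⟨g, hg, rfl⟩
    exact card_range_conj _ _ _ (c.d.hat_mul_inv (X.hCR hg)) (c.d.hat_inv_mul (X.hCR hg))
  · rintro _ ⟨e, he, rfl⟩
    refine ⟨c.d.hat e⁻¹, c.d.hat_mul_inv (X.hER he), c.d.hat_inv_mul (X.hER he), ?_, ?_⟩
    · intro q hq
      exact c.conj_E_TT he hq
    · intro t ht
      exact c.E_fix he ht
  · intro n m hn hm hn0 hm0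
    obtain ⟨a, ha⟩ := c.PP_range n
    obtain ⟨b, hb⟩ := c.PP_range m
    rw [hn] at ha
    rw [hm] at hb
    subst ha
    subst hb
    have ha0 : a ≠ 0 := by
      rintro rfl
      exact hn0 (map_zero _)
    have hb0 : b ≠ 0 := by
      rintro rfl
      exact hm0 (map_zero _)
    obtain ⟨e, he, hee⟩ := X.n₂.exists_transitive ha0 hb0
    refine ⟨_, ⟨e, he, rfl⟩, ?_⟩
    rw [c.hat_E_nu he, hee]

/-- `p q p = p`. -/
theorem TT_pq [Finite Ξ] {p q : AddMonoid.End Ξ} (hp : p ∈ c.TT) (hq : q ∈ c.TT) : p * q * p = p := by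
  obtain ⟨g, hg, rfl⟩ := hp
  have hK := X.hCR hg
  have h1 := c.base (c.conj_C_TT (inv_mem hg) hq)
  rw [inv_inv] at h1
  show c.d.hat g * c.PP * c.d.hat g⁻¹ * q * (c.d.hat g * c.PP * c.d.hat g⁻¹) =
    c.d.hat g * c.PP * c.d.hat g⁻¹
  calc c.d.hat g * c.PP * c.d.hat g⁻¹ * q * (c.d.hat g * c.PP * c.d.hat g⁻¹)
      = c.d.hat g * (c.PP * (c.d.hat g⁻¹ * q * c.d.hat g) * c.PP) * c.d.hat g⁻¹ := by
        simp only [mul_assoc]
    _ = _ := by rw [h1]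

/-- The vanishing of `X_p Y_q`. -/
theorem TT_xy [Finite Ξ] {p q : AddMonoid.End Ξ} (hp : p ∈ c.TT) (hq : q ∈ c.TT) :
    XX c.PP p * YY c.PP q = 0 := by
  obtain ⟨i, j, hi, hj, hii, hjj, hij, -⟩ := exists_ij' (F := F) X.h3
  obtain ⟨ei, hei, hei'⟩ := X.n₂.ρ_surj i hi
  obtain ⟨ej, hej, hej'⟩ := X.n₂.ρ_surj j hj
  have hPPmem := c.PP_mem
  have hrange : ∀ y, ∃ n, c.PP y = c.ν n := c.PP_range
  have hzP : c.d.hat c.z * c.PP = - c.PP := by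
    apply end_ext
    intro y
    obtain ⟨n, hn⟩ := hrange y
    show c.d.hat c.z (c.PP y) = - c.PP y
    rw [hn]
    exact c.iota_nu n
  have hact : ∀ {e f : G}, e ∈ E → f ∈ E → ∀ n,
      c.d.hat e (c.d.hat f (c.ν n)) =
        c.ν (((X.n₂.ρ e : Matrix (Fin 2) (Fin 2) F) * (X.n₂.ρ f : Matrix (Fin 2) (Fin 2) F)) *ᵥ n) := by
    intro e f he hf n
    rw [c.hat_E_nu hf, c.hat_E_nu he, Matrix.mulVec_mulVec]
  have hiP : c.d.hat ei * c.d.hat ei * c.PP = - c.PP := by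
    apply end_ext
    intro y
    obtain ⟨n, hn⟩ := hrange y
    show c.d.hat ei (c.d.hat ei (c.PP y)) = - c.PP y
    rw [hn, hact hei hei, hei', hii, Matrix.neg_mulVec, Matrix.one_mulVec, map_neg]
  have hjP : c.d.hat ej * c.d.hat ej * c.PP = - c.PP := by
    apply end_ext
    intro y
    obtain ⟨n, hn⟩ := hrange y
    show c.d.hat ej (c.d.hat ej (c.PP y)) = - c.PP y
    rw [hn, hact hej hej, hej', hjj, Matrix.neg_mulVec, Matrix.one_mulVec, map_neg]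
  have hijP : c.d.hat ei * c.d.hat ej * c.PP = -(c.d.hat ej * c.d.hat ei * c.PP) := by
    apply end_ext
    intro y
    obtain ⟨n, hn⟩ := hrange y
    show c.d.hat ei (c.d.hat ej (c.PP y)) = - c.d.hat ej (c.d.hat ei (c.PP y))
    rw [hn, hact hei hej, hact hej hei, hei', hej', hij, Matrix.neg_mulVec, map_neg]
  have hp2 : p * c.PP * p = p := c.TT_pq hp hPPmem
  have hq2 : q * c.PP * q = q := c.TT_pq hq hPPmem
  refine xy_zero c.PP_idem c.three_end (c.base hp) hp2 (c.base hq) hq2 (c.TT_pq hp hq)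
    (c.goodE c.z_mem) (c.goodE hei) (c.goodE hej) ?_ hzP hiP hjP hijP
  have hall : ∀ e ∈ E, p * (c.d.hat e * q * c.d.hat e⁻¹) * p = p ∧
      c.PP * (c.d.hat e * q * c.d.hat e⁻¹) * c.PP = c.PP ∧
      (c.d.hat e * q * c.d.hat e⁻¹) * c.PP * (c.d.hat e * q * c.d.hat e⁻¹) =
        c.d.hat e * q * c.d.hat e⁻¹ := by
    intro e he
    have h := c.conj_E_TT he hq
    exact ⟨c.TT_pq hp h, c.base h, c.TT_pq h hPPmem⟩
  rintro e e' (⟨rfl, rfl⟩ | ⟨rfl, rfl⟩ | ⟨rfl, rfl⟩ | ⟨rfl, rfl⟩)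
  · exact hall _ c.z_mem
  · exact hall _ hei
  · exact hall _ hej
  · have h1 := X.hER hei
    have h2 := X.hER hej
    have e1 : c.d.hat ei * c.d.hat ej = c.d.hat (ei * ej) := (c.d.hat_mul _ h1 _ h2).symm
    have e2 : c.d.hat ej⁻¹ * c.d.hat ei⁻¹ = c.d.hat (ei * ej)⁻¹ := by
      rw [_root_.mul_inv_rev, c.d.hat_mul _ (inv_mem h2) _ (inv_mem h1)]
    rw [e1, e2]
    exact hall _ (mul_mem hei hej)

/-- The decisive fact: `C` commutes with `ι` on `Ξ`. -/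
theorem iota_central [Finite Ξ] {g : G} (hg : g ∈ C) : c.d.hat (g * c.z * g⁻¹) = c.ι := by
  classical
  have hdec : ∀ p ∈ c.TT, p = c.PP + XX c.PP p + YY c.PP p + YY c.PP p * XX c.PP p := fun p hp =>
    dec c.PP c.PP_idem p (c.base hp) (c.TT_pq hp c.PP_mem)
  obtain ⟨Fl, hF1, hF2, hF3, hF4⟩ := flag_theorem c.three_end c.PP_idem hdec
    (fun p hp q hq => c.TT_xy hp hq)
  -- the generators
  let gens : Set G := {x | ∃ a ∈ C, ∃ b ∈ C, x = (a * c.z * a⁻¹) * (b * c.z * b⁻¹)⁻¹}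
  let T : Subgroup G := closure gens
  have hgC : ∀ a ∈ C, (a * c.z * a⁻¹) * c.z⁻¹ ∈ C := by
    intro a ha
    have h1 : c.z * a⁻¹ * c.z⁻¹ ∈ C :=
      conj_mem_of_mem_normalizer (X.hEC c.z_mem) (inv_mem ha)
    have e : (a * c.z * a⁻¹) * c.z⁻¹ = a * (c.z * a⁻¹ * c.z⁻¹) := by group
    rw [e]
    exact mul_mem ha h1
  have hTC : T ≤ C := by
    rw [closure_le]
    rintro _ ⟨a, ha, b, hb, rfl⟩
    have e : (a * c.z * a⁻¹) * (b * c.z * b⁻¹)⁻¹ =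
        ((a * c.z * a⁻¹) * c.z⁻¹) * ((b * c.z * b⁻¹) * c.z⁻¹)⁻¹ := by group
    rw [e]
    exact mul_mem (hgC a ha) (inv_mem (hgC b hb))
  have hTK : ∀ x ∈ T, x ∈ normalizer (R : Set G) := fun x hx => X.hCR (hTC hx)
  have hTnorm : C ≤ normalizer (T : Set G) := by
    intro g hg
    apply mem_normalizer_of_conj_le
    intro x hx
    induction hx using closure_induction with
    | mem x hx =>
      obtain ⟨a, ha, b, hb, rfl⟩ := hx
      apply Subgroup.subset_closure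
      refine ⟨g * a, mul_mem hg ha, g * b, mul_mem hg hb, ?_⟩
      group
    | one => simp [one_mem]
    | mul x y _ _ hx hy =>
      have e : g * (x * y) * g⁻¹ = (g * x * g⁻¹) * (g * y * g⁻¹) := by group
      rw [e]
      exact mul_mem hx hy
    | inv x _ hx =>
      have e : g * x⁻¹ * g⁻¹ = (g * x * g⁻¹)⁻¹ := by group
      rw [e]
      exact inv_mem hx
  have hFT : ∀ x ∈ T, Fl (c.d.hat x) := by
    intro x hx
    induction hx using closure_induction with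
    | mem x hx =>
      obtain ⟨a, ha, b, hb, rfl⟩ := hx
      rw [c.d.hat_mul _ (c.zg_K ha) _ (inv_mem (c.zg_K hb)), c.hat_zg_inv hb, c.hat_zg_eq ha,
        c.hat_zg_eq hb]
      exact hF1 _ ⟨a, ha, rfl⟩ _ ⟨b, hb, rfl⟩
    | one => rw [c.d.hat_one]; exact hF3
    | mul x y hx' hy' hx hy =>
      rw [c.d.hat_mul _ (hTK _ hx') _ (hTK _ hy')]
      exact hF2 _ _ hx hy
    | inv x hx' hx =>
      have hpw : ∀ k : ℕ, Fl (c.d.hat (x ^ k)) := by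
        intro k
        induction k with
        | zero => rw [pow_zero, c.d.hat_one]; exact hF3
        | succ k ih =>
          rw [pow_succ, c.d.hat_mul _ (pow_mem (hTK _ hx') k) _ (hTK _ hx')]
          exact hF2 _ _ ih hx
      have e : x⁻¹ = x ^ (orderOf x - 1) := by
        have h7 : x * x ^ (orderOf x - 1) = 1 := by
          rw [← pow_succ', Nat.sub_add_cancel (orderOf_pos x), pow_orderOf_eq_one]
        exact (eq_inv_of_mul_eq_one_right h7).symm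
      rw [e]
      exact hpw _
  have hcube : ∀ x ∈ T, c.d.hat x * c.d.hat x * c.d.hat x = 1 := fun x hx => hF4 _ (hFT x hx)
  have hTsec1 : T ≤ secTriv R (QQ2 R) := by
    rw [closure_le]
    rintro _ ⟨a, ha, b, hb, rfl⟩
    exact mul_mem (c.conj_sec_R ha c.z_mem) (inv_mem (c.conj_sec_R hb c.z_mem))
  have hTsec2 : T ≤ secTriv (VV R) WE := by
    rw [closure_le]
    rintro _ ⟨a, ha, b, hb, rfl⟩
    exact mul_mem (c.conj_sec_V ha c.z_mem) (inv_mem (c.conj_sec_V hb c.z_mem))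
  have hWEp : IsPGroup 3 WE := X.hRp.to_le ((X.WE_le_W).trans (X.hWQ.trans X.hQR))
  have hV3 : IsPGroup 3 (VV R) := isPGroup_omegaOneCenter R
  have hQ3 : IsPGroup 3 (QQ2 R) := X.hRp.to_le (QQ2_le R)
  have hfix : ∀ x ∈ T, (orderOf x).Coprime 3 → x ∈ P := by
    intro x hx hco
    have hK := hTK x hx
    have h1 : c.d.hat x = 1 := by
      have h3 : c.d.hat x ^ 3 = 1 := by
        rw [pow_succ, pow_two]
        exact hcube x hx
      have hn : c.d.hat x ^ orderOf x = 1 := by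
        rw [← c.d.hat_pow hK, pow_orderOf_eq_one, c.d.hat_one]
      have hd1 := orderOf_dvd_of_pow_eq_one h3
      have hd2 := orderOf_dvd_of_pow_eq_one hn
      have hd3 := Nat.dvd_gcd hd2 hd1
      rw [hco.gcd_eq_one, Nat.dvd_one, orderOf_eq_one_iff] at hd3
      exact hd3
    have h2 := fixes_of_secTriv hWEp hco (hTsec2 hx) (fun w hw => X.C_fix_WE (hTC hx) hw)
    have h3 : x ∈ secTriv (QQ2 R) (VV R) :=
      ⟨normalizer_le_QQ2 R hK, normalizer_le_VV R hK,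
        (c.d.hat_eq_one_iff hK (normalizer_le_QQ2 R hK)).1 h1⟩
    have h4 := fixes_of_secTriv hV3 hco h3 h2
    have h5 := fixes_of_secTriv hQ3 hco (hTsec1 hx) h4
    apply X.hCP
    rw [mem_centralizer_iff]
    intro r hr
    calc r * x = (x * r * x⁻¹) * x := by rw [h5 r hr]
      _ = x * r := by group
  have hTp : IsPGroup 3 T := by
    rintro ⟨y, hy⟩
    obtain ⟨k, hk⟩ := pelt_of_coprime_mem X.hPp hfix y hy
    exact ⟨k, Subtype.ext (by simpa using hk)⟩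
  have hTR : T ≤ R := X.hRcore T hTC hTnorm hTp
  have hm : (g * c.z * g⁻¹) * (1 * c.z * 1⁻¹)⁻¹ ∈ T :=
    Subgroup.subset_closure ⟨g, hg, 1, one_mem _, rfl⟩
  have h1 := c.hat_R (hTR hm)
  have e1 : (1 : G) * c.z * 1⁻¹ = c.z := by group
  rw [e1, c.d.hat_mul _ (c.zg_K hg) _ (inv_mem c.z_K)] at h1
  have hz' : c.d.hat c.z⁻¹ * c.d.hat c.z = 1 := c.d.hat_inv_mul c.z_K
  calc c.d.hat (g * c.z * g⁻¹) = c.d.hat (g * c.z * g⁻¹) * (c.d.hat c.z⁻¹ * c.d.hat c.z) := by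
        rw [hz', mul_one]
    _ = (c.d.hat (g * c.z * g⁻¹) * c.d.hat c.z⁻¹) * c.d.hat c.z := (mul_assoc _ _ _).symm
    _ = c.ι := by rw [h1, one_mul]; rfl

end Ctx

end Cfsg.Agent.Lib.FG85.BB
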