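/-
Exceptional blocks: `[C, E]` acts trivially on `Ξ`.
-/
import Cfsg.Agent.Lib.FG85.BB11

set_option autoImplicit false
set_option linter.unusedSectionVars false
set_option linter.unusedVariables false

namespace Cfsg.Agent.Lib.FG85.BB

open Subgroup Cfsg Matrix
open Cfsg.Agent.Lib.LocalEven.Util
open Cfsg.Agent.Lib.LocalEven.SecIrr
open Cfsg.Agent.Lib.LocalEven.BaumannBlock
open scoped commutatorElement

universe u

variable {G : Type u} [Group G] [Finite G]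

/-- Central factors do not matter in commutators. -/
theorem comm_central {R : Subgroup G} {v v' a b : G} (hv : v ∈ VV R) (hv' : v' ∈ VV R) (ha : a ∈ R)
    (hb : b ∈ R) : (v * a) * (v' * b) * (v * a)⁻¹ * (v' * b)⁻¹ = a * b * a⁻¹ * b⁻¹ := by
  have hvR := VV_le R hv
  have h1 := VV_comm hv' ha
  have hy : a * b * a⁻¹ ∈ R := mul_mem (mul_mem ha hb) (inv_mem ha)
  have h2 := VV_comm (inv_mem hv) hy
  have hy2 : a * b * a⁻¹ * b⁻¹ ∈ R := mul_mem hy (inv_mem hb)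
  calc (v * a) * (v' * b) * (v * a)⁻¹ * (v' * b)⁻¹
      = v * (a * v') * b * a⁻¹ * v⁻¹ * b⁻¹ * v'⁻¹ := by group
    _ = v * (v' * a) * b * a⁻¹ * v⁻¹ * b⁻¹ * v'⁻¹ := by rw [h1]
    _ = v * v' * ((a * b * a⁻¹) * v⁻¹) * b⁻¹ * v'⁻¹ := by group
    _ = v * v' * (v⁻¹ * (a * b * a⁻¹)) * b⁻¹ * v'⁻¹ := by rw [h2]
    _ = (v * v' * v⁻¹) * (a * b * a⁻¹ * b⁻¹) * v'⁻¹ := by group
    _ = v' * (a * b * a⁻¹ * b⁻¹) * v'⁻¹ := by rw [VV_conj_fix hv' hvR]
    _ = a * b * a⁻¹ * b⁻¹ := by rw [← VV_comm hv' hy2]; group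

namespace Ctx

variable {F : Type} [Field F] {E Q W Z WE C R P B : Subgroup G}
  {X : Exc F E Q W Z WE C R P B} {Ξ : Type u} [AddCommGroup Ξ] (c : Ctx X Ξ)

include c

theorem C_comm_iota [Finite Ξ] {g : G} (hg : g ∈ C) : c.d.hat g * c.ι = c.ι * c.d.hat g := by
  have hK := X.hCR hg
  have h1 := c.iota_central hg
  rw [c.d.hat_conj hK c.z_K] at h1
  calc c.d.hat g * c.ι = (c.d.hat g * c.ι * c.d.hat g⁻¹) * c.d.hat g := by
        rw [mul_assoc _ (c.d.hat g⁻¹), c.d.hat_inv_mul hK, mul_one]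
    _ = c.ι * c.d.hat g := by
        have h1' : c.d.hat g * c.ι * c.d.hat g⁻¹ = c.ι := h1
        rw [h1']

theorem C_comm_PP [Finite Ξ] {g : G} (hg : g ∈ C) : c.d.hat g * c.PP = c.PP * c.d.hat g := by
  show c.d.hat g * (c.ι - 1) = (c.ι - 1) * c.d.hat g
  rw [mul_sub, sub_mul, c.C_comm_iota hg, mul_one, one_mul]

theorem C_PP_apply [Finite Ξ] {g : G} (hg : g ∈ C) (y : Ξ) :
    c.d.hat g (c.PP y) = c.PP (c.d.hat g y) :=
  congrArg (fun f : AddMonoid.End Ξ => f y) (c.C_comm_PP hg)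

/-- `C` maps `Q` into `V Q`. -/
theorem C_Q [Finite Ξ] {g a : G} (hg : g ∈ C) (ha : a ∈ Q) :
    ∃ v ∈ VV R, ∃ a₁ ∈ Q, g * a * g⁻¹ = v * a₁ ∧
      X.n₂.ψ a₁ = X.n₂.ψ a₁ ∧ c.ν (X.n₂.ψ a₁) = c.d.hat g (c.ν (X.n₂.ψ a)) := by
  have hK := X.hCR hg
  have ha' := X.Q_le_QQ2 ha
  obtain ⟨m, hm⟩ := c.PP_range (c.d.hat g (c.ν (X.n₂.ψ a)))
  rw [← c.C_PP_apply hg, c.PP_nu] at hm
  obtain ⟨a₁, ha₁, rfl⟩ := X.n₂.ψ_surj m
  have h1 : c.d.pr (g * a * g⁻¹) = c.d.pr a₁ := by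
    rw [c.d.hat_spec g hK a ha', ← c.ν_spec a ha, hm, c.ν_spec a₁ ha₁]
  obtain ⟨v, hv, he⟩ := c.d.mem_of_pr_eq (conj_mem_of_mem_normalizer (normalizer_le_QQ2 R hK) ha')
    (X.Q_le_QQ2 ha₁) h1
  exact ⟨v, hv, a₁, ha₁, he, rfl, hm.symm⟩

/-- `C` normalizes `Z`. -/
theorem C_norm_Z [Finite Ξ] : C ≤ normalizer (Z : Set G) := by
  intro g hg
  apply mem_normalizer_of_conj_le
  intro x hx
  have hle : Z ≤ Z.comap (MulAut.conj g).toMonoidHom := by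
    conv_lhs => rw [← X.hQQ]
    rw [commutator_le]
    intro a ha b hb
    show (MulAut.conj g).toMonoidHom ⁅a, b⁆ ∈ Z
    obtain ⟨v, hv, a₁, ha₁, e1, -, -⟩ := c.C_Q hg ha
    obtain ⟨v', hv', b₁, hb₁, e2, -, -⟩ := c.C_Q hg hb
    have e3 : (MulAut.conj g).toMonoidHom ⁅a, b⁆ =
        (g * a * g⁻¹) * (g * b * g⁻¹) * (g * a * g⁻¹)⁻¹ * (g * b * g⁻¹)⁻¹ := by
      show g * ⁅a, b⁆ * g⁻¹ = _
      rw [commutatorElement_def]
      group
    rw [e3, e1, e2, comm_central hv hv' (X.hQR ha₁) (X.hQR hb₁)]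
    exact X.comm_mem ha₁ hb₁
  exact hle hx

/-- The key statement of this section. -/
theorem Y_trivial [Finite Ξ] {y : G} (hy : y ∈ (⁅C, E⁆ : Subgroup G)) : c.d.hat y = 1 := by
  classical
  have hYC : (⁅C, E⁆ : Subgroup G) ≤ C :=
    Cfsg.Agent.Lib.QuadAct.Basic.commutator_le_of_le_normalizer X.hEC
  have hYsec1 : (⁅C, E⁆ : Subgroup G) ≤ secTriv R (QQ2 R) :=
    commutator_le_secTriv X.hCR (X.hCR.trans (normalizer_le_QQ2 R)) X.E_sec_R
  have hYsec2 : (⁅C, E⁆ : Subgroup G) ≤ secTriv (VV R) WE :=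
    commutator_le_secTriv (X.hCR.trans (normalizer_le_VV R)) X.C_norm_WE X.E_sec_V
  have hbot : ∀ g : G, g ∈ normalizer ((⊥ : Subgroup G) : Set G) := fun g => by
    rw [normalizer_eq_top_iff.2 (inferInstance : (⊥ : Subgroup G).Normal)]
    trivial
  have hEZ : E ≤ secTriv Z ⊥ := by
    intro e he
    refine ⟨X.hNZ (le_normalizer he), hbot e, fun x hx => ?_⟩
    rw [X.Z_E hx he, mul_inv_cancel]
    exact one_mem _
  have hYZ : (⁅C, E⁆ : Subgroup G) ≤ secTriv Z ⊥ :=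
    commutator_le_secTriv c.C_norm_Z (fun g _ => hbot g) hEZ
  have hYZ' : ∀ y ∈ (⁅C, E⁆ : Subgroup G), ∀ x ∈ Z, y * x * y⁻¹ = x := by
    intro y hy x hx
    have := (hYZ hy).2.2 x hx
    rw [mem_bot] at this
    exact mul_inv_eq_one.1 this
  have hEY : E ≤ normalizer ((⁅C, E⁆ : Subgroup G) : Set G) := fun e he =>
    mem_normalizer_commutator (X.hEC he) (le_normalizer he)
  -- `Y` is trivial on the kernel of `P`
  let U₀ : Subgroup G :=
    { carrier := {g | g ∈ normalizer (R : Set G) ∧ ∀ x, c.PP x = 0 → c.d.hat g x = x}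
      mul_mem' := by
        rintro a b ⟨ha, ha'⟩ ⟨hb, hb'⟩
        refine ⟨mul_mem ha hb, fun x hx => ?_⟩
        rw [c.d.hat_mul _ ha _ hb]
        show c.d.hat a (c.d.hat b x) = x
        rw [hb' x hx, ha' x hx]
      one_mem' := ⟨one_mem _, fun x _ => by rw [c.d.hat_one]; rfl⟩
      inv_mem' := by
        rintro a ⟨ha, ha'⟩
        refine ⟨inv_mem ha, fun x hx => ?_⟩
        have := c.d.hat_inv_apply ha x
        rwa [ha' x hx] at this }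
  have hYU : (⁅C, E⁆ : Subgroup G) ≤ U₀ := by
    rw [commutator_le]
    intro g hg e he
    have hgK := X.hCR hg
    have heK := X.hER he
    refine ⟨?_, fun x hx => ?_⟩
    · exact mul_mem (mul_mem (mul_mem hgK heK) (inv_mem hgK)) (inv_mem heK)
    · rw [commutatorElement_def,
        c.d.hat_mul _ (mul_mem (mul_mem hgK heK) (inv_mem hgK)) _ (inv_mem heK),
        c.d.hat_mul _ (mul_mem hgK heK) _ (inv_mem hgK), c.d.hat_mul _ hgK _ heK]
      show c.d.hat g (c.d.hat e (c.d.hat g⁻¹ (c.d.hat e⁻¹ x))) = x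
      rw [c.E_fix (inv_mem he) hx]
      have h1 : c.PP (c.d.hat g⁻¹ x) = 0 := by
        rw [← c.C_PP_apply (inv_mem hg), hx, map_zero]
      rw [c.E_fix he h1]
      exact c.d.hat_apply_inv hgK x
  -- the action on the image of `P`
  have hφ : ∀ y ∈ (⁅C, E⁆ : Subgroup G), ∃ g : SpecialLinearGroup (Fin 2) F,
      ∀ n, c.d.hat y (c.ν n) = c.ν ((g : Matrix (Fin 2) (Fin 2) F) *ᵥ n) := by
    intro y hy
    have hyC := hYC hy
    have hex : ∀ n, ∃ m, c.d.hat y (c.ν n) = c.ν m := by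
      intro n
      obtain ⟨m, hm⟩ := c.PP_range (c.d.hat y (c.ν n))
      rw [← c.C_PP_apply hyC, c.PP_nu] at hm
      exact ⟨m, hm⟩
    choose f hf using hex
    let φ : AddMonoid.End (Fin 2 → F) := AddMonoidHom.mk' f (by
      intro a b
      apply c.ν_inj
      rw [← hf, map_add, map_add, map_add, hf, hf])
    have hφe : ∀ n, c.d.hat y (c.ν n) = c.ν (φ n) := hf
    have hdt : ∀ x x', dt (φ x) (φ x') = dt x x' := by
      intro x x'
      obtain ⟨a, ha, rfl⟩ := X.n₂.ψ_surj x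
      obtain ⟨b, hb, rfl⟩ := X.n₂.ψ_surj x'
      obtain ⟨v, hv, a₁, ha₁, e1, -, e2⟩ := c.C_Q hyC ha
      obtain ⟨v', hv', b₁, hb₁, e3, -, e4⟩ := c.C_Q hyC hb
      have e5 : φ (X.n₂.ψ a) = X.n₂.ψ a₁ := by
        apply c.ν_inj
        rw [← hφe, e2]
      have e6 : φ (X.n₂.ψ b) = X.n₂.ψ b₁ := by
        apply c.ν_inj
        rw [← hφe, e4]
      rw [e5, e6]
      apply c.h_inj
      rw [← c.h_comm a₁ ha₁ b₁ hb₁, ← c.h_comm a ha b hb,
        ← comm_central hv hv' (X.hQR ha₁) (X.hQR hb₁), ← e1, ← e3]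
      have e7 : (y * a * y⁻¹) * (y * b * y⁻¹) * (y * a * y⁻¹)⁻¹ * (y * b * y⁻¹)⁻¹ =
          y * (a * b * a⁻¹ * b⁻¹) * y⁻¹ := by group
      rw [e7, hYZ' y hy _ (X.comm_mem ha hb)]
    obtain ⟨g, hg⟩ := exists_sl_of_dt φ hdt
    exact ⟨g, fun n => by rw [hφe, hg]⟩
  -- the image of `Y` in `SL₂(F)`
  let NN : Subgroup (SpecialLinearGroup (Fin 2) F) :=
    { carrier := {M | ∃ y ∈ (⁅C, E⁆ : Subgroup G), ∀ n, c.d.hat y (c.ν n) =
        c.ν ((M : Matrix (Fin 2) (Fin 2) F) *ᵥ n)}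
      mul_mem' := by
        rintro M M' ⟨a, ha, ha'⟩ ⟨b, hb, hb'⟩
        refine ⟨a * b, mul_mem ha hb, fun n => ?_⟩
        rw [c.d.hat_mul _ (X.hCR (hYC ha)) _ (X.hCR (hYC hb))]
        show c.d.hat a (c.d.hat b (c.ν n)) = _
        rw [hb', ha', mulVec_mul']
      one_mem' := ⟨1, one_mem _, fun n => by
        rw [c.d.hat_one, mulVec_one']
        rfl⟩
      inv_mem' := by
        rintro M ⟨a, ha, ha'⟩
        refine ⟨a⁻¹, inv_mem ha, fun n => ?_⟩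
        have h1 := ha' ((M⁻¹ : SpecialLinearGroup (Fin 2) F) *ᵥ n)
        rw [mulVec_inv'] at h1
        rw [← h1]
        exact c.d.hat_inv_apply (X.hCR (hYC ha)) _ }
  have hNN : ∀ M ∈ NN, ∀ s ∈ SS F, s * M * s⁻¹ ∈ NN := by
    rintro M ⟨a, ha, ha'⟩ s hs
    obtain ⟨e, he, rfl⟩ := X.n₂.ρ_surj s hs
    have heK := X.hER he
    have haK := X.hCR (hYC ha)
    refine ⟨e * a * e⁻¹, conj_mem_of_mem_normalizer (hEY he) ha, fun n => ?_⟩
    rw [c.d.hat_conj heK haK]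
    show c.d.hat e (c.d.hat a (c.d.hat e⁻¹ (c.ν n))) = _
    rw [c.hat_E_nu (inv_mem he), ha', c.hat_E_nu he, X.n₂.ρ_inv he, mulVec_mul', mulVec_mul']
  have hdec : ∀ x : Ξ, x = c.PP x + (x - c.PP x) := fun x => by abel
  by_cases hbotN : NN = ⊥
  · -- trivial action
    apply end_ext
    intro x
    obtain ⟨M, hM⟩ := hφ y hy
    have hMN : M ∈ NN := ⟨y, hy, hM⟩
    rw [hbotN, mem_bot] at hMN
    subst hMN
    have h1 : c.PP (x - c.PP x) = 0 := c.PP_sub x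
    obtain ⟨n, hn⟩ := c.PP_range x
    show c.d.hat y x = x
    conv_lhs => rw [hdec x, map_add, (hYU hy).2 _ h1, hn, hM, mulVec_one']
    rw [← hn]
    abel
  · -- the element acting as `ι`
    exfalso
    obtain ⟨M, ⟨a, ha, ha'⟩, hM⟩ := exists_neg_one_mem X.h3 NN hNN hbotN
    apply c.no_y (hYC ha) (hYsec1 ha) (hYsec2 ha)
    apply end_ext
    intro x
    have h1 : c.PP (x - c.PP x) = 0 := c.PP_sub x
    obtain ⟨n, hn⟩ := c.PP_range x
    have h2 : c.d.hat a (c.ν n) = c.ι (c.ν n) := by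
      rw [ha', hM, Matrix.neg_mulVec, Matrix.one_mulVec, map_neg, c.iota_nu]
    have h3 : c.ι (x - c.PP x) = x - c.PP x := sub_eq_zero.1 h1
    conv_lhs => rw [hdec x, map_add, (hYU ha).2 _ h1, hn, h2]
    conv_rhs => rw [hdec x, map_add, h3, hn]

end Ctx

namespace Exc

variable {F : Type} [Field F] {E Q W Z WE C R P B : Subgroup G}
  (X : Exc F E Q W Z WE C R P B)

include X in
/-- The conclusion for exceptional blocks. -/
theorem Y_fix [Finite F] {y : G} (hy : y ∈ (⁅C, E⁆ : Subgroup G)) (hco : (orderOf y).Coprime 3) :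
    ∀ r ∈ R, y * r * y⁻¹ = r := by
  obtain ⟨Ξ, iΞ, hfin, ⟨c⟩⟩ := X.exists_ctx
  have hYC : (⁅C, E⁆ : Subgroup G) ≤ C :=
    Cfsg.Agent.Lib.QuadAct.Basic.commutator_le_of_le_normalizer X.hEC
  have hYsec1 : (⁅C, E⁆ : Subgroup G) ≤ secTriv R (QQ2 R) :=
    commutator_le_secTriv X.hCR (X.hCR.trans (normalizer_le_QQ2 R)) X.E_sec_R
  have hYsec2 : (⁅C, E⁆ : Subgroup G) ≤ secTriv (VV R) WE :=
    commutator_le_secTriv (X.hCR.trans (normalizer_le_VV R)) X.C_norm_WE X.E_sec_V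
  have hWEp : IsPGroup 3 WE := X.hRp.to_le ((X.WE_le_W).trans (X.hWQ.trans X.hQR))
  have hV3 : IsPGroup 3 (VV R) := isPGroup_omegaOneCenter R
  have hQ3 : IsPGroup 3 (QQ2 R) := X.hRp.to_le (QQ2_le R)
  have hK := X.hCR (hYC hy)
  have h2 := fixes_of_secTriv hWEp hco (hYsec2 hy) (fun w hw => X.C_fix_WE (hYC hy) hw)
  have h3 : y ∈ secTriv (QQ2 R) (VV R) :=
    ⟨normalizer_le_QQ2 R hK, normalizer_le_VV R hK,
      (c.d.hat_eq_one_iff hK (normalizer_le_QQ2 R hK)).1 (c.Y_trivial hy)⟩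
  have h4 := fixes_of_secTriv hV3 hco h3 h2
  exact fixes_of_secTriv hQ3 hco (hYsec1 hy) h4

end Exc

end Cfsg.Agent.Lib.FG85.BB
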