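/-
`C_G(W_E) ≤ N_G(E)` for a `B(T)`-block `E`: the extraction of the data for exceptional blocks, and
the final statement.
-/
import Cfsg.Agent.Lib.FG85.BB12
import Cfsg.Agent.Lib.PGroups.Basic

set_option autoImplicit false
set_option linter.unusedSectionVars false
set_option linter.unusedVariables false

namespace Cfsg.Agent.Lib.FG85.BB

open Subgroup Cfsg Matrix
open Cfsg.Agent.Lib.LocalEven.Util
open Cfsg.Agent.Lib.LocalEven.Baumann
open Cfsg.Agent.Lib.LocalEven.SecIrr
open Cfsg.Agent.Lib.LocalEven.BaumannBlock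
open Cfsg.Agent.Lib.LocalStruct.PCoreOf
open scoped commutatorElement

universe u

variable {G : Type u} [Group G] [Finite G]

theorem le_normalizer_sup' {K A B : Subgroup G} (hA : K ≤ normalizer (A : Set G))
    (hB : K ≤ normalizer (B : Set G)) : K ≤ normalizer ((A ⊔ B : Subgroup G) : Set G) := by
  intro g hg
  apply mem_normalizer_of_conj_le
  have hle : A ⊔ B ≤ (A ⊔ B).comap (MulAut.conj g).toMonoidHom := by
    apply sup_le
    · intro x hx
      exact mem_sup_left (conj_mem_of_mem_normalizer (hA hg) hx)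
    · intro x hx
      exact mem_sup_right (conj_mem_of_mem_normalizer (hB hg) hx)
  intro x hx
  exact hle hx

theorem le_normalizer_inf' {K A B : Subgroup G} (hA : K ≤ normalizer (A : Set G))
    (hB : K ≤ normalizer (B : Set G)) : K ≤ normalizer ((A ⊓ B : Subgroup G) : Set G) := by
  intro g hg
  apply mem_normalizer_of_conj_le
  intro x hx
  exact mem_inf.2 ⟨conj_mem_of_mem_normalizer (hA hg) (mem_inf.1 hx).1,
    conj_mem_of_mem_normalizer (hB hg) (mem_inf.1 hx).2⟩

theorem comm_mul_central {v v' a b : G} (h1 : v * a = a * v) (h2 : v * b = b * v)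
    (h3 : v * v' = v' * v) (h4 : v' * a = a * v') (h5 : v' * b = b * v') :
    (v * a) * (v' * b) * (v * a)⁻¹ * (v' * b)⁻¹ = a * b * a⁻¹ * b⁻¹ := by
  have c1 : Commute v a := h1
  have c2 : Commute v b := h2
  have c3 : Commute v v' := h3
  have c4 : Commute v' a := h4
  have c5 : Commute v' b := h5
  have e1 : (v * a) * (v' * b) = (v * v') * (a * b) := by
    calc (v * a) * (v' * b) = v * (a * v') * b := by group
      _ = v * (v' * a) * b := by rw [h4]
      _ = (v * v') * (a * b) := by group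
  have e2 : (v * a)⁻¹ * (v' * b)⁻¹ = (v * v')⁻¹ * (a⁻¹ * b⁻¹) := by
    rw [← _root_.mul_inv_rev, ← _root_.mul_inv_rev, ← _root_.mul_inv_rev]
    have : (v' * b) * (v * a) = (v * v') ⁻¹ ⁻¹ * (b * a) := by
      rw [inv_inv]
      calc (v' * b) * (v * a) = v' * (b * v) * a := by group
        _ = v' * (v * b) * a := by rw [h2]
        _ = (v' * v) * (b * a) := by group
        _ = (v * v') * (b * a) := by rw [h3]
    have cb : Commute (v * v') (b * a) := (c2.mul_right c1).mul_left (c5.mul_right c4)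
    rw [this, inv_inv, cb.eq]
  have cc : Commute (v * v') (a * b) :=
    (c1.mul_left c4).mul_right (c2.mul_left c5)
  calc (v * a) * (v' * b) * (v * a)⁻¹ * (v' * b)⁻¹
      = ((v * a) * (v' * b)) * ((v * a)⁻¹ * (v' * b)⁻¹) := by group
    _ = ((v * v') * (a * b)) * ((v * v')⁻¹ * (a⁻¹ * b⁻¹)) := by rw [e1, e2]
    _ = ((a * b) * (v * v')) * ((v * v')⁻¹ * (a⁻¹ * b⁻¹)) := by rw [cc.eq]
    _ = a * b * a⁻¹ * b⁻¹ := by group

section General

variable {p : ℕ} [Fact p.Prime] {T : Sylow p G} {E : Subgroup G}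

theorem comm_rC_le_core (hE : IsBaumannBlock p (T : Subgroup G) E) :
    ⁅RC p E, E⁆ ≤ pCoreOf p E ⊓ RC p E := by
  have hEN := le_normalizer_rC hE
  have hRE := rC_le_normalizer hE
  have h1 : (RC p E ⊓ E) ≤ pCoreOf p E := by
    apply le_pCoreOf inf_le_right
    · exact le_normalizer_inf' hEN.2 le_normalizer
    · exact (isPGroup_rC E).to_le inf_le_left
  have h2 : ⁅RC p E, E⁆ ≤ RC p E :=
    Cfsg.Agent.Lib.QuadAct.Basic.commutator_le_of_le_normalizer hEN.2
  have h3 : ⁅RC p E, E⁆ ≤ E := by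
    rw [commutator_comm]
    exact Cfsg.Agent.Lib.QuadAct.Basic.commutator_le_of_le_normalizer hRE
  exact le_inf ((le_inf h2 h3).trans h1) h2

theorem main_easy (hG : centralizer (pCore p G : Set G) ≤ pCore p G)
    (hE : IsBaumannBlock p (T : Subgroup G) E) (hQ : pCoreOf p E = OmE p E) :
    CW p E ≤ normalizer (E : Set G) :=
  le_normalizer_of_comm_le_om hG hE ((comm_rC_le_core hE).trans (inf_le_left.trans hQ.le))

theorem card_block {F : Type} [Field F]
    (hiso : Nonempty (↥E ⧸ pCore p ↥E ≃* ↥(SS F))) :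
    Nat.card E = Nat.card (pCoreOf p E) * Nat.card (SS F) := by
  obtain ⟨φ⟩ := hiso
  rw [Subgroup.card_eq_card_quotient_mul_card_subgroup (pCore p ↥E), Nat.card_congr φ.toEquiv]
  have : Nat.card (pCoreOf p E) = Nat.card (pCore p ↥E) :=
    Subgroup.card_map_of_injective E.subtype_injective
  rw [this, mul_comm]

theorem block_hSyl (T : Sylow p G) (hE : IsBaumannBlock p (T : Subgroup G) E) :
    ∀ U : Subgroup G, U ≤ E → IsPGroup p U → ∃ e ∈ E, ∀ x ∈ U, e⁻¹ * x * e ∈
      normalizer ((baumannSubgroupOf p (T : Subgroup G) : Subgroup G) : Set G) := by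
  intro U hUE hU
  have hBE := baumann_le_normalizer_block hE
  have hBp : IsPGroup p (baumannSubgroupOf p (T : Subgroup G)) :=
    T.isPGroup'.to_le (baumann_le _)
  let H : Subgroup G := baumannSubgroupOf p (T : Subgroup G) ⊔ E
  have hBH : baumannSubgroupOf p (T : Subgroup G) ≤ H := le_sup_left
  have hB' : IsPGroup p ((baumannSubgroupOf p (T : Subgroup G)).subgroupOf H) :=
    hBp.comap_of_injective H.subtype H.subtype_injective
  obtain ⟨S₁, hS₁⟩ := hB'.exists_le_sylow
  obtain ⟨h, hh, hh'⟩ := exists_conj_into_sylow S₁ U hU (hUE.trans le_sup_right)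
  have hS'p : IsPGroup p ((S₁ : Subgroup H).map H.subtype) := S₁.isPGroup'.map _
  have hBS' : baumannSubgroupOf p (T : Subgroup G) ≤ (S₁ : Subgroup H).map H.subtype :=
    fun b hb => ⟨⟨b, hBH hb⟩, hS₁ (mem_subgroupOf.2 hb), rfl⟩
  have hN := le_normalizer_baumann T hS'p hBS'
  obtain ⟨a, ha, b, hb, hab⟩ :=
    Cfsg.Agent.Lib.Components.Basic.mem_sup_of_le_normalizer hBE (inv_mem hh : h⁻¹ ∈ H)
  refine ⟨b⁻¹, inv_mem hb, fun x hx => hN ?_⟩
  have h1 := hh' x hx
  have hh2 : h = (a * b)⁻¹ := by rw [hab, inv_inv]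
  have e2 : b⁻¹⁻¹ * x * b⁻¹ = a⁻¹ * (h⁻¹ * x * h) * a := by
    rw [hh2]
    group
  rw [e2]
  exact mul_mem (mul_mem (inv_mem (hBS' ha)) h1) (hBS' ha)

theorem block_hBnot (hE : IsBaumannBlock p (T : Subgroup G) E) :
    ∃ b ∈ baumannSubgroupOf p (T : Subgroup G), b ∉ centralizer (OmE p E : Set G) := by
  by_contra hcon
  push_neg at hcon
  have hBW : ⁅baumannSubgroupOf p (T : Subgroup G), OmE p E⁆ = ⊥ :=
    commutator_eq_bot_iff_le_centralizer.2 hcon
  have h1 : ⁅⁅baumannSubgroupOf p (T : Subgroup G), OmE p E⁆, E⁆ = ⊥ := by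
    rw [hBW, commutator_bot_left]
  have h2 : ⁅⁅OmE p E, E⁆, baumannSubgroupOf p (T : Subgroup G)⁆ = ⊥ := by
    rw [← le_bot_iff, ← hBW, commutator_comm]
    apply commutator_mono le_rfl (wE_le_omE E)
  have h3 := commutator_commutator_eq_bot_of_rotate h1 h2
  rw [hE.2.1, commutator_eq_bot_iff_le_centralizer] at h3
  apply block_not_central hE
  rw [le_centralizer_iff]
  exact h3

end General

namespace NatSec

theorem ker_iff {F : Type} [Field F] [Finite F] {E U U₀ Q : Subgroup G} (n : NatSec F E U U₀)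
    (hQE : Q ≤ E) (hcard : Nat.card E = Nat.card Q * Nat.card (SS F))
    (hQ : ∀ a ∈ Q, ∀ u ∈ U, a * u * a⁻¹ * u⁻¹ ∈ U₀) (hU₀U : U₀ ≤ U) :
    ∀ e ∈ E, n.ρ e = 1 ↔ e ∈ Q := by
  classical
  have hQ1 : ∀ a ∈ Q, n.ρ a = 1 := by
    intro a ha
    have hv : ∀ v, (n.ρ a : Matrix (Fin 2) (Fin 2) F) *ᵥ v = v := by
      intro v
      obtain ⟨u, hu, rfl⟩ := n.ψ_surj v
      rw [← n.ψ_eq a (hQE ha) u hu]
      have hc := hQ a ha u hu
      have h1 : a * u * a⁻¹ = (a * u * a⁻¹ * u⁻¹) * u := by group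
      rw [h1, n.ψ_mul _ (hU₀U hc) _ hu, (n.ψ_ker _ (hU₀U hc)).2 hc, zero_add]
    apply Subtype.ext
    apply Matrix.ext_of_mulVec_single
    intro i
    rw [hv]
    show _ = (1 : Matrix (Fin 2) (Fin 2) F) *ᵥ _
    rw [Matrix.one_mulVec]
  let f : ↥E →* SpecialLinearGroup (Fin 2) F :=
    MonoidHom.mk' (fun x => n.ρ x) (fun x y => n.ρ_mul x x.2 y y.2)
  have hrange : f.range = SS F := by
    ext s
    constructor
    · rintro ⟨x, rfl⟩
      exact n.ρ_mem x x.2
    · intro hs
      obtain ⟨x, hx, h⟩ := n.ρ_surj s hs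
      exact ⟨⟨x, hx⟩, h⟩
  have hle : Q.subgroupOf E ≤ f.ker := fun a ha => hQ1 a (mem_subgroupOf.1 ha)
  have hcard2 : Nat.card f.ker * Nat.card (SS F) = Nat.card E := by
    rw [← hrange, ← Subgroup.index_ker, Subgroup.card_mul_index]
  have hcardQ : Nat.card (Q.subgroupOf E) = Nat.card Q :=
    Nat.card_congr (subgroupOfEquivOfLe hQE).toEquiv
  have heq : Q.subgroupOf E = f.ker := by
    apply Subgroup.eq_of_le_of_card_ge hle
    have hpos : 0 < Nat.card (SS F) := Nat.card_pos
    rw [hcardQ]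
    apply Nat.le_of_mul_le_mul_right _ hpos
    rw [hcard2, hcard]
  intro e he
  constructor
  · intro h
    have h' : (⟨e, he⟩ : E) ∈ f.ker := h
    rw [← heq] at h'
    exact mem_subgroupOf.1 h'
  · exact hQ1 e

end NatSec

section Exceptional

variable [Fact (Nat.Prime 3)] {T : Sylow 3 G} {E : Subgroup G}

theorem main_exc (hG : centralizer (pCore 3 G : Set G) ≤ pCore 3 G)
    (hE : IsBaumannBlock 3 (T : Subgroup G) E)
    {F : Type} [Field F] [Fintype F] {n : ℕ} (hF : Fintype.card F = 3 ^ n)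
    (hiso : Nonempty (↥E ⧸ pCore 3 ↥E ≃* ↥(SS F)))
    (h₁ : ActsAsSL2OnSection F (SS F) E (OmE 3 E) (OmE 3 E ⊓ centralizer (E : Set G)))
    (h₂ : ActsAsSL2OnSection F (SS F) E (pCoreOf 3 E) (OmE 3 E))
    (hQQ : ⁅pCoreOf 3 E, pCoreOf 3 E⁆ = OmE 3 E ⊓ centralizer (E : Set G))
    (hfr : (frattini ↥(pCoreOf 3 E)).map (pCoreOf 3 E).subtype =
      OmE 3 E ⊓ centralizer (E : Set G))
    (hZ : E ⊓ centralizer (E : Set G) = OmE 3 E ⊓ centralizer (E : Set G))
    (hcard : Nat.card ↥(E ⊓ centralizer (E : Set G)) = 3 ^ n)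
    (hnq : ∀ b : G, b ∈ baumannSubgroupOf 3 (T : Subgroup G) →
      b ∉ centralizer (OmE 3 E : Set G) →
      ¬ ⁅⁅pCoreOf 3 E, zpowers b⁆, zpowers b⁆ ≤ E ⊓ centralizer (E : Set G)) :
    CW 3 E ≤ normalizer (E : Set G) := by
  classical
  have hEN := le_normalizer_rC hE
  have hWQ : OmE 3 E ≤ pCoreOf 3 E := omegaOneCenter_le _
  have hWc : ∀ w ∈ OmE 3 E, ∀ a ∈ pCoreOf 3 E, w * a = a * w := fun w hw a ha =>
    (mem_centralizer_iff.1 (mem_omegaOneCenter.1 hw).2.1 a ha).symm
  have hirr₁ := secIrr_of_sl2 h₁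
  have hirr₂ := secIrr_of_sl2 h₂
  have hEW := block_le_normalizer_pCoreOf (p := 3) E
  have hEQ : E ≤ normalizer (pCoreOf 3 E : Set G) := le_normalizer_pCoreOf E
  have hQE : pCoreOf 3 E ≤ E := pCoreOf_le E
  have hEZ : E ≤ normalizer ((OmE 3 E ⊓ centralizer (E : Set G) : Subgroup G) : Set G) :=
    le_normalizer_inf' hEW (le_normalizer.trans (normalizer_le_centralizer E))
  by_cases hA : pCoreOf 3 E ⊓ RC 3 E ≤ OmE 3 E
  · exact le_normalizer_of_comm_le_om hG hE ((comm_rC_le_core hE).trans hA)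
  have hQR : pCoreOf 3 E ≤ RC 3 E := by
    obtain ⟨u, hu, huW⟩ := SetLike.not_le_iff_exists.1 hA
    have hD : pCoreOf 3 E ≤ (pCoreOf 3 E ⊓ RC 3 E) ⊔ OmE 3 E := by
      apply hirr₂ _ le_sup_right (sup_le inf_le_left hWQ)
        (le_normalizer_sup' (le_normalizer_inf' hEQ hEN.2) hEW) ⟨u, mem_sup_left hu, huW⟩
    -- `Z ≤ R`
    have hZR : OmE 3 E ⊓ centralizer (E : Set G) ≤ RC 3 E := by
      rw [← hQQ, commutator_le]
      have hWA : OmE 3 E ≤ normalizer ((pCoreOf 3 E ⊓ RC 3 E : Subgroup G) : Set G) := by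
        intro w hw
        apply mem_normalizer_of_conj_le
        intro y hy
        rw [hWc w hw y (mem_inf.1 hy).1]
        simpa using hy
      have hdec : ∀ a ∈ pCoreOf 3 E, ∃ v ∈ OmE 3 E, ∃ y ∈ pCoreOf 3 E ⊓ RC 3 E, v * y = a := by
        intro a ha
        have := hD ha
        rw [sup_comm] at this
        exact Cfsg.Agent.Lib.Components.Basic.mem_sup_of_le_normalizer hWA this
      intro a ha b hb
      obtain ⟨v, hv, y, hy, rfl⟩ := hdec a ha
      obtain ⟨v', hv', y', hy', rfl⟩ := hdec b hb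
      rw [commutatorElement_def, comm_mul_central (hWc v hv y (mem_inf.1 hy).1)
        (hWc v hv y' (mem_inf.1 hy').1) (hWc v hv v' (hWQ hv'))
        (hWc v' hv' y (mem_inf.1 hy).1) (hWc v' hv' y' (mem_inf.1 hy').1)]
      have h1 := (mem_inf.1 hy).2
      have h2 := (mem_inf.1 hy').2
      exact mul_mem (mul_mem (mul_mem h1 h2) (inv_mem h1)) (inv_mem h2)
    -- `W ≤ R`
    have hWER : WE 3 E ≤ RC 3 E :=
      (block_comm_le hG hE).trans ((omegaOneCenter_le _).trans (pCore_le_rC hG hE))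
    have hWR : OmE 3 E ≤ RC 3 E := by
      have hEWE : E ≤ normalizer (WE 3 E : Set G) := le_normalizer.trans (normalizer_le_wE E)
      have hex : ∃ u ∈ WE 3 E ⊔ (OmE 3 E ⊓ centralizer (E : Set G)),
          u ∉ OmE 3 E ⊓ centralizer (E : Set G) := by
        by_contra hcon
        push_neg at hcon
        have hWEZ : WE 3 E ≤ OmE 3 E ⊓ centralizer (E : Set G) :=
          fun x hx => hcon x (mem_sup_left hx)
        apply block_not_central hE
        rw [le_centralizer_iff]
        conv_lhs => rw [← block_gen hE]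
        rw [closure_le]
        rintro g ⟨hg, hco⟩
        rw [SetLike.mem_coe, mem_centralizer_iff]
        intro w hw
        have hsec : g ∈ secTriv (OmE 3 E) (OmE 3 E ⊓ centralizer (E : Set G)) := by
          refine ⟨hEW hg, hEZ hg, fun a ha => ?_⟩
          apply hWEZ
          show _ ∈ (⁅OmE 3 E, E⁆ : Subgroup G)
          rw [commutator_comm]
          exact commutator_mem_commutator hg ha
        have hZp : IsPGroup 3 ((OmE 3 E ⊓ centralizer (E : Set G) : Subgroup G)) :=
          (isPGroup_omE E).to_le inf_le_left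
        have := fixes_of_secTriv hZp hco hsec (fun z hz => by
          have := mem_centralizer_iff.1 (mem_inf.1 hz).2 g hg
          rw [this]
          group) w hw
        calc w * g = (g * w * g⁻¹) * g := by rw [this]
          _ = g * w := by group
      have := secIrr_of_sl2 h₁ _ le_sup_right (sup_le (wE_le_omE E) inf_le_left)
        (le_normalizer_sup' hEWE hEZ) hex
      exact this.trans (sup_le hWER hZR |>.trans le_rfl)
    exact hD.trans (sup_le inf_le_right hWR)
  obtain ⟨n₁⟩ := exists_natSec h₁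
  obtain ⟨n₂⟩ := exists_natSec h₂
  have hcardE := card_block (p := 3) hiso
  have hQp : IsPGroup 3 (pCoreOf 3 E) := isPGroup_pCoreOf _
  haveI hFfin : Finite F := Finite.of_fintype F
  have X : Exc F E (pCoreOf 3 E) (OmE 3 E) (OmE 3 E ⊓ centralizer (E : Set G)) (WE 3 E) (CW 3 E)
      (RC 3 E) (pCore 3 G) (baumannSubgroupOf 3 (T : Subgroup G)) :=
    { n₁ := n₁
      n₂ := n₂
      h3 := by
        have h0 : ((Fintype.card F : ℕ) : F) = 0 := FiniteField.cast_card_eq_zero F
        rw [hF] at h0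
        push_cast at h0
        by_contra h
        exact (pow_ne_zero n h) h0
      hWQ := hWQ
      hZW := inf_le_left
      hQE := hQE
      hWcent := hWc
      hWexp := fun w hw => (mem_omegaOneCenter.1 hw).2.2
      hWchar := fun x hx hc h3 => mem_omegaOneCenter.2
        ⟨hx, mem_centralizer_iff.2 (fun a ha => (hc a ha).symm), h3⟩
      hZE := fun x => by
        rw [mem_inf, mem_centralizer_iff]
        rfl
      hQQ := hQQ
      hQ3 := fun a ha => by
        rw [← hfr]
        exact ⟨(⟨a, ha⟩ : pCoreOf 3 E) ^ 3,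
          Cfsg.Agent.Lib.PGroups.Basic.pow_mem_frattini hQp _, by simp⟩
      hQcore := fun D hDE hED hDp => le_pCoreOf hDE hED hDp
      hker₁ := n₁.ker_iff hQE hcardE (fun a ha u hu => by
        have h1 : a * u = u * a := (hWc u hu a ha).symm
        have h2 : a * u * a⁻¹ * u⁻¹ = 1 := by
          rw [h1]
          group
        rw [h2]
        exact one_mem _) inf_le_left
      hker₂ := n₂.ker_iff hQE hcardE (fun a ha u hu => by
        have : a * u * a⁻¹ * u⁻¹ ∈ (⁅pCoreOf 3 E, pCoreOf 3 E⁆ : Subgroup G) :=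
          commutator_mem_commutator ha hu
        rw [hQQ] at this
        exact (mem_inf.1 this).1) hWQ
      hWE := rfl
      hZcard := by
        rw [← hZ, hcard, Nat.card_eq_fintype_card, hF]
      hgen := block_gen hE
      hQEc := hE.2.2.1
      hNQ := normalizer_le_normalizer_pCoreOf E
      hNW := normalizer_le_omE E
      hNZ := le_normalizer_inf' (normalizer_le_omE E) (normalizer_le_centralizer E)
      hirr₂ := hirr₂
      hC := rfl
      hRC := rC_le_cW E
      hRp := isPGroup_rC E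
      hCR := cW_le_normalizer_rC E
      hEC := hEN.1
      hER := hEN.2
      hRE := rC_le_normalizer hE
      hQR := hQR
      hRcore := fun D hDC hCD hDp => le_pCoreOf hDC hCD hDp
      hPp := Cfsg.Agent.Lib.Core.Basic.pCore_isPGroup
      hCP := centralizer_rC_le hG hE
      hBE := baumann_le_normalizer_block hE
      hBC := (baumann_le_normalizer_block hE).trans (normalizer_le_cW E)
      hBR := (baumann_le_normalizer_block hE).trans (normalizer_le_rC E)
      hBp := T.isPGroup'.to_le (baumann_le _)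
      hBnot := block_hBnot hE
      hnq := fun b hb hbn => by
        have := hnq b hb hbn
        rwa [hZ] at this
      hSyl := block_hSyl T hE }
  apply le_normalizer_of_pelt T hE hEN.1
    ((baumann_le_normalizer_block hE).trans (normalizer_le_cW E))
  apply pelt_of_fix hG hE
  intro y hy hco
  exact X.Y_fix hy hco

end Exceptional

/-- `C_G(W_E) ≤ N_G(E)` for every `B(T)`-block `E`. -/
theorem centralizer_wE_le_normalizer {p : ℕ} [Fact p.Prime]
    (hG : centralizer (pCore p G : Set G) ≤ pCore p G) (T : Sylow p G) (E : Subgroup G)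
    (hE : IsBaumannBlock p (T : Subgroup G) E) : CW p E ≤ normalizer (E : Set G) := by
  rcases hE.2.2.2.2 with ⟨F, _, _, n, hF, hiso, h₁, hcase⟩ | ⟨hp, m, hiso, h, hQ⟩
  · rcases hcase with hQ | ⟨hp, h₂, hQQ, hfr, hZ, hcard, hnq⟩
    · exact main_easy hG hE hQ
    · subst hp
      exact main_exc hG hE hF hiso h₁ h₂ hQQ hfr hZ hcard hnq
  · exact main_easy hG hE hQ

end Cfsg.Agent.Lib.FG85.BB
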