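import Mathlib

/-!
# Average number of fixed points of a coprime `q`-group on an abelian group

`A` a finite `q`-group acting on a finite abelian group `V` of order prime to `q`, with no nontrivial
fixed point. Then `∏_{a ∈ A} |C_V(a)|^q ≤ |V|^{|A|}`; in particular some `a ∈ A` has `|C_V(a)|^q ≤ |V|`.
-/

set_option autoImplicit false

namespace Cfsg.Agent.Lib.FG85.FixAvg

universe u v

section Basic

variable {A : Type u} [Group A] {V : Type v} [CommGroup V]

/-- The fixed points of `a`. -/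
def Fx (ρ : A →* Monoid.End V) (a : A) : Subgroup V where
  carrier := {v | ρ a v = v}
  mul_mem' := by
    intro x y hx hy
    simp only [Set.mem_ofPred_eq] at hx hy ⊢
    rw [map_mul, hx, hy]
  one_mem' := map_one (ρ a)
  inv_mem' := by
    intro x hx
    simp only [Set.mem_ofPred_eq] at hx ⊢
    rw [map_inv, hx]

@[simp] theorem mem_Fx (ρ : A →* Monoid.End V) (a : A) (v : V) : v ∈ Fx ρ a ↔ ρ a v = v := Iff.rfl

theorem rho_mul (ρ : A →* Monoid.End V) (a b : A) (v : V) : ρ (a * b) v = ρ a (ρ b v) := by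
  rw [map_mul]; rfl

theorem rho_one (ρ : A →* Monoid.End V) (v : V) : ρ 1 v = v := by
  rw [map_one]; rfl

end Basic

section Irr

variable {A : Type u} [Group A] {V : Type v} [CommGroup V]

/-- If `ρ y` commutes with all of `ρ A` and acts nontrivially, on an irreducible module, its fixed
points are trivial. -/
theorem Fx_eq_bot_of_central (ρ : A →* Monoid.End V)
    (hirr : ∀ U : Subgroup V, (∀ a, ∀ v ∈ U, ρ a v ∈ U) → U = ⊥ ∨ U = ⊤)
    {y : A} (hy : ∀ b v, ρ y (ρ b v) = ρ b (ρ y v)) (hne : ∃ v, ρ y v ≠ v) : Fx ρ y = ⊥ := by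
  have hinv : ∀ a, ∀ v ∈ Fx ρ y, ρ a v ∈ Fx ρ y := by
    intro a v hv
    rw [mem_Fx] at hv ⊢
    rw [hy, hv]
  rcases hirr (Fx ρ y) hinv with h | h
  · exact h
  · exfalso
    obtain ⟨v, hv⟩ := hne
    have : v ∈ Fx ρ y := by rw [h]; trivial
    exact hv this

/-- Independence of fixed spaces of `a z^j`. -/
theorem indep_aux (ρ : A →* Monoid.End V) (q : ℕ) (a z : A)
    (hz : ∀ j : ℤ, ∀ b v, ρ (z ^ j) (ρ b v) = ρ b (ρ (z ^ j) v))
    (hbot : ∀ j : ℤ, 0 < |j| → |j| < q → Fx ρ (z ^ j) = ⊥)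
    (s : Finset (Fin q)) :
    ∀ v : Fin q → V, (∀ j ∈ s, v j ∈ Fx ρ (a * z ^ (j : ℕ))) → ∏ j ∈ s, v j = 1 →
      ∀ j ∈ s, v j = 1 := by
  classical
  induction s using Finset.induction_on with
  | empty => intro v _ _ j hj; simp at hj
  | insert m s hm ih =>
    intro v hv hprod
    have hvm := hv m (Finset.mem_insert_self _ _)
    -- the elements `y j = z ^ (m - j)`
    let y : Fin q → A := fun j => z ^ (((m : ℕ) : ℤ) - ((j : ℕ) : ℤ))
    have hy : ∀ j : Fin q, a * z ^ (m : ℕ) = (a * z ^ (j : ℕ)) * y j := by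
      intro j
      simp only [y, mul_assoc]
      congr 1
      rw [← zpow_natCast z (j : ℕ), ← zpow_add, ← zpow_natCast z (m : ℕ)]
      congr 1
      ring
    have hact : ∀ j ∈ s, ρ (a * z ^ (m : ℕ)) (v j) = ρ (y j) (v j) := by
      intro j hj
      have h1 := hv j (Finset.mem_insert_of_mem hj)
      rw [mem_Fx] at h1
      rw [hy j, rho_mul]
      exact (hz _ _ _).symm.trans (by rw [h1])
    have h2 : (∏ j ∈ s, ρ (y j) (v j)) * v m = 1 := by
      have h3 : ρ (a * z ^ (m : ℕ)) (∏ j ∈ insert m s, v j) = 1 := by rw [hprod, map_one]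
      rw [Finset.prod_insert hm, map_mul, map_prod, hvm, Finset.prod_congr rfl hact, mul_comm] at h3
      exact h3
    rw [Finset.prod_insert hm] at hprod
    have h4 : ∏ j ∈ s, (ρ (y j) (v j) * (v j)⁻¹) = 1 := by
      rw [Finset.prod_mul_distrib, Finset.prod_inv_distrib]
      have h5 : ∏ j ∈ s, v j = (v m)⁻¹ := by
        rw [eq_inv_iff_mul_eq_one, mul_comm]; exact hprod
      rw [h5, inv_inv]
      exact h2
    have h5 := ih (fun j => ρ (y j) (v j) * (v j)⁻¹) (fun j hj => ?_) h4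
    · have h6 : ∀ j ∈ s, v j = 1 := by
        intro j hj
        have h7 := h5 j hj
        have h8 : ρ (y j) (v j) = v j := by
          rwa [mul_inv_eq_one] at h7
        have hjm : j ≠ m := fun h => hm (h ▸ hj)
        have h9 : v j ∈ Fx ρ (y j) := h8
        rw [hbot] at h9
        · exact (Subgroup.mem_bot).mp h9
        · rw [abs_pos, sub_ne_zero]
          intro h
          exact hjm (Fin.ext (by exact_mod_cast h.symm))
        · have h10 := m.2
          have h11 := j.2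
          rw [abs_lt]
          constructor <;> omega
      intro j hj
      rw [Finset.mem_insert] at hj
      rcases hj with rfl | hj
      · have h7 : ∏ j ∈ s, v j = 1 := Finset.prod_eq_one h6
        rw [h7, mul_one] at hprod
        exact hprod
      · exact h6 j hj
    · have h1 := hv j (Finset.mem_insert_of_mem hj)
      rw [mem_Fx] at h1 ⊢
      rw [map_mul, map_inv, h1]
      -- commutation of `y j` with `a z ^ j`
      have h2 : ρ (a * z ^ (j : ℕ)) (ρ (y j) (v j)) = ρ (y j) (v j) := by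
        exact (hz _ _ _).symm.trans (by rw [h1])
      rw [h2]

theorem card_prod_le [Finite V] (ρ : A →* Monoid.End V) (q : ℕ) (a z : A)
    (hz : ∀ j : ℤ, ∀ b v, ρ (z ^ j) (ρ b v) = ρ b (ρ (z ^ j) v))
    (hbot : ∀ j : ℤ, 0 < |j| → |j| < q → Fx ρ (z ^ j) = ⊥) :
    ∏ j : Fin q, Nat.card (Fx ρ (a * z ^ (j : ℕ))) ≤ Nat.card V := by
  classical
  let f : ((j : Fin q) → Fx ρ (a * z ^ (j : ℕ))) → V := fun w => ∏ j, (w j : V)
  have hinj : Function.Injective f := by
    intro w w' h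
    funext j
    have h1 : ∏ i, ((w i : V) * (w' i : V)⁻¹) = 1 := by
      rw [Finset.prod_mul_distrib, Finset.prod_inv_distrib]
      exact mul_inv_eq_one.mpr h
    have h2 := indep_aux ρ q a z hz hbot Finset.univ (fun i => (w i : V) * (w' i : V)⁻¹)
      (fun i _ => mul_mem (w i).2 (inv_mem (w' i).2)) h1 j (Finset.mem_univ _)
    exact Subtype.ext (mul_inv_eq_one.mp h2)
  rw [← Nat.card_pi]
  exact Nat.card_le_card_of_injective f hinj

/-- The irreducible case. -/
theorem prod_le_of_irr [Fintype A] [Finite V] (q : ℕ) [Fact q.Prime] (hA : IsPGroup q A)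
    (ρ : A →* Monoid.End V)
    (hirr : ∀ U : Subgroup V, (∀ a, ∀ v ∈ U, ρ a v ∈ U) → U = ⊥ ∨ U = ⊤)
    (hfix : ∀ v, (∀ a, ρ a v = v) → v = 1) (hV : Nontrivial V) :
    ∏ a : A, Nat.card (Fx ρ a) ^ q ≤ Nat.card V ^ Nat.card A := by
  classical
  set K := ρ.ker with hK
  have : K.Normal := MonoidHom.normal_ker ρ
  have hK_top : K ≠ ⊤ := by
    intro h
    obtain ⟨v, hv⟩ := exists_ne (1 : V)
    refine hv (hfix v fun a => ?_)
    have : a ∈ K := by rw [h]; trivial
    have h2 : ρ a = 1 := (MonoidHom.mem_ker).mp this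
    rw [h2]; rfl
  -- the quotient is a nontrivial `q`-group
  have hAq : IsPGroup q (A ⧸ K) := hA.to_quotient K
  have hnt : Nontrivial (A ⧸ K) := QuotientGroup.nontrivial_iff.mpr hK_top
  have : Finite (A ⧸ K) := inferInstance
  have hcnt := hAq.center_nontrivial
  obtain ⟨c, hc⟩ := exists_ne (1 : Subgroup.center (A ⧸ K))
  -- an element of order `q` in the centre
  have hcq : IsPGroup q (Subgroup.center (A ⧸ K)) := hAq.to_subgroup _
  obtain ⟨k, hk⟩ := (IsPGroup.iff_orderOf.mp hcq) c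
  have hk0 : k ≠ 0 := by
    rintro rfl
    rw [pow_zero, orderOf_eq_one_iff] at hk
    exact hc hk
  obtain ⟨k, rfl⟩ := Nat.exists_eq_succ_of_ne_zero hk0
  let d : Subgroup.center (A ⧸ K) := c ^ (q ^ k)
  have hd : orderOf d = q := by
    have hq0 : 0 < q ^ k := pow_pos (Fact.out : q.Prime).pos _
    have := orderOf_pow_of_dvd (x := c) (n := q ^ k) hq0.ne' (by
      rw [hk, Nat.succ_eq_add_one, pow_succ]; exact Dvd.intro _ rfl)
    simp only [d]
    rw [this, hk, Nat.succ_eq_add_one, pow_succ]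
    exact Nat.mul_div_cancel_left _ hq0
  obtain ⟨z, hzd⟩ := QuotientGroup.mk_surjective ((d : A ⧸ K))
  have hzbar : ∀ j : ℤ, ((z ^ j : A) : A ⧸ K) = ((d ^ j : Subgroup.center (A ⧸ K)) : A ⧸ K) := by
    intro j
    rw [QuotientGroup.mk_zpow, hzd]
    simp
  have hfact : ∀ x y : A, (x : A ⧸ K) = (y : A ⧸ K) → ρ x = ρ y := by
    intro x y h
    rw [QuotientGroup.eq] at h
    have h2 : ρ (x⁻¹ * y) = 1 := (MonoidHom.mem_ker).mp h
    have h3 : y = x * (x⁻¹ * y) := by group
    rw [h3, map_mul, h2, mul_one]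
  have hz : ∀ j : ℤ, ∀ b v, ρ (z ^ j) (ρ b v) = ρ b (ρ (z ^ j) v) := by
    intro j b v
    have h1 : ρ (z ^ j * b) = ρ (b * z ^ j) := by
      apply hfact
      rw [QuotientGroup.mk_mul, QuotientGroup.mk_mul, hzbar]
      exact ((d ^ j).2.comm _).symm ▸ rfl
    rw [← rho_mul, h1, rho_mul]
  have hbot : ∀ j : ℤ, 0 < |j| → |j| < q → Fx ρ (z ^ j) = ⊥ := by
    intro j h0 hj
    refine Fx_eq_bot_of_central ρ hirr (hz j) ?_
    by_contra hall
    push Not at hall
    have h1 : z ^ j ∈ K := by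
      refine (MonoidHom.mem_ker).mpr ?_
      ext v
      exact hall v
    have h2 : ((z ^ j : A) : A ⧸ K) = 1 := (QuotientGroup.eq_one_iff _).mpr h1
    rw [hzbar] at h2
    have h3 : d ^ j = 1 := Subtype.ext h2
    rw [← orderOf_dvd_iff_zpow_eq_one, hd] at h3
    have := Int.eq_zero_of_abs_lt_dvd h3 hj
    rw [this] at h0
    simp at h0
  -- sum over cosets
  have h1 : ∀ a : A, ∏ j : Fin q, Nat.card (Fx ρ (a * z ^ (j : ℕ))) ≤ Nat.card V :=
    fun a => card_prod_le ρ q a z hz hbot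
  have h2 : ∏ a : A, ∏ j : Fin q, Nat.card (Fx ρ (a * z ^ (j : ℕ))) ≤ Nat.card V ^ Nat.card A := by
    calc ∏ a : A, ∏ j : Fin q, Nat.card (Fx ρ (a * z ^ (j : ℕ)))
        ≤ ∏ _a : A, Nat.card V := Finset.prod_le_prod' (fun a _ => h1 a)
      _ = Nat.card V ^ Nat.card A := by
          rw [Finset.prod_const, Finset.card_univ, Nat.card_eq_fintype_card (α := A)]
  have h3 : ∏ a : A, ∏ j : Fin q, Nat.card (Fx ρ (a * z ^ (j : ℕ)))
      = ∏ a : A, Nat.card (Fx ρ a) ^ q := by
    rw [Finset.prod_comm]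
    have h4 : ∀ j : Fin q, ∏ a : A, Nat.card (Fx ρ (a * z ^ (j : ℕ))) = ∏ a : A, Nat.card (Fx ρ a) := by
      intro j
      exact Fintype.prod_equiv (Equiv.mulRight (z ^ (j : ℕ))) _ _ (fun a => rfl)
    rw [Finset.prod_congr rfl (fun j _ => h4 j), Finset.prod_const, Finset.card_univ,
      Fintype.card_fin, Finset.prod_pow]
  rwa [h3] at h2

end Irr

section General

variable {A : Type u} [Group A]

/-- Restriction to an invariant subgroup. -/
def rhoSub {V : Type v} [CommGroup V] (ρ : A →* Monoid.End V) (U : Subgroup V)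
    (hU : ∀ a, ∀ v ∈ U, ρ a v ∈ U) : A →* Monoid.End U where
  toFun a :=
    { toFun := fun v => ⟨ρ a v, hU a v v.2⟩
      map_one' := Subtype.ext (map_one (ρ a))
      map_mul' := fun x y => Subtype.ext (map_mul (ρ a) _ _) }
  map_one' := by
    ext v
    exact rho_one ρ (v : V)
  map_mul' := by
    intro a b
    ext v
    exact rho_mul ρ a b (v : V)

@[simp] theorem rhoSub_apply {V : Type v} [CommGroup V] (ρ : A →* Monoid.End V) (U : Subgroup V)
    (hU : ∀ a, ∀ v ∈ U, ρ a v ∈ U) (a : A) (v : U) : ((rhoSub ρ U hU a v : U) : V) = ρ a v := rfl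

/-- Action on a quotient. -/
def rhoQuot {V : Type v} [CommGroup V] (ρ : A →* Monoid.End V) (U : Subgroup V)
    (hU : ∀ a, ∀ v ∈ U, ρ a v ∈ U) : A →* Monoid.End (V ⧸ U) where
  toFun a := QuotientGroup.map U U (ρ a) (fun v hv => hU a v hv)
  map_one' := by
    refine MonoidHom.ext fun v => ?_
    obtain ⟨v, rfl⟩ := QuotientGroup.mk_surjective v
    change ((ρ 1 v : V) : V ⧸ U) = (v : V ⧸ U)
    rw [rho_one]
  map_mul' := by
    intro a b
    refine MonoidHom.ext fun v => ?_
    obtain ⟨v, rfl⟩ := QuotientGroup.mk_surjective v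
    change ((ρ (a * b) v : V) : V ⧸ U) = ((ρ a (ρ b v) : V) : V ⧸ U)
    rw [rho_mul]

@[simp] theorem rhoQuot_mk {V : Type v} [CommGroup V] (ρ : A →* Monoid.End V) (U : Subgroup V)
    (hU : ∀ a, ∀ v ∈ U, ρ a v ∈ U) (a : A) (v : V) :
    rhoQuot ρ U hU a (v : V ⧸ U) = ((ρ a v : V) : V ⧸ U) := rfl

theorem card_Fx_le {V : Type v} [CommGroup V] [Finite V] (ρ : A →* Monoid.End V) (U : Subgroup V)
    (hU : ∀ a, ∀ v ∈ U, ρ a v ∈ U) (a : A) :
    Nat.card (Fx ρ a) ≤ Nat.card (Fx (rhoSub ρ U hU) a) * Nat.card (Fx (rhoQuot ρ U hU) a) := by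
  classical
  let φ : Fx ρ a →* Fx (rhoQuot ρ U hU) a :=
    { toFun := fun x => ⟨((x : V) : V ⧸ U), by
        rw [mem_Fx, rhoQuot_mk, x.2]⟩
      map_one' := rfl
      map_mul' := fun _ _ => rfl }
  have h1 : Nat.card (Fx ρ a) = Nat.card φ.ker * Nat.card φ.range := by
    rw [← Subgroup.index_ker, Subgroup.card_mul_index]
  rw [h1]
  refine Nat.mul_le_mul ?_ (Subgroup.card_le_card_group _)
  let ψ : φ.ker → Fx (rhoSub ρ U hU) a := fun x => ⟨⟨((x : Fx ρ a) : V), by
      have h2 : φ (x : Fx ρ a) = 1 := x.2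
      have h3 : (((x : Fx ρ a) : V) : V ⧸ U) = 1 := congrArg Subtype.val h2
      exact (QuotientGroup.eq_one_iff _).mp h3⟩, by
      rw [mem_Fx]
      exact Subtype.ext (x : Fx ρ a).2⟩
  refine Nat.card_le_card_of_injective ψ ?_
  intro x y hxy
  have h2 : ((x : Fx ρ a) : V) = ((y : Fx ρ a) : V) := by
    have := congrArg (fun t : Fx (rhoSub ρ U hU) a => ((t : U) : V)) hxy
    exact this
  exact Subtype.ext (Subtype.ext h2)

theorem no_fix_quot [Fintype A] {V : Type v} [CommGroup V] [Finite V] (q : ℕ) [Fact q.Prime]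
    (hA : IsPGroup q A) (hc : Nat.Coprime q (Nat.card V)) (ρ : A →* Monoid.End V) (U : Subgroup V)
    (hU : ∀ a, ∀ v ∈ U, ρ a v ∈ U) (hfix : ∀ v, (∀ a, ρ a v = v) → v = 1) (x : V ⧸ U)
    (hx : ∀ a, rhoQuot ρ U hU a x = x) : x = 1 := by
  classical
  obtain ⟨x, rfl⟩ := QuotientGroup.mk_surjective x
  have h1 : ∏ a : A, ρ a x = 1 := by
    apply hfix
    intro b
    rw [map_prod]
    refine Fintype.prod_equiv (Equiv.mulLeft b) _ _ (fun a => ?_)
    simp
  have h2 : ((∏ a : A, ρ a x : V) : V ⧸ U) = (x : V ⧸ U) ^ Fintype.card A := by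
    have h3 : ∀ a : A, ((ρ a x : V) : V ⧸ U) = (x : V ⧸ U) := fun a => hx a
    rw [QuotientGroup.mk_prod, Finset.prod_congr rfl (fun a _ => h3 a), Finset.prod_const,
      Finset.card_univ]
  rw [h1] at h2
  have h3 : (x : V ⧸ U) ^ Fintype.card A = 1 := h2.symm
  have h4 : orderOf (x : V ⧸ U) ∣ Fintype.card A := orderOf_dvd_of_pow_eq_one h3
  have h5 : orderOf (x : V ⧸ U) ∣ Nat.card (V ⧸ U) := orderOf_dvd_natCard _
  have h6 : Nat.card (V ⧸ U) ∣ Nat.card V := Subgroup.card_quotient_dvd_card U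
  obtain ⟨n, hn⟩ := IsPGroup.iff_card.mp hA
  rw [Nat.card_eq_fintype_card] at hn
  rw [hn] at h4
  have h7 : Nat.Coprime (q ^ n) (Nat.card V) := Nat.Coprime.pow_left n hc
  have h8 : orderOf (x : V ⧸ U) = 1 :=
    Nat.eq_one_of_dvd_coprimes h7 h4 (h5.trans h6)
  exact orderOf_eq_one_iff.mp h8

/-- The main inequality. -/
theorem prod_fix_le [Fintype A] (q : ℕ) [Fact q.Prime] (hA : IsPGroup q A) :
    ∀ (n : ℕ) (V : Type v) [CommGroup V] [Finite V], Nat.card V = n → Nat.Coprime q (Nat.card V) →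
      ∀ ρ : A →* Monoid.End V, (∀ v, (∀ a, ρ a v = v) → v = 1) →
        ∏ a : A, Nat.card (Fx ρ a) ^ q ≤ Nat.card V ^ Nat.card A := by
  classical
  intro n
  induction n using Nat.strong_induction_on with
  | _ n ih =>
    intro V _ _ hn hc ρ hfix
    rcases subsingleton_or_nontrivial V with hs | hnt
    · have h1 : ∀ a : A, Nat.card (Fx ρ a) = 1 := fun a => Nat.card_unique
      have h2 : Nat.card V = 1 := Nat.card_unique
      rw [Finset.prod_eq_one (fun a _ => by rw [h1 a, one_pow]), h2, one_pow]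
    · -- a minimal invariant subgroup
      let S : Set (Subgroup V) := {U | U ≠ ⊥ ∧ ∀ a, ∀ v ∈ U, ρ a v ∈ U}
      have hS : (⊤ : Subgroup V) ∈ S := ⟨top_ne_bot, fun _ _ _ => trivial⟩
      obtain ⟨U, -, hmin⟩ := S.toFinite.exists_le_minimal hS
      have hU0 : U ≠ ⊥ := hmin.prop.1
      have hU : ∀ a, ∀ v ∈ U, ρ a v ∈ U := hmin.prop.2
      have hirr : ∀ W : Subgroup U, (∀ a, ∀ v ∈ W, rhoSub ρ U hU a v ∈ W) → W = ⊥ ∨ W = ⊤ := by
        intro W hW
        by_cases hW0 : W = ⊥
        · exact Or.inl hW0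
        · right
          have hmem : W.map U.subtype ∈ S := by
            refine ⟨?_, ?_⟩
            · intro h
              rw [Subgroup.map_eq_bot_iff_of_injective _ U.subtype_injective] at h
              exact hW0 h
            · rintro a _ ⟨v, hv, rfl⟩
              exact ⟨rhoSub ρ U hU a v, hW a v hv, rfl⟩
          have hle : W.map U.subtype ≤ U := by
            rintro _ ⟨v, -, rfl⟩
            exact v.2
          have h2 := hmin.le_of_le hmem hle
          rw [eq_top_iff]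
          intro v _
          obtain ⟨w, hw, hwv⟩ := h2 v.2
          have : w = v := Subtype.ext hwv
          exact this ▸ hw
      have hfixU : ∀ v : U, (∀ a, rhoSub ρ U hU a v = v) → v = 1 := by
        intro v hv
        refine Subtype.ext (hfix v fun a => ?_)
        exact congrArg Subtype.val (hv a)
      have hntU : Nontrivial U := (Subgroup.nontrivial_iff_ne_bot U).mpr hU0
      have h1 := prod_le_of_irr q hA (rhoSub ρ U hU) hirr hfixU hntU
      have hcard : Nat.card (V ⧸ U) * Nat.card U = Nat.card V :=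
        (Subgroup.card_eq_card_quotient_mul_card_subgroup U).symm
      have hUgt : 1 < Nat.card U := Finite.one_lt_card_iff_nontrivial.mpr hntU
      have hlt : Nat.card (V ⧸ U) < n := by
        rw [← hn, ← hcard]
        have : 0 < Nat.card (V ⧸ U) := Nat.card_pos
        nlinarith
      have hc2 : Nat.Coprime q (Nat.card (V ⧸ U)) :=
        Nat.Coprime.coprime_dvd_right (Subgroup.card_quotient_dvd_card U) hc
      have h2 := ih _ hlt (V ⧸ U) rfl hc2 (rhoQuot ρ U hU)
        (no_fix_quot q hA hc ρ U hU hfix)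
      calc ∏ a : A, Nat.card (Fx ρ a) ^ q
          ≤ ∏ a : A, (Nat.card (Fx (rhoSub ρ U hU) a) * Nat.card (Fx (rhoQuot ρ U hU) a)) ^ q :=
            Finset.prod_le_prod' (fun a _ => Nat.pow_le_pow_left (card_Fx_le ρ U hU a) q)
        _ = (∏ a : A, Nat.card (Fx (rhoSub ρ U hU) a) ^ q) *
              ∏ a : A, Nat.card (Fx (rhoQuot ρ U hU) a) ^ q := by
            rw [← Finset.prod_mul_distrib]
            exact Finset.prod_congr rfl (fun a _ => mul_pow _ _ _)
        _ ≤ Nat.card U ^ Nat.card A * Nat.card (V ⧸ U) ^ Nat.card A := Nat.mul_le_mul h1 h2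
        _ = Nat.card V ^ Nat.card A := by
            rw [← mul_pow, mul_comm, hcard]

/-- Some element of `A` has few fixed points. -/
theorem exists_small_fixed [Fintype A] {V : Type v} [CommGroup V] [Finite V] (q : ℕ) [Fact q.Prime]
    (hA : IsPGroup q A) (hc : Nat.Coprime q (Nat.card V)) (ρ : A →* Monoid.End V)
    (hfix : ∀ v, (∀ a, ρ a v = v) → v = 1) : ∃ a : A, Nat.card (Fx ρ a) ^ q ≤ Nat.card V := by
  classical
  by_contra hcon
  push Not at hcon
  have h1 := prod_fix_le q hA _ V rfl hc ρ hfix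
  have h2 : ∏ _a : A, Nat.card V < ∏ a : A, Nat.card (Fx ρ a) ^ q := by
    refine Finset.prod_lt_prod_of_nonempty (fun _ _ => Nat.card_pos) (fun a _ => hcon a)
      Finset.univ_nonempty
  rw [Finset.prod_const, Finset.card_univ, ← Nat.card_eq_fintype_card] at h2
  exact absurd h1 (not_le.mpr h2)

end General

end Cfsg.Agent.Lib.FG85.FixAvg
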