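import Cfsg.Agent.Lib.CharDeg.SmallDegree
import Cfsg.Agent.Lib.Char.Gallagher
import Cfsg.Agent.Lib.CharZeros.Gallagher
import Cfsg.Agent.Lib.FG85.DegComp

/-!
# Isaacs-Passman: characters of top degree on subgroups

`DegLE G b`: all irreducible degrees of `G` are at most `b`.  If `θ ∈ Irr(H)` has degree `b`,
every irreducible character of `G` over `θ` restricts to `θ`, and a linear constituent of a
restricted irreducible character controls the latter on the support of `θ`.
-/

set_option autoImplicit false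
set_option linter.unusedSectionVars false

namespace Cfsg.Agent.Lib.FG85.IP

open Cfsg
open Cfsg.Agent.Lib.Char.Basic Cfsg.Agent.Lib.Char.Ortho Cfsg.Agent.Lib.Char.Complete
open Cfsg.Agent.Lib.Char.Induced Cfsg.Agent.Lib.Char.IndRep Cfsg.Agent.Lib.Char.Clifford
open Cfsg.Agent.Lib.Char.Degree Cfsg.Agent.Lib.Char.Gallagher
open Cfsg.Agent.Lib.CharDeg.SmallDegree
open scoped ComplexConjugate

universe u

/-- All irreducible degrees of `G` are at most `b`. -/
def DegLE (G : Type u) [Group G] (b : ℕ) : Prop :=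
  ∀ χ : G → ℂ, IsIrrCharacter G χ → charDegree χ ≤ b

variable {G : Type u} [Group G] [Fintype G]

theorem DegLE.mono {b c : ℕ} (h : DegLE G b) (hbc : b ≤ c) : DegLE G c :=
  fun χ hχ => (h χ hχ).trans hbc

/-- Subgroups inherit the bound. -/
theorem DegLE.subgroup {b : ℕ} (h : DegLE G b) (H : Subgroup G) : DegLE H b := by
  intro θ hθ
  obtain ⟨χ, hχ, hle⟩ := exists_irr_charDegree_le H hθ
  exact hle.trans (h χ hχ)

/-- A character over a top character restricts to it. -/
theorem restrict_eq_top {b : ℕ} (hG : DegLE G b) (H : Subgroup G) [Fintype H] {θ : H → ℂ}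
    (hθ : IsIrrCharacter H θ) (hdeg : charDegree θ = b) {ρ : G → ℂ} (hρ : IsIrrCharacter G ρ)
    (hcon : classInner (fun h : H => ρ h) θ ≠ 0) : (fun h : H => ρ h) = θ := by
  have hρc := isCharacter_of_isIrrCharacter hρ
  have hres := isCharacter_restrict H hρc
  refine eq_of_constituent_of_deg_le hres hθ hcon (a := charDegree ρ) (b := charDegree θ) ?_ ?_ ?_
  · have := charDegree_natCast hρc
    simpa using this.symm
  · exact (charDegree_natCast (isCharacter_of_isIrrCharacter hθ)).symm
  · rw [hdeg]
    exact hG ρ hρ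

/-- A top character of a subgroup is a restriction of an irreducible character. -/
theorem exists_ext_top {b : ℕ} (hG : DegLE G b) (H : Subgroup G) {θ : H → ℂ}
    (hθ : IsIrrCharacter H θ) (hdeg : charDegree θ = b) :
    ∃ ψ : G → ℂ, IsIrrCharacter G ψ ∧ (fun h : H => ψ h) = θ := by
  classical
  letI : Fintype H := Fintype.ofFinite H
  obtain ⟨ψ, hψ, hin⟩ := exists_irr_constituent_restrict H hθ
  exact ⟨ψ, hψ, restrict_eq_top hG H hθ hdeg hψ hin⟩

/-- **Lemma** (Isaacs 12.25). Let `θ ∈ Irr(H)` have top degree, `lam` a linear character of `H`,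
`ξ ∈ Irr(G)` lying over `lam`.  Then on the support of `θ`, `ξ = ξ(1) lam`. -/
theorem value_of_top {b : ℕ} (hG : DegLE G b) (H : Subgroup G) [Fintype H] {θ : H → ℂ}
    (hθ : IsIrrCharacter H θ) (hdeg : charDegree θ = b) {lam : H → ℂ} (hlam : IsCharacter H lam)
    (hlam1 : lam 1 = 1) {ξ : G → ℂ} (hξ : IsIrrCharacter G ξ)
    (hcon : classInner (fun h : H => ξ h) lam ≠ 0) (h : H) (hne : θ h ≠ 0) :
    ξ h = ξ 1 * lam h := by
  classical
  have := finite_irrCharacter (G := G)
  letI : Fintype (IrrCharacter G) := Fintype.ofFinite _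
  obtain ⟨ψ, hψ, hψθ⟩ := exists_ext_top hG H hθ hdeg
  have hψc := isCharacter_of_isIrrCharacter hψ
  have hψcf := isClassFunction_of_isCharacter hψc
  have hξc := isCharacter_of_isIrrCharacter hξ
  have hξcf := isClassFunction_of_isCharacter hξc
  have hS : IsCharacter G (ξ * ψ) := isCharacter_mul hξc hψc
  obtain ⟨m, hm⟩ := exists_nat_combination hS
  have hIrr : IsIrrCharacter H (fun g => lam g * θ g) :=
    Cfsg.Agent.Lib.CharZeros.Gallagher.isIrrCharacter_mul_linear hlam hlam1 hθ
  have hdegl : charDegree (fun g => lam g * θ g) = b := by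
    rw [← hdeg]
    apply charDegree_eq_of_eq_natCast
    rw [hlam1, one_mul, charDegree_natCast (isCharacter_of_isIrrCharacter hθ)]
  -- induced characters
  have hI : IsCharacter G (indFun H lam) := isCharacter_indFun H hlam
  have hIξ : classInner (indFun H lam) ξ ≠ 0 := by
    rw [classInner_indFun_left H lam ξ hξcf]
    exact classInner_ne_zero_comm hcon
  have hsub := isCharacter_sub_of_classInner_ne_zero hI hξ hIξ
  have hindprod : indFun H lam * ψ = indFun H (fun g => lam g * θ g) := by
    rw [indFun_mul_of_isClassFunction H lam hψcf, hψθ]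
    rfl
  have key : ∀ ρ : IrrCharacter G, m ρ ≠ 0 →
      (fun h : H => (ρ : G → ℂ) h) = (fun g => lam g * θ g) := by
    intro ρ hρ
    have hρc := isCharacter_of_isIrrCharacter ρ.2
    apply restrict_eq_top hG H hIrr hdegl ρ.2
    have h1 : classInner (ξ * ψ) (ρ : G → ℂ) ≠ 0 := by
      rw [hm, classInner_of_nat_combination m ρ]
      exact_mod_cast hρ
    have h2 : classInner (indFun H lam * ψ) (ρ : G → ℂ) ≠ 0 := by
      intro h0
      apply h1
      have h3 : indFun H lam * ψ = (ξ * ψ) + ((indFun H lam - ξ) * ψ) := by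
        funext g
        simp only [Pi.add_apply, Pi.mul_apply, Pi.sub_apply]
        ring
      rw [h3] at h0
      exact classInner_eq_zero_of_add hS (isCharacter_mul hsub hψc) hρc h0
    rw [hindprod, classInner_indFun_left H _ _ (isClassFunction_of_isCharacter hρc)] at h2
    exact classInner_ne_zero_comm h2
  -- evaluate
  have hval : ∀ x : H, ξ x * θ x = ξ 1 * lam x * θ x := by
    have hψx : ∀ x : H, ψ x = θ x := fun x => congrFun hψθ x
    have hmsum : ∀ x : H, (ξ * ψ) (x : G) =
        ((∑ ρ, m ρ : ℕ) : ℂ) * (lam x * θ x) := by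
      intro x
      rw [hm]
      simp only [Finset.sum_apply, Pi.smul_apply, nsmul_eq_mul]
      push_cast
      rw [Finset.sum_mul]
      refine Finset.sum_congr rfl fun ρ _ => ?_
      by_cases hρ : m ρ = 0
      · simp [hρ]
      · have := congrFun (key ρ hρ) x
        simp only [Pi.mul_apply, Pi.natCast_apply]
        rw [this]
    have h1 := hmsum 1
    simp only [Pi.mul_apply, OneMemClass.coe_one, hlam1, one_mul] at h1
    rw [← hψx 1] at h1
    simp only [OneMemClass.coe_one] at h1
    have hψ1 : ψ 1 ≠ 0 := irr_one_ne_zero hψ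
    have h2 : ξ 1 = ((∑ ρ, m ρ : ℕ) : ℂ) := mul_right_cancel₀ hψ1 h1
    intro x
    have h3 := hmsum x
    simp only [Pi.mul_apply] at h3
    rw [hψx x] at h3
    rw [h3, h2]
    ring
  exact mul_right_cancel₀ hne ((hval h).trans (by ring))

/-- Sum over a subgroup as a filtered sum. -/
theorem sum_subgroup_eq_filter [DecidableEq G] (K : Subgroup G) [Fintype K] [DecidablePred (· ∈ K)]
    (f : G → ℂ) : ∑ x : K, f x = ∑ g ∈ Finset.univ.filter (· ∈ K), f g :=
  (Finset.sum_subtype _ (by simp) f).symm

/-- The norm of a function vanishing off `J ≤ L`: restriction from `L` to `J`. -/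
theorem classInner_restrict_of_vanish (L J : Subgroup G) [Fintype L] [Fintype J] (hJL : J ≤ L)
    {ψ : G → ℂ} (hvan : ∀ x ∈ L, x ∉ J → ψ x = 0) :
    (Nat.card J : ℂ) * classInner (fun j : J => ψ j) (fun j : J => ψ j) =
      (Nat.card L : ℂ) * classInner (fun j : L => ψ j) (fun j : L => ψ j) := by
  classical
  rw [classInner_def, classInner_def, ← mul_assoc, ← mul_assoc,
    mul_inv_cancel₀ (by exact_mod_cast Nat.card_pos.ne'),
    mul_inv_cancel₀ (by exact_mod_cast Nat.card_pos.ne'), one_mul, one_mul]
  rw [sum_subgroup_eq_filter J (fun g => ψ g * conj (ψ g)),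
    sum_subgroup_eq_filter L (fun g => ψ g * conj (ψ g))]
  apply Finset.sum_subset
  · intro g hg
    simp only [Finset.mem_filter, Finset.mem_univ, true_and] at hg ⊢
    exact hJL hg
  · intro g hg hg2
    simp only [Finset.mem_filter, Finset.mem_univ, true_and] at hg hg2
    rw [hvan g hg hg2]
    simp

end Cfsg.Agent.Lib.FG85.IP
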