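import Cfsg.Agent.Lib.FG85.IP1
import Cfsg.Agent.Lib.Char.Extend

/-!
# Isaacs-Passman: the minimal nonabelian quotient
-/

set_option autoImplicit false
set_option linter.unusedSectionVars false

namespace Cfsg.Agent.Lib.FG85.IP

open Cfsg
open Cfsg.Agent.Lib.Char.Basic Cfsg.Agent.Lib.Char.Ortho Cfsg.Agent.Lib.Char.Complete
open Cfsg.Agent.Lib.Char.Induced Cfsg.Agent.Lib.Char.IndRep Cfsg.Agent.Lib.Char.Clifford
open Cfsg.Agent.Lib.Char.Degree Cfsg.Agent.Lib.Char.Gallagher Cfsg.Agent.Lib.Char.Linear
open Cfsg.Agent.Lib.CharDeg.SmallDegree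
open Cfsg.Agent.Lib.FG85.DegComp
open scoped ComplexConjugate commutatorElement

universe u

section Surj

variable {G : Type u} [Group G] [Fintype G] {E : Type u} [Group E] [Fintype E]

/-- Inner products along a surjection. -/
theorem classInner_comp_surj (π : G →* E) (hπ : Function.Surjective π) (φ φ' : E → ℂ) :
    classInner (φ ∘ π) (φ' ∘ π) = classInner φ φ' := by
  classical
  set c := (Finset.univ.filter (fun g : G => π g = 1)).card with hc
  have hfib : ∀ k : E, (Finset.univ.filter (fun g : G => π g = k)).card = c := by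
    intro k
    exact MonoidHom.card_fiber_eq_of_mem_range π (hπ k) (hπ 1)
  have hsum : ∀ F : E → ℂ, ∑ g : G, F (π g) = (c : ℂ) * ∑ k : E, F k := by
    intro F
    rw [← Finset.sum_fiberwise (s := Finset.univ) (g := π) (f := fun g => F (π g)), Finset.mul_sum]
    refine Finset.sum_congr rfl fun k _ => ?_
    rw [Finset.sum_congr rfl (g := fun _ => F k)]
    · rw [Finset.sum_const, hfib, nsmul_eq_mul]
    · intro g hg
      rw [(Finset.mem_filter.mp hg).2]
  have hcard : Nat.card G = c * Nat.card E := by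
    have h := hsum (fun _ => (1 : ℂ))
    simp only [Finset.sum_const, Finset.card_univ, nsmul_eq_mul, mul_one] at h
    rw [Nat.card_eq_fintype_card, Nat.card_eq_fintype_card]
    exact_mod_cast h
  have hc0 : (c : ℂ) ≠ 0 := by
    intro h0
    have h1 : c = 0 := by exact_mod_cast h0
    rw [h1, zero_mul] at hcard
    exact Nat.card_pos.ne' hcard
  rw [classInner_def, classInner_def]
  simp only [Function.comp]
  rw [hsum (fun k => φ k * conj (φ' k)), hcard]
  push_cast
  have hE : (Nat.card E : ℂ) ≠ 0 := by exact_mod_cast Nat.card_pos.ne'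
  field_simp

end Surj

section Min

variable {E : Type u} [Group E] [Fintype E]

/-- Every nontrivial normal subgroup contains the commutator subgroup, which is nontrivial. -/
structure MinNonab (E : Type u) [Group E] : Prop where
  nonab : commutator E ≠ ⊥
  min : ∀ K : Subgroup E, K.Normal → K ≠ ⊥ → commutator E ≤ K

/-- A character with the commutator subgroup in its kernel is linear. -/
theorem linear_of_comm_le_ker {χ : E → ℂ} (hχ : IsIrrCharacter E χ)
    (h : ∀ y ∈ commutator E, χ y = χ 1) : χ 1 = 1 := by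
  obtain ⟨φ, hφ, rfl⟩ := isIrrCharacter_descend (QuotientGroup.mk' (commutator E))
    (QuotientGroup.mk'_surjective _) hχ (fun k hk => by
      rw [QuotientGroup.ker_mk'] at hk
      exact h k hk)
  have h1 := isIrr_deg_one_of_comm (G := E ⧸ commutator E) (fun a b => mul_comm (G := Abelianization E) a b) hφ
  simpa using h1

/-- Linear characters are trivial on the commutator subgroup. -/
theorem linear_on_comm {χ : E → ℂ} (hχ : IsCharacter E χ) (h1 : χ 1 = 1) {y : E}
    (hy : y ∈ commutator E) : χ y = 1 := by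
  have hsub : commutator E ≤ (charKer hχ) := by
    rw [commutator_def, Subgroup.commutator_le]
    intro a _ b _
    change χ ⁅a, b⁆ = χ 1
    rw [commutatorElement_def, deg_one_mul hχ h1, deg_one_mul hχ h1, deg_one_mul hχ h1, h1]
    have e1 : χ a⁻¹ * χ a = 1 := by rw [← deg_one_mul hχ h1, inv_mul_cancel, h1]
    have e2 : χ b⁻¹ * χ b = 1 := by rw [← deg_one_mul hχ h1, inv_mul_cancel, h1]
    linear_combination (χ b * χ b⁻¹) * e1 + e2
  have : χ y = χ 1 := hsub hy
  rw [this, h1]

/-- Nonlinear irreducible characters are faithful. -/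
theorem faithful_of_nonlinear (hE : MinNonab E) {χ : E → ℂ} (hχ : IsIrrCharacter E χ)
    (h1 : χ 1 ≠ 1) {x : E} (hx : χ x = χ 1) : x = 1 := by
  by_contra hne
  have hχc := isCharacter_of_isIrrCharacter hχ
  have hK : charKer hχc ≠ ⊥ := by
    intro h0
    have : x ∈ charKer hχc := hx
    rw [h0, Subgroup.mem_bot] at this
    exact hne this
  have hle := hE.min _ (charKer_normal hχc) hK
  exact h1 (linear_of_comm_le_ker hχ fun y hy => hle hy)

/-- A nonlinear irreducible character exists. -/
theorem exists_nonlinear (hE : MinNonab E) : ∃ χ : E → ℂ, IsIrrCharacter E χ ∧ χ 1 ≠ 1 := by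
  by_contra hcon
  push Not at hcon
  have hc := (comm_iff_all_deg_one (G := E)).mpr (fun χ => hcon χ.1 χ.2)
  apply hE.nonab
  rw [commutator_def, Subgroup.commutator_eq_bot_iff_le_centralizer]
  intro a _
  rw [Subgroup.mem_centralizer_iff]
  intro b _
  exact hc b a

/-- Degree at least two. -/
theorem two_le_charDegree {χ : E → ℂ} (hχ : IsIrrCharacter E χ) (h1 : χ 1 ≠ 1) :
    2 ≤ charDegree χ := by
  have h2 := charDegree_pos hχ
  by_contra hlt
  have h3 : charDegree χ = 1 := by omega
  exact h1 (deg_one_of_charDegree hχ h3)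

/-- An element on which a faithful irreducible character has maximal norm is central. -/
theorem mem_center_of_norm {χ : E → ℂ} (hχ : IsIrrCharacter E χ)
    (hfaith : ∀ x : E, χ x = χ 1 → x = 1) {x : E} (hn : ‖χ x‖ = charDegree χ) :
    x ∈ Subgroup.center E := by
  obtain ⟨n, ρ, hρ, rfl⟩ := hχ
  rw [charDegree_character] at hn
  obtain ⟨ω, hω⟩ := (Cfsg.Agent.Lib.Char.Eigen.norm_character_eq_iff_scalar ρ x).mp hn
  rw [Subgroup.mem_center_iff]
  intro y
  have e : ρ (y * x) = ρ (x * y) := by
    rw [map_mul, map_mul, hω]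
    ext v
    simp
  have h1 : ρ (y * x * (x * y)⁻¹) = 1 := by
    rw [map_mul, e, ← map_mul, mul_inv_cancel, map_one]
  have h2 : y * x * (x * y)⁻¹ = 1 := by
    apply hfaith
    exact (character_eq_one_iff ρ _).mpr h1
  exact mul_inv_eq_one.mp h2

/-- The maximal norm locus of a nonlinear character when the center is trivial. -/
theorem eq_one_of_norm (hE : MinNonab E) (hZ : Subgroup.center E = ⊥) {χ : E → ℂ}
    (hχ : IsIrrCharacter E χ) (h1 : χ 1 ≠ 1) {x : E} (hn : ‖χ x‖ = charDegree χ) : x = 1 := by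
  have := mem_center_of_norm hχ (fun x hx => faithful_of_nonlinear hE hχ h1 hx) hn
  rwa [hZ, Subgroup.mem_bot] at this

end Min

section Center

variable {E : Type u} [Group E] [Fintype E]

/-- The center case: a nonlinear character vanishes off the center, has maximal norm on it. -/
theorem center_case (hE : MinNonab E) (hZ : Subgroup.center E ≠ ⊥) {χ : E → ℂ}
    (hχ : IsIrrCharacter E χ) (h1 : χ 1 ≠ 1) :
    (∀ x, x ∉ Subgroup.center E → χ x = 0) ∧ (∀ z ∈ Subgroup.center E, ‖χ z‖ = charDegree χ) := by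
  have hle : commutator E ≤ Subgroup.center E := hE.min _ inferInstance hZ
  have hfaith := fun x hx => faithful_of_nonlinear hE hχ h1 (x := x) hx
  obtain ⟨n, ρ, hρ, hρχ⟩ := id hχ
  subst hρχ
  haveI := hρ
  have hscal : ∀ z ∈ Subgroup.center E, ∃ ω : ℂ, ρ z = ω • (1 : Module.End ℂ (Fin n → ℂ)) :=
    fun z hz => Cfsg.Agent.Lib.Char.Central.center_acts_scalar ρ z hz
  constructor
  · intro x hx
    obtain ⟨y, hy⟩ : ∃ y, y * x ≠ x * y := by
      by_contra hcon
      push Not at hcon
      exact hx (Subgroup.mem_center_iff.mpr hcon)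
    set c := y * x * y⁻¹ * x⁻¹ with hc
    have hcm : c ∈ commutator E := by
      rw [commutator_def]
      exact Subgroup.commutator_mem_commutator (Subgroup.mem_top y) (Subgroup.mem_top x)
    obtain ⟨ω, hω⟩ := hscal c (hle hcm)
    have hcne : c ≠ 1 := by
      intro h0
      apply hy
      rw [hc] at h0
      have h2 : y * x * y⁻¹ = x := by simpa [mul_inv_eq_one] using h0
      calc y * x = y * x * y⁻¹ * y := by group
        _ = x * y := by rw [h2]
    have hω1 : ω ≠ 1 := by
      rintro rfl
      apply hcne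
      apply hfaith
      apply (character_eq_one_iff ρ c).mpr
      rw [hω, one_smul]
    have h2 : ρ.character x = ω * ρ.character x := by
      have h3 : ρ.character (y * x * y⁻¹) = ρ.character x :=
        isClassFunction_of_isIrrCharacter hχ x y
      have h4 : y * x * y⁻¹ = c * x := by rw [hc]; group
      rw [h4] at h3
      have h5 : ρ.character (c * x) = ω * ρ.character x := by
        change LinearMap.trace ℂ _ (ρ (c * x)) = ω * LinearMap.trace ℂ _ (ρ x)
        rw [map_mul, hω, smul_mul_assoc, one_mul, map_smul, smul_eq_mul]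
      exact h3.symm.trans h5
    have h5 : (1 - ω) * ρ.character x = 0 := by linear_combination h2
    rcases mul_eq_zero.mp h5 with h6 | h6
    · exact absurd (sub_eq_zero.mp h6).symm hω1
    · exact h6
  · intro z hz
    obtain ⟨ω, hω⟩ := hscal z hz
    rw [charDegree_character]
    apply (Cfsg.Agent.Lib.Char.Eigen.norm_character_eq_iff_scalar ρ z).mpr
    exact ⟨ω, by rw [hω]; rfl⟩

end Center

section Mul

variable {G : Type u} [Group G] [Fintype G]

/-- `‖z‖ = d` gives `z conj z = d²`. -/
theorem mul_conj_of_norm {z : ℂ} {d : ℕ} (h : ‖z‖ = d) : z * conj z = (d : ℂ) ^ 2 := by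
  rw [Complex.mul_conj', h]
  simp

/-- If `ξ` vanishes off `L` with maximal norm on it, and `ψ_L` is irreducible, then `ξψ` is
irreducible. -/
theorem isIrr_mul_of_support {ξ : G → ℂ} (hξ : IsIrrCharacter G ξ) (L : Subgroup G) [Fintype L]
    (hvan : ∀ g, g ∉ L → ξ g = 0) (hnorm : ∀ g ∈ L, ‖ξ g‖ = charDegree ξ) {ψ : G → ℂ}
    (hψ : IsCharacter G ψ) (hψL : IsIrrCharacter L (fun h : L => ψ h)) :
    IsIrrCharacter G (ξ * ψ) := by
  classical
  apply isIrrCharacter_of_classInner_self_eq_one (isCharacter_mul (isCharacter_of_isIrrCharacter hξ) hψ)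
  set d := charDegree ξ with hd
  have h1 := classInner_self_of_isIrr hξ
  have h2 := classInner_self_of_isIrr hψL
  have hG : (Nat.card G : ℂ) ≠ 0 := by exact_mod_cast Nat.card_pos.ne'
  have hL : (Nat.card L : ℂ) ≠ 0 := by exact_mod_cast Nat.card_pos.ne'
  rw [classInner_def] at h1 h2
  have e1 : ∑ g : G, ξ g * conj (ξ g) = (Nat.card L : ℂ) * (d : ℂ) ^ 2 := by
    have : ∑ g : G, ξ g * conj (ξ g) = ∑ g ∈ Finset.univ.filter (· ∈ L), (d : ℂ) ^ 2 := by
      rw [Finset.sum_filter]
      refine Finset.sum_congr rfl fun g _ => ?_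
      split_ifs with hg
      · exact mul_conj_of_norm (hnorm g hg)
      · rw [hvan g hg]; simp
    rw [this, Finset.sum_const, nsmul_eq_mul]
    congr 2
    rw [Nat.card_eq_fintype_card, Fintype.card_subtype]
  have e2 : ∑ g : G, (ξ * ψ) g * conj ((ξ * ψ) g) = (d : ℂ) ^ 2 * (Nat.card L : ℂ) := by
    have h3 : ∑ g : L, ψ g * conj (ψ g) = (Nat.card L : ℂ) := by
      field_simp at h2
      simpa using h2
    have : ∑ g : G, (ξ * ψ) g * conj ((ξ * ψ) g) =
        ∑ g ∈ Finset.univ.filter (· ∈ L), (d : ℂ) ^ 2 * (ψ g * conj (ψ g)) := by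
      rw [Finset.sum_filter]
      refine Finset.sum_congr rfl fun g _ => ?_
      split_ifs with hg
      · rw [← mul_conj_of_norm (hnorm g hg)]
        simp only [Pi.mul_apply, map_mul]
        ring
      · simp [hvan g hg]
    rw [this, ← Finset.mul_sum, ← sum_subgroup_eq_filter L (fun g => ψ g * conj (ψ g)), h3]
  rw [classInner_def, e2]
  rw [e1] at h1
  linear_combination h1

/-- If some nonlinear `ξ` vanishes off `L` with maximal norm on it, no top character lives on
`L`. -/
theorem degLE_of_support {b : ℕ} (hG : DegLE G b) {ξ : G → ℂ} (hξ : IsIrrCharacter G ξ)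
    (hξ2 : 2 ≤ charDegree ξ) (L : Subgroup G)
    (hvan : ∀ g, g ∉ L → ξ g = 0) (hnorm : ∀ g ∈ L, ‖ξ g‖ = charDegree ξ) : DegLE L (b - 1) := by
  classical
  letI : Fintype L := Fintype.ofFinite _
  intro θ hθ
  have hle := hG.subgroup L θ hθ
  by_contra hcon
  have hb : charDegree θ = b := by omega
  obtain ⟨ψ, hψ, hψθ⟩ := exists_ext_top hG L hθ hb
  have hψc := isCharacter_of_isIrrCharacter hψ
  have hirr := isIrr_mul_of_support hξ L hvan hnorm hψc (by rw [hψθ]; exact hθ)
  have h1 := hG _ hirr
  have h2 : charDegree (ξ * ψ) = charDegree ξ * charDegree ψ := by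
    apply charDegree_eq_of_eq_natCast
    rw [Pi.mul_apply, Nat.cast_mul, charDegree_natCast (isCharacter_of_isIrrCharacter hξ),
      charDegree_natCast hψc]
  have h3 : charDegree ψ = b := by
    rw [← hb]
    apply charDegree_eq_of_eq_natCast
    rw [charDegree_natCast (isCharacter_of_isIrrCharacter hθ), ← hψθ]
    simp
  rw [h2, h3] at h1
  have h4 := charDegree_pos hθ
  nlinarith

/-- Restricting a top character to a subgroup where all top characters vanish: no top characters
on the subgroup. -/
theorem degLE_sub_of_vanish {b : ℕ} (hG : DegLE G b) (L J : Subgroup G) (hJL : J ≤ L) (hJne : J ≠ L)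
    (hvan : ∀ θ : L → ℂ, IsIrrCharacter L θ → charDegree θ = b → ∀ x : L, (x : G) ∉ J → θ x = 0) :
    DegLE J (b - 1) := by
  classical
  letI : Fintype L := Fintype.ofFinite _
  letI : Fintype J := Fintype.ofFinite _
  intro θ hθ
  have hle := hG.subgroup J θ hθ
  by_contra hcon
  have hb : charDegree θ = b := by omega
  obtain ⟨ψ, hψ, hψθ⟩ := exists_ext_top hG J hθ hb
  have hψc := isCharacter_of_isIrrCharacter hψ
  have hirrL : IsIrrCharacter L (fun h : L => ψ h) := by
    apply Cfsg.Agent.Lib.Char.Extend.isIrrCharacter_of_comp_isIrr (Subgroup.inclusion hJL)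
      (isCharacter_restrict L hψc)
    have : ((fun h : L => ψ h) ∘ Subgroup.inclusion hJL) = θ := by
      rw [← hψθ]
      rfl
    rw [this]
    exact hθ
  have hdegL : charDegree (fun h : L => ψ h) = b := by
    rw [← hb]
    apply charDegree_eq_of_eq_natCast
    rw [charDegree_natCast (isCharacter_of_isIrrCharacter hθ), ← hψθ]
    simp
  have hv := hvan _ hirrL hdegL
  have hnorm := classInner_restrict_of_vanish L J hJL (ψ := ψ)
    (fun x hx hxJ => hv ⟨x, hx⟩ hxJ)
  rw [classInner_self_of_isIrr hirrL, hψθ, classInner_self_of_isIrr hθ, mul_one, mul_one] at hnorm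
  have hcard : Nat.card J = Nat.card L := by exact_mod_cast hnorm
  apply hJne
  exact Subgroup.eq_of_le_of_card_ge hJL hcard.ge

end Mul

end Cfsg.Agent.Lib.FG85.IP
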