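import Cfsg.Agent.Lib.FG85.IP2
import Cfsg.Agent.Lib.FG7.ClassNumber

/-!
# Isaacs-Passman: structure of the minimal nonabelian quotient
-/

set_option autoImplicit false
set_option linter.unusedSectionVars false

namespace Cfsg.Agent.Lib.FG85.IP

open Cfsg
open Cfsg.Agent.Lib.Char.Basic Cfsg.Agent.Lib.Char.Ortho Cfsg.Agent.Lib.Char.Complete
open Cfsg.Agent.Lib.Char.Induced Cfsg.Agent.Lib.Char.IndRep Cfsg.Agent.Lib.Char.Clifford
open Cfsg.Agent.Lib.Char.CliffordCorr Cfsg.Agent.Lib.Char.Conj
open Cfsg.Agent.Lib.Char.Degree Cfsg.Agent.Lib.Char.Gallagher Cfsg.Agent.Lib.Char.Linear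
open Cfsg.Agent.Lib.CharDeg.SmallDegree
open Cfsg.Agent.Lib.FG85.DegComp
open scoped ComplexConjugate commutatorElement

universe u

section Abelian

variable {E : Type u} [Group E] [Fintype E]

theorem comm_mem (x y : E) : x * y * x⁻¹ * y⁻¹ ∈ commutator E := by
  rw [commutator_def]
  exact Subgroup.commutator_mem_commutator (Subgroup.mem_top x) (Subgroup.mem_top y)

/-- In the abelian case, an element not centralizing `M` has no fixed points on `M`. -/
theorem fixed_trivial (hE : MinNonab E) (hab : ∀ x ∈ commutator E, ∀ y ∈ commutator E, x * y = y * x)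
    (g : E) (hg : ∃ m ∈ commutator E, m * g ≠ g * m) {m : E} (hm : m ∈ commutator E)
    (hmg : m * g = g * m) : m = 1 := by
  set K : Subgroup E := commutator E ⊓ Subgroup.centralizer {g} with hK
  have hmemK : ∀ n, n ∈ K ↔ n ∈ commutator E ∧ n * g = g * n := by
    intro n
    rw [hK, Subgroup.mem_inf, Subgroup.mem_centralizer_iff]
    constructor
    · rintro ⟨h1, h2⟩
      exact ⟨h1, (h2 g rfl).symm⟩
    · rintro ⟨h1, h2⟩
      refine ⟨h1, ?_⟩
      intro z hz
      rw [Set.mem_singleton_iff] at hz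
      rw [hz]
      exact h2.symm
  have hnormalM : (commutator E).Normal := inferInstance
  have hnorm : K.Normal := by
    constructor
    intro n hn y
    rw [hmemK] at hn ⊢
    obtain ⟨h1, h2⟩ := hn
    have h3 : y * n * y⁻¹ ∈ commutator E := hnormalM.conj_mem n h1 y
    refine ⟨h3, ?_⟩
    set u := g * y * g⁻¹ * y⁻¹ with hu
    have hum : u ∈ commutator E := comm_mem g y
    have h4 : g * n * g⁻¹ = n := by rw [← h2]; group
    have h5 : g * (y * n * y⁻¹) = u * y * (g * n * g⁻¹) * y⁻¹ * u⁻¹ * g := by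
      rw [hu]
      group
    rw [h5, h4]
    have h6 : u * (y * n * y⁻¹) = (y * n * y⁻¹) * u := hab _ hum _ h3
    calc y * n * y⁻¹ * g = (y * n * y⁻¹) * u * u⁻¹ * g := by group
      _ = u * (y * n * y⁻¹) * u⁻¹ * g := by rw [h6]
      _ = u * y * n * y⁻¹ * u⁻¹ * g := by group
  by_contra hne
  have hKne : K ≠ ⊥ := by
    intro h0
    have : m ∈ K := (hmemK m).mpr ⟨hm, hmg⟩
    rw [h0, Subgroup.mem_bot] at this
    exact hne this
  have hle := hE.min K hnorm hKne
  obtain ⟨m', hm', hne'⟩ := hg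
  exact hne' ((hmemK m').mp (hle hm')).2

/-- In the abelian case, commutators with `g` fill out `M`. -/
theorem comm_surj (hE : MinNonab E) (hab : ∀ x ∈ commutator E, ∀ y ∈ commutator E, x * y = y * x)
    (g : E) (hg : ∃ m ∈ commutator E, m * g ≠ g * m) {u : E} (hu : u ∈ commutator E) :
    ∃ m ∈ commutator E, m * g * m⁻¹ * g⁻¹ = u := by
  let f : commutator E → commutator E := fun m => ⟨m * g * (m : E)⁻¹ * g⁻¹, comm_mem _ _⟩
  have hinj : Function.Injective f := by
    intro a b hab'
    have h1 : (a : E) * g * (a : E)⁻¹ * g⁻¹ = (b : E) * g * (b : E)⁻¹ * g⁻¹ :=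
      congrArg Subtype.val hab'
    have h2 : (b : E)⁻¹ * a ∈ commutator E := mul_mem (inv_mem b.2) a.2
    have h3 : ((b : E)⁻¹ * a) * g = g * ((b : E)⁻¹ * a) := by
      have h4 : (a : E) * g * (a : E)⁻¹ = (b : E) * g * (b : E)⁻¹ := mul_right_cancel h1
      calc ((b : E)⁻¹ * a) * g = (b : E)⁻¹ * ((a : E) * g * (a : E)⁻¹) * a := by group
        _ = g * ((b : E)⁻¹ * a) := by rw [h4]; group
    have h5 := fixed_trivial hE hab g hg h2 h3
    apply Subtype.ext
    rw [inv_mul_eq_one] at h5
    exact h5.symm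
  have hsurj : Function.Surjective f := Finite.injective_iff_surjective.mp hinj
  obtain ⟨m, hm⟩ := hsurj ⟨u, hu⟩
  exact ⟨m, m.2, congrArg Subtype.val hm⟩

/-- In the abelian case with trivial center, an element centralizing `M` lies in `M`. -/
theorem mem_of_centralize (hE : MinNonab E) (hZ : Subgroup.center E = ⊥)
    (hab : ∀ x ∈ commutator E, ∀ y ∈ commutator E, x * y = y * x) {c : E}
    (hc : ∀ m ∈ commutator E, m * c = c * m) : c ∈ commutator E := by
  obtain ⟨g, hg⟩ : ∃ g : E, ∃ m ∈ commutator E, m * g ≠ g * m := by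
    by_contra hcon
    push Not at hcon
    apply hE.nonab
    rw [eq_bot_iff, ← hZ]
    intro m hm
    rw [Subgroup.mem_center_iff]
    intro g
    exact (hcon g m hm).symm
  have hcg : c * g * c⁻¹ * g⁻¹ ∈ commutator E := comm_mem c g
  obtain ⟨m, hm, hmeq⟩ := comm_surj hE hab g hg (inv_mem hcg)
  set c' := c * m with hc'
  have hc'M : ∀ n ∈ commutator E, n * c' = c' * n := by
    intro n hn
    rw [hc', ← mul_assoc, hc n hn, mul_assoc, hab n hn m hm, mul_assoc]
  have hc'g : c' * g = g * c' := by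
    have h1 : m * g = (c * g * c⁻¹ * g⁻¹)⁻¹ * g * m := by
      rw [← hmeq]
      group
    have h2 := hc _ (inv_mem hcg)
    calc c' * g = c * (m * g) := by rw [hc', mul_assoc]
      _ = c * (c * g * c⁻¹ * g⁻¹)⁻¹ * g * m := by rw [h1]; group
      _ = (c * g * c⁻¹ * g⁻¹)⁻¹ * c * g * m := by rw [← h2]
      _ = g * c' := by rw [hc']; group
  have hcen : c' ∈ Subgroup.center E := by
    rw [Subgroup.mem_center_iff]
    intro y
    set d := c' * y * c'⁻¹ * y⁻¹ with hd
    have hdM : d ∈ commutator E := comm_mem _ _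
    set u := g * y * g⁻¹ * y⁻¹ with hu
    have huM : u ∈ commutator E := comm_mem _ _
    have h1 : g * d * g⁻¹ = d := by
      have e1 : g * d * g⁻¹ = (g * c' * g⁻¹) * (g * y * g⁻¹) * (g * c' * g⁻¹)⁻¹ * (g * y * g⁻¹)⁻¹ := by
        rw [hd]; group
      have e2 : g * c' * g⁻¹ = c' := by rw [← hc'g]; group
      have e3 : g * y * g⁻¹ = u * y := by rw [hu]; group
      rw [e1, e2, e3]
      have e4 : c' * (u * y) * c'⁻¹ * (u * y)⁻¹ = (c' * u) * y * c'⁻¹ * y⁻¹ * u⁻¹ := by group
      rw [e4, ← hc'M u huM]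
      have e5 : u * c' * y * c'⁻¹ * y⁻¹ * u⁻¹ = u * d * u⁻¹ := by rw [hd]; group
      rw [e5, hab u huM d hdM]
      group
    have h2 : d * g = g * d := by
      calc d * g = (g * d * g⁻¹) * g := by rw [h1]
        _ = g * d := by group
    have h3 := fixed_trivial hE hab g hg hdM h2
    rw [hd] at h3
    have h4 : c' * y * c'⁻¹ = y := by
      rwa [mul_inv_eq_one] at h3
    calc y * c' = c' * y * c'⁻¹ * c' := by rw [h4]
      _ = c' * y := by group
  rw [hZ, Subgroup.mem_bot] at hcen
  have : c = m⁻¹ := eq_inv_of_mul_eq_one_left hcen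
  rw [this]
  exact inv_mem hm

/-- `μ` nontrivial linear on `M`: its inertia group is `M`. -/
theorem inertia_eq (hE : MinNonab E) (hZ : Subgroup.center E = ⊥)
    (hab : ∀ x ∈ commutator E, ∀ y ∈ commutator E, x * y = y * x)
    {μ : commutator E → ℂ} (hμ : IsCharacter (commutator E) μ) (hμ1 : μ 1 = 1)
    {n₀ : commutator E} (hn₀ : μ n₀ ≠ 1) (hM : (commutator E).Normal) :
    commutator E = inertia hM μ := by
  classical
  letI : Fintype (commutator E) := Fintype.ofFinite _
  apply le_antisymm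
  · exact le_inertia hM (isClassFunction_of_isCharacter hμ)
  · intro g hg
    rw [mem_inertia] at hg
    by_contra hgM
    have hg' : ∃ m ∈ commutator E, m * g ≠ g * m := by
      by_contra hcon
      push Not at hcon
      exact hgM (mem_of_centralize hE hZ hab hcon)
    obtain ⟨m, hm, hmeq⟩ := comm_surj hE hab g hg' n₀.2
    apply hn₀
    have e1 : n₀ = ⟨m, hm⟩ * ⟨g * m⁻¹ * g⁻¹, hM.conj_mem _ (inv_mem hm) g⟩ := by
      apply Subtype.ext
      simp only [Subgroup.coe_mul]
      rw [← hmeq]
      group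
    have e2 := congrFun hg ⟨m⁻¹, inv_mem hm⟩
    rw [conjOn_apply] at e2
    rw [e1, deg_one_mul hμ hμ1, e2, ← deg_one_mul hμ hμ1]
    have : (⟨m, hm⟩ : commutator E) * ⟨m⁻¹, inv_mem hm⟩ = 1 := by
      apply Subtype.ext
      simp
    rw [this, hμ1]

/-- The abelian case: existence of a large induced character over a linear one. -/
theorem abelian_case [Fintype (commutator E)] (hE : MinNonab E) (hZ : Subgroup.center E = ⊥)
    (hab : ∀ x ∈ commutator E, ∀ y ∈ commutator E, x * y = y * x) :
    ∃ μ : commutator E → ℂ, IsCharacter (commutator E) μ ∧ μ 1 = 1 ∧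
      ∃ ξ : E → ℂ, IsIrrCharacter E ξ ∧ ξ 1 ≠ 1 ∧ charDegree ξ = (commutator E).index ∧
        classInner (fun h : commutator E => ξ h) μ ≠ 0 := by
  classical
  -- a nontrivial element
  obtain ⟨y, hy⟩ : ∃ y : commutator E, y ≠ 1 := by
    by_contra hcon
    push Not at hcon
    apply hE.nonab
    rw [eq_bot_iff]
    intro m hm
    have := hcon ⟨m, hm⟩
    rw [Subgroup.mem_bot]
    exact congrArg Subtype.val this
  obtain ⟨χ, hχ⟩ : ∃ χ : IrrCharacter (commutator E), (χ : commutator E → ℂ) y ≠ (χ : commutator E → ℂ) 1 := by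
    by_contra hcon
    push Not at hcon
    exact hy (eq_one_of_forall_irr hcon)
  have hcomm : ∀ a b : commutator E, a * b = b * a := fun a b =>
    Subtype.ext (hab a a.2 b b.2)
  have hχ1 : (χ : commutator E → ℂ) 1 = 1 := isIrr_deg_one_of_comm hcomm χ.2
  have hχc := isCharacter_of_isIrrCharacter χ.2
  have hM : (commutator E).Normal := inferInstance
  have hin : commutator E = inertia hM (χ : commutator E → ℂ) :=
    inertia_eq hE hZ hab hχc hχ1 (n₀ := y) (by rwa [hχ1] at hχ) hM
  have hres : res (le_refl (commutator E)) (χ : commutator E → ℂ) = (χ : commutator E → ℂ) := by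
    funext n
    rfl
  have hcon : classInner (res (le_refl (commutator E)) (χ : commutator E → ℂ)) (χ : commutator E → ℂ) ≠ 0 := by
    rw [hres, classInner_self_of_isIrr χ.2]
    exact one_ne_zero
  obtain ⟨hirr, -⟩ := isIrrCharacter_indFun_of_lies_over hM (le_refl _) χ.2 hin χ.2 hcon
  have h1 : indFun (commutator E) (χ : commutator E → ℂ) 1 = ((commutator E).index : ℂ) := by
    rw [indFun_one, hχ1, mul_one]
  have hdeg : charDegree (indFun (commutator E) (χ : commutator E → ℂ)) = (commutator E).index :=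
    charDegree_eq_of_eq_natCast h1
  refine ⟨χ, hχc, hχ1, _, hirr, ?_, hdeg, ?_⟩
  · rw [h1]
    intro h2
    have h3 : (commutator E).index = 1 := by exact_mod_cast h2
    rw [Subgroup.index_eq_one] at h3
    apply hE.nonab
    rw [commutator_def, Subgroup.commutator_eq_bot_iff_le_centralizer]
    intro a _
    rw [Subgroup.mem_centralizer_iff]
    intro b _
    exact hab b (by rw [h3]; trivial) a (by rw [h3]; trivial)
  · have h2 := classInner_self_of_isIrr hirr
    conv at h2 =>
      lhs
      rw [classInner_indFun_left _ _ _ (isClassFunction_of_isIrrCharacter hirr)]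
    apply classInner_ne_zero_comm
    rw [h2]
    exact one_ne_zero

end Abelian

end Cfsg.Agent.Lib.FG85.IP
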