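import Cfsg.Agent.Lib.FG85.IP3
import Cfsg.Agent.S4464

/-!
# Isaacs-Passman: the nonabelian case
-/

set_option autoImplicit false
set_option linter.unusedSectionVars false

namespace Cfsg.Agent.Lib.FG85.IP

open Cfsg
open Cfsg.Agent.Lib.Char.Basic Cfsg.Agent.Lib.Char.Ortho Cfsg.Agent.Lib.Char.Complete
open Cfsg.Agent.Lib.Char.Induced Cfsg.Agent.Lib.Char.IndRep Cfsg.Agent.Lib.Char.Clifford
open Cfsg.Agent.Lib.Char.CliffordCorr Cfsg.Agent.Lib.Char.Conj
open Cfsg.Agent.Lib.Char.Degree Cfsg.Agent.Lib.Char.Gallagher Cfsg.Agent.Lib.Char.Linear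
open Cfsg.Agent.Lib.CharDeg.SmallDegree
open Cfsg.Agent.Lib.FG85.DegComp
open scoped ComplexConjugate commutatorElement

universe u

section Class

variable {E : Type u} [Group E] [Fintype E]

/-- A nonidentity class of size at most `b²`. -/
theorem exists_small_class {b : ℕ} (hE : DegLE E b) [Nontrivial E] :
    ∃ x : E, x ≠ 1 ∧ (Subgroup.centralizer ({x} : Set E)).index ≤ b ^ 2 := by
  classical
  by_contra hcon
  push Not at hcon
  have := finite_irrCharacter (G := E)
  letI : Fintype (IrrCharacter E) := Fintype.ofFinite _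
  set k := Fintype.card (IrrCharacter E) with hk
  let t : IrrCharacter E := ⟨fun _ => 1, Cfsg.Agent.Lib.Char.Burnside.isIrrCharacter_one⟩
  have hsum := sum_charDegree_sq (G := E)
  have ht : charDegree (t : E → ℂ) = 1 := charDegree_eq_of_eq_natCast (by simp [t])
  have hn : Nat.card E = 1 + ∑ χ ∈ Finset.univ.erase t, charDegree (χ : E → ℂ) ^ 2 := by
    rw [← hsum, ← Finset.add_sum_erase _ _ (Finset.mem_univ t), ht, one_pow]
  have hle : ∑ χ ∈ Finset.univ.erase t, charDegree (χ : E → ℂ) ^ 2 ≤ (k - 1) * b ^ 2 := by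
    have h1 : ((Finset.univ.erase t).card : ℕ) = k - 1 := by
      rw [Finset.card_erase_of_mem (Finset.mem_univ t), Finset.card_univ]
    rw [← h1, ← smul_eq_mul]
    apply Finset.sum_le_card_nsmul
    intro χ _
    exact Nat.pow_le_pow_left (hE _ χ.2) 2
  -- class sizes
  have hsc := Cfsg.Agent.Lib.FG7.ClassNumber.sum_card_centralizer (G := E)
  have hkc : Nat.card (ConjClasses E) = k := by
    rw [← card_irr_eq_card_conjClasses, Nat.card_eq_fintype_card]
  rw [hkc] at hsc
  have h1c : Nat.card (Subgroup.centralizer ({1} : Set E)) = Nat.card E := by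
    have : Subgroup.centralizer ({1} : Set E) = ⊤ := by
      rw [Subgroup.centralizer_eq_top_iff_subset]
      simp
    rw [this]
    exact Nat.card_congr Subgroup.topEquiv.toEquiv
  set s := ∑ x ∈ Finset.univ.erase (1 : E), Nat.card (Subgroup.centralizer ({x} : Set E)) with hs
  have hsplit : Nat.card E + s = k * Nat.card E := by
    rw [← hsc, ← Finset.add_sum_erase _ _ (Finset.mem_univ (1 : E)), h1c]
  have hbound : (b ^ 2 + 1) * s ≤ (Nat.card E - 1) * Nat.card E := by
    have h1 : ((Finset.univ.erase (1 : E)).card : ℕ) = Nat.card E - 1 := by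
      rw [Finset.card_erase_of_mem (Finset.mem_univ _), Finset.card_univ, Nat.card_eq_fintype_card]
    rw [hs, Finset.mul_sum, ← h1, ← smul_eq_mul (a := (Finset.univ.erase (1 : E)).card)]
    apply Finset.sum_le_card_nsmul
    intro x hx
    have hx1 : x ≠ 1 := Finset.ne_of_mem_erase hx
    have h2 := hcon x hx1
    have h3 := Subgroup.card_mul_index (Subgroup.centralizer ({x} : Set E))
    calc (b ^ 2 + 1) * Nat.card (Subgroup.centralizer ({x} : Set E))
        ≤ (Subgroup.centralizer ({x} : Set E)).index * Nat.card (Subgroup.centralizer ({x} : Set E)) :=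
          Nat.mul_le_mul_right _ h2
      _ = Nat.card E := by rw [mul_comm, h3]
  have hkpos : 0 < k := by
    rw [hk]
    exact Fintype.card_pos_iff.mpr ⟨t⟩
  obtain ⟨k', hk'⟩ : ∃ k', k = k' + 1 := ⟨k - 1, by omega⟩
  have hnpos : 0 < Nat.card E := Nat.card_pos
  have hsk : s = k' * Nat.card E := by
    rw [hk'] at hsplit
    nlinarith
  rw [hsk] at hbound
  have h5 : (b ^ 2 + 1) * k' ≤ Nat.card E - 1 := by
    have : (b ^ 2 + 1) * k' * Nat.card E ≤ (Nat.card E - 1) * Nat.card E := by
      calc _ = (b ^ 2 + 1) * (k' * Nat.card E) := by ring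
        _ ≤ _ := hbound
    exact Nat.le_of_mul_le_mul_right this hnpos
  have h6 : Nat.card E - 1 ≤ k' * b ^ 2 := by
    have : k - 1 = k' := by omega
    rw [this] at hle
    omega
  have h7 : k' = 0 := by nlinarith
  have h8 : Nat.card E = 1 := by
    rw [h7] at h6
    omega
  have h9 : 1 < Nat.card E := Finite.one_lt_card
  omega

/-- If `K` does not contain the commutator subgroup, a nonlinear character lies over `1_K`. -/
theorem exists_nonlinear_over_one (K : Subgroup E) [Fintype K] (hK : ¬ commutator E ≤ K) :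
    ∃ ξ : E → ℂ, IsIrrCharacter E ξ ∧ ξ 1 ≠ 1 ∧ classInner (fun h : K => ξ h) (fun _ => 1) ≠ 0 := by
  classical
  by_contra hcon
  push Not at hcon
  have := finite_irrCharacter (G := E)
  letI : Fintype (IrrCharacter E) := Fintype.ofFinite _
  obtain ⟨y, hyM, hyK⟩ := Set.not_subset.mp hK
  have hone : IsCharacter K (fun _ : K => (1 : ℂ)) := isCharacter_one
  have hI : IsCharacter E (indFun K (fun _ : K => (1 : ℂ))) := isCharacter_indFun K hone
  obtain ⟨m, hm⟩ := exists_nat_combination hI
  have hval : ∀ ξ : IrrCharacter E, m ξ ≠ 0 → (ξ : E → ℂ) y = (ξ : E → ℂ) 1 := by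
    intro ξ hξ
    have h1 : classInner (indFun K (fun _ : K => (1 : ℂ))) (ξ : E → ℂ) ≠ 0 := by
      rw [hm, classInner_of_nat_combination m ξ]
      exact_mod_cast hξ
    rw [classInner_indFun_left K _ _ (isClassFunction_of_isIrrCharacter ξ.2)] at h1
    have h2 : (ξ : E → ℂ) 1 = 1 := by
      by_contra hne
      exact (classInner_ne_zero_comm h1) (hcon _ ξ.2 hne)
    rw [h2]
    exact linear_on_comm (isCharacter_of_isIrrCharacter ξ.2) h2 hyM
  have hIeq : indFun K (fun _ : K => (1 : ℂ)) y = indFun K (fun _ : K => (1 : ℂ)) 1 := by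
    rw [hm]
    simp only [Finset.sum_apply, Pi.smul_apply, nsmul_eq_mul]
    refine Finset.sum_congr rfl fun ξ _ => ?_
    by_cases hξ : m ξ = 0
    · simp [hξ]
    · simp only [Pi.mul_apply, Pi.natCast_apply]
      rw [hval ξ hξ]
  rw [indFun_one, indFun_apply] at hIeq
  have hKc : (Nat.card K : ℂ) ≠ 0 := card_subgroup_ne_zero K
  have hcount : ∑ x : E, extendByZero K (fun _ : K => (1 : ℂ)) (x⁻¹ * y * x) = (Nat.card E : ℂ) := by
    have h3 := card_eq_card_mul_index K
    have h4 : (Nat.card E : ℂ) = (Nat.card K : ℂ) * (K.index : ℂ) := by exact_mod_cast h3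
    rw [h4]
    simp only [mul_one] at hIeq
    rw [← hIeq]
    field_simp
  have hind : ∀ x : E, extendByZero K (fun _ : K => (1 : ℂ)) (x⁻¹ * y * x) =
      if x⁻¹ * y * x ∈ K then (1 : ℂ) else 0 := by
    intro x
    rw [extendByZero_eq_dite]
    split_ifs <;> rfl
  simp only [hind] at hcount
  rw [Finset.sum_boole] at hcount
  have h5 : (Finset.univ.filter (fun x : E => x⁻¹ * y * x ∈ K)).card = Fintype.card E := by
    rw [Nat.card_eq_fintype_card] at hcount
    exact_mod_cast hcount
  have h6 : Finset.univ.filter (fun x : E => x⁻¹ * y * x ∈ K) = Finset.univ :=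
    (Finset.card_eq_iff_eq_univ _).mp h5
  have h7 : (1 : E) ∈ Finset.univ.filter (fun x : E => x⁻¹ * y * x ∈ K) := by
    rw [h6]
    exact Finset.mem_univ _
  simp only [Finset.mem_filter, Finset.mem_univ, true_and, inv_one, one_mul, mul_one] at h7
  exact hyK h7

end Class

section Nonabelian

variable {E : Type u} [Group E] [Fintype E]

/-- The center is trivial in the nonabelian case. -/
theorem center_eq_bot (hE : MinNonab E) (hnon : ¬ ∀ x ∈ commutator E, ∀ y ∈ commutator E, x * y = y * x) :
    Subgroup.center E = ⊥ := by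
  by_contra hne
  apply hnon
  have hle := hE.min _ inferInstance hne
  intro x hx y hy
  exact ((Subgroup.mem_center_iff.mp (hle hx)) y).symm

/-- In the nonabelian case `C_E(M) = 1`. -/
theorem eq_one_of_centralize (hE : MinNonab E)
    (hnon : ¬ ∀ x ∈ commutator E, ∀ y ∈ commutator E, x * y = y * x) {x : E}
    (hx : ∀ m ∈ commutator E, m * x = x * m) : x = 1 := by
  by_contra hne
  apply hnon
  have hle := hE.min (Subgroup.centralizer (commutator E : Set E)) inferInstance (by
    intro h0
    have : x ∈ Subgroup.centralizer (commutator E : Set E) := by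
      rw [Subgroup.mem_centralizer_iff]
      exact hx
    rw [h0, Subgroup.mem_bot] at this
    exact hne this)
  intro a ha b hb
  have := Subgroup.mem_centralizer_iff.mp (hle ha) b hb
  exact this.symm

/-- In the nonabelian case all degrees can't all be below `5`. -/
theorem five_le_of_nonabelian (hE : MinNonab E)
    (hnon : ¬ ∀ x ∈ commutator E, ∀ y ∈ commutator E, x * y = y * x) {b : ℕ} (hb : DegLE E b) :
    5 ≤ b := by
  by_contra hlt
  have hbl : b < 5 := by omega
  have hprime : ∀ p : ℕ, p.Prime → p ∣ Nat.card E → p < 5 := by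
    intro p hp hpd
    by_contra hp5
    have hp5' : 5 ≤ p := by omega
    obtain ⟨P, hPn, hPab, hPp, hPi⟩ := Cfsg.Agent.S4464.result (G := E) p hp
      (fun χ => (hb _ χ.2).trans_lt (by omega))
    have hPne : P ≠ ⊥ := by
      rintro rfl
      rw [Subgroup.index_bot] at hPi
      exact hPi hpd
    have hle := hE.min P hPn hPne
    exact hnon (fun x hx y hy => hPab x (hle hx) y (hle hy))
  -- not solvable
  have hnotsolv : ¬ Group.IsSolvable E := by
    intro hs
    have hperf : ⁅commutator E, commutator E⁆ = commutator E := by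
      apply le_antisymm
      · exact Subgroup.commutator_le_left _ _
      · apply hE.min _ inferInstance
        intro h0
        rw [Subgroup.commutator_eq_bot_iff_le_centralizer] at h0
        apply hnon
        intro x hx y hy
        exact (Subgroup.mem_centralizer_iff.mp (h0 hy) x hx)
    have hds : ∀ n : ℕ, derivedSeries E (n + 1) = commutator E := by
      intro n
      induction n with
      | zero =>
        rw [zero_add, derivedSeries_succ, derivedSeries_zero]
        rfl
      | succ n ih =>
        rw [derivedSeries_succ, ih, hperf]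
    obtain ⟨n, hn⟩ := hs
    apply hE.nonab
    rw [← hds n, derivedSeries_succ, hn]
    simp
  apply hnotsolv
  -- a {2,3}-group is solvable
  obtain ⟨a, c, hac⟩ : ∃ a c, Nat.card E = 2 ^ a * 3 ^ c := by
    have hne : Nat.card E ≠ 0 := Nat.card_pos.ne'
    have h2 := Nat.ordProj_mul_ordCompl_eq_self (Nat.card E) 2
    set n := Nat.card E with hn
    set m := ordCompl[2] n with hm
    have h3 := Nat.ordProj_mul_ordCompl_eq_self m 3
    set r := ordCompl[3] m with hr
    have hr1 : r = 1 := by
      by_contra hrne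
      obtain ⟨p, hp, hpr⟩ := Nat.exists_prime_and_dvd hrne
      have hpn : p ∣ n := by
        rw [← h2, ← h3]
        exact Dvd.dvd.mul_left (Dvd.dvd.mul_left hpr _) _
      have hp5 := hprime p hp hpn
      have hp2 : p ≠ 2 := by
        rintro rfl
        have h4 : 2 ∣ m := by
          rw [← h3]
          exact Dvd.dvd.mul_left hpr _
        exact Nat.not_dvd_ordCompl Nat.prime_two hne h4
      have hp3 : p ≠ 3 := by
        rintro rfl
        have hm0 : m ≠ 0 := by
          intro h0
          rw [h0, mul_zero] at h2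
          exact hne h2.symm
        exact Nat.not_dvd_ordCompl Nat.prime_three hm0 hpr
      have hpge := hp.two_le
      interval_cases p
      · exact hp2 rfl
      · exact hp3 rfl
      · exact absurd hp (by norm_num)
    exact ⟨n.factorization 2, m.factorization 3, by
      rw [hr1, mul_one] at h3
      conv_lhs => rw [← h2, ← h3]⟩
  exact Cfsg.Agent.Lib.Char.Burnside.isSolvable_of_card_eq 2 3 a c Nat.prime_two Nat.prime_three hac

end Nonabelian

end Cfsg.Agent.Lib.FG85.IP
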