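import Cfsg.Agent.Lib.FG85.IP4
import Cfsg.Agent.Lib.FG7.FrobeniusCoset

/-!
# Isaacs-Passman: back in the group
-/

set_option autoImplicit false
set_option linter.unusedSectionVars false

namespace Cfsg.Agent.Lib.FG85.IP

open Cfsg
open Cfsg.Agent.Lib.Char.Basic Cfsg.Agent.Lib.Char.Ortho Cfsg.Agent.Lib.Char.Complete
open Cfsg.Agent.Lib.Char.Induced Cfsg.Agent.Lib.Char.IndRep Cfsg.Agent.Lib.Char.Clifford
open Cfsg.Agent.Lib.Char.CliffordCorr Cfsg.Agent.Lib.Char.Conj
open Cfsg.Agent.Lib.Char.Degree Cfsg.Agent.Lib.Char.Gallagher Cfsg.Agent.Lib.Char.Linear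
open Cfsg.Agent.Lib.CharDeg.SmallDegree
open Cfsg.Agent.Lib.FG85.DegComp
open scoped ComplexConjugate commutatorElement

universe u

section Clifford

variable {L : Type u} [Group L] [Fintype L]

/-- The norm of the restriction of a function vanishing off `J`. -/
theorem classInner_restrict_top (J : Subgroup L) [Fintype J] {θ : L → ℂ}
    (hvan : ∀ x, x ∉ J → θ x = 0) :
    (Nat.card J : ℂ) * classInner (fun j : J => θ j) (fun j : J => θ j) =
      (Nat.card L : ℂ) * classInner θ θ := by
  classical
  rw [classInner_def, classInner_def, ← mul_assoc, ← mul_assoc,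
    mul_inv_cancel₀ (by exact_mod_cast Nat.card_pos.ne'),
    mul_inv_cancel₀ (by exact_mod_cast Nat.card_pos.ne'), one_mul, one_mul]
  rw [sum_subgroup_eq_filter J (fun g => θ g * conj (θ g)), Finset.sum_filter]
  refine Finset.sum_congr rfl fun g _ => ?_
  split_ifs with hg
  · rfl
  · rw [hvan g hg]
    simp

/-- A character vanishing off a normal subgroup of prime index: the index is at most the degree. -/
theorem prime_index_le_deg (J : Subgroup L) [Fintype J] (hJ : J.Normal) {θ : L → ℂ}
    (hθ : IsIrrCharacter L θ) (hq : J.index.Prime) (hvan : ∀ x, x ∉ J → θ x = 0) :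
    J.index ≤ charDegree θ := by
  classical
  have hθc := isCharacter_of_isIrrCharacter hθ
  have hrc := isCharacter_restrict J hθc
  have hrne : (fun j : J => θ j) ≠ 0 := by
    intro h0
    have h1 := congrFun h0 1
    simp only [OneMemClass.coe_one, Pi.zero_apply] at h1
    exact irr_one_ne_zero hθ h1
  obtain ⟨φ, hφ, hcon⟩ := exists_irr_constituent (isClassFunction_of_isCharacter hrc) hrne
  obtain ⟨m, hm, hm0, hdeg⟩ := deg_factor hJ hθ hφ hcon
  have hcl := clifford_restrict hJ hθ hφ hcon
  have hθcf := isClassFunction_of_isCharacter hθc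
  have hnorm : classInner (fun j : J => θ j) (fun j : J => θ j) =
      ((m * m * (inertia hJ φ).index : ℕ) : ℂ) := by
    conv_lhs =>
      rhs
      rw [hcl, hm]
    rw [classInner_smul_right, classInner_sum_right, map_natCast]
    rw [Finset.sum_congr rfl (g := fun _ => (m : ℂ))]
    · rw [Finset.sum_const, card_orbit_eq_index, nsmul_eq_mul]
      push_cast
      ring
    · intro ψ hψ
      obtain ⟨g, rfl⟩ := (mem_orbitFinset hJ φ ψ).mp hψ
      rw [classInner_restrict_conjOn hJ hθcf g φ, hm]
  have h1 := classInner_restrict_top J hvan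
  rw [hnorm, classInner_self_of_isIrr hθ, mul_one] at h1
  have h2 : Nat.card J * (m * m * (inertia hJ φ).index) = Nat.card L := by exact_mod_cast h1
  have h3 := Subgroup.card_mul_index J
  have h4 : m * m * (inertia hJ φ).index = J.index := by
    apply Nat.eq_of_mul_eq_mul_left (Nat.card_pos (α := J))
    rw [h2, h3]
  have hm1 : m = 1 := by
    have h5 : m * (m * (inertia hJ φ).index) = J.index := by rw [← h4]; ring
    rcases (Nat.prime_mul_iff.mp (h5 ▸ hq)) with ⟨h6, h7⟩ | ⟨_, h6⟩
    · have := Nat.eq_one_of_mul_eq_one_right h7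
      rw [this] at h6
      exact absurd h6 Nat.not_prime_one
    · exact h6
  rw [hm1, one_mul, one_mul] at h4
  rw [hm1, one_mul, h4] at hdeg
  rw [hdeg]
  exact Nat.le_mul_of_pos_right _ (charDegree_pos hφ)

end Clifford

section Down

variable {G : Type u} [Group G] [Fintype G] {E : Type u} [Group E] [Fintype E]

theorem DegLE.of_surj {b : ℕ} (hG : DegLE G b) (π : G →* E) (hπ : Function.Surjective π) :
    DegLE E b := by
  intro φ hφ
  rw [← charDegree_comp π φ]
  exact hG _ (Cfsg.Agent.Lib.Char.Linear.isIrrCharacter_comp π hπ hφ)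

/-- Top characters on the preimage of `K` vanish off the kernel. -/
theorem top_vanish {b : ℕ} (hG : DegLE G b) (π : G →* E) (hπ : Function.Surjective π)
    (K : Subgroup E) [Fintype K] [Fintype (K.comap π)] {ν : K → ℂ} (hν : IsCharacter K ν)
    (hν1 : ν 1 = 1) {ξ : E → ℂ} (hξ : IsIrrCharacter E ξ)
    (hcon : classInner (fun h : K => ξ h) ν ≠ 0)
    (hZ : ∀ x, ‖ξ x‖ = charDegree ξ → x = 1) {θ : K.comap π → ℂ}
    (hθ : IsIrrCharacter (K.comap π) θ) (hdeg : charDegree θ = b) (h : K.comap π)
    (hne : θ h ≠ 0) : π h = 1 := by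
  have hsurj : Function.Surjective (π.subgroupComap K) :=
    MonoidHom.subgroupComap_surjective_of_surjective π K hπ
  set lam : K.comap π → ℂ := ν ∘ π.subgroupComap K with hlamdef
  have hlam : IsCharacter (K.comap π) lam := isCharacter_comp _ hν
  have hlam1 : lam 1 = 1 := by
    simp [hlamdef, hν1]
  have hξ' : IsIrrCharacter G (ξ ∘ π) := Cfsg.Agent.Lib.Char.Linear.isIrrCharacter_comp π hπ hξ
  have hcon' : classInner (fun h : K.comap π => (ξ ∘ π) h) lam ≠ 0 := by
    have e : (fun h : K.comap π => (ξ ∘ π) h) = (fun k : K => ξ k) ∘ π.subgroupComap K := rfl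
    rw [e, hlamdef, classInner_comp_surj _ hsurj]
    exact hcon
  have hval := value_of_top hG (K.comap π) hθ hdeg hlam hlam1 hξ' hcon' h hne
  apply hZ
  have hc : (ξ ∘ π) (h : G) = ξ (π h) := rfl
  rw [hc] at hval
  rw [hval]
  have h1 : ‖lam h‖ = 1 := by
    have h2 := Cfsg.Agent.Lib.CharZeros.Gallagher.linear_mul_conj hlam hlam1 h
    rw [Complex.mul_conj'] at h2
    have h3 : ‖lam h‖ ^ 2 = 1 := by exact_mod_cast h2
    nlinarith [norm_nonneg (lam h), sq_nonneg (‖lam h‖ - 1)]
  rw [norm_mul, h1, mul_one]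
  have h4 : (ξ ∘ π) 1 = ξ 1 := by simp
  rw [h4, ← charDegree_natCast (isCharacter_of_isIrrCharacter hξ)]
  simp

/-- Every irreducible character of the kernel has degree at most half the bound. -/
theorem two_mul_deg_le {b : ℕ} (hG : DegLE G b) (π : G →* E) (hπ : Function.Surjective π)
    {β : E → ℂ} (hβ : IsIrrCharacter E β) (hβ1 : β 1 ≠ 1) {φ' : π.ker → ℂ}
    (hφ' : IsIrrCharacter π.ker φ') : 2 * charDegree φ' ≤ b := by
  classical
  letI : Fintype π.ker := Fintype.ofFinite _
  have hN : π.ker.Normal := inferInstance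
  obtain ⟨χ, hχ, hcon⟩ := exists_irr_constituent_restrict π.ker hφ'
  obtain ⟨m, -, hm0, hdeg⟩ := deg_factor hN hχ hφ' hcon
  have hχb := hG χ hχ
  have hd := charDegree_pos hφ'
  by_cases hmt : 2 ≤ m * (inertia hN φ').index
  · calc 2 * charDegree φ' ≤ (m * (inertia hN φ').index) * charDegree φ' :=
          Nat.mul_le_mul_right _ hmt
      _ = charDegree χ := by rw [hdeg]; ring
      _ ≤ b := hχb
  -- otherwise `χ` extends `φ'`
  have hi : 0 < (inertia hN φ').index := Nat.pos_of_ne_zero Subgroup.index_ne_zero_of_finite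
  have hmt1 : m * (inertia hN φ').index = 1 := by
    have : 0 < m * (inertia hN φ').index := Nat.mul_pos (Nat.pos_of_ne_zero hm0) hi
    omega
  have hχd : charDegree χ = charDegree φ' := by
    rw [hdeg, ← mul_assoc, hmt1, one_mul]
  have hχc := isCharacter_of_isIrrCharacter hχ
  have hext : (fun n : π.ker => χ n) = φ' := by
    refine eq_of_constituent_of_deg_le (isCharacter_restrict π.ker hχc) hφ' hcon
      (a := charDegree χ) (b := charDegree φ') ?_ ?_ hχd.le
    · have := charDegree_natCast hχc
      simpa using this.symm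
    · exact (charDegree_natCast (isCharacter_of_isIrrCharacter hφ')).symm
  have hβ' : IsIrrCharacter G (β ∘ π) := Cfsg.Agent.Lib.Char.Linear.isIrrCharacter_comp π hπ hβ
  have hone : IsIrrCharacter π.ker (fun _ : π.ker => (1 : ℂ)) :=
    Cfsg.Agent.Lib.Char.Burnside.isIrrCharacter_one
  have hmaps := (bijOn_mul_extension (N := π.ker) hN (φ := fun _ => (1 : ℂ)) (ϑ := φ') hone
    (fun g => rfl)
    (fun g => by
      rw [← hext]
      exact conjOn_restrict hN (isClassFunction_of_isCharacter hχc) g)
    (by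
      have : ((fun _ : π.ker => (1 : ℂ)) * φ') = φ' := by
        funext n
        simp
      rw [this]
      exact hφ') hχ hext).mapsTo
  have hmem : (β ∘ π) ∈ {β : G → ℂ | IsIrrCharacter G β ∧
      classInner (indFun π.ker (fun _ : π.ker => (1 : ℂ))) β ≠ 0} := by
    refine ⟨hβ', ?_⟩
    rw [classInner_indFun_left _ _ _ (isClassFunction_of_isIrrCharacter hβ')]
    have e : (fun h : π.ker => (β ∘ π) h) = fun _ => β 1 := by
      funext h
      have : π h = 1 := h.2
      simp [this]
    rw [e]
    have h1 : classInner (fun _ : π.ker => (1 : ℂ)) (fun _ : π.ker => β 1) = conj (β 1) := by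
      rw [classInner_def]
      simp only [one_mul, Finset.sum_const, Finset.card_univ, nsmul_eq_mul]
      rw [← mul_assoc, Nat.card_eq_fintype_card, inv_mul_cancel₀, one_mul]
      exact_mod_cast Fintype.card_ne_zero
    rw [h1]
    intro h0
    rw [map_eq_zero] at h0
    exact irr_one_ne_zero hβ h0
  have hirr := (hmaps hmem).1
  have hb1 := hG _ hirr
  have hdegprod : charDegree ((β ∘ π) * χ) = charDegree β * charDegree χ := by
    apply charDegree_eq_of_eq_natCast
    rw [Pi.mul_apply, Nat.cast_mul, charDegree_natCast (isCharacter_of_isIrrCharacter hβ),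
      charDegree_natCast hχc]
    simp
  rw [hdegprod, hχd] at hb1
  have h2 := two_le_charDegree hβ hβ1
  calc 2 * charDegree φ' ≤ charDegree β * charDegree φ' := Nat.mul_le_mul_right _ h2
    _ ≤ b := hb1

end Down

end Cfsg.Agent.Lib.FG85.IP
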