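import Cfsg.Agent.Lib.FG85.IP5

/-!
# Isaacs-Passman: the inductive step and the main theorem
-/

set_option autoImplicit false
set_option linter.unusedSectionVars false

namespace Cfsg.Agent.Lib.FG85.IP

open Cfsg
open Cfsg.Agent.Lib.Char.Basic Cfsg.Agent.Lib.Char.Ortho Cfsg.Agent.Lib.Char.Complete
open Cfsg.Agent.Lib.Char.Induced Cfsg.Agent.Lib.Char.IndRep Cfsg.Agent.Lib.Char.Clifford
open Cfsg.Agent.Lib.Char.CliffordCorr Cfsg.Agent.Lib.Char.Conj
open Cfsg.Agent.Lib.Char.Degree Cfsg.Agent.Lib.Char.Gallagher Cfsg.Agent.Lib.Char.Linear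
open Cfsg.Agent.Lib.CharDeg.SmallDegree
open Cfsg.Agent.Lib.FG85.DegComp
open scoped ComplexConjugate commutatorElement

universe u

/-- Numerics: index at most `b²`, dropping one. -/
theorem num_pred {b i : ℕ} (hb : 1 ≤ b) (hi : i ≤ b ^ 2) :
    i * (Nat.factorial (b - 1)) ^ 2 ≤ (Nat.factorial b) ^ 2 := by
  obtain ⟨n, rfl⟩ : ∃ n, b = n + 1 := ⟨b - 1, by omega⟩
  rw [Nat.add_sub_cancel, Nat.factorial_succ, mul_pow]
  exact Nat.mul_le_mul_right _ hi

/-- Numerics: index at most `b⁴`, dropping three. -/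
theorem num_three {b i : ℕ} (hb : 5 ≤ b) (hi : i ≤ b ^ 4) :
    i * (Nat.factorial (b - 3)) ^ 2 ≤ (Nat.factorial b) ^ 2 := by
  obtain ⟨n, rfl⟩ : ∃ n, b = n + 5 := ⟨b - 5, by omega⟩
  have e : n + 5 - 3 = n + 2 := by omega
  rw [e]
  have e1 : Nat.factorial (n + 5) = (n + 5) * ((n + 4) * ((n + 3) * Nat.factorial (n + 2))) := by
    rw [show n + 5 = (n + 4) + 1 by ring, Nat.factorial_succ, show n + 4 = (n + 3) + 1 by ring,
      Nat.factorial_succ, show n + 3 = (n + 2) + 1 by ring, Nat.factorial_succ]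
  rw [e1, mul_pow, mul_pow, mul_pow, ← mul_assoc, ← mul_assoc]
  apply Nat.mul_le_mul_right
  calc i ≤ (n + 5) ^ 4 := hi
    _ ≤ (n + 5) ^ 2 * (n + 4) ^ 2 * (n + 3) ^ 2 := by
      have : (n + 5) ^ 2 ≤ (n + 4) ^ 2 * (n + 3) ^ 2 := by nlinarith
      calc (n + 5) ^ 4 = (n + 5) ^ 2 * (n + 5) ^ 2 := by ring
        _ ≤ (n + 5) ^ 2 * ((n + 4) ^ 2 * (n + 3) ^ 2) := Nat.mul_le_mul_left _ this
        _ = _ := by ring

/-- Character norm of a restriction is bounded by the square of the degree. -/
theorem norm_restrict_le {G : Type u} [Group G] [Fintype G] {ψ : G → ℂ} (hψ : IsCharacter G ψ)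
    (N : Subgroup G) [Fintype N] {k : ℕ}
    (hk : classInner (fun n : N => ψ n) (fun n : N => ψ n) = k) : k ≤ charDegree ψ ^ 2 := by
  classical
  have h1 : (k : ℝ) ≤ (charDegree ψ : ℝ) ^ 2 := by
    have h2 : ‖classInner (fun n : N => ψ n) (fun n : N => ψ n)‖ ≤ (charDegree ψ : ℝ) ^ 2 := by
      rw [classInner_def, norm_mul, norm_inv, Complex.norm_natCast]
      have hc : (0 : ℝ) < (Nat.card N : ℝ) := by exact_mod_cast Nat.card_pos
      rw [inv_mul_le_iff₀ hc]
      calc ‖∑ n : N, ψ n * conj (ψ n)‖ ≤ ∑ n : N, ‖ψ n * conj (ψ n)‖ := norm_sum_le _ _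
        _ ≤ ∑ _n : N, (charDegree ψ : ℝ) ^ 2 := by
          refine Finset.sum_le_sum fun n _ => ?_
          rw [norm_mul, RCLike.norm_conj]
          have := norm_le_charDegree hψ (n : G)
          nlinarith [norm_nonneg (ψ n)]
        _ = (Nat.card N : ℝ) * (charDegree ψ : ℝ) ^ 2 := by
          rw [Finset.sum_const, Finset.card_univ, nsmul_eq_mul, Nat.card_eq_fintype_card]
    rw [hk] at h2
    simpa using h2
  exact_mod_cast h1

section Step

variable {G : Type u} [Group G] [Fintype G] {E : Type u} [Group E] [Fintype E]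

/-- The index of the center in the center case. -/
theorem index_eq_deg_sq {χ : E → ℂ} (hχ : IsIrrCharacter E χ) (Z : Subgroup E)
    (hvan : ∀ x, x ∉ Z → χ x = 0) (hnorm : ∀ z ∈ Z, ‖χ z‖ = charDegree χ) :
    Z.index = charDegree χ ^ 2 := by
  classical
  letI : Fintype Z := Fintype.ofFinite _
  have h1 := classInner_self_of_isIrr hχ
  rw [classInner_def] at h1
  have e1 : ∑ g : E, χ g * conj (χ g) = (Nat.card Z : ℂ) * (charDegree χ : ℂ) ^ 2 := by
    have : ∑ g : E, χ g * conj (χ g) = ∑ g ∈ Finset.univ.filter (· ∈ Z), (charDegree χ : ℂ) ^ 2 := by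
      rw [Finset.sum_filter]
      refine Finset.sum_congr rfl fun g _ => ?_
      split_ifs with hg
      · exact mul_conj_of_norm (hnorm g hg)
      · rw [hvan g hg]; simp
    rw [this, Finset.sum_const, nsmul_eq_mul]
    congr 2
    rw [Nat.card_eq_fintype_card, Fintype.card_subtype]
  rw [e1] at h1
  have hE : (Nat.card E : ℂ) ≠ 0 := by exact_mod_cast Nat.card_pos.ne'
  have h2 : (Nat.card Z : ℂ) * (charDegree χ : ℂ) ^ 2 = (Nat.card E : ℂ) := by
    field_simp at h1
    exact h1
  have h3 : Nat.card Z * charDegree χ ^ 2 = Nat.card E := by exact_mod_cast h2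
  have h4 := Subgroup.card_mul_index Z
  have h5 : Nat.card Z * charDegree χ ^ 2 = Nat.card Z * Z.index := by rw [h3, h4]
  exact (Nat.eq_of_mul_eq_mul_left Nat.card_pos h5).symm

/-- The center case of the step. -/
theorem step_center {b : ℕ} (hG : DegLE G b) (π : G →* E) (hπ : Function.Surjective π)
    (hE : MinNonab E) (hZ : Subgroup.center E ≠ ⊥) :
    ∃ (H : Subgroup G) (c : ℕ), c < b ∧ DegLE H c ∧
      H.index * (Nat.factorial c) ^ 2 ≤ (Nat.factorial b) ^ 2 := by
  obtain ⟨χ, hχ, h1⟩ := exists_nonlinear hE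
  obtain ⟨hvan, hnorm⟩ := center_case hE hZ hχ h1
  have hEb := hG.of_surj π hπ
  have hd2 := two_le_charDegree hχ h1
  have hdb := hEb χ hχ
  refine ⟨(Subgroup.center E).comap π, b - 1, by omega, ?_, ?_⟩
  · refine degLE_of_support hG (ξ := χ ∘ π) (Cfsg.Agent.Lib.Char.Linear.isIrrCharacter_comp π hπ hχ)
      (by rw [charDegree_comp]; exact hd2) _ ?_ ?_
    · intro g hg
      exact hvan _ hg
    · intro g hg
      rw [charDegree_comp]
      exact hnorm _ hg
  · apply num_pred (by omega)
    rw [Subgroup.index_comap_of_surjective _ hπ, index_eq_deg_sq hχ _ hvan hnorm]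
    exact Nat.pow_le_pow_left hdb 2

/-- The abelian case of the step. -/
theorem step_abelian {b : ℕ} (hG : DegLE G b) (π : G →* E) (hπ : Function.Surjective π)
    (hE : MinNonab E) (hZ : Subgroup.center E = ⊥)
    (hab : ∀ x ∈ commutator E, ∀ y ∈ commutator E, x * y = y * x) :
    ∃ (H : Subgroup G) (c : ℕ), c < b ∧ DegLE H c ∧
      H.index * (Nat.factorial c) ^ 2 ≤ (Nat.factorial b) ^ 2 := by
  classical
  letI : Fintype (commutator E) := Fintype.ofFinite _
  obtain ⟨μ, hμ, hμ1, ξ, hξ, hξ1, hdeg, hcon⟩ := abelian_case hE hZ hab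
  have hEb := hG.of_surj π hπ
  have hf : (commutator E).index ≤ b := hdeg ▸ hEb ξ hξ
  have hd2 := two_le_charDegree hξ hξ1
  have hb2 : 2 ≤ b := hd2.trans (hEb ξ hξ)
  have hZξ : ∀ x, ‖ξ x‖ = charDegree ξ → x = 1 := fun x hx => eq_one_of_norm hE hZ hξ hξ1 hx
  set D := (commutator E).comap π with hD
  letI : Fintype D := Fintype.ofFinite _
  have hDi : D.index = (commutator E).index := Subgroup.index_comap_of_surjective _ hπ
  by_cases htop : ∃ θ : D → ℂ, IsIrrCharacter D θ ∧ charDegree θ = b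
  · obtain ⟨θ₀, hθ₀, hθd⟩ := htop
    have hvanish : ∀ θ : D → ℂ, IsIrrCharacter D θ → charDegree θ = b → ∀ h : D, θ h ≠ 0 → π h = 1 :=
      fun θ hθ hd h hne => top_vanish hG π hπ (commutator E) hμ hμ1 hξ hcon hZξ hθ hd h hne
    haveI : Nontrivial (commutator E) := by
      obtain ⟨a, ha⟩ := (Subgroup.ne_bot_iff_exists_ne_one).mp hE.nonab
      exact ⟨⟨a, 1, ha⟩⟩
    haveI : Group.IsSolvable (commutator E) :=
      Group.isSolvable_of_comm (fun a b => Subtype.ext (hab a a.2 b b.2))
    obtain ⟨K₀, hK₀n, hK₀p⟩ :=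
      Cfsg.Agent.Lib.FG7.FrobeniusCoset.exists_normal_prime_index (G := commutator E)
    have hsurj : Function.Surjective (π.subgroupComap (commutator E)) :=
      MonoidHom.subgroupComap_surjective_of_surjective π _ hπ
    set J₀ : Subgroup D := K₀.comap (π.subgroupComap (commutator E)) with hJ₀
    letI : Fintype J₀ := Fintype.ofFinite _
    have hJ₀n : J₀.Normal := hK₀n.comap _
    have hJ₀i : J₀.index = K₀.index := Subgroup.index_comap_of_surjective _ hsurj
    have hker : ∀ x : D, π x = 1 → x ∈ J₀ := by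
      intro x hx
      rw [hJ₀, Subgroup.mem_comap]
      have : π.subgroupComap (commutator E) x = 1 := Subtype.ext hx
      rw [this]
      exact one_mem _
    have hq : J₀.index ≤ b := by
      rw [← hθd]
      refine prime_index_le_deg J₀ hJ₀n hθ₀ (hJ₀i ▸ hK₀p) ?_
      intro x hx
      by_contra hne
      exact hx (hker x (hvanish θ₀ hθ₀ hθd x hne))
    set J := J₀.map D.subtype with hJ
    have hJD : J ≤ D := Subgroup.map_subtype_le _
    have hJi : J.index = J₀.index * D.index := Subgroup.index_map_subtype _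
    have hJne : J ≠ D := by
      intro h0
      rw [h0] at hJi
      have hDpos : 0 < D.index := Nat.pos_of_ne_zero Subgroup.index_ne_zero_of_finite
      have h1 : J₀.index = 1 := by
        have : 1 * D.index = J₀.index * D.index := by rw [one_mul]; exact hJi
        exact (Nat.eq_of_mul_eq_mul_right hDpos this).symm
      rw [hJ₀i] at h1
      rw [h1] at hK₀p
      exact Nat.not_prime_one hK₀p
    refine ⟨J, b - 1, by omega, ?_, ?_⟩
    · refine degLE_sub_of_vanish hG D J hJD hJne ?_
      intro θ hθ hd x hx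
      by_contra hne
      apply hx
      exact ⟨x, hker x (hvanish θ hθ hd x hne), rfl⟩
    · apply num_pred (by omega)
      rw [hJi, hDi, sq]
      exact Nat.mul_le_mul hq hf
  · refine ⟨D, b - 1, by omega, ?_, ?_⟩
    · intro θ hθ
      have hle := hG.subgroup D θ hθ
      by_contra hcon'
      exact htop ⟨θ, hθ, by omega⟩
    · apply num_pred (by omega)
      rw [hDi, sq]
      exact hf.trans (Nat.le_mul_self b)

/-- The nonabelian case of the step. -/
theorem step_nonabelian {b : ℕ} (hG : DegLE G b) (π : G →* E) (hπ : Function.Surjective π)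
    (hE : MinNonab E) (hnon : ¬ ∀ x ∈ commutator E, ∀ y ∈ commutator E, x * y = y * x) :
    ∃ (H : Subgroup G) (c : ℕ), c < b ∧ DegLE H c ∧
      H.index * (Nat.factorial c) ^ 2 ≤ (Nat.factorial b) ^ 2 := by
  classical
  have hZ := center_eq_bot hE hnon
  have hEb := hG.of_surj π hπ
  have h5 := five_le_of_nonabelian hE hnon hEb
  haveI : Nontrivial E := by
    obtain ⟨a, ha⟩ := (Subgroup.ne_bot_iff_exists_ne_one).mp hE.nonab
    exact ⟨⟨(a : E), 1, fun h => ha (Subtype.ext h)⟩⟩
  obtain ⟨x, hx1, hxi⟩ := exists_small_class hEb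
  set C := Subgroup.centralizer ({x} : Set E) with hC
  have hCM : ¬ commutator E ≤ C := by
    intro hle
    apply hx1
    apply eq_one_of_centralize hE hnon
    intro m hm
    have := Subgroup.mem_centralizer_iff.mp (hle hm) x rfl
    exact this.symm
  letI : Fintype C := Fintype.ofFinite _
  obtain ⟨ξ, hξ, hξ1, hcon⟩ := exists_nonlinear_over_one C hCM
  have hZξ : ∀ x, ‖ξ x‖ = charDegree ξ → x = 1 := fun x hx => eq_one_of_norm hE hZ hξ hξ1 hx
  set L := C.comap π with hL
  letI : Fintype L := Fintype.ofFinite _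
  have hLi : L.index = C.index := Subgroup.index_comap_of_surjective _ hπ
  by_cases htop : ∃ θ : L → ℂ, IsIrrCharacter L θ ∧ charDegree θ = b
  · obtain ⟨θ₀, hθ₀, hθd⟩ := htop
    have hvanish : ∀ h : L, θ₀ h ≠ 0 → π h = 1 := fun h hne =>
      top_vanish hG π hπ C isCharacter_one rfl hξ hcon hZξ hθ₀ hθd h hne
    obtain ⟨ψ, hψ, hψθ⟩ := exists_ext_top hG L hθ₀ hθd
    have hψc := isCharacter_of_isIrrCharacter hψ
    have hψd : charDegree ψ = b := by
      rw [← hθd]
      apply charDegree_eq_of_eq_natCast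
      rw [charDegree_natCast (isCharacter_of_isIrrCharacter hθ₀), ← hψθ]
      simp
    have hNL : π.ker ≤ L := by
      intro n hn
      rw [hL, Subgroup.mem_comap, MonoidHom.mem_ker.mp hn]
      exact one_mem _
    letI : Fintype π.ker := Fintype.ofFinite _
    have hvan' : ∀ y ∈ L, y ∉ π.ker → ψ y = 0 := by
      intro y hy hyN
      have e : ψ y = θ₀ ⟨y, hy⟩ := by rw [← hψθ]
      rw [e]
      by_contra hne
      exact hyN (MonoidHom.mem_ker.mpr (hvanish ⟨y, hy⟩ hne))
    have hnorm := classInner_restrict_of_vanish L π.ker hNL hvan'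
    rw [hψθ, classInner_self_of_isIrr hθ₀, mul_one] at hnorm
    obtain ⟨k, hk⟩ := exists_nat_classInner (isCharacter_restrict π.ker hψc)
      (isCharacter_restrict π.ker hψc)
    rw [hk] at hnorm
    have hkb : k ≤ b ^ 2 := by
      rw [← hψd]
      exact norm_restrict_le hψc π.ker hk
    have hLc : Nat.card π.ker * k = Nat.card L := by exact_mod_cast hnorm
    have hNi : π.ker.index = Nat.card E := by
      rw [Subgroup.index_ker, MonoidHom.range_eq_top_of_surjective π hπ]
      exact Nat.card_congr Subgroup.topEquiv.toEquiv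
    have h1 := Subgroup.card_mul_index π.ker
    have h2 := Subgroup.card_mul_index L
    have h3 := Subgroup.card_mul_index C
    have hCpos : 0 < C.index := Nat.pos_of_ne_zero Subgroup.index_ne_zero_of_finite
    have hkC : k = Nat.card C := by
      have h4 : Nat.card π.ker * (k * C.index) = Nat.card π.ker * (Nat.card C * C.index) :=
        calc Nat.card π.ker * (k * C.index) = (Nat.card π.ker * k) * C.index := by ring
          _ = Nat.card L * L.index := by rw [hLc, hLi]
          _ = Nat.card G := h2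
          _ = Nat.card π.ker * π.ker.index := h1.symm
          _ = Nat.card π.ker * (Nat.card C * C.index) := by rw [hNi, h3]
      have h5 := Nat.eq_of_mul_eq_mul_left Nat.card_pos h4
      exact Nat.eq_of_mul_eq_mul_right hCpos h5
    have hEcard : Nat.card E ≤ b ^ 4 := by
      rw [← h3, ← hkC]
      calc k * C.index ≤ b ^ 2 * b ^ 2 := Nat.mul_le_mul hkb hxi
        _ = b ^ 4 := by ring
    refine ⟨π.ker, b - 3, by omega, ?_, ?_⟩
    · intro φ' hφ'
      have := two_mul_deg_le hG π hπ hξ hξ1 hφ'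
      omega
    · apply num_three h5
      rw [hNi]
      exact hEcard
  · refine ⟨L, b - 1, by omega, ?_, ?_⟩
    · intro θ hθ
      have hle := hG.subgroup L θ hθ
      by_contra hcon'
      exact htop ⟨θ, hθ, by omega⟩
    · apply num_pred (by omega)
      rw [hLi]
      exact hxi

/-- The inductive step over a minimal nonabelian quotient. -/
theorem step_of_surj {b : ℕ} (hG : DegLE G b) (π : G →* E) (hπ : Function.Surjective π)
    (hE : MinNonab E) :
    ∃ (H : Subgroup G) (c : ℕ), c < b ∧ DegLE H c ∧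
      H.index * (Nat.factorial c) ^ 2 ≤ (Nat.factorial b) ^ 2 := by
  by_cases hZ : Subgroup.center E = ⊥
  · by_cases hab : ∀ x ∈ commutator E, ∀ y ∈ commutator E, x * y = y * x
    · exact step_abelian hG π hπ hE hZ hab
    · exact step_nonabelian hG π hπ hE hab
  · exact step_center hG π hπ hE hZ

/-- The inductive step. -/
theorem step {b : ℕ} (hG : DegLE G b) (hnon : ∃ a c : G, a * c ≠ c * a) :
    ∃ (H : Subgroup G) (c : ℕ), c < b ∧ DegLE H c ∧
      H.index * (Nat.factorial c) ^ 2 ≤ (Nat.factorial b) ^ 2 := by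
  classical
  have hbot : ¬ commutator G ≤ ⊥ := by
    intro hle
    obtain ⟨a, c, hac⟩ := hnon
    apply hac
    have h1 : a * c * a⁻¹ * c⁻¹ ∈ commutator G := comm_mem a c
    have h2 := hle h1
    rw [Subgroup.mem_bot, mul_inv_eq_one, mul_inv_eq_iff_eq_mul] at h2
    exact h2
  obtain ⟨N, hN⟩ := (Set.toFinite {K : Subgroup G | K.Normal ∧ ¬ commutator G ≤ K}).exists_maximal
    ⟨⊥, inferInstance, hbot⟩
  obtain ⟨hNn, hNc⟩ := hN.prop
  haveI := hNn
  letI : Fintype (G ⧸ N) := Fintype.ofFinite _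
  have hπ : Function.Surjective (QuotientGroup.mk' N) := QuotientGroup.mk'_surjective N
  refine step_of_surj hG (QuotientGroup.mk' N) hπ ⟨?_, ?_⟩
  · intro h0
    apply hNc
    intro g hg
    have h1 : QuotientGroup.mk' N g ∈ commutator (G ⧸ N) := by
      have : (commutator G).map (QuotientGroup.mk' N) ≤ commutator (G ⧸ N) := by
        rw [commutator_def, commutator_def, Subgroup.map_commutator]
        exact Subgroup.commutator_mono le_top le_top
      exact this ⟨g, hg, rfl⟩
    rw [h0, Subgroup.mem_bot] at h1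
    exact (QuotientGroup.eq_one_iff g).mp h1
  · intro K hKn hKne
    have hKc : (K.comap (QuotientGroup.mk' N)).Normal := hKn.comap _
    have hle : N ≤ K.comap (QuotientGroup.mk' N) := by
      intro n hn
      rw [Subgroup.mem_comap]
      have : QuotientGroup.mk' N n = 1 := (QuotientGroup.eq_one_iff n).mpr hn
      rw [this]
      exact one_mem _
    have hcomm : commutator G ≤ K.comap (QuotientGroup.mk' N) := by
      by_contra hcon
      have h1 := hN.eq_of_ge ⟨hKc, hcon⟩ hle
      apply hKne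
      rw [eq_bot_iff]
      intro q hq
      obtain ⟨g, rfl⟩ := hπ q
      have h2 : g ∈ K.comap (QuotientGroup.mk' N) := hq
      rw [h1] at *
      exact (QuotientGroup.eq_one_iff g).mpr h2
    rw [commutator_def, Subgroup.commutator_le]
    intro a _ c _
    obtain ⟨g, rfl⟩ := hπ a
    obtain ⟨h, rfl⟩ := hπ c
    rw [← map_commutatorElement]
    have : ⁅g, h⁆ ∈ commutator G := by
      rw [commutator_def]
      exact Subgroup.commutator_mem_commutator (Subgroup.mem_top g) (Subgroup.mem_top h)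
    exact hcomm this

end Step

/-- **Isaacs-Passman**: a finite group all of whose irreducible degrees are at most `b` has an
abelian subgroup of index at most `(b!)²`. -/
theorem exists_abelian_subgroup (b : ℕ) : ∀ {G : Type u} [Group G] [Finite G], DegLE G b →
    ∃ A : Subgroup G, (∀ x ∈ A, ∀ y ∈ A, x * y = y * x) ∧ A.index ≤ (Nat.factorial b) ^ 2 := by
  induction b using Nat.strong_induction_on with
  | _ b ih =>
    intro G _ _ hG
    classical
    letI : Fintype G := Fintype.ofFinite G
    by_cases hnon : ∃ a c : G, a * c ≠ c * a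
    · obtain ⟨H, c, hc, hH, hi⟩ := step hG hnon
      obtain ⟨A₀, hA₀, hA₀i⟩ := ih c hc hH
      refine ⟨A₀.map H.subtype, ?_, ?_⟩
      · rintro _ ⟨x, hx, rfl⟩ _ ⟨y, hy, rfl⟩
        exact congrArg Subtype.val (hA₀ x hx y hy)
      · rw [Subgroup.index_map_subtype]
        calc A₀.index * H.index ≤ (Nat.factorial c) ^ 2 * H.index := Nat.mul_le_mul_right _ hA₀i
          _ = H.index * (Nat.factorial c) ^ 2 := mul_comm _ _
          _ ≤ _ := hi
    · push Not at hnon
      refine ⟨⊤, fun x _ y _ => hnon x y, ?_⟩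
      rw [Subgroup.index_top]
      exact Nat.one_le_pow _ _ (Nat.factorial_pos b)

end Cfsg.Agent.Lib.FG85.IP
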