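import Cfsg.Agent.Lib.Signal.BrauerWielandt

/-!
# Brauer-Wielandt for two commuting automorphisms of order dividing `p`

No faithfulness of the action of `⟨α, ζ⟩` is assumed; the formula is obtained by an external group.
-/

set_option autoImplicit false
set_option linter.style.haveILetI false

namespace Cfsg.Agent.Lib.FG85.PEl1

open Subgroup Cfsg Cfsg.Agent.Lib.Signal.BrauerWielandt

universe u

variable {L : Type u} [Group L]

/-- The subgroup of fixed points of an automorphism. -/
def fixS (σ : MulAut L) : Subgroup L where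
  carrier := {x | σ x = x}
  mul_mem' := by
    intro a b ha hb
    simp only [Set.mem_ofPred_eq] at ha hb ⊢
    rw [map_mul, ha, hb]
  one_mem' := by simp
  inv_mem' := by
    intro a ha
    simp only [Set.mem_ofPred_eq] at ha ⊢
    rw [map_inv, ha]

@[simp] theorem mem_fixS {σ : MulAut L} {x : L} : x ∈ fixS σ ↔ σ x = x := Iff.rfl

section external

variable (p : ℕ) [hp : Fact p.Prime]

/-- The external group. -/
abbrev Ext (L : Type u) [Group L] : Type u :=
  (L ⋊[MonoidHom.id (MulAut L)] MulAut L) × (Multiplicative (ZMod p) × Multiplicative (ZMod p))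

instance [Finite L] : Finite (MulAut L) :=
  Finite.of_injective (fun σ : MulAut L => (σ : L ≃ L)) (fun a b h => by
    ext x
    exact congrArg (fun f : L ≃ L => f x) h)

instance [Finite L] : Finite (L ⋊[MonoidHom.id (MulAut L)] MulAut L) :=
  Finite.of_equiv _ (SemidirectProduct.equivProd (N := L) (G := MulAut L)
    (φ := MonoidHom.id (MulAut L))).symm

instance [Finite L] : Finite (Ext p L) := by
  haveI : NeZero p := ⟨hp.out.ne_zero⟩
  haveI : Finite (Multiplicative (ZMod p)) := inferInstanceAs (Finite (ZMod p))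
  exact inferInstanceAs (Finite (_ × (_ × _)))

/-- The copy of `L`. -/
def iota : L →* Ext p L :=
  (MonoidHom.inl _ _).comp SemidirectProduct.inl

theorem iota_injective : Function.Injective (iota p : L →* Ext p L) := by
  intro a b h
  have := congrArg Prod.fst h
  simpa [iota] using this

/-- The elements of the group lying over an automorphism and an element of the elementary abelian factor. -/
def lift' (σ : MulAut L) (e : Multiplicative (ZMod p) × Multiplicative (ZMod p)) : Ext p L :=
  (SemidirectProduct.inr σ, e)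

theorem lift'_conj (σ : MulAut L) (e : Multiplicative (ZMod p) × Multiplicative (ZMod p)) (x : L) :
    lift' p σ e * iota p x * (lift' p σ e)⁻¹ = iota p (σ x) := by
  apply Prod.ext
  · simp only [lift', iota, MonoidHom.coe_comp, Function.comp_apply, MonoidHom.inl_apply,
      Prod.fst_mul, Prod.fst_inv]
    rw [← map_inv]
    exact (SemidirectProduct.inl_aut (φ := MonoidHom.id (MulAut L)) σ x).symm
  · simp [lift', iota]

theorem lift'_mul (σ τ : MulAut L) (e f : Multiplicative (ZMod p) × Multiplicative (ZMod p)) :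
    lift' p σ e * lift' p τ f = lift' p (σ * τ) (e * f) := by
  apply Prod.ext
  · simp [lift']
  · simp [lift']

theorem lift'_pow (σ : MulAut L) (e : Multiplicative (ZMod p) × Multiplicative (ZMod p)) (n : ℕ) :
    lift' p σ e ^ n = lift' p (σ ^ n) (e ^ n) := by
  apply Prod.ext
  · simp [lift']
  · simp [lift']

theorem lift'_one : lift' p (1 : MulAut L) 1 = 1 := by
  apply Prod.ext
  · simp [lift']
  · simp [lift']

theorem mem_centralizer_zpowers_iff {H : Type*} [Group H] {x b : H} :
    x ∈ centralizer ((zpowers b : Subgroup H) : Set H) ↔ b * x * b⁻¹ = x := by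
  constructor
  · intro h
    have := (mem_centralizer_iff.mp h) b (mem_zpowers b)
    rw [this]; group
  · intro h
    rw [mem_centralizer_iff]
    rintro _ ⟨k, rfl⟩
    have hc : Commute b x := by
      have h2 : b * x = x * b := by
        calc b * x = (b * x * b⁻¹) * b := by group
          _ = x * b := by rw [h]
      exact h2
    exact hc.zpow_left k

end external

section main

variable {p : ℕ} [hp : Fact p.Prime] [Finite L]

/-- The elementary abelian parameter group. -/
abbrev EE (p : ℕ) : Type := Multiplicative (ZMod p) × Multiplicative (ZMod p)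

/-- The automorphism attached to a parameter. -/
noncomputable def sg (α ζ : MulAut L) (e : EE p) : MulAut L :=
  α ^ (Multiplicative.toAdd e.1).val * ζ ^ (Multiplicative.toAdd e.2).val

theorem pow_val_add (β : MulAut L) (hβ : β ^ p = 1) (u v : ZMod p) :
    β ^ (u + v).val = β ^ u.val * β ^ v.val := by
  rw [ZMod.val_add, ← pow_add, ← pow_mod_orderOf β, ← pow_mod_orderOf β (u.val + v.val)]
  have hd : orderOf β ∣ p := orderOf_dvd_of_pow_eq_one hβ
  rw [Nat.mod_mod_of_dvd _ hd]

theorem sg_mul (α ζ : MulAut L) (hc : Commute α ζ) (hα : α ^ p = 1) (hζ : ζ ^ p = 1) (e f : EE p) :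
    sg α ζ (e * f) = sg α ζ e * sg α ζ f := by
  simp only [sg, Prod.fst_mul, Prod.snd_mul, toAdd_mul]
  rw [pow_val_add α hα, pow_val_add ζ hζ]
  have hc' : Commute (ζ ^ (Multiplicative.toAdd e.2).val) (α ^ (Multiplicative.toAdd f.1).val) :=
    (hc.symm.pow_pow _ _)
  calc _ = α ^ (Multiplicative.toAdd e.1).val *
        (α ^ (Multiplicative.toAdd f.1).val * ζ ^ (Multiplicative.toAdd e.2).val) *
          ζ ^ (Multiplicative.toAdd f.2).val := by simp only [mul_assoc]
    _ = _ := by rw [← hc'.eq]; simp only [mul_assoc]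

/-- The parameter homomorphism. -/
noncomputable def phi (α ζ : MulAut L) (hc : Commute α ζ) (hα : α ^ p = 1) (hζ : ζ ^ p = 1) :
    EE p →* Ext p L where
  toFun e := lift' p (sg α ζ e) e
  map_one' := by
    have : sg α ζ (1 : EE p) = 1 := by
      simp [sg]
    rw [this, lift'_one]
  map_mul' e f := by
    rw [sg_mul α ζ hc hα hζ, lift'_mul]

theorem phi_apply (α ζ : MulAut L) (hc : Commute α ζ) (hα : α ^ p = 1) (hζ : ζ ^ p = 1) (e : EE p) :
    phi α ζ hc hα hζ e = lift' p (sg α ζ e) e := rfl

theorem phi_injective (α ζ : MulAut L) (hc : Commute α ζ) (hα : α ^ p = 1) (hζ : ζ ^ p = 1) :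
    Function.Injective (phi α ζ hc hα hζ) := by
  intro e f h
  have := congrArg Prod.snd h
  simpa [phi_apply, lift'] using this

theorem card_EE : Nat.card (EE p) = p ^ 2 := by
  haveI : NeZero p := ⟨hp.out.ne_zero⟩
  rw [Nat.card_prod]
  have : Nat.card (Multiplicative (ZMod p)) = p := by
    rw [show Nat.card (Multiplicative (ZMod p)) = Nat.card (ZMod p) from rfl, Nat.card_zmod]
  rw [this, sq]

theorem pow_p_EE (e : EE p) : e ^ p = 1 := by
  apply Prod.ext
  · show e.1 ^ p = 1
    apply Multiplicative.toAdd.injective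
    simp
  · show e.2 ^ p = 1
    apply Multiplicative.toAdd.injective
    simp

/-- The main formula. -/
theorem bw_aut (hpL : ¬ p ∣ Nat.card L) (α ζ : MulAut L) (hc : Commute α ζ) (hα : α ^ p = 1)
    (hζ : ζ ^ p = 1) :
    Nat.card L * (Nat.card (fixS α ⊓ fixS ζ : Subgroup L)) ^ p =
      Nat.card (fixS ζ) * ∏ i ∈ Finset.range p, Nat.card (fixS (α * ζ ^ i)) := by
  classical
  have hpp : p.Prime := hp.out
  haveI : NeZero p := ⟨hpp.ne_zero⟩
  haveI : Fact (1 < p) := ⟨hpp.one_lt⟩
  let φ := phi α ζ hc hα hζ
  have hφ : Function.Injective φ := phi_injective α ζ hc hα hζ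
  let K : Subgroup (Ext p L) := (iota p : L →* Ext p L).range
  let A : Subgroup (Ext p L) := φ.range
  have hcardK : Nat.card K = Nat.card L :=
    (Nat.card_congr (MonoidHom.ofInjective (iota_injective p)).toEquiv).symm
  have hcardA : Nat.card A = p ^ 2 := by
    rw [← card_EE (p := p)]
    exact (Nat.card_congr (MonoidHom.ofInjective hφ).toEquiv).symm
  have hAea : IsElementaryAbelian p A := by
    refine ⟨⟨⟨?_⟩⟩, ?_⟩
    · rintro ⟨_, e, rfl⟩ ⟨_, f, rfl⟩
      apply Subtype.ext
      show φ e * φ f = φ f * φ e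
      rw [← map_mul, ← map_mul, mul_comm]
    · rintro _ ⟨e, rfl⟩
      rw [← map_pow, pow_p_EE, map_one]
  have hpK : ¬ p ∣ Nat.card K := by rwa [hcardK]
  have hAK : A ≤ normalizer (K : Set (Ext p L)) := by
    rintro _ ⟨e, rfl⟩
    rw [mem_normalizer_iff]
    intro h
    constructor
    · rintro ⟨x, rfl⟩
      exact ⟨sg α ζ e x, (lift'_conj p _ e x).symm⟩
    · rintro ⟨x, hx⟩
      refine ⟨(sg α ζ e)⁻¹ x, ?_⟩
      have h1 : φ e * iota p ((sg α ζ e)⁻¹ x) * (φ e)⁻¹ = iota p x := by
        have := lift'_conj p (sg α ζ e) e ((sg α ζ e)⁻¹ x)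
        rw [show φ e = lift' p (sg α ζ e) e from rfl, this]
        congr 1
        exact MulEquiv.apply_symm_apply _ _
      rw [hx] at h1
      have h2 : φ e * (iota p ((sg α ζ e)⁻¹ x)) = φ e * h := by
        have h3 := congrArg (· * φ e) h1
        simpa [mul_assoc] using h3
      exact mul_left_cancel h2
  have hbw := bw_formula hAea hcardA hpK hAK
  -- fixed points of a cyclic subgroup
  have hfx : ∀ e : EE p, fx K (zpowers (φ e)) = Nat.card (fixS (sg α ζ e)) := by
    intro e
    have heq : K ⊓ centralizer ((zpowers (φ e) : Subgroup _) : Set (Ext p L)) =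
        (fixS (sg α ζ e)).map (iota p) := by
      ext x
      constructor
      · rintro ⟨⟨y, rfl⟩, hy⟩
        refine ⟨y, ?_, rfl⟩
        have := mem_centralizer_zpowers_iff.mp hy
        rw [show φ e = lift' p (sg α ζ e) e from rfl, lift'_conj] at this
        exact iota_injective p this
      · rintro ⟨y, hy, rfl⟩
        refine ⟨⟨y, rfl⟩, mem_centralizer_zpowers_iff.mpr ?_⟩
        rw [show φ e = lift' p (sg α ζ e) e from rfl, lift'_conj]
        exact congrArg _ hy
    show Nat.card (K ⊓ centralizer ((zpowers (φ e) : Subgroup _) : Set (Ext p L)) : Subgroup _) = _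
    rw [heq]
    exact (Nat.card_congr (Subgroup.equivMapOfInjective _ _ (iota_injective p)).toEquiv).symm
  have hfxA : fx K A = Nat.card (fixS α ⊓ fixS ζ : Subgroup L) := by
    have heq : K ⊓ centralizer (A : Set (Ext p L)) = (fixS α ⊓ fixS ζ).map (iota p) := by
      ext x
      constructor
      · rintro ⟨⟨y, rfl⟩, hy⟩
        refine ⟨y, ?_, rfl⟩
        have key : ∀ e : EE p, sg α ζ e y = y := by
          intro e
          have h1 := (mem_centralizer_iff.mp hy) (φ e) ⟨e, rfl⟩
          have h2 : φ e * iota p y * (φ e)⁻¹ = iota p y := by rw [h1]; group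
          rw [show φ e = lift' p (sg α ζ e) e from rfl, lift'_conj] at h2
          exact iota_injective p h2
        have h1 := key (Multiplicative.ofAdd 1, 1)
        have h2 := key (1, Multiplicative.ofAdd 1)
        have hv : (1 : ZMod p).val = 1 := ZMod.val_one p
        simp only [sg, toAdd_ofAdd, toAdd_one, ZMod.val_zero, hv, pow_one, pow_zero, mul_one,
          one_mul] at h1 h2
        exact ⟨h1, h2⟩
      · rintro ⟨y, ⟨hy1, hy2⟩, rfl⟩
        refine ⟨⟨y, rfl⟩, ?_⟩
        show iota p y ∈ centralizer (A : Set (Ext p L))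
        rw [mem_centralizer_iff]
        rintro _ ⟨e, rfl⟩
        have hfix : ∀ (β : MulAut L), β y = y → ∀ n : ℕ, (β ^ n) y = y := by
          intro β hβ n
          induction n with
          | zero => simp
          | succ n ih => rw [pow_succ, MulAut.mul_apply, hβ, ih]
        have h3 : sg α ζ e y = y := by
          simp only [sg, MulAut.mul_apply]
          rw [hfix ζ hy2, hfix α hy1]
        have h4 : φ e * iota p y * (φ e)⁻¹ = iota p y := by
          rw [show φ e = lift' p (sg α ζ e) e from rfl, lift'_conj, h3]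
        calc φ e * iota p y = (φ e * iota p y * (φ e)⁻¹) * φ e := by group
          _ = iota p y * φ e := by rw [h4]
    show Nat.card (K ⊓ centralizer (A : Set (Ext p L)) : Subgroup _) = _
    rw [heq]
    exact (Nat.card_congr (Subgroup.equivMapOfInjective _ _ (iota_injective p)).toEquiv).symm
  -- the lines
  let eI : EE p := (1, Multiplicative.ofAdd 1)
  let eF : ℕ → EE p := fun i => (Multiplicative.ofAdd 1, Multiplicative.ofAdd (i : ZMod p))
  have hne1 : ∀ e : EE p, e ≠ 1 → φ e ≠ 1 := fun e he h => he (hφ (by rw [h, map_one]))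
  have hline : ∀ e : EE p, e ≠ 1 → zpowers (φ e) ∈ lines p A := by
    intro e he
    rw [mem_lines]
    refine ⟨zpowers_le.mpr ⟨e, rfl⟩, ?_⟩
    rw [Nat.card_zpowers]
    exact orderOf_eq_prime (hAea.2 _ ⟨e, rfl⟩) (hne1 e he)
  have h01 : (1 : ZMod p) ≠ 0 := one_ne_zero
  have heIne : eI ≠ 1 := by
    intro h
    have h2 : (Multiplicative.ofAdd (1 : ZMod p)) = 1 := congrArg Prod.snd h
    exact h01 (Multiplicative.ofAdd.injective h2)
  have heFne : ∀ i, eF i ≠ 1 := by
    intro i h
    have h2 : (Multiplicative.ofAdd (1 : ZMod p)) = 1 := congrArg Prod.fst h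
    exact h01 (Multiplicative.ofAdd.injective h2)
  -- equal cyclic subgroups give powers
  have hzp : ∀ e f : EE p, zpowers (φ e) = zpowers (φ f) → ∃ k : ℕ, f = e ^ k := by
    intro e f h
    have h1 : φ f ∈ zpowers (φ e) := by rw [h]; exact mem_zpowers _
    rw [mem_zpowers_iff_mem_range_orderOf] at h1
    obtain ⟨k, -, hk⟩ := Finset.mem_image.mp h1
    refine ⟨k, hφ ?_⟩
    rw [map_pow, ← hk]
  have hinj : Set.InjOn (fun i : ℕ => zpowers (φ (eF i))) (Finset.range p : Set ℕ) := by
    intro i hi j hj h
    obtain ⟨k, hk⟩ := hzp _ _ h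
    have h1 : Multiplicative.ofAdd (1 : ZMod p) = (Multiplicative.ofAdd (1 : ZMod p)) ^ k :=
      congrArg Prod.fst hk
    have h2 : Multiplicative.ofAdd (j : ZMod p) = (Multiplicative.ofAdd (i : ZMod p)) ^ k :=
      congrArg Prod.snd hk
    rw [← ofAdd_nsmul] at h1 h2
    have h3 : (1 : ZMod p) = k • (1 : ZMod p) := Multiplicative.ofAdd.injective h1
    have h4 : (j : ZMod p) = k • (i : ZMod p) := Multiplicative.ofAdd.injective h2
    have h5 : (k : ZMod p) = 1 := by simpa using h3.symm
    have h6 : (j : ZMod p) = i := by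
      rw [h4, nsmul_eq_mul, h5, one_mul]
    have hi' : i < p := Finset.mem_range.mp hi
    have hj' : j < p := Finset.mem_range.mp hj
    have := congrArg ZMod.val h6
    rw [ZMod.val_natCast_of_lt hi', ZMod.val_natCast_of_lt hj'] at this
    exact this.symm
  have hnotin : zpowers (φ eI) ∉ (Finset.range p).image (fun i : ℕ => zpowers (φ (eF i))) := by
    intro h
    obtain ⟨i, -, hi⟩ := Finset.mem_image.mp h
    obtain ⟨k, hk⟩ := hzp _ _ hi
    have h1 : (1 : Multiplicative (ZMod p)) = (Multiplicative.ofAdd (1 : ZMod p)) ^ k :=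
      congrArg Prod.fst hk
    have h2 : Multiplicative.ofAdd (1 : ZMod p) = (Multiplicative.ofAdd (i : ZMod p)) ^ k :=
      congrArg Prod.snd hk
    rw [← ofAdd_nsmul] at h1 h2
    have h3 : (0 : ZMod p) = k • (1 : ZMod p) := Multiplicative.ofAdd.injective h1
    have h4 : (1 : ZMod p) = k • (i : ZMod p) := Multiplicative.ofAdd.injective h2
    have h5 : (k : ZMod p) = 0 := by simpa using h3.symm
    rw [nsmul_eq_mul, h5, zero_mul] at h4
    exact h01 h4
  have hlines : lines p A = insert (zpowers (φ eI))
      ((Finset.range p).image (fun i : ℕ => zpowers (φ (eF i)))) := by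
    symm
    apply Finset.eq_of_subset_of_card_le
    · intro B hB
      rcases Finset.mem_insert.mp hB with rfl | hB
      · exact hline _ heIne
      · obtain ⟨i, -, rfl⟩ := Finset.mem_image.mp hB
        exact hline _ (heFne i)
    · rw [card_lines hAea hcardA, Finset.card_insert_of_notMem hnotin,
        Finset.card_image_of_injOn hinj, Finset.card_range]
  rw [hfxA, hcardK, hlines, Finset.prod_insert hnotin, Finset.prod_image hinj, hfx] at hbw
  have hsgI : sg α ζ eI = ζ := by
    simp [sg, eI, ZMod.val_one p]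
  have hsgF : ∀ i ∈ Finset.range p, sg α ζ (eF i) = α * ζ ^ i := by
    intro i hi
    simp only [sg, eF, toAdd_ofAdd, ZMod.val_one p, pow_one]
    rw [ZMod.val_natCast_of_lt (Finset.mem_range.mp hi)]
  rw [hsgI] at hbw
  rw [hbw]
  congr 1
  apply Finset.prod_congr rfl
  intro i hi
  rw [hfx, hsgF i hi]

end main

end Cfsg.Agent.Lib.FG85.PEl1
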