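import Cfsg.Agent.Lib.FG85.PEl1
import Cfsg.Agent.Lib.Core.PSolvable

/-!
# Brauer-Wielandt inequality for two commuting automorphisms, and in an ambient group
-/

set_option autoImplicit false
set_option linter.style.haveILetI false

namespace Cfsg.Agent.Lib.FG85.PEl2

open Subgroup Cfsg Cfsg.Agent.Lib.FG85.PEl1

universe u

section aut

variable {L : Type u} [Group L]

/-- Restriction of an automorphism commuting with `τ` to the fixed points of `τ`. -/
def rest (τ σ : MulAut L) (h : Commute σ τ) : MulAut (fixS τ) where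
  toFun x := ⟨σ x.1, by
    have hx : τ x.1 = x.1 := x.2
    show τ (σ x.1) = σ x.1
    have := congrArg (fun f : MulAut L => f x.1) h.eq.symm
    simp only [MulAut.mul_apply] at this
    rw [this, hx]⟩
  invFun x := ⟨σ⁻¹ x.1, by
    have hx : τ x.1 = x.1 := x.2
    show τ (σ⁻¹ x.1) = σ⁻¹ x.1
    have := congrArg (fun f : MulAut L => f x.1) h.inv_left.eq.symm
    simp only [MulAut.mul_apply] at this
    rw [this, hx]⟩
  left_inv x := by
    apply Subtype.ext
    show σ⁻¹ (σ x.1) = x.1
    exact MulEquiv.symm_apply_apply _ _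
  right_inv x := by
    apply Subtype.ext
    show σ (σ⁻¹ x.1) = x.1
    exact MulEquiv.apply_symm_apply _ _
  map_mul' x y := by
    apply Subtype.ext
    show σ (x.1 * y.1) = σ x.1 * σ y.1
    exact map_mul _ _ _

@[simp] theorem rest_coe (τ σ : MulAut L) (h : Commute σ τ) (x : fixS τ) :
    ((rest τ σ h x : fixS τ) : L) = σ x.1 := rfl

theorem rest_pow_coe (τ σ : MulAut L) (h : Commute σ τ) (n : ℕ) (x : fixS τ) :
    (((rest τ σ h) ^ n) x : L) = (σ ^ n) x.1 := by
  induction n generalizing x with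
  | zero => simp
  | succ n ih =>
    rw [pow_succ, MulAut.mul_apply, ih, pow_succ, MulAut.mul_apply, rest_coe]

variable [Finite L]

/-- The inequality. -/
theorem bw_general {p : ℕ} [hp : Fact p.Prime] (hpL : ¬ p ∣ Nat.card L) (α ζ : MulAut L)
    (hc : Commute α ζ) (hζ : ζ ^ p = 1) :
    (∏ i ∈ Finset.range p, Nat.card (fixS (α * ζ ^ i))) * Nat.card (fixS ζ) ≤
      Nat.card L * (Nat.card (fixS α ⊓ fixS ζ : Subgroup L)) ^ p := by
  classical
  have hpp := hp.out
  let τ : MulAut L := α ^ p
  let L0 : Subgroup L := fixS τ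
  have hα0 : Commute α τ := (Commute.refl α).pow_right p
  have hζ0 : Commute ζ τ := (hc.symm).pow_right p
  let α' : MulAut L0 := rest τ α hα0
  let ζ' : MulAut L0 := rest τ ζ hζ0
  have hc' : Commute α' ζ' := by
    apply MulEquiv.ext
    intro x
    apply Subtype.ext
    exact congrArg (fun f : MulAut L => f x.1) hc.eq
  have hα' : α' ^ p = 1 := by
    apply MulEquiv.ext
    intro x
    apply Subtype.ext
    rw [rest_pow_coe]
    exact x.2
  have hζ' : ζ' ^ p = 1 := by
    apply MulEquiv.ext
    intro x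
    apply Subtype.ext
    rw [rest_pow_coe, hζ]
    rfl
  have hpL0 : ¬ p ∣ Nat.card L0 := fun h => hpL (h.trans (Subgroup.card_subgroup_dvd_card L0))
  have hbw := bw_aut hpL0 α' ζ' hc' hα' hζ'
  -- every fixed point set of `α ζ^i` lies in `L0`
  have hle : ∀ i : ℕ, fixS (α * ζ ^ i) ≤ L0 := by
    intro i x hx
    have hx' : (α * ζ ^ i) x = x := hx
    have hpow : ∀ n : ℕ, ((α * ζ ^ i) ^ n) x = x := by
      intro n
      induction n with
      | zero => simp
      | succ n ih => rw [pow_succ, MulAut.mul_apply, hx', ih]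
    have h1 := hpow p
    have hcomm : Commute α (ζ ^ i) := hc.pow_right i
    rw [hcomm.mul_pow, ← pow_mul, mul_comm i p, pow_mul, hζ, one_pow, mul_one] at h1
    exact h1
  have hcardi : ∀ i : ℕ, Nat.card (fixS (α' * ζ' ^ i)) = Nat.card (fixS (α * ζ ^ i)) := by
    intro i
    have heq : (fixS (α' * ζ' ^ i)).map L0.subtype = fixS (α * ζ ^ i) := by
      ext x
      constructor
      · rintro ⟨y, hy, rfl⟩
        have hy' : (α' * ζ' ^ i) y = y := hy
        have := congrArg Subtype.val hy'
        rw [MulAut.mul_apply] at this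
        show (α * ζ ^ i) y.1 = y.1
        rw [MulAut.mul_apply, ← rest_pow_coe τ ζ hζ0]
        exact this
      · intro hx
        refine ⟨⟨x, hle i hx⟩, ?_, rfl⟩
        show (α' * ζ' ^ i) _ = _
        apply Subtype.ext
        rw [MulAut.mul_apply]
        show α ((ζ' ^ i) ⟨x, hle i hx⟩ : L) = x
        rw [rest_pow_coe]
        exact hx
    rw [← heq]
    exact Nat.card_congr (Subgroup.equivMapOfInjective _ _ L0.subtype_injective).toEquiv
  have hcardc : Nat.card (fixS α' ⊓ fixS ζ' : Subgroup L0) =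
      Nat.card (fixS α ⊓ fixS ζ : Subgroup L) := by
    have heq : (fixS α' ⊓ fixS ζ' : Subgroup L0).map L0.subtype = fixS α ⊓ fixS ζ := by
      ext x
      constructor
      · rintro ⟨y, ⟨hy1, hy2⟩, rfl⟩
        exact ⟨congrArg Subtype.val hy1, congrArg Subtype.val hy2⟩
      · rintro ⟨hx1, hx2⟩
        have hx1' : α x = x := hx1
        have hx2' : ζ x = x := hx2
        have hmem : x ∈ L0 := by
          have : fixS (α * ζ ^ 0) ≤ L0 := hle 0
          apply this
          simp only [pow_zero, mul_one]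
          exact hx1
        refine ⟨⟨x, hmem⟩, ⟨?_, ?_⟩, rfl⟩
        · exact Subtype.ext hx1'
        · exact Subtype.ext hx2'
    rw [← heq]
    exact Nat.card_congr (Subgroup.equivMapOfInjective _ _ L0.subtype_injective).toEquiv
  have hcardz : Nat.card (fixS ζ') = Nat.card (L0 ⊓ fixS ζ : Subgroup L) := by
    have heq : (fixS ζ').map L0.subtype = L0 ⊓ fixS ζ := by
      ext x
      constructor
      · rintro ⟨y, hy, rfl⟩
        exact ⟨y.2, congrArg Subtype.val hy⟩
      · rintro ⟨hx1, hx2⟩
        exact ⟨⟨x, hx1⟩, Subtype.ext hx2, rfl⟩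
    rw [← heq]
    exact Nat.card_congr (Subgroup.equivMapOfInjective _ _ L0.subtype_injective).toEquiv
  rw [hcardc, hcardz, Finset.prod_congr rfl (fun i _ => hcardi i)] at hbw
  -- index inequality
  have hindex : Nat.card L0 * Nat.card (fixS ζ) ≤ Nat.card L * Nat.card (L0 ⊓ fixS ζ : Subgroup L) := by
    have h1 : (fixS ζ).relIndex L0 ≤ (fixS ζ).index := by
      have h0 := Subgroup.relIndex_le_of_le_right (H := fixS ζ) (K := L0) (L := ⊤) le_top
        (by rw [Subgroup.relIndex_top_right]; exact Subgroup.index_ne_zero_of_finite)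
      rwa [Subgroup.relIndex_top_right] at h0
    have h2 : Nat.card L0 = Nat.card (L0 ⊓ fixS ζ : Subgroup L) * (fixS ζ).relIndex L0 := by
      rw [← Subgroup.inf_relIndex_left (H := L0) (K := fixS ζ)]
      exact Cfsg.Agent.Lib.Core.PSolvable.card_eq_card_mul_relIndex inf_le_left
    have h3 : Nat.card (fixS ζ) * (fixS ζ).index = Nat.card L := Subgroup.card_mul_index _
    calc Nat.card L0 * Nat.card (fixS ζ)
        = Nat.card (L0 ⊓ fixS ζ : Subgroup L) * ((fixS ζ).relIndex L0 * Nat.card (fixS ζ)) := by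
          rw [h2]; ring
      _ ≤ Nat.card (L0 ⊓ fixS ζ : Subgroup L) * ((fixS ζ).index * Nat.card (fixS ζ)) :=
          Nat.mul_le_mul_left _ (Nat.mul_le_mul_right _ h1)
      _ = Nat.card L * Nat.card (L0 ⊓ fixS ζ : Subgroup L) := by
          rw [mul_comm (fixS ζ).index, h3, mul_comm]
  set PP := ∏ i ∈ Finset.range p, Nat.card (fixS (α * ζ ^ i))
  set c := Nat.card (fixS α ⊓ fixS ζ : Subgroup L)
  have hpos : 0 < Nat.card (L0 ⊓ fixS ζ : Subgroup L) := Nat.card_pos
  apply Nat.le_of_mul_le_mul_left _ hpos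
  calc Nat.card (L0 ⊓ fixS ζ : Subgroup L) * (PP * Nat.card (fixS ζ))
      = (Nat.card (L0 ⊓ fixS ζ : Subgroup L) * PP) * Nat.card (fixS ζ) := by ring
    _ = Nat.card L0 * c ^ p * Nat.card (fixS ζ) := by rw [← hbw]
    _ = (Nat.card L0 * Nat.card (fixS ζ)) * c ^ p := by ring
    _ ≤ (Nat.card L * Nat.card (L0 ⊓ fixS ζ : Subgroup L)) * c ^ p :=
        Nat.mul_le_mul_right _ hindex
    _ = _ := by ring

end aut

section ambient

variable {G : Type u} [Group G] [Finite G]

/-- Order of the centralizer of `g` in `L`. -/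
noncomputable def fxc (L : Subgroup G) (g : G) : ℕ := Nat.card (L ⊓ centralizer {g} : Subgroup G)

theorem fixS_map (L : Subgroup G) (a : normalizer (L : Set G)) :
    (fixS (L.normalizerMonoidHom a)).map L.subtype = L ⊓ centralizer {(a : G)} := by
  ext x
  constructor
  · rintro ⟨y, hy, rfl⟩
    refine ⟨y.2, ?_⟩
    have h1 : L.normalizerMonoidHom a y = y := hy
    have h2 : (a : G) * y.1 * (a : G)⁻¹ = y.1 := congrArg Subtype.val h1
    show y.1 ∈ centralizer {(a : G)}
    rw [mem_centralizer_singleton_iff]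
    calc y.1 * (a : G) = ((a : G) * y.1 * (a : G)⁻¹) * (a : G) := by rw [h2]
      _ = (a : G) * y.1 := by group
  · rintro ⟨hx, hx2⟩
    refine ⟨⟨x, hx⟩, ?_, rfl⟩
    apply Subtype.ext
    show (a : G) * x * (a : G)⁻¹ = x
    have hx2' : x ∈ centralizer {(a : G)} := hx2
    rw [mem_centralizer_singleton_iff] at hx2'
    calc (a : G) * x * (a : G)⁻¹ = (x * (a : G)) * (a : G)⁻¹ := by rw [hx2']
      _ = x := by group

theorem card_fixS (L : Subgroup G) (a : normalizer (L : Set G)) :
    Nat.card (fixS (L.normalizerMonoidHom a)) = fxc L (a : G) := by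
  rw [fxc, ← fixS_map]
  exact Nat.card_congr (Subgroup.equivMapOfInjective _ _ L.subtype_injective).toEquiv

theorem card_fixS_inf (L : Subgroup G) (a z : normalizer (L : Set G)) :
    Nat.card (fixS (L.normalizerMonoidHom a) ⊓ fixS (L.normalizerMonoidHom z) : Subgroup L) =
      Nat.card (L ⊓ centralizer {(a : G)} ⊓ centralizer {(z : G)} : Subgroup G) := by
  have heq : (fixS (L.normalizerMonoidHom a) ⊓ fixS (L.normalizerMonoidHom z) : Subgroup L).map L.subtype =
      L ⊓ centralizer {(a : G)} ⊓ centralizer {(z : G)} := by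
    rw [Subgroup.map_inf _ _ _ L.subtype_injective, fixS_map, fixS_map]
    ext x
    simp only [mem_inf]
    tauto
  rw [← heq]
  exact Nat.card_congr (Subgroup.equivMapOfInjective _ _ L.subtype_injective).toEquiv

/-- The ambient form of the inequality. -/
theorem bw_ambient {p : ℕ} [hp : Fact p.Prime] {L : Subgroup G} (hpL : ¬ p ∣ Nat.card L) {a z : G}
    (ha : a ∈ normalizer (L : Set G)) (hz : z ∈ normalizer (L : Set G))
    (hc : ∀ x ∈ L, (a * z) * x * (a * z)⁻¹ = (z * a) * x * (z * a)⁻¹)
    (hzp : ∀ x ∈ L, z ^ p * x * (z ^ p)⁻¹ = x) :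
    (∏ i ∈ Finset.range p, fxc L (a * z ^ i)) * fxc L z ≤
      Nat.card L * (Nat.card (L ⊓ centralizer {a} ⊓ centralizer {z} : Subgroup G)) ^ p := by
  let a' : normalizer (L : Set G) := ⟨a, ha⟩
  let z' : normalizer (L : Set G) := ⟨z, hz⟩
  let f := L.normalizerMonoidHom
  have hcomm : Commute (f a') (f z') := by
    show f a' * f z' = f z' * f a'
    rw [← map_mul, ← map_mul]
    apply MulEquiv.ext
    intro x
    apply Subtype.ext
    exact hc x.1 x.2
  have hzeta : f z' ^ p = 1 := by
    rw [← map_pow]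
    apply MulEquiv.ext
    intro x
    apply Subtype.ext
    exact hzp x.1 x.2
  have h := bw_general hpL (f a') (f z') hcomm hzeta
  have hprod : ∀ i ∈ Finset.range p, Nat.card (fixS (f a' * f z' ^ i)) = fxc L (a * z ^ i) := by
    intro i _
    rw [← map_pow, ← map_mul]
    exact card_fixS L (a' * z' ^ i)
  rw [Finset.prod_congr rfl hprod, card_fixS_inf L a' z', card_fixS L z'] at h
  exact h

end ambient

end Cfsg.Agent.Lib.FG85.PEl2
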