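import Cfsg.Agent.Lib.FG85.PEl2
import Cfsg.Agent.Lib.SolvStruct.Fit

/-!
# The averaging inequality for centralizers under a coprime `p`-group
-/

set_option autoImplicit false
set_option linter.style.haveILetI false

namespace Cfsg.Agent.Lib.FG85.PEl3

open Subgroup Cfsg Cfsg.Agent.Lib.FG85.PEl2

universe u

variable {G : Type u} [Group G] [Finite G]

/-- Sum over a subgroup. -/
noncomputable def sP (P : Subgroup G) (f : G → ℝ) : ℝ :=
  ∑ r ∈ (Set.toFinite (P : Set G)).toFinset, f r

theorem sP_mul_right (P : Subgroup G) (f : G → ℝ) {z : G} (hz : z ∈ P) :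
    sP P (fun r => f (r * z)) = sP P f := by
  classical
  unfold sP
  apply Finset.sum_nbij' (· * z) (· * z⁻¹)
  · intro r hr
    simp only [Set.Finite.mem_toFinset, SetLike.mem_coe] at hr ⊢
    exact P.mul_mem hr hz
  · intro r hr
    simp only [Set.Finite.mem_toFinset, SetLike.mem_coe] at hr ⊢
    exact P.mul_mem hr (P.inv_mem hz)
  · intro r _; simp
  · intro r _; simp
  · intro r _; rfl

theorem sP_const (P : Subgroup G) (c : ℝ) : sP P (fun _ => c) = (Nat.card P : ℝ) * c := by
  classical
  unfold sP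
  rw [Finset.sum_const, nsmul_eq_mul]
  congr 2
  rw [← Set.ncard_eq_toFinset_card, ← Nat.card_coe_set_eq]
  rfl

theorem sP_mono (P : Subgroup G) {f g : G → ℝ} (h : ∀ r ∈ P, f r ≤ g r) : sP P f ≤ sP P g := by
  apply Finset.sum_le_sum
  intro r hr
  exact h r (by simpa using hr)

theorem sP_mul_left (P : Subgroup G) (c : ℝ) (f : G → ℝ) :
    sP P (fun r => c * f r) = c * sP P f := by
  unfold sP
  rw [Finset.mul_sum]

theorem sP_sum (P : Subgroup G) {ι : Type*} (s : Finset ι) (f : ι → G → ℝ) :
    sP P (fun r => ∑ i ∈ s, f i r) = ∑ i ∈ s, sP P (f i) := by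
  unfold sP
  rw [Finset.sum_comm]

theorem sP_congr (P : Subgroup G) {f g : G → ℝ} (h : ∀ r ∈ P, f r = g r) : sP P f = sP P g := by
  apply Finset.sum_congr rfl
  intro r hr
  exact h r (by simpa using hr)

/-- The exponent. -/
noncomputable def ee (p : ℕ) : ℝ := ((p : ℝ) - 1) / p

/-- AM-GM in the form used. -/
theorem amgm_step {p : ℕ} (hp : 0 < p) (f : ℕ → ℝ) (hf : ∀ i, 0 < f i) {A B : ℝ} (hA : 0 < A)
    (hB : 0 < B) (h : A ^ (p - 1) * B ^ p ≤ ∏ i ∈ Finset.range p, f i) :
    (p : ℝ) * (A ^ ee p * B) ≤ ∑ i ∈ Finset.range p, f i := by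
  have hp' : (0 : ℝ) < p := by exact_mod_cast hp
  have hgm := Real.geom_mean_le_arith_mean_weighted (Finset.range p) (fun _ => (1 : ℝ) / p) f
    (fun _ _ => by positivity) (by simp [hp'.ne']) (fun i _ => (hf i).le)
  have h1 : ∏ i ∈ Finset.range p, f i ^ ((1 : ℝ) / p) =
      (∏ i ∈ Finset.range p, f i) ^ ((1 : ℝ) / p) :=
    Real.finsetProd_rpow _ _ (fun i _ => (hf i).le) _
  have h2 : A ^ ee p * B = (A ^ (p - 1) * B ^ p) ^ ((1 : ℝ) / p) := by
    rw [Real.mul_rpow (by positivity) (by positivity)]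
    congr 1
    · rw [← Real.rpow_natCast, ← Real.rpow_mul hA.le]
      congr 1
      rw [ee, Nat.cast_sub hp]
      simp
      ring
    · rw [← Real.rpow_natCast, ← Real.rpow_mul hB.le]
      rw [mul_one_div_cancel hp'.ne', Real.rpow_one]
  have h3 : (A ^ (p - 1) * B ^ p) ^ ((1 : ℝ) / p) ≤ (∏ i ∈ Finset.range p, f i) ^ ((1 : ℝ) / p) :=
    Real.rpow_le_rpow (by positivity) h (by positivity)
  have h4 : ∑ i ∈ Finset.range p, (1 : ℝ) / p * f i = (1 / p) * ∑ i ∈ Finset.range p, f i := by
    rw [Finset.mul_sum]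
  calc (p : ℝ) * (A ^ ee p * B) ≤ p * (∏ i ∈ Finset.range p, f i) ^ ((1 : ℝ) / p) := by
        rw [h2]
        exact mul_le_mul_of_nonneg_left h3 hp'.le
    _ ≤ p * ((1 / p) * ∑ i ∈ Finset.range p, f i) := by
        apply mul_le_mul_of_nonneg_left _ hp'.le
        rw [← h1, ← h4]
        exact hgm
    _ = _ := by field_simp

/-- A `z` in `P₀` acting nontrivially with central image of order `p` in the image of `Q`. -/
theorem exists_z {p : ℕ} [hp : Fact p.Prime] {Q P₀ : Subgroup G} (hQ : IsPGroup p Q) (hP₀ : P₀ ≤ Q)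
    (hn : ∀ q ∈ Q, ∀ r ∈ P₀, q * r * q⁻¹ ∈ P₀) (C : Subgroup G)
    (hC : ∀ q ∈ Q, ∀ c ∈ C, q * c * q⁻¹ ∈ C) (hnot : ¬ P₀ ≤ C) :
    ∃ z ∈ P₀, z ∉ C ∧ z ^ p ∈ C ∧ ∀ q ∈ Q, (z * q)⁻¹ * (q * z) ∈ C := by
  classical
  have hpp := hp.out
  let K : Subgroup Q := C.subgroupOf Q
  haveI hKn : K.Normal := by
    constructor
    intro c hc q
    show ((q : G) * c * (q : G)⁻¹) ∈ C
    exact hC q q.2 c hc
  let Qb := Q ⧸ K
  have hQb : IsPGroup p Qb := hQ.to_quotient K
  haveI : Group.IsNilpotent Qb := hQb.isNilpotent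
  let π : Q →* Qb := QuotientGroup.mk' K
  have hπ : Function.Surjective π := QuotientGroup.mk'_surjective K
  let Pb : Subgroup Qb := (P₀.subgroupOf Q).map π
  haveI hPb : Pb.Normal := by
    haveI : (P₀.subgroupOf Q).Normal := by
      constructor
      intro r hr q
      exact hn q q.2 r hr
    exact Subgroup.Normal.map inferInstance π hπ
  have hPbne : Pb ≠ ⊥ := by
    intro h
    apply hnot
    intro r hr
    have h1 : π ⟨r, hP₀ hr⟩ ∈ Pb := ⟨⟨r, hP₀ hr⟩, hr, rfl⟩
    rw [h, mem_bot] at h1
    have h2 : (⟨r, hP₀ hr⟩ : Q) ∈ K := (QuotientGroup.eq_one_iff _).mp h1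
    exact h2
  have hinf := Cfsg.Agent.Lib.SolvStruct.Fit.inf_center_ne_bot Pb hPbne
  obtain ⟨⟨x, hx⟩, hx1'⟩ := Subgroup.ne_bot_iff_exists_ne_one.mp hinf
  have hx1 : x ≠ 1 := fun h => hx1' (Subtype.ext h)
  obtain ⟨k, hk⟩ := (IsPGroup.iff_orderOf.mp hQb) x
  have hk0 : k ≠ 0 := by
    rintro rfl
    rw [pow_zero, orderOf_eq_one_iff] at hk
    exact hx1 hk
  obtain ⟨m, rfl⟩ := Nat.exists_eq_succ_of_ne_zero hk0
  let w := x ^ p ^ m
  have hwmem : w ∈ Pb ⊓ center Qb := (Pb ⊓ center Qb).pow_mem hx _
  have hw1 : w ≠ 1 := by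
    intro h
    have := orderOf_dvd_of_pow_eq_one h
    rw [hk] at this
    have h2 := Nat.le_of_dvd (pow_pos hpp.pos _) this
    have h3 : p ^ m < p ^ (m + 1) := Nat.pow_lt_pow_right hpp.one_lt (Nat.lt_succ_self m)
    exact absurd h2 (not_le.mpr h3)
  have hwp : w ^ p = 1 := by
    show (x ^ p ^ m) ^ p = 1
    rw [← pow_mul, ← pow_succ, ← hk, pow_orderOf_eq_one]
  obtain ⟨⟨z, hzQ⟩, hzP, hzw⟩ := hwmem.1
  have hzP' : z ∈ P₀ := hzP
  refine ⟨z, hzP', ?_, ?_, ?_⟩
  · intro hzC
    apply hw1
    rw [← hzw]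
    exact (QuotientGroup.eq_one_iff _).mpr hzC
  · have h1 : π (⟨z, hzQ⟩ ^ p) = 1 := by rw [map_pow, hzw, hwp]
    have h2 : (⟨z, hzQ⟩ : Q) ^ p ∈ K := (QuotientGroup.eq_one_iff _).mp h1
    exact h2
  · intro q hq
    have hcen : w ∈ center Qb := hwmem.2
    have h1 : π ⟨q, hq⟩ * w = w * π ⟨q, hq⟩ := (Subgroup.mem_center_iff.mp hcen) _
    rw [← hzw, ← map_mul, ← map_mul] at h1
    have h2 : (⟨z, hzQ⟩ * ⟨q, hq⟩ : Q)⁻¹ * (⟨q, hq⟩ * ⟨z, hzQ⟩) ∈ K :=
      QuotientGroup.eq.mp h1.symm
    exact h2

/-- The averaging inequality. -/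
theorem core {p : ℕ} [hp : Fact p.Prime] {Q P₀ : Subgroup G} (hQ : IsPGroup p Q) (hP₀ : P₀ ≤ Q)
    (hn : ∀ q ∈ Q, ∀ r ∈ P₀, q * r * q⁻¹ ∈ P₀) {y : G} (hy : y ∈ Q) :
    ∀ (n : ℕ) (L : Subgroup G), Nat.card L ≤ n → ¬ p ∣ Nat.card L → (∀ q ∈ Q, ∀ x ∈ L, q * x * q⁻¹ ∈ L) →
      (Nat.card P₀ : ℝ) *
          ((Nat.card L : ℝ) / Nat.card (L ⊓ centralizer (P₀ : Set G) : Subgroup G)) ^ ee p *
          ((Nat.card (L ⊓ centralizer (P₀ : Set G) : Subgroup G) : ℝ) /
            fxc (L ⊓ centralizer (P₀ : Set G)) y) ≤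
        sP P₀ (fun r => (Nat.card L : ℝ) / fxc L (y * r)) := by
  classical
  have hpp := hp.out
  intro n
  induction n with
  | zero =>
    intro L hL
    have : 0 < Nat.card L := Nat.card_pos
    omega
  | succ n ih =>
    intro L hL hpL hQL
    by_cases hcase : P₀ ≤ centralizer (L : Set G)
    · -- base case
      have hL1 : L ⊓ centralizer (P₀ : Set G) = L := by
        apply inf_eq_left.mpr
        intro x hx
        rw [mem_centralizer_iff]
        intro r hr
        exact ((mem_centralizer_iff.mp (hcase hr)) x hx).symm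
      have hfx : ∀ r ∈ P₀, fxc L (y * r) = fxc L y := by
        intro r hr
        unfold fxc
        congr 2
        ext x
        simp only [mem_inf, and_congr_right_iff]
        intro hx
        rw [mem_centralizer_singleton_iff, mem_centralizer_singleton_iff]
        have hc : x * r = r * x := (mem_centralizer_iff.mp (hcase hr)) x hx
        constructor
        · intro h
          have h2 : x * y * r = y * x * r := by
            calc x * y * r = x * (y * r) := by group
              _ = y * r * x := h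
              _ = y * (r * x) := by group
              _ = y * (x * r) := by rw [hc]
              _ = y * x * r := by group
          exact mul_right_cancel h2
        · intro h
          calc x * (y * r) = (x * y) * r := by group
            _ = y * x * r := by rw [h]
            _ = y * (x * r) := by group
            _ = y * (r * x) := by rw [hc]
            _ = y * r * x := by group
      rw [hL1, sP_congr P₀ (fun r hr => by rw [hfx r hr]), sP_const]
      have hpos : (0 : ℝ) < Nat.card L := by exact_mod_cast Nat.card_pos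
      rw [div_self hpos.ne', Real.one_rpow, mul_one]
    · have hC : ∀ q ∈ Q, ∀ c ∈ centralizer (L : Set G), q * c * q⁻¹ ∈ centralizer (L : Set G) := by
        intro q hq c hc
        rw [mem_centralizer_iff]
        intro x hx
        have h1 : q⁻¹ * x * q ∈ L := by
          have := hQL q⁻¹ (Q.inv_mem hq) x hx
          simpa using this
        have h2 := (mem_centralizer_iff.mp hc) _ h1
        calc x * (q * c * q⁻¹) = q * ((q⁻¹ * x * q) * c) * q⁻¹ := by group
          _ = q * (c * (q⁻¹ * x * q)) * q⁻¹ := by rw [h2]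
          _ = q * c * q⁻¹ * x := by group
      obtain ⟨z, hzP, hzC, hzp, hzq⟩ := exists_z hQ hP₀ hn (centralizer (L : Set G)) hC hcase
      have hzQ : z ∈ Q := hP₀ hzP
      -- the smaller subgroup
      let L' : Subgroup G := L ⊓ centralizer {z}
      have hL'L : L' ≤ L := inf_le_left
      have hL'lt : Nat.card L' < Nat.card L := by
        apply lt_of_le_of_ne (Nat.card_le_card_of_injective _ (Subgroup.inclusion_injective hL'L))
        intro he
        have h1 : L' = L := Subgroup.eq_of_le_of_card_ge hL'L (by omega)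
        apply hzC
        rw [mem_centralizer_iff]
        intro x hx
        have h2 : x ∈ L' := h1 ▸ hx
        have h3 : x ∈ centralizer {z} := h2.2
        rw [mem_centralizer_singleton_iff] at h3
        exact h3
      have hpL' : ¬ p ∣ Nat.card L' := fun h => hpL (h.trans (Subgroup.card_dvd_of_le hL'L))
      have hQL' : ∀ q ∈ Q, ∀ x ∈ L', q * x * q⁻¹ ∈ L' := by
        intro q hq x hx
        refine ⟨hQL q hq x hx.1, ?_⟩
        show q * x * q⁻¹ ∈ centralizer {z}
        rw [mem_centralizer_singleton_iff]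
        have hxz : x * z = z * x := by
          have h3 : x ∈ centralizer {z} := hx.2
          rwa [mem_centralizer_singleton_iff] at h3
        -- `c = (z q)⁻¹ (q z)` centralizes `L`
        set c := (z * q)⁻¹ * (q * z) with hcdef
        have hcC : c ∈ centralizer (L : Set G) := hzq q hq
        have hxc : x * c⁻¹ = c⁻¹ * x :=
          (mem_centralizer_iff.mp ((centralizer (L : Set G)).inv_mem hcC)) x hx.1
        have hqz : q⁻¹ * z * q = z * c⁻¹ := by
          rw [hcdef]; group
        calc q * x * q⁻¹ * z = q * x * (q⁻¹ * z * q) * q⁻¹ := by group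
          _ = q * x * (z * c⁻¹) * q⁻¹ := by rw [hqz]
          _ = q * (x * z) * c⁻¹ * q⁻¹ := by group
          _ = q * (z * x) * c⁻¹ * q⁻¹ := by rw [hxz]
          _ = q * z * (x * c⁻¹) * q⁻¹ := by group
          _ = q * z * (c⁻¹ * x) * q⁻¹ := by rw [hxc]
          _ = q * (z * c⁻¹) * x * q⁻¹ := by group
          _ = q * (q⁻¹ * z * q) * x * q⁻¹ := by rw [hqz]
          _ = z * (q * x * q⁻¹) := by group
      have hL1 : L' ⊓ centralizer (P₀ : Set G) = L ⊓ centralizer (P₀ : Set G) := by
        ext x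
        constructor
        · rintro ⟨h1, h2⟩
          exact ⟨h1.1, h2⟩
        · rintro ⟨h1, h2⟩
          refine ⟨⟨h1, ?_⟩, h2⟩
          show x ∈ centralizer {z}
          rw [mem_centralizer_singleton_iff]
          exact ((mem_centralizer_iff.mp h2) z hzP).symm
      have hih := ih L' (by omega) hpL' hQL'
      rw [hL1] at hih
      -- notation
      set L₁ := L ⊓ centralizer (P₀ : Set G) with hL₁
      have hppos : 0 < p := hpp.pos
      have hp' : (0 : ℝ) < p := by exact_mod_cast hppos
      have cpos : ∀ K : Subgroup G, (0 : ℝ) < Nat.card K := fun K => by exact_mod_cast Nat.card_pos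
      have fxcpos : ∀ (K : Subgroup G) (g : G), (0 : ℝ) < fxc K g := fun K g => by
        unfold fxc; exact_mod_cast Nat.card_pos
      let h : G → ℝ := fun r => (Nat.card L : ℝ) / fxc L (y * r)
      have hhpos : ∀ r, 0 < h r := fun r => div_pos (cpos L) (fxcpos L _)
      let A : ℝ := (Nat.card L : ℝ) / Nat.card L'
      have hApos : 0 < A := div_pos (cpos L) (cpos L')
      let B : G → ℝ := fun r => (Nat.card L' : ℝ) / fxc L' (y * r)
      have hBpos : ∀ r, 0 < B r := fun r => div_pos (cpos L') (fxcpos L' _)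
      -- the inequality for each `r`
      have hper : ∀ r ∈ P₀, (p : ℝ) * (A ^ ee p * B r) ≤
          ∑ i ∈ Finset.range p, h (r * z ^ i) := by
        intro r hr
        have haQ : y * r ∈ Q := Q.mul_mem hy (hP₀ hr)
        have hnorm : ∀ g ∈ Q, g ∈ normalizer (L : Set G) := by
          intro g hg
          rw [mem_normalizer_iff]
          intro x
          constructor
          · exact hQL g hg x
          · intro hx
            have := hQL g⁻¹ (Q.inv_mem hg) _ hx
            simpa [mul_assoc] using this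
        have hbw := bw_ambient hpL (hnorm _ haQ) (hnorm _ hzQ)
          (by
            intro x hx
            set a := y * r
            have hc := hzq a haQ
            set c := (z * a)⁻¹ * (a * z) with hcdef
            have hxc : c * x = x * c := ((mem_centralizer_iff.mp hc) x hx).symm
            have haz : a * z = z * a * c := by rw [hcdef]; group
            rw [haz]
            calc z * a * c * x * (z * a * c)⁻¹ = z * a * (c * x) * c⁻¹ * (z * a)⁻¹ := by group
              _ = z * a * (x * c) * c⁻¹ * (z * a)⁻¹ := by rw [hxc]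
              _ = _ := by group)
          (by
            intro x hx
            have hc := (mem_centralizer_iff.mp hzp) x hx
            rw [← hc]
            group)
        have hf : ∀ i, h (r * z ^ i) = (Nat.card L : ℝ) / fxc L (y * r * z ^ i) := by
          intro i
          show (Nat.card L : ℝ) / fxc L (y * (r * z ^ i)) = _
          rw [mul_assoc]
        have hsum : ∑ i ∈ Finset.range p, h (r * z ^ i) =
            ∑ i ∈ Finset.range p, (Nat.card L : ℝ) / fxc L (y * r * z ^ i) :=
          Finset.sum_congr rfl (fun i _ => hf i)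
        rw [hsum]
        apply amgm_step hppos (fun i => (Nat.card L : ℝ) / fxc L (y * r * z ^ i))
          (fun i => div_pos (cpos L) (fxcpos L _)) hApos (hBpos r)
        -- the product estimate
        rw [Finset.prod_div_distrib, Finset.prod_const, Finset.card_range]
        obtain ⟨m, hm⟩ : ∃ m, p = m + 1 := ⟨p - 1, by omega⟩
        set PF : ℝ := ∏ i ∈ Finset.range p, (fxc L (y * r * z ^ i) : ℝ) with hPF
        have hPFpos : 0 < PF := Finset.prod_pos (fun i _ => fxcpos L _)
        have hcast : PF * Nat.card L' ≤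
            (Nat.card L : ℝ) * (Nat.card (L ⊓ centralizer {y * r} ⊓ centralizer {z} : Subgroup G) : ℝ) ^ p := by
          rw [hPF]
          exact_mod_cast hbw
        have hBr : fxc L' (y * r) = Nat.card (L ⊓ centralizer {y * r} ⊓ centralizer {z} : Subgroup G) := by
          unfold fxc
          congr 2
          exact inf_right_comm _ _ _
        show A ^ (p - 1) * ((Nat.card L' : ℝ) / fxc L' (y * r)) ^ p ≤ (Nat.card L : ℝ) ^ p / PF
        rw [hBr]
        set d : ℝ := (Nat.card (L ⊓ centralizer {y * r} ⊓ centralizer {z} : Subgroup G) : ℝ) with hd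
        have hdpos : 0 < d := cpos _
        set n' : ℝ := (Nat.card L : ℝ)
        set c' : ℝ := (Nat.card L' : ℝ)
        have hn'pos : 0 < n' := cpos L
        have hc'pos : 0 < c' := cpos L'
        show (n' / c') ^ (p - 1) * (c' / d) ^ p ≤ n' ^ p / PF
        rw [hm] at hcast ⊢
        simp only [Nat.add_sub_cancel]
        rw [le_div_iff₀ hPFpos, div_pow, div_pow]
        have h1 : n' ^ m / c' ^ m * (c' ^ (m + 1) / d ^ (m + 1)) * PF =
            n' ^ m * ((PF * c') / d ^ (m + 1)) := by
          field_simp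
          ring
        rw [h1]
        have h2 : (PF * c') / d ^ (m + 1) ≤ n' := by
          rw [div_le_iff₀ (by positivity)]
          exact hcast
        calc n' ^ m * ((PF * c') / d ^ (m + 1)) ≤ n' ^ m * n' :=
              mul_le_mul_of_nonneg_left h2 (by positivity)
          _ = n' ^ (m + 1) := (pow_succ _ _).symm
      -- summing
      have hsumi : ∀ i ∈ Finset.range p, sP P₀ (fun r => h (r * z ^ i)) = sP P₀ h := by
        intro i _
        exact sP_mul_right P₀ h (P₀.pow_mem hzP i)
      have htot : (p : ℝ) * sP P₀ h = sP P₀ (fun r => ∑ i ∈ Finset.range p, h (r * z ^ i)) := by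
        rw [sP_sum]
        rw [Finset.sum_congr rfl hsumi, Finset.sum_const, Finset.card_range, nsmul_eq_mul]
      have hlow : sP P₀ (fun r => (p : ℝ) * (A ^ ee p * B r)) ≤ (p : ℝ) * sP P₀ h := by
        rw [htot]
        exact sP_mono P₀ hper
      rw [sP_mul_left, sP_mul_left] at hlow
      have hlow2 : A ^ ee p * sP P₀ B ≤ sP P₀ h := le_of_mul_le_mul_left hlow hp'
      have hih' : (Nat.card P₀ : ℝ) * ((Nat.card L' : ℝ) / Nat.card L₁) ^ ee p *
          ((Nat.card L₁ : ℝ) / fxc L₁ y) ≤ sP P₀ B := hih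
      have hApow : 0 < A ^ ee p := Real.rpow_pos_of_pos hApos _
      have hsplit : ((Nat.card L : ℝ) / Nat.card L₁) ^ ee p =
          A ^ ee p * ((Nat.card L' : ℝ) / Nat.card L₁) ^ ee p := by
        rw [← Real.mul_rpow hApos.le (div_pos (cpos L') (cpos L₁)).le]
        congr 1
        show (Nat.card L : ℝ) / Nat.card L₁ = (Nat.card L : ℝ) / Nat.card L' * _
        have := cpos L'
        have := cpos L₁
        field_simp
      rw [hsplit]
      calc _ = A ^ ee p * ((Nat.card P₀ : ℝ) * ((Nat.card L' : ℝ) / Nat.card L₁) ^ ee p *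
              ((Nat.card L₁ : ℝ) / fxc L₁ y)) := by ring
        _ ≤ A ^ ee p * sP P₀ B := mul_le_mul_of_nonneg_left hih' hApow.le
        _ ≤ sP P₀ h := hlow2

end Cfsg.Agent.Lib.FG85.PEl3
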