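import Cfsg.Agent.Lib.FG85.PEl3
import Cfsg.Agent.Lib.OddSym.TopA

/-!
# Counting `p`-elements: passing to the normalizer of `P₀`
-/

set_option autoImplicit false
set_option linter.style.haveILetI false

namespace Cfsg.Agent.Lib.FG85.PEl4

open Subgroup Cfsg Cfsg.Agent.Lib.FG85.PEl2 Cfsg.Agent.Lib.FG85.PEl3

universe u

variable {G : Type u} [Group G] [Finite G]

/-- The double counting. -/
theorem double_count {X Y : Finset G} (ω ω₁ : G → Finset G) (h1 : ∀ y ∈ Y, ω y ⊆ X)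
    (h2 : ∀ y ∈ Y, ∀ x ∈ ω y, ∀ y' ∈ Y, x ∈ ω y' → y' ∈ ω₁ y) :
    ∑ y ∈ Y, ((ω y).card : ℝ) / (ω₁ y).card ≤ X.card := by
  classical
  have e1 : ∑ y ∈ Y, ((ω y).card : ℝ) / (ω₁ y).card =
      ∑ y ∈ Y, ∑ x ∈ ω y, (1 : ℝ) / (ω₁ y).card := by
    apply Finset.sum_congr rfl
    intro y _
    rw [Finset.sum_const, nsmul_eq_mul, mul_one_div]
  have e2 : ∑ y ∈ Y, ∑ x ∈ ω y, (1 : ℝ) / (ω₁ y).card =
      ∑ x ∈ X, ∑ y ∈ Y.filter (fun y => x ∈ ω y), (1 : ℝ) / (ω₁ y).card := by
    apply Finset.sum_comm'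
    intro y x
    simp only [Finset.mem_filter]
    constructor
    · rintro ⟨hy, hx⟩
      exact ⟨⟨hy, hx⟩, h1 y hy hx⟩
    · rintro ⟨⟨hy, hx⟩, _⟩
      exact ⟨hy, hx⟩
  rw [e1, e2]
  have e3 : ∀ x ∈ X, ∑ y ∈ Y.filter (fun y => x ∈ ω y), (1 : ℝ) / (ω₁ y).card ≤ 1 := by
    intro x _
    set S := Y.filter (fun y => x ∈ ω y) with hS
    by_cases hemp : S = ∅
    · rw [hemp]; simp
    have hSpos : 0 < S.card := Finset.card_pos.mpr (Finset.nonempty_iff_ne_empty.mpr hemp)
    have hle : ∀ y ∈ S, (1 : ℝ) / (ω₁ y).card ≤ 1 / S.card := by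
      intro y hy
      have hy' := Finset.mem_filter.mp hy
      have hsub : S ⊆ ω₁ y := by
        intro y' hy''
        have hy2 := Finset.mem_filter.mp hy''
        exact h2 y hy'.1 x hy'.2 y' hy2.1 hy2.2
      have hc : S.card ≤ (ω₁ y).card := Finset.card_le_card hsub
      apply one_div_le_one_div_of_le (by exact_mod_cast hSpos)
      exact_mod_cast hc
    calc ∑ y ∈ S, (1 : ℝ) / (ω₁ y).card ≤ ∑ _y ∈ S, (1 : ℝ) / S.card := Finset.sum_le_sum hle
      _ = 1 := by
        rw [Finset.sum_const, nsmul_eq_mul]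
        have : (S.card : ℝ) ≠ 0 := by exact_mod_cast hSpos.ne'
        field_simp
  calc ∑ x ∈ X, ∑ y ∈ Y.filter (fun y => x ∈ ω y), (1 : ℝ) / (ω₁ y).card
      ≤ ∑ _x ∈ X, (1 : ℝ) := Finset.sum_le_sum e3
    _ = X.card := by simp

/-- The `K`-conjugacy class of `y`. -/
noncomputable def om (K : Subgroup G) (y : G) : Finset G :=
  (Set.toFinite (Set.range (fun l : K => (l : G) * y * (l : G)⁻¹))).toFinset

theorem mem_om {K : Subgroup G} {y x : G} : x ∈ om K y ↔ ∃ l ∈ K, l * y * l⁻¹ = x := by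
  simp [om]

/-- Orbit-stabilizer. -/
theorem card_om (K : Subgroup G) (y : G) : ((om K y).card : ℝ) = (Nat.card K : ℝ) / fxc K y := by
  classical
  letI act : MulAction K G :=
    { smul := fun l g => (l : G) * g * (l : G)⁻¹
      one_smul := fun g => by
        show ((1 : K) : G) * g * ((1 : K) : G)⁻¹ = g
        simp
      mul_smul := fun a b g => by
        show ((a * b : K) : G) * g * ((a * b : K) : G)⁻¹ = (a : G) * ((b : G) * g * (b : G)⁻¹) * (a : G)⁻¹
        simp only [coe_mul]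
        group }
  have h1 : (om K y).card = (MulAction.orbit K y).ncard := by
    rw [om, ← Set.ncard_eq_toFinset_card]
    rfl
  have h2 : (MulAction.stabilizer K y).index = (MulAction.orbit K y).ncard :=
    MulAction.index_stabilizer K y
  have h3 : Nat.card (MulAction.stabilizer K y) = fxc K y := by
    unfold fxc
    have heq : (MulAction.stabilizer K y).map K.subtype = K ⊓ centralizer {y} := by
      ext x
      constructor
      · rintro ⟨l, hl, rfl⟩
        have hl' : (l : G) * y * (l : G)⁻¹ = y := hl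
        refine ⟨l.2, ?_⟩
        show (l : G) ∈ centralizer {y}
        rw [mem_centralizer_singleton_iff]
        calc (l : G) * y = ((l : G) * y * (l : G)⁻¹) * l := by group
          _ = y * l := by rw [hl']
      · rintro ⟨hx, hx2⟩
        have hx3 : x ∈ centralizer {y} := hx2
        rw [mem_centralizer_singleton_iff] at hx3
        refine ⟨⟨x, hx⟩, ?_, rfl⟩
        show x * y * x⁻¹ = y
        rw [hx3]
        group
    rw [← heq]
    exact Nat.card_congr (Subgroup.equivMapOfInjective _ _ K.subtype_injective).toEquiv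
  have h4 : Nat.card (MulAction.stabilizer K y) * (MulAction.stabilizer K y).index = Nat.card K :=
    Subgroup.card_mul_index _
  rw [h1, ← h2, ← h4, h3]
  have : (fxc K y : ℝ) ≠ 0 := by
    unfold fxc
    exact_mod_cast Nat.card_pos.ne'
  push_cast
  field_simp

/-- Being a `p`-element. -/
def IsPEl (p : ℕ) (g : G) : Prop := ∃ k : ℕ, orderOf g = p ^ k

theorem isPEl_iff {p : ℕ} (hp : p.Prime) {g : G} : IsPEl p g ↔ ∃ k : ℕ, g ^ p ^ k = 1 := by
  constructor
  · rintro ⟨k, hk⟩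
    exact ⟨k, by rw [← hk, pow_orderOf_eq_one]⟩
  · rintro ⟨k, hk⟩
    obtain ⟨j, -, hj⟩ := (Nat.dvd_prime_pow hp).mp (orderOf_dvd_of_pow_eq_one hk)
    exact ⟨j, hj⟩

/-- Conjugate orbits meeting the normalizer. -/
theorem conj_in_normalizer {p : ℕ} [hp : Fact p.Prime] {L P₀ : Subgroup G} (hLn : L.Normal)
    (hpL : ¬ p ∣ Nat.card L) {y l : G} (hy : y ∈ normalizer (P₀ : Set G)) (hyp : IsPEl p y) (hl : l ∈ L)
    (hx : l * y * l⁻¹ ∈ normalizer (P₀ : Set G)) :
    ∃ b ∈ L ⊓ normalizer (P₀ : Set G), b * y * b⁻¹ = l * y * l⁻¹ := by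
  classical
  haveI : Fintype G := Fintype.ofFinite G
  have hpp := hp.out
  let B : Subgroup G := L ⊓ normalizer (P₀ : Set G)
  let S : Subgroup G := zpowers y
  have hnorm : ∀ s ∈ S, ∀ b ∈ B, s * b * s⁻¹ ∈ B := by
    rintro _ ⟨k, rfl⟩ b hb
    refine ⟨hLn.conj_mem _ hb.1 _, ?_⟩
    have hs : y ^ k ∈ normalizer (P₀ : Set G) := (normalizer (P₀ : Set G)).zpow_mem hy k
    exact (normalizer (P₀ : Set G)).mul_mem ((normalizer (P₀ : Set G)).mul_mem hs hb.2)
      ((normalizer (P₀ : Set G)).inv_mem hs)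
  obtain ⟨k, hk⟩ := hyp
  have hcardS : Nat.card S = p ^ k := by
    rw [Nat.card_zpowers, hk]
  have hpB : ¬ p ∣ Nat.card B := fun h => hpL (h.trans (Subgroup.card_dvd_of_le inf_le_left))
  have hcop : (Nat.card B).Coprime (Nat.card S) := by
    rw [hcardS]
    apply Nat.Coprime.pow_right
    exact ((Nat.Prime.coprime_iff_not_dvd hpp).mpr hpB).symm
  have hsolS : Group.IsSolvable S := by
    haveI : IsMulCommutative S := inferInstance
    infer_instance
  obtain ⟨b, hb, hfix⟩ := Cfsg.Agent.Lib.OddSym.TopA.exists_fixed_in_coset hnorm hcop (Or.inr hsolS) l⁻¹ (by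
    rintro _ ⟨k, rfl⟩
    show (l⁻¹)⁻¹ * (y ^ k * l⁻¹ * (y ^ k)⁻¹) ∈ B
    refine ⟨?_, ?_⟩
    · have h1 : (l⁻¹)⁻¹ * (y ^ k * l⁻¹ * (y ^ k)⁻¹) = l * (y ^ k * l⁻¹ * (y ^ k)⁻¹) := by group
      rw [h1]
      exact L.mul_mem hl (hLn.conj_mem _ (L.inv_mem hl) _)
    · have h1 : (l⁻¹)⁻¹ * (y ^ k * l⁻¹ * (y ^ k)⁻¹) = (l * y * l⁻¹) ^ k * (y ^ k)⁻¹ := by
        have : (l * y * l⁻¹) ^ k = l * y ^ k * l⁻¹ := conj_zpow
        rw [this]
        group
      rw [h1]
      exact (normalizer (P₀ : Set G)).mul_mem ((normalizer (P₀ : Set G)).zpow_mem hx k)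
        ((normalizer (P₀ : Set G)).inv_mem ((normalizer (P₀ : Set G)).zpow_mem hy k)))
  refine ⟨b, hb, ?_⟩
  have h1 := hfix y (mem_zpowers y)
  -- `y (l⁻¹ b) y⁻¹ = l⁻¹ b`
  have h2 : l * y * l⁻¹ * b = b * y := by
    have h3 : y * (l⁻¹ * b) = (l⁻¹ * b) * y := by
      calc y * (l⁻¹ * b) = (y * (l⁻¹ * b) * y⁻¹) * y := by group
        _ = (l⁻¹ * b) * y := by rw [h1]
    calc l * y * l⁻¹ * b = l * (y * (l⁻¹ * b)) := by group
      _ = l * ((l⁻¹ * b) * y) := by rw [h3]
      _ = b * y := by group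
  calc b * y * b⁻¹ = l * y * l⁻¹ * b * b⁻¹ := by rw [h2]
    _ = l * y * l⁻¹ := by group

/-- A normal `p'`-subgroup normalizing a `p`-subgroup centralizes it. -/
theorem inf_normalizer_eq {p : ℕ} [hp : Fact p.Prime] {L P₀ : Subgroup G} (hLn : L.Normal)
    (hpL : ¬ p ∣ Nat.card L) (hP₀ : IsPGroup p P₀) :
    L ⊓ normalizer (P₀ : Set G) = L ⊓ centralizer (P₀ : Set G) := by
  have hLP : ∀ t ∈ L, t ∈ P₀ → t = 1 := by
    intro t htL htP
    obtain ⟨k, hk⟩ := (IsPGroup.iff_orderOf.mp hP₀) ⟨t, htP⟩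
    have hk' : orderOf t = p ^ k := by
      rw [← hk]
      exact (Subgroup.orderOf_mk t htP).symm
    have h1 : p ^ k ∣ Nat.card L := by
      rw [← hk']
      have := orderOf_dvd_natCard (⟨t, htL⟩ : L)
      rwa [Subgroup.orderOf_mk] at this
    have hk0 : k = 0 := by
      by_contra hne
      exact hpL ((dvd_pow_self p hne).trans h1)
    rw [hk0, pow_zero, orderOf_eq_one_iff] at hk'
    exact hk'
  apply le_antisymm
  · rintro x ⟨hxL, hxN⟩
    refine ⟨hxL, ?_⟩
    show x ∈ centralizer (P₀ : Set G)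
    rw [mem_centralizer_iff]
    intro r hr
    have h1 : x * r * x⁻¹ ∈ P₀ := (mem_normalizer_iff.mp hxN r).mp hr
    have h2 : x * r * x⁻¹ * r⁻¹ ∈ P₀ := P₀.mul_mem h1 (P₀.inv_mem hr)
    have h3 : x * r * x⁻¹ * r⁻¹ ∈ L := by
      have : x * r * x⁻¹ * r⁻¹ = x * (r * x⁻¹ * r⁻¹) := by group
      rw [this]
      exact L.mul_mem hxL (hLn.conj_mem _ (L.inv_mem hxL) _)
    have h4 := hLP _ h3 h2
    have h5 : x * r = r * x := by
      calc x * r = (x * r * x⁻¹ * r⁻¹) * (r * x) := by group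
        _ = r * x := by rw [h4, one_mul]
    exact h5.symm
  · exact inf_le_inf_left _ (Subgroup.centralizer_le_normalizer _)

open Classical in
/-- The `p`-elements of `G` as a finite set. -/
noncomputable def pEls (p : ℕ) (G : Type u) [Group G] [Finite G] : Finset G :=
  (Set.toFinite {g : G | IsPEl p g}).toFinset

theorem mem_pEls {p : ℕ} {g : G} : g ∈ pEls p G ↔ IsPEl p g := by
  simp [pEls]

open Classical in
/-- The bound. -/
theorem pel_bound {p : ℕ} [hp : Fact p.Prime] {L P₀ : Subgroup G} (hLn : L.Normal)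
    (hpL : ¬ p ∣ Nat.card L) (hP₀ : IsPGroup p P₀) :
    ((Nat.card L : ℝ) / Nat.card (L ⊓ centralizer (P₀ : Set G) : Subgroup G)) ^ ee p *
        (((pEls p G).filter (fun g => g ∈ normalizer (P₀ : Set G))).card : ℝ) ≤ (pEls p G).card := by
  classical
  have hpp := hp.out
  set N : Subgroup G := normalizer (P₀ : Set G) with hN
  set L₁ : Subgroup G := L ⊓ centralizer (P₀ : Set G) with hL₁
  set X := pEls p G with hX
  set Y := X.filter (fun g => g ∈ N) with hY
  set c : ℝ := ((Nat.card L : ℝ) / Nat.card L₁) ^ ee p with hc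
  have hL1N : L ⊓ N ≤ L₁ := (inf_normalizer_eq hLn hpL hP₀).le
  -- the double counting
  have hdc := double_count (X := X) (Y := Y) (om L) (om L₁)
    (by
      intro y hy x hx
      obtain ⟨l, -, rfl⟩ := mem_om.mp hx
      have hy' : IsPEl p y := mem_pEls.mp (Finset.mem_filter.mp hy).1
      obtain ⟨k, hk⟩ := (isPEl_iff hpp).mp hy'
      refine mem_pEls.mpr ((isPEl_iff hpp).mpr ⟨k, ?_⟩)
      rw [conj_pow, hk]
      group)
    (by
      intro y hy x hx y' hy' hx'
      obtain ⟨l, hl, rfl⟩ := mem_om.mp hx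
      obtain ⟨l', hl', he⟩ := mem_om.mp hx'
      have hyN := (Finset.mem_filter.mp hy).2
      have hyp : IsPEl p y := mem_pEls.mp (Finset.mem_filter.mp hy).1
      have hy'N := (Finset.mem_filter.mp hy').2
      have e : y' = (l'⁻¹ * l) * y * (l'⁻¹ * l)⁻¹ := by
        have : l' * y' * l'⁻¹ = l * y * l⁻¹ := he
        calc y' = l'⁻¹ * (l' * y' * l'⁻¹) * l' := by group
          _ = l'⁻¹ * (l * y * l⁻¹) * l' := by rw [this]
          _ = _ := by group
      obtain ⟨b, hb, hbe⟩ := conj_in_normalizer hLn hpL hyN hyp (L.mul_mem (L.inv_mem hl') hl)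
        (by rw [← e]; exact hy'N)
      exact mem_om.mpr ⟨b, hL1N hb, by rw [hbe, ← e]⟩)
  set W : G → ℝ := fun y => ((om L y).card : ℝ) / (om L₁ y).card with hW
  have cpos : ∀ K : Subgroup G, (0 : ℝ) < Nat.card K := fun K => by exact_mod_cast Nat.card_pos
  have fxcpos : ∀ (K : Subgroup G) (g : G), (0 : ℝ) < fxc K g := fun K g => by
    unfold fxc; exact_mod_cast Nat.card_pos
  have hWe : ∀ y, W y = ((Nat.card L : ℝ) / fxc L y) / ((Nat.card L₁ : ℝ) / fxc L₁ y) := by
    intro y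
    simp only [hW, card_om]
  -- closure of `Y` under `P₀`
  have hQ : ∀ y ∈ Y, IsPGroup p (zpowers y ⊔ P₀ : Subgroup G) := by
    intro y hy
    have hyN := (Finset.mem_filter.mp hy).2
    obtain ⟨k, hk⟩ := mem_pEls.mp (Finset.mem_filter.mp hy).1
    have hH : IsPGroup p (zpowers y) := IsPGroup.of_card (n := k) (by rw [Nat.card_zpowers, hk])
    exact hH.to_sup_of_normal_right' hP₀ (zpowers_le.mpr hyN)
  have hYr : ∀ y ∈ Y, ∀ r ∈ P₀, y * r ∈ Y := by
    intro y hy r hr
    have hyN := (Finset.mem_filter.mp hy).2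
    refine Finset.mem_filter.mpr ⟨mem_pEls.mpr ?_, N.mul_mem hyN (Subgroup.le_normalizer hr)⟩
    have hmem : y * r ∈ (zpowers y ⊔ P₀ : Subgroup G) :=
      mul_mem_sup (mem_zpowers y) hr
    obtain ⟨k, hk⟩ := (IsPGroup.iff_orderOf.mp (hQ y hy)) ⟨y * r, hmem⟩
    refine ⟨k, ?_⟩
    rw [← hk]
    exact (Subgroup.orderOf_mk _ hmem).symm
  -- the estimate for a single `y`
  have hone : ∀ y ∈ Y, (Nat.card P₀ : ℝ) * c ≤ sP P₀ (fun r => W (y * r)) := by
    intro y hy
    have hyN := (Finset.mem_filter.mp hy).2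
    have hQle : (zpowers y ⊔ P₀ : Subgroup G) ≤ N := sup_le (zpowers_le.mpr hyN) Subgroup.le_normalizer
    have hcore := core (hQ y hy) (le_sup_right : P₀ ≤ zpowers y ⊔ P₀)
      (fun q hq r hr => (mem_normalizer_iff.mp (hQle hq) r).mp hr)
      (mem_sup_left (mem_zpowers y)) (Nat.card L) L le_rfl hpL
      (fun q _ x hx => hLn.conj_mem x hx q)
    have hfx : ∀ r ∈ P₀, fxc L₁ (y * r) = fxc L₁ y := by
      intro r hr
      unfold fxc
      congr 2
      ext x
      simp only [mem_inf, and_congr_right_iff]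
      rintro ⟨-, hx⟩
      have hc : x * r = r * x := ((mem_centralizer_iff.mp hx) r hr).symm
      rw [mem_centralizer_singleton_iff, mem_centralizer_singleton_iff]
      constructor
      · intro h
        have h2 : x * y * r = y * x * r := by
          calc x * y * r = x * (y * r) := by group
            _ = y * r * x := h
            _ = y * (r * x) := by group
            _ = y * (x * r) := by rw [hc]
            _ = y * x * r := by group
        exact mul_right_cancel h2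
      · intro h
        calc x * (y * r) = (x * y) * r := by group
          _ = y * x * r := by rw [h]
          _ = y * (x * r) := by group
          _ = y * (r * x) := by rw [hc]
          _ = y * r * x := by group
    set D : ℝ := (Nat.card L₁ : ℝ) / fxc L₁ y with hD
    have hDpos : 0 < D := div_pos (cpos L₁) (fxcpos L₁ y)
    have hWr : ∀ r ∈ P₀, W (y * r) = D⁻¹ * ((Nat.card L : ℝ) / fxc L (y * r)) := by
      intro r hr
      rw [hWe, hfx r hr, div_eq_inv_mul]
    rw [sP_congr P₀ hWr, sP_mul_left]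
    rw [← div_eq_inv_mul, le_div_iff₀ hDpos]
    exact hcore
  -- summing up
  have hsum : ∑ y ∈ Y, sP P₀ (fun r => W (y * r)) = (Nat.card P₀ : ℝ) * ∑ y ∈ Y, W y := by
    rw [← sP_sum]
    have : ∀ r ∈ P₀, ∑ y ∈ Y, W (y * r) = ∑ y ∈ Y, W y := by
      intro r hr
      apply Finset.sum_nbij' (· * r) (· * r⁻¹)
      · intro y hy; exact hYr y hy r hr
      · intro y hy; exact hYr y hy r⁻¹ (P₀.inv_mem hr)
      · intro y _; simp
      · intro y _; simp
      · intro y _; rfl
    rw [sP_congr P₀ this, sP_const]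
  have hlow : (Y.card : ℝ) * ((Nat.card P₀ : ℝ) * c) ≤ (Nat.card P₀ : ℝ) * ∑ y ∈ Y, W y := by
    rw [← hsum, ← nsmul_eq_mul]
    calc Y.card • ((Nat.card P₀ : ℝ) * c) = ∑ _y ∈ Y, ((Nat.card P₀ : ℝ) * c) := by
          rw [Finset.sum_const]
      _ ≤ _ := Finset.sum_le_sum hone
  have hfin : c * (Y.card : ℝ) ≤ ∑ y ∈ Y, W y := by
    have hp0 := cpos P₀
    apply le_of_mul_le_mul_left _ hp0
    linarith
  exact hfin.trans hdc

end Cfsg.Agent.Lib.FG85.PEl4
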