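import Cfsg.Agent.Lib.FG85.PEl4
import Cfsg.Agent.Lib.Core.PSolvable

/-!
# Counting `p`-elements in `p`-solvable groups
-/

set_option autoImplicit false
set_option linter.style.haveILetI false

namespace Cfsg.Agent.Lib.FG85.PEl5

open Subgroup Cfsg Cfsg.Agent.Lib.FG85.PEl2 Cfsg.Agent.Lib.FG85.PEl3 Cfsg.Agent.Lib.FG85.PEl4
open Cfsg.Agent.Lib.Core.PSolvable

universe u

section quotient

variable {G : Type u} [Group G] [Finite G] {p : ℕ} [hp : Fact p.Prime]

/-- `p`-elements modulo a normal `p`-subgroup. -/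
theorem isPEl_mk_iff {E : Subgroup G} [E.Normal] (hE : IsPGroup p E) {g : G} :
    IsPEl p (QuotientGroup.mk' E g) ↔ IsPEl p g := by
  have hpp := hp.out
  rw [isPEl_iff hpp, isPEl_iff hpp]
  constructor
  · rintro ⟨k, hk⟩
    rw [← map_pow] at hk
    have h1 : g ^ p ^ k ∈ E := (QuotientGroup.eq_one_iff _).mp hk
    obtain ⟨m, hm⟩ := (IsPGroup.iff_orderOf.mp hE) ⟨_, h1⟩
    have h2 : orderOf (g ^ p ^ k) = p ^ m := by
      rw [← hm]
      exact (Subgroup.orderOf_mk _ h1).symm
    refine ⟨k + m, ?_⟩
    rw [pow_add, pow_mul, ← h2, pow_orderOf_eq_one]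
  · rintro ⟨k, hk⟩
    exact ⟨k, by rw [← map_pow, hk, map_one]⟩

open Classical in
/-- The number of `p`-elements modulo a normal `p`-subgroup. -/
theorem card_pEls_quotient {E : Subgroup G} [E.Normal] (hE : IsPGroup p E) :
    (pEls p G).card = Nat.card E * (pEls p (G ⧸ E)).card := by
  let π := QuotientGroup.mk' E
  have hmaps : ∀ x ∈ pEls p G, π x ∈ pEls p (G ⧸ E) := by
    intro x hx
    exact mem_pEls.mpr ((isPEl_mk_iff hE).mpr (mem_pEls.mp hx))
  rw [Finset.card_eq_sum_card_fiberwise hmaps]
  have hfib : ∀ b ∈ pEls p (G ⧸ E), ((pEls p G).filter (fun x => π x = b)).card = Nat.card E := by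
    intro b hb
    obtain ⟨g, rfl⟩ := QuotientGroup.mk'_surjective E b
    let F : Finset G := (Set.toFinite (E : Set G)).toFinset
    have hF : F.card = Nat.card E := by
      rw [← Set.ncard_eq_toFinset_card, ← Nat.card_coe_set_eq]
      rfl
    rw [← hF]
    have : (pEls p G).filter (fun x => π x = π g) = F.image (fun r => g * r) := by
      ext x
      simp only [Finset.mem_filter, Finset.mem_image]
      constructor
      · rintro ⟨-, hx⟩
        refine ⟨g⁻¹ * x, ?_, by group⟩
        have h1 : g⁻¹ * x ∈ E := QuotientGroup.eq.mp hx.symm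
        simpa [F] using h1
      · rintro ⟨r, hr, rfl⟩
        have hr' : r ∈ E := by simpa [F] using hr
        have h2 : π (g * r) = π g := by
          apply QuotientGroup.eq.mpr
          simpa using hr'
        refine ⟨mem_pEls.mpr ((isPEl_mk_iff hE).mp ?_), h2⟩
        rw [h2]
        exact mem_pEls.mp hb
    rw [this, Finset.card_image_of_injective _ (mul_right_injective g)]
  rw [Finset.sum_congr rfl hfib, Finset.sum_const, smul_eq_mul, mul_comm]

/-- Number of Sylow subgroups modulo a normal `p`-subgroup. -/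
theorem card_sylow_quotient {E : Subgroup G} [hEn : E.Normal] (hE : IsPGroup p E) :
    Nat.card (Sylow p G) = Nat.card (Sylow p (G ⧸ E)) := by
  have P : Sylow p G := default
  have hπ : Function.Surjective (QuotientGroup.mk' E) := QuotientGroup.mk'_surjective E
  have hEP : E ≤ P := by
    have hsup : IsPGroup p (E ⊔ (P : Subgroup G) : Subgroup G) :=
      hE.to_sup_of_normal_left P.isPGroup'
    have h1 := P.3 hsup le_sup_right
    rw [← h1]
    exact le_sup_left
  have hQ : ((P.mapSurjective hπ : Sylow p (G ⧸ E)) : Subgroup (G ⧸ E)) = (P : Subgroup G).map (QuotientGroup.mk' E) :=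
    Sylow.coe_mapSurjective _ _
  have e1 := P.card_eq_index_normalizer
  have e2 := (P.mapSurjective hπ : Sylow p (G ⧸ E)).card_eq_index_normalizer
  have hQ' : ((P.mapSurjective hπ : Sylow p (G ⧸ E)) : Set (G ⧸ E)) =
      (((P : Subgroup G).map (QuotientGroup.mk' E) : Subgroup _) : Set _) := by
    rw [← hQ]
    rfl
  rw [e1, e2, hQ']
  rw [← Subgroup.index_comap_of_surjective _ hπ, comap_normalizer_eq_of_surjective _ hπ]
  have hker : (QuotientGroup.mk' E).ker ≤ (P : Subgroup G) := by
    rw [QuotientGroup.ker_mk']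
    exact hEP
  rw [Subgroup.comap_map_eq_self hker]
  rfl

/-- The order of a Sylow subgroup modulo a normal `p`-subgroup. -/
theorem card_sylow_sub_quotient {E : Subgroup G} [hEn : E.Normal] (hE : IsPGroup p E) (P : Sylow p G)
    (Q : Sylow p (G ⧸ E)) : Nat.card (P : Subgroup G) = Nat.card E * Nat.card (Q : Subgroup (G ⧸ E)) := by
  have hpp := hp.out
  rw [Sylow.card_eq_multiplicity P, Sylow.card_eq_multiplicity Q]
  obtain ⟨a, ha⟩ := IsPGroup.iff_card.mp hE
  have hcard : Nat.card G = Nat.card E * Nat.card (G ⧸ E) := by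
    have := Subgroup.card_mul_index E
    rw [← this]
    rfl
  have hpos : Nat.card (G ⧸ E) ≠ 0 := Nat.card_pos.ne'
  rw [hcard, ha, Nat.factorization_mul (pow_ne_zero _ hpp.ne_zero) hpos, Finsupp.add_apply,
    Nat.factorization_pow, pow_add]
  simp [hpp.factorization_self]

end quotient

section descent

variable {G : Type u} [Group G] [Finite G] {p : ℕ} [hp : Fact p.Prime]

omit hp in
open Classical in
/-- The `p`-elements in a subgroup. -/
theorem card_pEls_subgroup (N : Subgroup G) :
    (pEls p N).card = ((pEls p G).filter (fun g => g ∈ N)).card := by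
  apply Finset.card_bij (fun (x : N) _ => (x : G))
  · intro x hx
    obtain ⟨k, hk⟩ := mem_pEls.mp hx
    refine Finset.mem_filter.mpr ⟨mem_pEls.mpr ⟨k, ?_⟩, x.2⟩
    rw [← hk]
    exact (Subgroup.orderOf_coe x)
  · intro a _ b _ h
    exact Subtype.ext h
  · intro g hg
    obtain ⟨h1, h2⟩ := Finset.mem_filter.mp hg
    obtain ⟨k, hk⟩ := mem_pEls.mp h1
    refine ⟨⟨g, h2⟩, mem_pEls.mpr ⟨k, ?_⟩, rfl⟩
    rw [← hk]
    exact (Subgroup.orderOf_mk g h2)

/-- The normalizer of `P` inside a subgroup. -/
theorem normalizer_subgroup_index {N : Subgroup G} (Q : Sylow p N) :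
    Nat.card (Sylow p N) =
      (normalizer (((Q : Subgroup N).map N.subtype : Subgroup G) : Set G)).relIndex N := by
  rw [Q.card_eq_index_normalizer]
  show _ = ((normalizer (((Q : Subgroup N).map N.subtype : Subgroup G) : Set G)).subgroupOf N).index
  congr 1
  ext n
  rw [mem_subgroupOf]
  have key : ∀ x : N, (x ∈ (Q : Subgroup N)) ↔ ((x : G) ∈ (Q : Subgroup N).map N.subtype) := by
    intro x
    constructor
    · intro hx
      exact ⟨x, hx, rfl⟩
    · rintro ⟨y, hy, he⟩
      have e : y = x := Subtype.ext he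
      rw [← e]
      exact hy
  constructor
  · intro h
    have h' := mem_normalizer_iff.mp h
    refine mem_normalizer_iff.mpr ?_
    intro g
    constructor
    · intro hg
      obtain ⟨x, hx, rfl⟩ := hg
      have h2 := (h' x).mp hx
      exact (key _).mp h2
    · intro hg
      have hgN : g ∈ N := by
        have h1 : (n : G) * g * (n : G)⁻¹ ∈ N := by
          obtain ⟨y, -, he⟩ := hg
          rw [← he]
          exact y.2
        have h2 : g = (n : G)⁻¹ * ((n : G) * g * (n : G)⁻¹) * n := by group
        rw [h2]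
        exact N.mul_mem (N.mul_mem (N.inv_mem n.2) h1) n.2
      have h3 := (key (n * ⟨g, hgN⟩ * n⁻¹)).mpr hg
      exact (key ⟨g, hgN⟩).mp ((h' _).mpr h3)
  · intro h
    have h' := mem_normalizer_iff.mp h
    refine mem_normalizer_iff.mpr ?_
    intro x
    constructor
    · intro hx
      exact (key _).mpr ((h' x).mp ((key x).mp hx))
    · intro hx
      exact (key x).mpr ((h' x).mpr ((key _).mp hx))

end descent

section setup

theorem relIndex_ker_comap {G H : Type u} [Group G] [Group H] (π : G →* H) (hπ : Function.Surjective π)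
    (D : Subgroup H) : π.ker.relIndex (D.comap π) = Nat.card D := by
  have e2 : π.ker = (⊥ : Subgroup H).comap π := rfl
  rw [e2, Subgroup.relIndex_comap, Subgroup.map_comap_eq_self_of_surjective hπ,
    Subgroup.relIndex_bot_left]

variable {G : Type u} [Group G] [Finite G] {p : ℕ} [hp : Fact p.Prime]

open Cfsg.Agent.Lib.Core.Basic in
/-- The normal `p`-section above `O_{p'}`. -/
theorem exists_setup (hG : IsPSolvable p G) (hpG : p ∣ Nat.card G) :
    ∃ T P₀ : Subgroup G, T.Normal ∧ IsPGroup p P₀ ∧ P₀ ≠ ⊥ ∧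
      pPrimeCore p G ⊔ normalizer (P₀ : Set G) = ⊤ ∧
      (∀ R : Subgroup G, IsPGroup p R → P₀ ≤ R → R ⊓ T = P₀) := by
  have hpp := hp.out
  set O : Subgroup G := pPrimeCore p G with hO
  have hOtop : O ≠ ⊤ := by
    intro h
    have := pPrimeCore_eq_top_iff.mp h
    exact ((Nat.Prime.coprime_iff_not_dvd hpp).mp this.symm) hpG
  let H := G ⧸ O
  let π : G →* H := QuotientGroup.mk' O
  have hπ : Function.Surjective π := QuotientGroup.mk'_surjective O
  have hπk : π.ker = O := QuotientGroup.ker_mk' O
  have hHsol : IsPSolvable p H := isPSolvable_of_surjective π hπ hG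
  have hHcore : pPrimeCore p H = ⊥ := pPrimeCore_quotient_eq_bot
  let D : Subgroup H := pCore p H
  have hDn : D.Normal := pCore_normal p H
  have hD : IsPGroup p D := pCore_isPGroup
  have hD1 : D ≠ ⊥ := by
    intro h
    have h1 := centralizer_pCore_le_of_isPSolvable hHsol hHcore
    have h2 : centralizer (pCore p H : Set H) = ⊤ := by
      show centralizer (D : Set H) = ⊤
      rw [h]
      simp
    rw [h2] at h1
    have h3 : (⊤ : Subgroup H) = ⊥ := by
      rw [eq_bot_iff]
      rw [← h]
      exact h1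
    have h4 : O = ⊤ := by
      rw [← hπk, MonoidHom.ker_eq_top_iff] 
      ext x
      have : π x ∈ (⊤ : Subgroup H) := mem_top _
      rw [h3] at this
      exact (mem_bot.mp this)
    exact hOtop h4
  let T : Subgroup G := D.comap π
  have hTn : T.Normal := hDn.comap π
  let P₀' : Sylow p T := default
  let P₀ : Subgroup G := (P₀' : Subgroup T).map T.subtype
  have hP₀p : IsPGroup p P₀ := P₀'.isPGroup'.map T.subtype
  have hP₀T : P₀ ≤ T := by
    rintro _ ⟨x, -, rfl⟩
    exact x.2
  have hOT : O ≤ T := by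
    intro x hx
    show π x ∈ D
    have : π x = 1 := by
      rw [← MonoidHom.mem_ker, hπk]
      exact hx
    rw [this]
    exact one_mem _
  -- `T ≤ O ⊔ P₀`
  have hTle : T ≤ O ⊔ P₀ := by
    have h1 : (O ⊔ P₀).relIndex T ∣ P₀.relIndex T := relIndex_dvd_of_le_left _ le_sup_right
    have h2 : (O ⊔ P₀).relIndex T ∣ O.relIndex T := relIndex_dvd_of_le_left _ le_sup_left
    have h3 : O.relIndex T = Nat.card D := by
      have := relIndex_ker_comap π hπ D
      rwa [hπk] at this
    have h4 : P₀.relIndex T = (P₀' : Subgroup T).index := by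
      show ((P₀' : Subgroup T).map T.subtype).relIndex T = _
      rw [Subgroup.relIndex]
      show (((P₀' : Subgroup T).map T.subtype).comap T.subtype).index = _
      rw [comap_map_eq_self_of_injective T.subtype_injective]
    have h5 : ¬ p ∣ P₀.relIndex T := by
      rw [h4]
      exact P₀'.not_dvd_index
    obtain ⟨k, hk⟩ := IsPGroup.iff_card.mp hD
    rw [h3, hk] at h2
    obtain ⟨j, -, hj⟩ := (Nat.dvd_prime_pow hpp).mp h2
    have hj0 : j = 0 := by
      by_contra hne
      apply h5
      refine (dvd_pow_self p hne).trans ?_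
      rw [← hj]
      exact h1
    rw [hj0, pow_zero] at hj
    exact Subgroup.relIndex_eq_one.mp hj
  have hP₀1 : P₀ ≠ ⊥ := by
    intro h
    apply hD1
    rw [eq_bot_iff]
    intro x hx
    obtain ⟨g, rfl⟩ := hπ x
    have hg : g ∈ T := hx
    have hg2 := hTle hg
    rw [h, sup_bot_eq] at hg2
    have hg3 : g ∈ π.ker := by
      rw [hπk]
      exact hg2
    exact mem_bot.mpr hg3
  refine ⟨T, P₀, hTn, hP₀p, hP₀1, ?_, ?_⟩
  · have hF : normalizer (P₀ : Set G) ⊔ T = ⊤ := Sylow.normalizer_sup_eq_top P₀'
    rw [eq_top_iff, ← hF]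
    refine sup_le le_sup_right (hTle.trans (sup_le le_sup_left ?_))
    exact le_sup_of_le_right Subgroup.le_normalizer
  · intro R hR hPR
    apply le_antisymm _ (le_inf hPR hP₀T)
    -- `R ⊓ T` is a `p`-subgroup of `T` containing `P₀'`
    have h1 : IsPGroup p ((R ⊓ T).subgroupOf T : Subgroup T) :=
      IsPGroup.comap_of_injective (hR.to_le inf_le_left) T.subtype T.subtype_injective
    have h2 : (P₀' : Subgroup T) ≤ (R ⊓ T).subgroupOf T := by
      intro x hx
      rw [mem_subgroupOf]
      exact le_inf hPR hP₀T ⟨x, hx, rfl⟩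
    have h3 := P₀'.3 h1 h2
    rintro x ⟨hxR, hxT⟩
    have h4 : (⟨x, hxT⟩ : T) ∈ (R ⊓ T).subgroupOf T := by
      rw [mem_subgroupOf]
      exact ⟨hxR, hxT⟩
    rw [h3] at h4
    exact ⟨⟨x, hxT⟩, h4, rfl⟩

end setup

section main

theorem index_of_sup_eq_top {G : Type u} [Group G] [Finite G] {O N : Subgroup G} [hO : O.Normal]
    (h : O ⊔ N = ⊤) : Nat.card (O ⊓ N : Subgroup G) * N.index = Nat.card O := by
  have h1 : Nat.card N * N.index = Nat.card G := Subgroup.card_mul_index N
  have h2 : Nat.card O * O.index = Nat.card G := Subgroup.card_mul_index O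
  have h3 : O.relIndex N = O.index := by
    have := Subgroup.relIndex_sup_left N O
    rw [h, Subgroup.relIndex_top_right] at this
    exact this.symm
  have h4 : Nat.card N = Nat.card (O ⊓ N : Subgroup G) * (O ⊓ N).relIndex N :=
    card_eq_card_mul_relIndex inf_le_right
  have h5 : (O ⊓ N).relIndex N = O.relIndex N := Subgroup.inf_relIndex_right O N
  rw [h5, h3] at h4
  have hpos : 0 < O.index := Nat.pos_of_ne_zero Subgroup.index_ne_zero_of_finite
  have : (Nat.card (O ⊓ N : Subgroup G) * N.index) * O.index = Nat.card O * O.index := by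
    rw [h2, ← h1, h4]
    ring
  exact Nat.eq_of_mul_eq_mul_right hpos this

theorem rpow_ee_pow {p : ℕ} (hp : p.Prime) {d : ℝ} (hd : 0 < d) :
    (d ^ ee p) ^ p = d ^ (p - 1) := by
  have hp0 : (p : ℝ) ≠ 0 := by exact_mod_cast hp.ne_zero
  rw [← Real.rpow_natCast (d ^ ee p) p, ← Real.rpow_mul hd.le, ee]
  have : ((p : ℝ) - 1) / p * p = ((p - 1 : ℕ) : ℝ) := by
    rw [Nat.cast_sub hp.one_le]
    field_simp
    simp
  rw [this, Real.rpow_natCast]

variable {p : ℕ} [hp : Fact p.Prime]

open Cfsg.Agent.Lib.Core.Basic in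
theorem main_aux (m : ℕ) : ∀ (G : Type u) [Group G] [Finite G], Nat.card G = m → IsPSolvable p G →
    ∀ P : Sylow p G,
      Nat.card (P : Subgroup G) ^ p * Nat.card (Sylow p G) ^ (p - 1) ≤ (pEls p G).card ^ p := by
  have hpp := hp.out
  induction m using Nat.strong_induction_on with
  | _ m ih =>
  intro G _ _ hm hG P
  by_cases hpG : p ∣ Nat.card G
  · obtain ⟨T, P₀, hTn, hP₀, hP₀1, hsup, hR⟩ := exists_setup hG hpG
    by_cases hN : normalizer (P₀ : Set G) = ⊤
    · -- `P₀` normal
      haveI hP₀n : P₀.Normal := Subgroup.normalizer_eq_top_iff.mp hN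
      have hcP : 1 < Nat.card P₀ := (Subgroup.one_lt_card_iff_ne_bot P₀).mpr hP₀1
      have hlt : Nat.card (G ⧸ P₀) < m := by
        have h1 := Subgroup.card_mul_index P₀
        have h2 : P₀.index = Nat.card (G ⧸ P₀) := rfl
        rw [h2, hm] at h1
        have h3 : 0 < Nat.card (G ⧸ P₀) := Nat.card_pos
        nlinarith
      have hsolq : IsPSolvable p (G ⧸ P₀) :=
        isPSolvable_of_surjective (QuotientGroup.mk' P₀) (QuotientGroup.mk'_surjective P₀) hG
      let Q : Sylow p (G ⧸ P₀) := default
      have hih := ih _ hlt (G ⧸ P₀) rfl hsolq Q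
      rw [card_sylow_sub_quotient hP₀ P Q, card_sylow_quotient hP₀, card_pEls_quotient hP₀, mul_pow,
        mul_pow, mul_assoc]
      exact Nat.mul_le_mul_left _ hih
    · -- the descent
      set O : Subgroup G := pPrimeCore p G with hO
      set N : Subgroup G := normalizer (P₀ : Set G) with hNdef
      have hlt : Nat.card N < m := by
        have h1 := Subgroup.card_mul_index N
        have h3 : N.index ≠ 1 := fun h => hN (Subgroup.index_eq_one.mp h)
        have h4 : N.index ≠ 0 := Subgroup.index_ne_zero_of_finite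
        have h5 : 0 < Nat.card N := Nat.card_pos
        rw [hm] at h1
        have h6 : 2 ≤ N.index := by omega
        nlinarith
      have hNsol : IsPSolvable p N := isPSolvable_subgroup N hG
      let Q : Sylow p N := default
      have hih := ih _ hlt N rfl hNsol Q
      have hd := index_of_sup_eq_top hsup
      have hOc : (Nat.card O).Coprime p := pPrimeCore_coprime
      have hpO : ¬ p ∣ Nat.card O := (Nat.Prime.coprime_iff_not_dvd hpp).mp hOc.symm
      have hpd : ¬ p ∣ N.index := fun h => hpO (by rw [← hd]; exact h.trans (dvd_mul_left _ _))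
      -- the Sylow subgroup of `G` inside `N`
      let P₁ : Subgroup G := (Q : Subgroup N).map N.subtype
      have hP₁p : IsPGroup p P₁ := Q.isPGroup'.map _
      have hP₁i : P₁.index = (Q : Subgroup N).index * N.index := Subgroup.index_map_subtype _
      have hP₁ni : ¬ p ∣ P₁.index := by
        rw [hP₁i]
        intro h
        rcases (hpp.dvd_mul).mp h with h | h
        · exact Q.not_dvd_index h
        · exact hpd h
      let P₂ : Sylow p G := hP₁p.toSylow hP₁ni
      have hP₂ : (P₂ : Subgroup G) = P₁ := IsPGroup.toSylow_coe _ _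
      have hcardP : Nat.card (P : Subgroup G) = Nat.card (Q : Subgroup N) := by
        have h1 : Nat.card (P : Subgroup G) = Nat.card (P₂ : Subgroup G) := Nat.card_congr (P.equiv P₂).toEquiv
        rw [h1, hP₂]
        exact (Nat.card_congr (Subgroup.equivMapOfInjective _ _ N.subtype_injective).toEquiv).symm
      -- `P₀ ≤ P₁`
      have hP₀P₁ : P₀ ≤ P₁ := by
        haveI hn : (P₀.subgroupOf N).Normal := Subgroup.normal_in_normalizer
        have h1 : IsPGroup p (P₀.subgroupOf N : Subgroup N) :=
          IsPGroup.comap_of_injective hP₀ N.subtype N.subtype_injective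
        have h2 : IsPGroup p ((Q : Subgroup N) ⊔ P₀.subgroupOf N : Subgroup N) :=
          Q.isPGroup'.to_sup_of_normal_right h1
        have h3 := Q.3 h2 le_sup_left
        intro x hx
        have hxN : x ∈ N := Subgroup.le_normalizer hx
        have h4 : (⟨x, hxN⟩ : N) ∈ P₀.subgroupOf N := by
          rw [mem_subgroupOf]
          exact hx
        have h5 : (⟨x, hxN⟩ : N) ∈ (Q : Subgroup N) := by
          rw [← h3]
          exact mem_sup_right h4
        exact ⟨⟨x, hxN⟩, h5, rfl⟩
      -- the normalizer of `P₁` lies in `N`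
      have hP₁T : P₁ ⊓ T = P₀ := hR P₁ hP₁p hP₀P₁
      have hnormle : normalizer (P₁ : Set G) ≤ N := by
        intro g hg
        have hg' := mem_normalizer_iff.mp hg
        refine mem_normalizer_iff.mpr ?_
        intro x
        rw [← hP₁T]
        constructor
        · rintro ⟨h1, h2⟩
          exact ⟨(hg' x).mp h1, hTn.conj_mem x h2 g⟩
        · rintro ⟨h1, h2⟩
          refine ⟨(hg' x).mpr h1, ?_⟩
          have h3 := hTn.conj_mem _ h2 g⁻¹
          have h4 : g⁻¹ * (g * x * g⁻¹) * g⁻¹⁻¹ = x := by group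
          rwa [h4] at h3
      have hn : Nat.card (Sylow p G) = Nat.card (Sylow p N) * N.index := by
        have h1 : ((P₂ : Subgroup G) : Set G) = (P₁ : Set G) := by rw [hP₂]
        have h2 : Nat.card (Sylow p G) = (normalizer (P₁ : Set G)).index := by
          rw [P₂.card_eq_index_normalizer]
          exact congrArg (fun s : Set G => (normalizer s).index) h1
        rw [h2, normalizer_subgroup_index Q, Subgroup.relIndex_mul_index hnormle]
      -- the bound
      classical
      have hbd := pel_bound (L := O) (P₀ := P₀) (pPrimeCore_normal p G) hpO hP₀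
      have hsub := card_pEls_subgroup (p := p) N
      have hinf : O ⊓ centralizer (P₀ : Set G) = O ⊓ N :=
        (inf_normalizer_eq (pPrimeCore_normal p G) hpO hP₀).symm
      rw [hinf] at hbd
      have hdr : (Nat.card O : ℝ) / Nat.card (O ⊓ N : Subgroup G) = (N.index : ℝ) := by
        have h1 : (0 : ℝ) < Nat.card (O ⊓ N : Subgroup G) := by exact_mod_cast Nat.card_pos
        rw [← hd]
        push_cast
        field_simp
      rw [hdr] at hbd
      have hdpos : (0 : ℝ) < N.index := by
        exact_mod_cast Nat.pos_of_ne_zero (Subgroup.index_ne_zero_of_finite (H := N))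
      have hkey : (N.index : ℝ) ^ (p - 1) * ((pEls p N).card : ℝ) ^ p ≤ ((pEls p G).card : ℝ) ^ p := by
        rw [← rpow_ee_pow hpp hdpos, ← mul_pow]
        refine pow_le_pow_left₀ (by positivity) ?_ p
        rw [hsub]
        exact hbd
      rw [hcardP, hn, mul_pow]
      have hih' : ((Nat.card (Q : Subgroup N) : ℝ)) ^ p * (Nat.card (Sylow p N) : ℝ) ^ (p - 1) ≤
          ((pEls p N).card : ℝ) ^ p := by exact_mod_cast hih
      have : ((Nat.card (Q : Subgroup N) : ℝ)) ^ p *
          ((Nat.card (Sylow p N) : ℝ) ^ (p - 1) * (N.index : ℝ) ^ (p - 1)) ≤ ((pEls p G).card : ℝ) ^ p := by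
        calc _ = (N.index : ℝ) ^ (p - 1) * (((Nat.card (Q : Subgroup N) : ℝ)) ^ p * (Nat.card (Sylow p N) : ℝ) ^ (p - 1)) := by ring
          _ ≤ (N.index : ℝ) ^ (p - 1) * ((pEls p N).card : ℝ) ^ p :=
            mul_le_mul_of_nonneg_left hih' (by positivity)
          _ ≤ _ := hkey
      exact_mod_cast this
  · -- `p ∤ |G|`
    have hone : ∀ A : Sylow p G, (A : Subgroup G) = ⊥ := by
      intro A
      apply Subgroup.eq_bot_of_card_eq
      rw [Sylow.card_eq_multiplicity, Nat.factorization_eq_zero_of_not_dvd hpG, pow_zero]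
    haveI hs : Subsingleton (Sylow p G) := ⟨fun A B => Sylow.ext (by rw [hone A, hone B])⟩
    have hcn : Nat.card (Sylow p G) = 1 := Nat.card_eq_one_iff_unique.mpr ⟨hs, inferInstance⟩
    have hcP : Nat.card (P : Subgroup G) = 1 := by
      rw [hone P]
      exact Subgroup.card_bot
    rw [hcn, hcP, one_pow, one_pow]
    have h1 : (1 : G) ∈ pEls p G := mem_pEls.mpr ⟨0, by simp⟩
    have h2 : 0 < (pEls p G).card := Finset.card_pos.mpr ⟨1, h1⟩
    exact Nat.one_le_pow _ _ h2

/-- The final bound. -/
theorem main_bound {G : Type u} [Group G] [Finite G] (hG : IsPSolvable p G) (P : Sylow p G) :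
    Nat.card (P : Subgroup G) ^ p * Nat.card (Sylow p G) ^ (p - 1) ≤
      Nat.card {g : G // ∃ k : ℕ, orderOf g = p ^ k} ^ p := by
  have h := main_aux (p := p) _ G rfl hG P
  have hc : Nat.card {g : G // ∃ k : ℕ, orderOf g = p ^ k} = (pEls p G).card := by
    apply Nat.subtype_card
    intro x
    exact mem_pEls
  rw [hc]
  exact h

end main

end Cfsg.Agent.Lib.FG85.PEl5
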